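import Cfsg.Agent.H7.TT7

/-! More counting lemmas for 2-transitive actions. -/

set_option autoImplicit false
set_option linter.unusedSectionVars false

namespace Cfsg.Agent.H7

open Finset MulAction
open scoped Classical Pointwise commutatorElement

variable {G Ω : Type*} [Group G] [MulAction G Ω] [Finite G] [Finite Ω]

theorem dvd_moved {Q : Subgroup G} {M : ℕ} (S : Set Ω) (hS : ∀ u ∈ Q, ∀ x ∈ S, u • x ∈ S)
    (h : ∀ x ∈ S, M ∣ ob Q x) : M ∣ Nat.card S := by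
  induction hn : S.ncard using Nat.strong_induction_on generalizing S with
  | _ n ih =>
    rcases S.eq_empty_or_nonempty with rfl | ⟨x, hx⟩
    · simp
    have h1 : orbit Q x ⊆ S := fun y hy => by
      obtain ⟨u, hu, rfl⟩ := mem_orb.1 hy
      exact hS u hu x hx
    have h2 := Set.ncard_sdiff_add_ncard_of_subset h1
    have h3 : 0 < (orbit Q x).ncard := ob_pos Q x
    have h4 := ih _ (by omega) (S \ orbit Q x) (fun u hu y hy => ⟨hS u hu y hy.1, fun e => hy.2 (by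
      obtain ⟨v, hv, e⟩ := mem_orb.1 e
      exact mem_orb.2 ⟨u⁻¹ * v, mul_mem (inv_mem hu) hv, by simp [mul_smul, e]⟩)⟩) (fun y hy => h y hy.1) rfl
    change M ∣ S.ncard
    rw [← h2]
    exact dvd_add h4 (h x hx)

theorem dvd_card_of_ob {Q : Subgroup G} {M : ℕ} (h : ∀ x : Ω, M ∣ ob Q x) : M ∣ Nat.card Ω := by
  simpa using dvd_moved (Q := Q) (M := M) Set.univ (by simp) fun x _ => h x

/-- Translates of one set do not meet another set in the expected number of points. -/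
theorem TT.hc (h : TT G Ω) {O1 O2 : Set Ω} (h1 : O1.Nonempty) (h2 : O2.Nonempty) (h3 : O1 ≠ Set.univ)
    (h4 : O2 ≠ Set.univ) : ¬ ∀ g : G, Nat.card ↥(O1 ∩ g • O2) * Nat.card Ω = Nat.card O1 * Nat.card O2 := by
  intro H
  have := Fintype.ofFinite G
  have := Fintype.ofFinite Ω
  obtain ⟨x, hx⟩ := h1
  obtain ⟨z, hz⟩ := h2
  have := h.nt
  obtain ⟨y0, hy0⟩ := exists_ne x
  set A : Finset G := univ.filter fun g => x ∈ g • O2 with hA
  have c2 : ∀ y, y ≠ x → #(A.filter fun g => y ∈ g • O2) = #(A.filter fun g => y0 ∈ g • O2) := fun y hy => by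
    obtain ⟨k, k1, k2⟩ := h.move x y x y0 hy.symm hy0.symm
    refine card_bijective (k * ·) (Group.mulLeft_bijective k) fun g => ?_
    simp only [hA, mem_filter, mem_univ, true_and, mul_smul]
    rw [← k2, Set.smul_mem_smul_set_iff]
    conv_rhs => rw [← k1, Set.smul_mem_smul_set_iff]
  have key : ∀ S : Set Ω, x ∈ S → ∑ g ∈ A, Nat.card ↥(S ∩ g • O2) =
      #A + (Nat.card S - 1) * #(A.filter fun g => y0 ∈ g • O2) := fun S hS => by
    have e : ∀ g : G, Nat.card ↥(S ∩ g • O2) = ∑ y ∈ S.toFinset, if y ∈ g • O2 then 1 else 0 := fun g => by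
      rw [← card_filter, Nat.card_eq_card_toFinset]; congr 1; ext; simp only [Set.mem_toFinset, mem_filter]; rfl
    rw [sum_congr rfl fun g _ => e g, sum_comm, ← add_sum_erase _ _ (Set.mem_toFinset.2 hS)]
    congr 1
    · rw [← card_filter, filter_true_of_mem]; intro g hg; simpa [hA] using hg
    · rw [sum_congr rfl fun y hy => by rw [← card_filter, c2 y (ne_of_mem_erase hy)], sum_const,
        card_erase_of_mem (Set.mem_toFinset.2 hS), Nat.card_eq_card_toFinset, smul_eq_mul]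
  have k1 := key Set.univ trivial
  have k2 := congrArg (· * Nat.card Ω) (key O1 hx)
  simp only [Set.univ_inter, Nat.card_univ] at k1
  rw [sum_congr rfl fun g _ => (Nat.card_congr (Equiv.Set.image _ O2 (MulAction.injective g)).symm :
    Nat.card ↥(g • O2) = Nat.card O2), sum_const, smul_eq_mul] at k1
  simp only [sum_mul] at k2
  rw [sum_congr rfl fun g _ => H g, sum_const, smul_eq_mul] at k2
  have p0 : 0 < #A := by
    obtain ⟨g, hg⟩ := h.trans z x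
    exact card_pos.2 ⟨g, by simp only [hA, mem_filter, mem_univ, true_and]; exact hg ▸ Set.smul_mem_smul_set hz⟩
  have p1 : Nat.card O1 < Nat.card Ω := Set.ncard_lt_card h3
  have p2 : Nat.card O2 < Nat.card Ω := Set.ncard_lt_card h4
  have p3 : 0 < Nat.card O1 := (Set.ncard_pos (Set.toFinite _)).2 ⟨x, hx⟩
  obtain ⟨a, ha⟩ : ∃ a, Nat.card O1 = a + 1 := ⟨_, (Nat.sub_add_cancel p3).symm⟩
  obtain ⟨n, hn⟩ : ∃ n, Nat.card Ω = n + 1 := ⟨_, (Nat.sub_add_cancel (by omega)).symm⟩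
  rw [ha, hn] at k2 p1
  rw [hn] at k1 p2
  simp only [Nat.add_sub_cancel] at k1 k2
  generalize #A = c at *
  generalize #(A.filter fun g => y0 ∈ g • O2) = d at *
  generalize Nat.card O2 = b at *
  zify at k1 k2 p0 p1 p2
  have : (c : ℤ) * ((n - a) * (n + 1 - b)) = 0 := by linear_combination a * (n + 1) * k1 - (n : ℤ) * k2
  exact absurd this (by apply ne_of_gt; apply mul_pos p0; apply mul_pos <;> omega)

theorem exists_mul_of_sup {Q Y : Subgroup G} (hQ : ∀ y ∈ Y, ∀ u ∈ Q, y * u * y⁻¹ ∈ Q) {g : G} (hg : g ∈ Q ⊔ Y) :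
    ∃ u ∈ Q, ∃ y ∈ Y, g = u * y := by
  rw [Subgroup.sup_eq_closure] at hg
  induction hg using Subgroup.closure_induction with
  | mem g hg => exact hg.elim (fun h => ⟨g, h, 1, one_mem _, by simp⟩) fun h => ⟨1, one_mem _, g, h, by simp⟩
  | one => exact ⟨1, one_mem _, 1, one_mem _, by simp⟩
  | mul a b _ _ ha hb =>
    obtain ⟨u, hu, y, hy, rfl⟩ := ha
    obtain ⟨v, hv, z, hz, rfl⟩ := hb
    exact ⟨_, mul_mem hu (hQ y hy v hv), _, mul_mem hy hz, by group⟩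
  | inv a _ ha =>
    obtain ⟨u, hu, y, hy, rfl⟩ := ha
    exact ⟨_, hQ _ (inv_mem hy) _ (inv_mem hu), _, inv_mem hy, by group⟩

/-- All orbits of `Q` meet a `Y`-invariant set equally when `Q Y` is transitive. -/
theorem inter_eq {Q Y : Subgroup G} {O : Set Ω} (hY : ∀ y ∈ Y, ∀ z ∈ O, y • z ∈ O)
    (hQ : ∀ y ∈ Y, ∀ u ∈ Q, y * u * y⁻¹ ∈ Q) (hT : ∀ x z : Ω, ∃ g ∈ Q ⊔ Y, g • x = z) (x : Ω) :
    Nat.card ↥(orbit Q x ∩ O) * Nat.card Ω = ob Q x * Nat.card O := by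
  have := Fintype.ofFinite Ω
  have hT' : ∀ x z : Ω, ∃ y ∈ Y, orbit Q (y • x) = orbit Q z := fun x z => by
    obtain ⟨g, hg, e⟩ := hT x z
    obtain ⟨u, hu, y, hy, rfl⟩ := exists_mul_of_sup hQ hg
    exact ⟨y, hy, (orbit_eq_iff.2 (mem_orb.2 ⟨u, hu, by rw [← e, mul_smul]⟩)).symm⟩
  have hN : NT Q Ω := fun a b => by
    obtain ⟨g, hg, e⟩ := hT a b
    obtain ⟨u, hu, y, hy, rfl⟩ := exists_mul_of_sup hQ hg
    exact ⟨_, e, fun v hv => by simpa [mul_assoc] using mul_mem (mul_mem hu (hQ y hy v hv)) (inv_mem hu)⟩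
  have le : ∀ a b : Ω, Nat.card ↥(orbit Q a ∩ O) ≤ Nat.card ↥(orbit Q b ∩ O) := fun a b => by
    obtain ⟨y, hy, e⟩ := hT' a b
    refine Nat.card_le_card_of_injective (fun w => ⟨y • w.1, ?_, hY y hy _ w.2.2⟩) fun v w e =>
      Subtype.ext (by simpa using congrArg Subtype.val e)
    obtain ⟨u, hu, e'⟩ := mem_orb.1 w.2.1
    exact e ▸ mem_orb.2 ⟨_, hQ y hy u hu, by rw [← e']; simp [mul_smul]⟩
  have e : ∀ a : Ω, Nat.card ↥(orbit Q a ∩ O) = ∑ z ∈ O.toFinset, if z ∈ orbit Q a then 1 else 0 := fun a => by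
    rw [← card_filter, Nat.card_eq_card_toFinset]; congr 1; ext; simp [and_comm]
  have e' : ∀ z : Ω, (∑ a, if z ∈ orbit Q a then 1 else 0) = ob Q x := fun z => by
    rw [← card_filter, hN.ob_eq x z, ob, Nat.card_eq_card_toFinset]; congr 1; ext; simp [mem_orbit_symm (a₁ := z)]
  rw [Nat.card_eq_fintype_card (α := Ω), mul_comm, ← smul_eq_mul, ← card_univ, ← sum_const,
    sum_congr rfl fun a _ => (le_antisymm (le x a) (le a x)).trans (e a), sum_comm, sum_congr rfl fun z _ => e' z,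
    sum_const, Nat.card_eq_card_toFinset, smul_eq_mul, mul_comm]

/-- A `p`-group normalising `R < D` centralises an element of `D` outside `R`, modulo `R`. -/
theorem exists_central {p : ℕ} [Fact p.Prime] {U D R : Subgroup G} (hU : IsPGroup p U) (hD : IsPGroup p D)
    (h1 : ∀ u ∈ U, ∀ d ∈ D, u * d * u⁻¹ ∈ D) (h2 : ∀ u ∈ U, ∀ r ∈ R, u * r * u⁻¹ ∈ R) (h : ¬ D ≤ R) :
    ∃ d ∈ D, d ∉ R ∧ ∀ u ∈ U, ⁅u, d⁆ ∈ R := by
  let _ : MulAction U (D ⧸ R.subgroupOf D) :=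
    { smul u := Quotient.map' (fun d => ⟨_, h1 u u.2 d d.2⟩) fun a b e => by
        rw [QuotientGroup.leftRel_apply, Subgroup.mem_subgroupOf] at *
        simpa [mul_assoc] using h2 u u.2 _ e
      one_smul a := Quotient.inductionOn' a fun a => congrArg Quotient.mk'' (by simp)
      mul_smul u v a := Quotient.inductionOn' a fun a => congrArg Quotient.mk'' (by simp [mul_assoc]) }
  have h3 : p ∣ Nat.card (D ⧸ R.subgroupOf D) := by
    obtain ⟨k, hk⟩ := hD.index (R.subgroupOf D)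
    rcases k with _ | k
    · exact absurd (Subgroup.subgroupOf_eq_top.1 (Subgroup.index_eq_one.1 hk)) h
    · exact ⟨_, hk.trans (pow_succ' _ _)⟩
  obtain ⟨b, hb, e⟩ := hU.exists_fixed_point_of_prime_dvd_card_of_fixed_point _ h3 (a := ((1 : D) : D ⧸ R.subgroupOf D))
    fun u => congrArg Quotient.mk'' (by simp)
  induction b using Quotient.inductionOn' with | h d => ?_
  refine ⟨d⁻¹, inv_mem d.2, fun hd => e (QuotientGroup.eq.2 (by simpa [Subgroup.mem_subgroupOf] using hd)), fun u hu => ?_⟩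
  simpa [commutatorElement_def, Subgroup.mem_subgroupOf, mul_assoc] using QuotientGroup.eq.1 (hb ⟨u, hu⟩)

/-- A Heisenberg group whose centre meets a stabiliser trivially has a long orbit. -/
theorem heis_ob {Y Z : Subgroup G} (hZ : Z ≤ Y) (hc : ∀ r ∈ Z, ∀ u ∈ Y, r * u = u * r)
    (h1 : ∀ u ∈ Y, ∀ v ∈ Y, ⁅u, v⁆ ∈ Z) (h2 : ∀ u ∈ Y, u ∉ Z → ∀ r ∈ Z, ∃ v ∈ Y, ⁅u, v⁆ = r) (h0 : Z ≠ ⊥) {x : Ω}
    (h : ∀ r ∈ Z, r • x = x → r = 1) : Nat.card Y * Nat.card Z ≤ ob Y x ^ 2 := by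
  have h3 := heis hZ hc h1 h2 (D := Y ⊓ stabilizer G x) inf_le_left fun e =>
    h0 (eq_bot_iff.2 fun r hr => h r hr (e hr).2)
  have h4 : (Y ⊓ stabilizer G x) ⊓ Z = ⊥ := eq_bot_iff.2 fun r hr => h r hr.2 hr.1.2
  rw [h4, Subgroup.card_bot, ← ob_mul Y x] at h3
  rw [← ob_mul Y x]
  have := Nat.card_pos (α := ↥(Y ⊓ stabilizer G x))
  nlinarith [ob_pos Y x, Nat.zero_le (Nat.card Z)]

/-- The same on the orbits of a normalised subgroup: the centre fixes some orbit if there are few. -/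
theorem heis_orb {P Q Y Z : Subgroup G} (hP : ∀ g ∈ P, ∀ u ∈ Q, g * u * g⁻¹ ∈ Q) (hY : Y ≤ P) (hZ : Z ≤ Y)
    (hc : ∀ r ∈ Z, ∀ u ∈ Y, r * u = u * r) (h1 : ∀ u ∈ Y, ∀ v ∈ Y, ⁅u, v⁆ ∈ Z)
    (h2 : ∀ u ∈ Y, u ∉ Z → ∀ r ∈ Z, ∃ v ∈ Y, ⁅u, v⁆ = r) (h0 : Z ≠ ⊥) (x : Ω)
    (hn : Nat.card (orbitRel.Quotient Q Ω) ^ 2 < Nat.card Y * Nat.card Z) : ∃ r ∈ Z, r ≠ 1 ∧ r • x ∈ orbit Q x := by
  let _ := qAct (Ω := Ω) P Q hP
  by_contra! H
  have := heis_ob (Ω := orbitRel.Quotient Q Ω) (Y := Y.subgroupOf P) (Z := Z.subgroupOf P) (fun _ h => hZ h)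
    (fun r hr u hu => Subtype.ext (hc r hr u hu)) (fun u hu v hv => h1 u hu v hv) (fun u hu hu' r hr => by
      obtain ⟨v, hv, e⟩ := h2 u hu hu' r hr
      exact ⟨⟨v, hY hv⟩, hv, Subtype.ext e⟩)
    (fun e => h0 (eq_bot_iff.2 fun r hr => congrArg Subtype.val ((e.le (x := ⟨r, hY (hZ hr)⟩) hr) : _ = (1 : P))))
    (x := Quotient.mk'' x) fun r hr e => by
      by_contra h1
      exact H r hr (fun e => h1 (Subtype.ext e)) (Quotient.exact' e)
  rw [Nat.card_congr (Subgroup.subgroupOfEquivOfLe hY).toEquiv,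
    Nat.card_congr (Subgroup.subgroupOfEquivOfLe (hZ.trans hY)).toEquiv] at this
  exact absurd (this.trans (Nat.pow_le_pow_left (Finite.card_subtype_le _) 2)) (not_le.2 hn)

/-- A Heisenberg group acting on at most `|Z|` orbits: its centre fixes all of them. -/
theorem NT.heis_kerO {P Q Y Z : Subgroup G} (h : NT Q Ω) (hP : ∀ g ∈ P, ∀ u ∈ Q, g * u * g⁻¹ ∈ Q) (hY : Y ≤ P)
    (hZ : Z ≤ Y) (hc : ∀ r ∈ Z, ∀ u ∈ Y, r * u = u * r) (h1 : ∀ u ∈ Y, ∀ v ∈ Y, ⁅u, v⁆ ∈ Z)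
    (h2 : ∀ u ∈ Y, u ∉ Z → ∀ r ∈ Z, ∃ v ∈ Y, ⁅u, v⁆ = r) (hYZ : ¬ Y ≤ Z)
    (hcj : ∀ a ∈ Z, a ≠ 1 → ∀ b ∈ Z, b ≠ 1 → ∃ g ∈ P, g * a * g⁻¹ = b) (x : Ω)
    (hn : Nat.card Ω ≤ Nat.card Z * ob Q x) : Z ≤ kerO P Q Ω hP := by
  by_cases h0 : Z = ⊥
  · simp [h0]
  have h3 : Nat.card (orbitRel.Quotient Q Ω) ≤ Nat.card Z := by
    rw [← h.card_eq x] at hn
    exact Nat.le_of_mul_le_mul_right hn (ob_pos Q x)
  have h4 : Nat.card Z < Nat.card Y :=
    Set.ncard_lt_ncard (s := (Z : Set G)) (t := (Y : Set G)) ⟨hZ, hYZ⟩ (Set.toFinite _)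
  obtain ⟨r, hr, r1, e⟩ := heis_orb hP hY hZ hc h1 h2 h0 x (by nlinarith [Nat.card_pos (α := Z)])
  have h5 : r ∈ kerO P Q Ω hP := ⟨hY (hZ hr), h.orb_fix hP (hZ.trans hY) hr (hcj r hr r1) x (.inr ⟨hn, x, e⟩)⟩
  intro b hb
  by_cases b1 : b = 1
  · simp [b1]
  obtain ⟨g, hg, rfl⟩ := hcj r hr r1 b hb b1
  exact kerO_conj h5 hg

end Cfsg.Agent.H7
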