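import Cfsg.Agent.H7.TT4
import Cfsg.Agent.H7.TwAut

/-! The split BN-pair axioms for the groups given by a twisting datum. -/

set_option autoImplicit false
set_option linter.unusedSectionVars false

namespace Cfsg.Agent.H7

open Cfsg.Lie Matrix Cfsg.Agent.H8
open scoped commutatorElement

variable {D : ChevalleyDatum} {K : Type*} [Field K] {G : Type*} [Group G] {x : ℕ → K → G}
  [hD : RootFacts D] [hN : NFacts D]

variable (D) in
/-- The fixed points in the Weyl group. -/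
def Wr (ρ : Equiv.Perm ℕ) : Subgroup (Equiv.Perm ℕ) := W D ⊓ Subgroup.centralizer {ρ}

omit hN in
theorem mem_Wr {ρ w : Equiv.Perm ℕ} : w ∈ Wr D ρ ↔ w ∈ W D ∧ Commute ρ w :=
  and_congr_right fun _ => Subgroup.mem_centralizer_singleton_iff.trans eq_comm

instance actWr (ρ : Equiv.Perm ℕ) : MulAction (Wr D ρ) (Fin D.nroots) where
  smul w r := ⟨w.1 r, W_lt w.2.1 r.2⟩
  one_smul _ := rfl
  mul_smul _ _ _ := rfl

omit hN in
theorem val_smul {ρ : Equiv.Perm ℕ} (w : Wr D ρ) (r : Fin D.nroots) : (w • r).1 = w.1 r := rfl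

instance finWr (ρ : Equiv.Perm ℕ) : Finite (Wr D ρ) :=
  .of_injective _ (Subgroup.inclusion_injective (inf_le_left : Wr D ρ ≤ W D))

theorem IsFaith.mem_Um_of_conj (hx : IsFaith D x) {n u : G} {w : Equiv.Perm ℕ} (hn : NRep D x n w) (hu : u ∈ UU D x)
    (h : n * u * n⁻¹ ∈ VV D x) : u ∈ Um D x w := by
  obtain ⟨a, ha, b, hb, rfl⟩ := hx.toIsSt.UU_eq_Um_Up hn.mem_W hu
  have h1 : n * a * n⁻¹ ∈ VV D x := hn.conj_XS hx.toIsSt (T := {r | D.IsNegRoot r}) (fun _ hs => hs.2) ha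
  have h2 : n * b * n⁻¹ ∈ UU D x := hn.conj_XS hx.toIsSt (T := {r | D.IsPosRoot r}) (fun _ hs => hs.2) hb
  have h3 := hx.eq_one_of_VV_BB (g := n * b * n⁻¹) (by simpa [mul_assoc] using mul_mem (inv_mem h1) h) (UU_le_BB x h2)
  rwa [conj_eq_one_iff.1 h3, mul_one]

namespace TwD

variable {σ : G →* G} {ρ : Equiv.Perm ℕ} {π : Fin D.rank → Fin D.rank} {f : ℕ → K → K} {S : Subgroup G}
  {O : Fin D.rank → Set ℕ} {e : Fin D.rank → ℕ} {z : Fin D.rank → S} (h : TwD D x σ ρ π f S O e z)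
include h

theorem orb_eqs {s : Set.range O} {j : Fin D.rank} (hj : j.1 ∈ s.1) : O j = s.1 :=
  (h.orb _ j (s.2.choose_spec.symm ▸ hj)).trans s.2.choose_spec

theorem ch_mem (s : Set.range O) : s.2.choose.1 ∈ s.1 := s.2.choose_spec.subset (h.sub.self _)

theorem not_mem {s t : Set.range O} (e : t ≠ s) {j : Fin D.rank} (hj : j.1 ∈ t.1) : j.1 ∉ s.1 := fun h1 =>
  e (Subtype.ext ((h.orb_eqs hj).symm.trans (h.orb_eqs h1)))

omit h hN in
theorem in_supp (γ : Fin D.nroots) : D.InRootSub {j | ∃ i : Fin D.rank, i.1 = j ∧ cor D γ i ≠ 0} γ :=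
  inRootSub_iff.2 ⟨γ.2, fun i hi => by by_contra h1; exact hi ⟨i, rfl, h1⟩⟩

theorem exists_sg (s : Set.range O) : ∃ w : Wr D ρ, w.1 = wJ D s.1 :=
  ⟨⟨wJ D s.1, mem_Wr.2 ⟨wJ_mem_W _, s.2.choose_spec ▸ h.sub.commute_wJ h.tw h.faith _⟩⟩, rfl⟩

/-- The relative fundamental reflections. -/
noncomputable def sg (s : Set.range O) : Wr D ρ := (h.exists_sg s).choose

theorem sg_val (s : Set.range O) : (h.sg s).1 = wJ D s.1 := (h.exists_sg s).choose_spec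

omit h hD hN in
variable (O) in
/-- The orbit of a node. -/
def oo (j : Fin D.rank) : Set.range O := ⟨_, j, rfl⟩

theorem mem_ch (j : Fin D.rank) : j.1 ∈ O (oo O j).2.choose := (oo O j).2.choose_spec.symm.subset (h.sub.self j)

/-- The relative root system. -/
noncomputable def rs : RS (Wr D ρ) (Fin D.nroots) (Set.range O) where
  pos r := D.IsPosRoot r
  neg r := ⟨_, neg_lt r.2⟩
  sp s r := ∃ j : Fin D.rank, j.1 ∈ s.1 ∧ cor D r j ≠ 0
  α s := ⟨_, simple_lt s.2.choose⟩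
  σ := h.sg
  smul_neg w γ := Fin.ext (W_neg w.2.1 γ.2)
  pos_neg γ := (neg_pos_iff γ.2).trans ⟨not_pos_of_neg, negRoot_of_not_pos γ.2⟩
  sp_neg s γ := by simp [cor_neg γ.2]
  sp_ne γ := by
    by_contra! h1
    have := A_self γ.2
    rw [A, show cor D γ = 0 from funext fun j => h1 (oo O j) j (h.sub.self j)] at this
    simp at this
  α_pos _ := simple_pos _
  sp_α s t := fun ⟨j, hj, h1⟩ => by
    by_contra h2
    refine h1 ((congrFun (hD.cor_simple _) j).trans (Pi.single_eq_of_ne (fun e => h.not_mem h2 hj ?_) _))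
    rw [e]; exact h.ch_mem s
  σσ s := Subtype.ext (by rw [Subgroup.coe_mul, Subgroup.coe_one, h.sg_val]; exact wJ_mul_self s.1)
  σ_α s := by rw [val_smul, h.sg_val]; exact not_pos_of_neg (wJ_simple (h.ch_mem s))
  sp_σ s t γ e := exists_congr fun j => and_congr_right fun hj => by
    rw [val_smul, h.sg_val, cor_WJ (wJ_mem s.1) γ (h.not_mem e hj)]
  σ_pos s t γ h1 e := fun ⟨j, hj, h2⟩ => by
    rw [val_smul, h.sg_val]
    exact WJ_pos (wJ_mem s.1) h1 fun h3 => h2 ((inRootSub_iff.1 h3).2 j (h.not_mem e hj))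
  conv w γ h1 h2 := by
    refine W_pos_of_J w.2.1 ?_ h1 (in_supp γ)
    rintro i ⟨j, e, hj⟩
    exact h.pos_orb (mem_Wr.1 w.2).2 (h2 (oo O j) ⟨j, h.sub.self j, hj⟩) (e ▸ h.mem_ch j)
  conv' w γ h1 h2 := by
    refine not_pos_of_neg (W_neg_of_J w.2.1 ?_ h1 (in_supp γ))
    rintro i ⟨j, e, hj⟩
    exact h.neg_orb w.2.1 (mem_Wr.1 w.2).2
      (negRoot_of_not_pos (W_lt w.2.1 (simple_lt _)) (h2 (oo O j) ⟨j, h.sub.self j, hj⟩)) (e ▸ h.mem_ch j)
  rigid w h1 := Subtype.ext (eq_one_of_simple_pos w.2.1 fun j => h.pos_orb (mem_Wr.1 w.2).2 (h1 (oo O j)) (h.mem_ch j))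

omit h in
variable (D x S) in
/-- Elements of `U` with trivial coefficients at the fundamental roots of `J`. -/
def Yc (hx : IsSt D x) (J : Set ℕ) : Subgroup S where
  carrier := {u | (u : G) ∈ UU D x ∧ ∀ j : Fin D.rank, j.1 ∈ J → Co D x j u 0}
  one_mem' := ⟨one_mem _, fun _ _ => Co.one hx⟩
  mul_mem' ha hb := ⟨mul_mem ha.1 hb.1, fun j hj => by simpa using (ha.2 j hj).mul hx (hb.2 j hj)⟩
  inv_mem' ha := ⟨inv_mem ha.1, fun j hj => (Co.zero_iff hx).2 (inv_mem ((Co.zero_iff hx).1 (ha.2 j hj)))⟩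

/-- The axioms hold. -/
noncomputable def ax : AX S h.rs where
  U := (UU D x).subgroupOf S
  B := (BB D x).subgroupOf S
  Um := {g | (g : G) ∈ VV D x}
  Rep n w := NRep D x n w
  P s := (PJ D x s.1).subgroupOf S
  Y s := Yc D x S h.st s.1
  rep_mul h1 h2 := h1.mul h.st h2
  rep_inv h1 := h1.inv h.st
  rep_ex w := let ⟨n, hn, h1⟩ := h.sub.exists_rep h.tw h.faith w.2.1 (mem_Wr.1 w.2).2; ⟨⟨n, hn⟩, h1⟩
  rep_one h1 := HH_le_BB x (h1.mem_HH h.st)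
  U_le _ hu := UU_le_BB x hu
  conj_U hb hu := IsFaith.BB_conj_UU h.st hb hu
  B_eq {b} hb := by
    obtain ⟨u, n, u', h1, h2, h3, rfl⟩ := h.bruhat b (Cell.of_mem_BB hb)
    refine ⟨n, h2, ?_⟩
    simpa [Subgroup.mem_subgroupOf, mul_assoc] using mul_mem h1 (h.st.HH_conj_XS (h2.mem_HH h.st) (Um_le_UU x _ h3))
  bruhat g := by
    obtain ⟨w, hw, h1, h2⟩ := h.exists_cell g⁻¹
    obtain ⟨u, n, u', h3, h4, h5, e⟩ := h.bruhat _ h2
    refine ⟨(⟨w, mem_Wr.2 ⟨hw, h1⟩⟩ : Wr D ρ)⁻¹, n⁻¹, u'⁻¹, u⁻¹, h4.inv h.st, inv_mem (Um_le_UU x _ h5), ?_,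
      inv_mem (UU_le_BB x h3), by rw [← inv_inv g, e]; group⟩
    simpa [VV] using h4.conj_XS h.st (T := {r | D.IsNegRoot r}) (fun _ hs => hs.2) (inv_mem h5)
  uniq h1 h2 h3 h4 e := by
    subst e
    exact Subtype.ext (h.faith.cell_unique h2.mem_cell (Cell.mul_right (Cell.mul_left h1.mem_cell h3) h4))
  hull1 hu h1 h2 h3 h4 := h3.conj_XS' h.st (T := {r | D.IsPosRoot r}) (fun r hr => h4 ⟨r, hr.1.1⟩ hr.1 hr.2)
    (h.faith.mem_Up_of_conj (h1.inv h.st) hu (by simpa [Subgroup.mem_subgroupOf] using h2))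
  hull2 hu h1 h2 h3 h4 := h3.conj_XS' h.st (T := {r | D.IsPosRoot r})
    (fun r hr => h4 ⟨r, hr.1.1⟩ hr.1 (not_pos_of_neg hr.2))
    (h.faith.mem_Um_of_conj (h1.inv h.st) hu (by simpa using h2))
  B_le _ _ hb := BB_le_PJ hb
  rep_P {s _} h1 := (mem_PJ h.st).2 ⟨_, h.sg_val s ▸ wJ_mem _, h1.mem_cell⟩
  P_rep {s n w} h1 h2 := (h.cell_cases (i := s.2.choose) n.2 (s.2.choose_spec.symm ▸ h2)).imp
    (fun h3 => Subtype.ext (h.faith.cell_unique h1.mem_cell (Cell.of_mem_BB h3)))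
    fun h3 => Subtype.ext ((h.faith.cell_unique h1.mem_cell h3).trans ((congrArg _ s.2.choose_spec).trans (h.sg_val s).symm))
  Y_ne s h1 := one_ne_zero ((h.zco _).unique h.faith ((h1 (h.zco s.2.choose).mem_UU).2 _ (h.ch_mem s)))
  comm_le s := Subgroup.commutator_le.2 fun a ha b hb => ⟨mul_mem (mul_mem (mul_mem ha hb) (inv_mem ha)) (inv_mem hb),
    fun j _ => by
      obtain ⟨t, ht⟩ := exists_co h.st j ha
      obtain ⟨u, hu⟩ := exists_co h.st j hb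
      obtain ⟨t', ht'⟩ := exists_co h.st j (inv_mem ha)
      obtain ⟨u', hu'⟩ := exists_co h.st j (inv_mem hb)
      have h1 := (Co.one h.st).unique h.faith (by simpa using ht.mul h.st ht')
      have h2 := (Co.one h.st).unique h.faith (by simpa using hu.mul h.st hu')
      have h3 := ((ht.mul h.st hu).mul h.st ht').mul h.st hu'
      rwa [show t + u + t' + u' = 0 by linear_combination -h1 - h2] at h3⟩
  Us_le {s u n} hu h1 h2 := ⟨hu, fun j hj => (Co.zero_iff h.st).2 (XS_mono x (fun r hr => And.intro hr.1 fun e => by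
      have := hr.2
      rw [e, show ((h.rs.σ s : Wr D ρ) : Equiv.Perm ℕ) = wJ D s.1 from h.sg_val s, wJ_inv] at this
      exact not_pos_of_neg (wJ_simple hj) this)
    (h.faith.mem_Up_of_conj (h1.inv h.st) hu (UU_le_BB x (by simpa [Subgroup.mem_subgroupOf] using h2))))⟩

variable {Ω : Type*} [MulAction S Ω]

theorem ker_top {N : Subgroup S} [hn : N.Normal] (h1 : ∀ u : S, (u : G) ∈ UU D x → u ∈ N) : N = ⊤ := by
  obtain ⟨n, h2⟩ := h.exists_n0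
  have := h.gen (N.map S.subtype) (fun i g hg => ⟨⟨g, hg.1⟩, h1 _ (XJ_le _ hg.2), rfl⟩) fun i g hg => ⟨⟨g, hg.1⟩, by
    simpa [mul_assoc] using hn.conj_mem _ (h1 (n * ⟨g, hg.1⟩ * n⁻¹) (h2.conj_XS h.st (T := {r | D.IsPosRoot r})
      (fun _ hs => w0_pos_of_neg hs) (YJ_le _ hg.2))) n⁻¹, rfl⟩
  exact eq_top_iff.2 fun g _ => let ⟨_, h3, e⟩ := this g.2; (Subtype.ext e : _ = g) ▸ h3

theorem exists_move (hT : TT S Ω) : ∃ u : S, (u : G) ∈ UU D x ∧ ∃ y : Ω, u • y ≠ y := by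
  by_contra! h1
  obtain ⟨y, -⟩ := hT.nt.exists_pair_ne
  obtain ⟨g, hg⟩ := hT.exists_ne_smul y
  exact hg (congrFun (congrArg (↑) ((h.ker_top (N := (MulAction.toPermHom S Ω).ker) fun u hu =>
    Equiv.ext (h1 u hu)).ge (Subgroup.mem_top g))) y)

theorem not_fix (hT : TT S Ω) (h2 : ∀ i, ∃ γ < D.nroots, D.IsPosRoot γ ∧ (∀ j : Fin D.rank, j.1 ∈ O i → wt D γ j = 0) ∧
    ∃ j : Fin D.rank, j.1 ∈ O i ∧ cor D γ j ≠ 0) (y : Ω) : ¬ ∀ u : S, (u : G) ∈ UU D x → u • y = y := by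
  refine h.ax.not_fix hT (h.exists_move hT) (fun s => ?_) y
  obtain ⟨γ, h3, h4, h5, h6⟩ := h2 s.2.choose
  rw [s.2.choose_spec] at h5 h6
  have h7 : ∀ v ∈ WJ D s.1, v γ = γ := fun v hv => WJ_len_induction (P := fun v => v γ = γ) rfl (fun v _ i hi _ e => by
    rw [Equiv.Perm.mul_apply, wt_inj (W_lt (sref_mem i) h3) h3 (by rw [wt_sref, h5 i hi]; simp), e]) hv
  have h8 : h.rs.σ s • (⟨γ, h3⟩ : Fin D.nroots) = ⟨γ, h3⟩ := Fin.ext (h7 _ (h.sg_val s ▸ wJ_mem _))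
  refine ⟨⟨γ, h3⟩, h4, h6, fun h9 => not_neg_of_pos h4 (h7 _ (wJ_mem _) ▸ wJ_neg h4 (inRootSub_iff.2 ⟨h3, fun j hj => ?_⟩)),
    h8.symm ▸ h6⟩
  by_contra h0
  exact hj (congrArg Subtype.val (h9 (oo O j) ⟨j, h.sub.self j, h0⟩) ▸ h.sub.self j)

theorem B_trans [Finite K] [Finite Ω] (hT : TT S Ω) (hf : ∀ y : Ω, ¬ ∀ u : S, (u : G) ∈ UU D x → u • y = y)
    (star : ∀ u : S, (u : G) ∈ UU D x → (∀ j, Co D x j u 0) → u ∈ ⁅(UU D x).subgroupOf S, (UU D x).subgroupOf S⁆)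
    (y y' : Ω) : ∃ b : S, (b : G) ∈ BB D x ∧ b • y = y' := by
  have := h.chev.finite_G h.top
  obtain ⟨p, hp⟩ := CharP.exists K
  have := Fact.mk (CharP.char_is_prime K p)
  exact h.ax.B_trans hT (h.faith.isPGroup_UU p).comap_subtype hf
    (fun u hu h1 => star u hu fun j => (h1 (oo O j)).2 j (h.sub.self j)) y y'

end TwD

variable (D x) in
/-- An untwisted group as a twisting datum. -/
theorem twD_un (hx : IsChev D x) (hG : GG x = ⊤) : TwD D x (MonoidHom.id G) 1 id (fun _ t => t) ⊤ (fun i => {i.1}) (fun _ => 1)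
    fun i => ⟨x (D.simple i) 1, trivial⟩ where
  sub := ⟨hG.ge, fun _ _ => rfl, fun _ => rfl, fun _ _ h => ⟨0, Fin.ext h.symm⟩,
    fun _ => let ⟨n, hn⟩ := NRep.exists_rep _ (wJ_mem_W _); ⟨n, trivial, hn⟩, fun _ _ _ _ => trivial⟩
  tw := ⟨fun _ _ => rfl, fun _ => Iff.rfl, fun _ => Iff.rfl, fun _ _ => rfl, fun _ => rfl, fun _ _ _ h => h, fun _ _ _ _ => rfl⟩
  chev := hx
  top := hG
  pi_mem _ := rfl
  orb _ _ h := congrArg _ h
  exp _ _ := by simp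
  gen M h1 h2 := hG ▸ hx.toIsSt.GG_le_of_pm_simple
    (fun i t => h1 i ⟨trivial, x_mem_XS (by exact ⟨simple_pos i, simple_inRootSub.2 rfl⟩) t⟩) fun i t => h2 i ⟨trivial,
      x_mem_XS (by exact ⟨(neg_neg_iff (simple_lt i)).2 (simple_pos i), H8.inRootSub_neg (simple_inRootSub.2 rfl)⟩) t⟩
  zmem i := x_mem_XS (by exact ⟨simple_pos i, simple_inRootSub.2 rfl⟩) 1
  zco i := Co.self i 1
  zpi _ := rfl

end Cfsg.Agent.H7
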