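import Cfsg.Agent.H7.TT3

/-! In a 2-transitive action of a split BN-pair in which `U` fixes no point, `B` is transitive. -/

set_option autoImplicit false
set_option linter.unusedSectionVars false

namespace Cfsg.Agent.H7

open Finset MulAction Cfsg.Agent.H1
open scoped Classical

theorem eq_top_of_sup_commutator {H : Type*} [Group H] [Finite H] [Group.IsNilpotent H] {D : Subgroup H}
    (h : D ⊔ commutator H = ⊤) : D = ⊤ := by
  refine (eq_top_or_exists_le_coatom D).resolve_right fun ⟨M, hM, h1⟩ => hM.1 ?_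
  have := Subgroup.NormalizerCondition.normal_of_coatom M Group.normalizerCondition_of_isNilpotent hM
  obtain ⟨a, -, ha⟩ := SetLike.exists_of_lt hM.lt_top
  have : IsCyclic (H ⧸ M) := ⟨a, fun x => by
    obtain ⟨x, rfl⟩ := QuotientGroup.mk_surjective x
    have := hM.2 ((Subgroup.zpowers (a : H ⧸ M)).comap (QuotientGroup.mk' M)) (lt_of_le_of_ne (fun m hm => by
      simp [(QuotientGroup.eq_one_iff m).2 hm]) fun e => ha (by rw [e]; simp))
    exact (this ▸ Subgroup.mem_top x : x ∈ (Subgroup.zpowers (a : H ⧸ M)).comap (QuotientGroup.mk' M))⟩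
  exact top_le_iff.1 (h ▸ sup_le h1 (Subgroup.Normal.quotient_commutative_iff_commutator_le.1 inferInstance))

theorem dvd_card_orbits {H Ω : Type*} [Group H] [Finite H] [MulAction H Ω] [Finite Ω] {p : ℕ} [Fact p.Prime]
    (hp : IsPGroup p H) (Y : Subgroup H) [hY : Y.Normal] (h : Y ≤ commutator H) (hf : ∀ x : Ω, ¬ ∀ u : H, u • x = x) :
    p ∣ Nat.card (orbitRel.Quotient Y Ω) := by
  let _ : MulAction H (orbitRel.Quotient Y Ω) :=
    { smul := fun u => Quotient.map' (u • ·) fun a b ⟨y, hy⟩ =>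
        ⟨⟨_, hY.conj_mem _ y.2 u⟩, by simp [← hy, Subgroup.smul_def, mul_smul]⟩
      one_smul := fun a => Quotient.inductionOn' a fun a => congrArg Quotient.mk'' (one_smul H a)
      mul_smul := fun u v a => Quotient.inductionOn' a fun a => congrArg Quotient.mk'' (mul_smul u v a) }
  have := hp.isNilpotent
  have h1 : IsEmpty (fixedPoints H (orbitRel.Quotient Y Ω)) := ⟨fun ⟨a, ha⟩ => by
    induction a using Quotient.inductionOn' with | h a =>
    refine hf a fun u => ?_
    have : stabilizer H a = ⊤ := eq_top_of_sup_commutator (eq_top_iff.2 fun u _ => by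
      obtain ⟨y, hy⟩ : (u • a) ∈ orbit Y a := Quotient.exact' (ha u)
      rw [← mul_inv_cancel_left (y : H) u]
      refine mul_mem (Subgroup.mem_sup_right (h y.2)) (Subgroup.mem_sup_left ?_)
      rw [mem_stabilizer_iff, mul_smul, inv_smul_eq_iff]
      exact hy.symm)
    exact (this ▸ Subgroup.mem_top u : u ∈ stabilizer H a)⟩
  simpa using (Nat.modEq_zero_iff_dvd).1 (by simpa using hp.card_modEq_card_fixedPoints (orbitRel.Quotient Y Ω))

theorem exists_chars {H : Type*} [Group H] [Finite H] (Y : Subgroup H) (h : commutator H ≤ Y) :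
    ∃ (s : Finset (H →* ℂ)), 1 ∈ s ∧ #s = Y.index ∧ (∀ u, ∑ l ∈ s, l u = if u ∈ Y then (Y.index : ℂ) else 0) ∧
      ∀ l ∈ s, ∀ u ∈ Y, l u = 1 := by
  have : Y.Normal := Subgroup.Normal.of_commutator_le _ h
  have := Subgroup.Normal.quotient_commutative_iff_commutator_le.2 h
  let _ : CommGroup (H ⧸ Y) := { (inferInstance : Group (H ⧸ Y)) with mul_comm := mul_comm' }
  have := Fintype.ofFinite (H ⧸ Y)
  let f : AddChar (Additive (H ⧸ Y)) ℂ → H →* ℂ := fun ψ => ψ.toMonoidHom.comp (QuotientGroup.mk' Y)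
  have hf : Function.Injective f := fun ψ ψ' e => DFunLike.ext _ _ fun a => by
    obtain ⟨x, hx⟩ := QuotientGroup.mk_surjective a.toMul
    rw [show a = Additive.ofMul (x : H ⧸ Y) by rw [hx]; rfl]
    exact DFunLike.congr_fun e x
  refine ⟨univ.map ⟨f, hf⟩, mem_map.2 ⟨0, mem_univ _, rfl⟩, ?_, fun u => ?_, fun l hl u hu => ?_⟩
  · simp [Subgroup.index, Nat.card_eq_fintype_card]
  · rw [sum_map]
    refine (AddChar.sum_apply_eq_ite (Additive.ofMul (u : H ⧸ Y))).trans ?_
    simp [Subgroup.index, Nat.card_eq_fintype_card]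
  · obtain ⟨ψ, -, rfl⟩ := mem_map.1 hl
    exact (congrArg ψ.toMonoidHom ((QuotientGroup.eq_one_iff u).2 hu)).trans (map_one _)

theorem TT.exists_kernel {G Ω : Type*} [Group G] [Fintype G] [MulAction G Ω] [Finite Ω] (hT : TT G Ω)
    {B : Subgroup G} {x y : Ω} (h : ¬ ∃ b ∈ B, b • x = y) : ∃ κ : G → ℂ,
    (∀ b ∈ B, ∀ b' ∈ B, ∀ g, κ (b * g * b') = κ g) ∧ ∑ g, κ g = 0 ∧
      ∀ u, ∑ g, κ (g⁻¹ * u * g) = Nat.card (fixedBy Ω u) - 1 := by
  have := Fintype.ofFinite Ω
  let O : Ω → ℂ := fun z => if ∃ b ∈ B, b • x = z then 1 else 0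
  have hO : ∀ b ∈ B, ∀ z, O (b • z) = O z := fun b hb z => if_congr
    ⟨fun ⟨c, h1, h2⟩ => ⟨b⁻¹ * c, mul_mem (inv_mem hb) h1, by rw [mul_smul, h2, inv_smul_smul]⟩,
      fun ⟨c, h1, h2⟩ => ⟨b * c, mul_mem hb h1, by rw [mul_smul, h2]⟩⟩ rfl rfl
  have hO2 : ∀ z, O z * O z = O z := fun z => by simp only [O]; split_ifs <;> simp
  let r : Ω → Ω → ℂ := fun a b => ∑ g : G, O (g • a) * O (g • b)
  have hr : ∀ (k : G) a b, r (k • a) (k • b) = r a b := fun k a b =>
    Fintype.sum_equiv (Equiv.mulRight k) _ _ fun g => by simp [mul_smul]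
  have hxy : x ≠ y := by rintro rfl; exact h ⟨1, one_mem _, one_smul _ _⟩
  have hr' : ∀ a b, r a b = r x y + if a = b then r x x - r x y else 0 := fun a b => by
    split_ifs with e
    · obtain ⟨k, rfl⟩ := hT.trans x a
      rw [← e, hr]; ring
    · obtain ⟨k, rfl, rfl⟩ := hT.move x y a b hxy e
      rw [hr]; ring
  have ha : r x x - r x y ≠ 0 := by
    have : r x x - r x y = #{g : G | (∃ b ∈ B, b • x = g • x) ∧ ¬ ∃ b ∈ B, b • x = g • y} := by
      rw [card_filter, Nat.cast_sum, ← sum_sub_distrib]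
      exact sum_congr rfl fun g _ => by
        by_cases h1 : ∃ b ∈ B, b • x = g • x <;> by_cases h2 : ∃ b ∈ B, b • x = g • y <;> simp only [O, h1, h2] <;> simp
    rw [this, Nat.cast_ne_zero, card_ne_zero]
    exact ⟨1, by simpa using ⟨⟨1, one_mem _, one_smul _ _⟩, by simpa using h⟩⟩
  have hs : ∀ g : G, ∑ z, O (g • z) = ∑ z, O z := fun g => Equiv.sum_comp (MulAction.toPerm g) O
  have hn : (Fintype.card Ω : ℂ) ≠ 0 := by have := hT.nt; simp
  have e1 : Fintype.card Ω * r x x = Fintype.card G * ∑ z, O z := by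
    calc _ = ∑ a, r a a := by rw [sum_congr rfl fun a _ => hr' a a]; simp
      _ = _ := by simp only [r, hO2]; rw [sum_comm]; simp [hs]
  have e2 : Fintype.card Ω * (Fintype.card Ω * r x y + (r x x - r x y)) = Fintype.card G * (∑ z, O z) ^ 2 := by
    calc _ = ∑ a, ∑ b, r a b := by
          rw [sum_congr rfl fun a _ => sum_congr rfl fun b _ => hr' a b]; simp [sum_add_distrib, mul_add]
      _ = _ := by
          simp only [r]; rw [sum_congr rfl fun a _ => sum_comm, sum_comm]; simp [← mul_sum, ← sum_mul, hs, sq]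
  refine ⟨fun g => (r x x - r x y)⁻¹ * (∑ z, O z * O (g • z) - (∑ z, O z) ^ 2 / Fintype.card Ω),
    fun b hb b' hb' g => ?_, ?_, fun u => ?_⟩
  · have : ∑ z, O z * O ((b * g * b') • z) = ∑ z, O z * O (g • z) :=
      Fintype.sum_equiv (MulAction.toPerm b') _ _ fun z => by simp [mul_smul, hO _ hb, hO _ hb']
    simp only [this]
  · rw [← mul_sum, sum_sub_distrib, sum_comm]
    have : ∀ z, ∑ g : G, O (g • z) = r x x := fun z => by
      rw [show r x x = r z z by rw [hr' z]; simp]; simp only [r, hO2]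
    simp only [← mul_sum, this, ← sum_mul, sum_const, card_univ, nsmul_eq_mul]
    field_simp
    linear_combination (∑ z, O z) * e1
  · have h1 : ∑ g : G, ∑ z, O z * O ((g⁻¹ * u * g) • z) = ∑ z, r z (u • z) := by
      rw [sum_comm (f := fun z g => O (g • z) * O (g • u • z)), ← Equiv.sum_comp (Equiv.inv G)]
      exact sum_congr rfl fun g _ => (Fintype.sum_equiv (MulAction.toPerm g) _ _ fun z => by simp [mul_smul]).symm
    rw [← mul_sum, sum_sub_distrib, h1, sum_congr rfl fun z _ => hr' z _, sum_add_distrib, ← sum_filter,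
      Nat.card_eq_fintype_card, Fintype.card_subtype]
    simp only [sum_const, card_univ, nsmul_eq_mul, mem_fixedBy, eq_comm (a := u • _)]
    field_simp
    linear_combination e2

variable {W Φ ι : Type*} [Group W] [MulAction W Φ] [Fintype Φ] [Finite W] [Finite ι]
  {G : Type*} [Group G] [Finite G] {R : RS W Φ ι} {A : AX G R}

open RS in
theorem AX.B_trans {Ω : Type*} [MulAction G Ω] [Finite Ω] (hT : TT G Ω) {p : ℕ} [Fact p.Prime] (hp : IsPGroup p A.U)
    (hf : ∀ x : Ω, ¬ ∀ u ∈ A.U, u • x = x) (star : ∀ u ∈ A.U, (∀ s, u ∈ A.Y s) → u ∈ ⁅A.U, A.U⁆) (x y : Ω) :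
    ∃ b ∈ A.B, b • x = y := by
  by_contra hn
  have := Fintype.ofFinite G
  have := Fintype.ofFinite W
  have := Fintype.ofFinite ι
  obtain ⟨κ, hκ, h0, hτ⟩ := hT.exists_kernel hn
  have hc : ∀ u : A.U, u ∈ commutator A.U ↔ (u : G) ∈ ⁅A.U, A.U⁆ := fun u => by
    rw [← A.U.map_subtype_commutator]
    exact (Subgroup.mem_map_iff_mem A.U.subtype_injective).symm
  let Y : ι → Subgroup A.U := fun s => (A.Y s).subgroupOf A.U
  have hY : ∀ s, commutator A.U ≤ Y s := fun s u hu => A.comm_le s ((hc u).1 hu)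
  have hN : ∀ s, (Y s).Normal := fun s => Subgroup.Normal.of_commutator_le _ (hY s)
  choose Λ h1 h2 h3 h4 using fun s => exists_chars (Y s) (hY s)
  have hq : ∀ s, p ∣ (Y s).index := fun s => by
    obtain ⟨k, hk⟩ := hp.index (Y s)
    refine hk ▸ dvd_pow_self p ?_
    rintro rfl
    exact A.Y_ne s (Subgroup.subgroupOf_eq_top.1 (Subgroup.index_eq_one.1 hk))
  let a : Finset ι → ℂ := fun J => ∑ w with ∀ s ∈ J, s ∉ R.Ds w, R.bB.repr (A.op κ (R.bv w)) w
  have key : ∀ l ∈ Fintype.piFinset Λ, ∑ u : A.U, (∏ s, l s) u⁻¹ * (Nat.card (fixedBy Ω (u : G)) - 1) =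
      Fintype.card A.U * a {s | l s ≠ 1} := fun l hl => by
    have hl := Fintype.mem_piFinset.1 hl
    have := AX.howlett hκ (l := ∏ s, l s) (J := {s | l s ≠ 1}) (fun u hu => ?_) fun s hs => ?_
    · rw [sum_comm] at this
      simpa [← mul_sum, hτ, a] using this
    · rw [MonoidHom.finsetProd_apply]
      exact prod_eq_one fun s _ => if e : l s = 1 then by simp [e] else h4 s _ (hl s) u (hu s e)
    · obtain ⟨u, hu⟩ := DFunLike.ne_iff.1 hs
      obtain ⟨b, h5, h6⟩ := AX.exists_X s u.2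
      refine ⟨⟨b, h5.1⟩, h5, fun e => hu ?_⟩
      rw [MonoidHom.finsetProd_apply, prod_eq_single s (fun t _ ht => h4 t _ (hl t) _ (h5.mem_Y ht)) (by simp)] at e
      simpa [e] using h4 s _ (hl s) (⟨b, h5.1⟩⁻¹ * u) h6
  have hU : (Fintype.card A.U : ℂ) ≠ 0 := by simp
  have hcard : ∀ J : Finset ι, ({l ∈ Fintype.piFinset Λ | ({s | l s ≠ 1} : Finset ι) = J}) =
      Fintype.piFinset fun s => if s ∈ J then (Λ s).erase 1 else {1} := fun J => by
    ext l
    simp only [mem_filter, Fintype.mem_piFinset, Finset.ext_iff, mem_univ, true_and, ← forall_and]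
    exact forall_congr' fun s => by by_cases e : l s = 1 <;> split_ifs <;> simp_all
  have hz : ∀ J, ∃ z : ℤ, a J = z := fun J => by
    obtain ⟨l, hl⟩ : (Fintype.piFinset fun s => if s ∈ J then (Λ s).erase 1 else {1}).Nonempty := by
      refine Fintype.piFinset_nonempty.2 fun s => ?_
      split_ifs
      · have := (Fact.out : p.Prime).two_le.trans (Nat.le_of_dvd (Y s).index_ne_zero_of_finite.bot_lt (hq s))
        rw [← card_pos, card_erase_of_mem (h1 s), h2]; omega
      · simp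
    rw [← hcard, mem_filter] at hl
    obtain ⟨m, hm⟩ := IsCharacter.classInner_nat (isCharacter_fixedBy (G := A.U) Ω) (isCharacter_hom (∏ s, l s))
    obtain ⟨m', hm'⟩ := IsCharacter.classInner_nat (isCharacter_one (G := A.U)) (isCharacter_hom (∏ s, l s))
    refine ⟨m - m', mul_left_cancel₀ hU ?_⟩
    rw [← hl.2, ← key l hl.1, Int.cast_sub, Int.cast_natCast, Int.cast_natCast, ← hm, ← hm', classInner, classInner,
      Nat.card_eq_fintype_card, ← mul_sub, mul_inv_cancel_left₀ hU, ← sum_sub_distrib]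
    exact sum_congr rfl fun u _ => by rw [hom_inv_eq_conj, ← sub_mul, mul_comm]; rfl
  choose z hz using hz
  have e1 : ∑ J, (-1) ^ #J * z J = 0 := by
    refine Int.cast_injective (α := ℂ) ?_
    simp only [Int.cast_sum, Int.cast_mul, ← hz, a, sum_filter, mul_sum, Int.cast_zero]
    rw [sum_comm]
    refine sum_eq_zero fun w _ => ?_
    by_cases hw : ∀ s, s ∈ R.Ds w
    · have : A.op κ (R.bv w) = 0 := funext fun v => by
        simp only [AX.op, bv, Set.eq_univ_of_forall hw, WJ_univ, Subgroup.mem_top, if_true, LinearMap.coe_mk,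
          AddHom.coe_mk, mul_one]
        exact (Equiv.sum_comp (Equiv.mulLeft _) κ).trans h0
      simp [this]
    have := sum_powerset_neg_one_pow_card_of_nonempty (x := {s | s ∉ R.Ds w}) (by simpa [filter_nonempty_iff] using hw)
    simp only [mul_ite, mul_zero, ← sum_filter, ← sum_mul, ← Int.cast_sum]
    rw [show ({J | ∀ s ∈ J, s ∉ R.Ds w} : Finset (Finset ι)) = powerset {s | s ∉ R.Ds w} by
      ext J; simp [subset_iff], this]
    simp
  have e2 : (p : ℤ) ∣ ∑ l ∈ Fintype.piFinset Λ, z {s | l s ≠ 1} := by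
    rw [← ZMod.intCast_zmod_eq_zero_iff_dvd, ← sum_fiberwise _ fun l => ({s | l s ≠ 1} : Finset ι), ← Int.cast_zero,
      ← e1, Int.cast_sum, Int.cast_sum]
    refine sum_congr rfl fun J _ => ?_
    rw [sum_congr rfl fun l hl => congrArg z (mem_filter.1 hl).2, sum_const, hcard, Fintype.card_piFinset, nsmul_eq_mul]
    push_cast
    congr 1
    rw [← prod_const, ← Fintype.prod_ite_mem J]
    refine prod_congr rfl fun s _ => ?_
    split_ifs
    · rw [card_erase_of_mem (h1 s), Nat.cast_pred (card_pos.2 ⟨_, h1 s⟩), h2, (ZMod.natCast_eq_zero_iff _ _).2 (hq s)]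
      simp
    · simp
  have e3 : ∏ s, (Y s).index = (⨅ s, Y s).index := by
    let φ : A.U →* ∀ s, A.U ⧸ Y s := MonoidHom.pi fun s => QuotientGroup.mk' (Y s)
    have : φ.ker = ⨅ s, Y s := by ext u; simp [φ, funext_iff, Subgroup.mem_iInf]
    rw [← this, Subgroup.index_ker, show φ.range = ⊤ from eq_top_iff.2 fun f _ => ?_]
    · simp [Nat.card_pi, Subgroup.index]
    refine Subgroup.pi_mem_of_mulSingle_mem f fun s => ?_
    obtain ⟨u, hu⟩ := QuotientGroup.mk_surjective (f s)
    obtain ⟨b, h5, h6⟩ := AX.exists_X s u.2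
    refine ⟨⟨b, h5.1⟩, funext fun t => ?_⟩
    by_cases e : t = s
    · rw [e, Pi.mulSingle_eq_same, ← hu]
      exact QuotientGroup.eq.2 h6
    · rw [Pi.mulSingle_eq_of_ne e]
      exact (QuotientGroup.eq_one_iff _).2 (h5.mem_Y e)
  have := Subgroup.normal_iInf_normal hN
  have e4 := dvd_card_orbits (Ω := Ω) hp (⨅ s, Y s) (fun u hu => (hc u).2 (star u u.2 fun s => Subgroup.mem_iInf.1 hu s))
    fun x hx => hf x fun u hu => hx ⟨u, hu⟩
  have e5 : (∑ l ∈ Fintype.piFinset Λ, z {s | l s ≠ 1} : ℤ) = Nat.card (orbitRel.Quotient (⨅ s, Y s :) Ω) - 1 := by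
    refine Int.cast_injective (α := ℂ) (mul_left_cancel₀ hU ?_)
    push_cast
    simp only [← hz, mul_sum]
    rw [← sum_congr rfl key, sum_comm]
    have h5 : ∀ u, ∑ l ∈ Fintype.piFinset Λ, ∏ s, l s u = ∏ s, ∑ l ∈ Λ s, l u := fun u =>
      (prod_univ_sum Λ fun _ l => l u).symm
    simp only [← sum_mul, MonoidHom.finsetProd_apply, h5, h3, Fintype.prod_ite_zero, inv_mem_iff, ite_mul, zero_mul,
      ← sum_filter, ← mul_sum, ← Nat.cast_prod, e3]
    rw [sum_subtype (p := (· ∈ ⨅ s, Y s)) _ (by simp [Subgroup.mem_iInf]), sum_sub_distrib, ← Nat.cast_sum]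
    erw [H4.burnside_nat (G := (⨅ s, Y s :)) Ω]
    rw [← Nat.card_eq_fintype_card, ← (⨅ s, Y s).index_mul_card]
    simp [Nat.card_eq_fintype_card]
    ring
  rw [e5] at e2
  exact (Fact.out : p.Prime).not_dvd_one (by exact_mod_cast (dvd_sub_right (Int.natCast_dvd_natCast.2 e4)).1 e2)

end Cfsg.Agent.H7
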