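import Cfsg.Agent.H2.ReeFaith
import Cfsg.Agent.H8.ModelTw

/-! The seven-dimensional representation of `G₂` in arbitrary characteristic. -/

set_option autoImplicit false
set_option linter.unusedSectionVars false
set_option linter.unusedSimpArgs false
set_option maxRecDepth 100000

namespace Cfsg.Agent.H7.AG

open Matrix Cfsg.Lie Cfsg.Agent.H8 Cfsg.Agent.H2 Cfsg.Agent.H2.Ree
open scoped MatrixGroups

variable {K : Type*} [Field K]

/-- The matrices of the root elements. -/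
def Y : ℕ → K → Matrix (Fin 7) (Fin 7) K
  | 0, t => !![1, 0, 0, 0, 0, 0, 0; 0, 1, 0, 0, 0, 0, 0; 0, 0, 1, 0, 0, 0, 0; 0, 0, 0, 1, 0, 0, 0; 0, 0, 0, 0, 1, 0, 0; t, 0, 0, 0, 0, 1, 0; 0, -t, 0, 0, 0, 0, 1]
  | 1, t => !![1, 0, 0, 0, 0, 0, 0; 0, 1, 0, 0, 0, 0, 0; 0, 0, 1, 0, 0, 0, 0; 0, 0, 0, 1, 0, 0, 0; t, 0, 0, 0, 1, 0, 0; 0, 0, 0, 0, 0, 1, 0; 0, 0, -t, 0, 0, 0, 1]
  | 2, t => !![1, 0, 0, 0, 0, 0, 0; 0, 1, 0, 0, 0, 0, 0; 0, 0, 1, 0, 0, 0, 0; -t, 0, 0, 1, 0, 0, 0; 0, t, 0, 0, 1, 0, 0; 0, 0, -t, 0, 0, 1, 0; t ^ 2, 0, 0, -(2 * t), 0, 0, 1]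
  | 3, t => !![1, 0, 0, 0, 0, 0, 0; 0, 1, 0, 0, 0, 0, 0; -t, 0, 1, 0, 0, 0, 0; 0, t, 0, 1, 0, 0, 0; 0, 0, 0, 0, 1, 0, 0; 0, t ^ 2, 0, 2 * t, 0, 1, 0; 0, 0, 0, 0, t, 0, 1]
  | 4, t => !![1, 0, 0, 0, 0, 0, 0; t, 1, 0, 0, 0, 0, 0; 0, 0, 1, 0, 0, 0, 0; 0, 0, t, 1, 0, 0, 0; 0, 0, t ^ 2, 2 * t, 1, 0, 0; 0, 0, 0, 0, 0, 1, 0; 0, 0, 0, 0, 0, -t, 1]
  | 5, t => !![1, 0, 0, 0, 0, 0, 0; 0, 1, 0, 0, 0, 0, 0; 0, t, 1, 0, 0, 0, 0; 0, 0, 0, 1, 0, 0, 0; 0, 0, 0, 0, 1, 0, 0; 0, 0, 0, 0, -t, 1, 0; 0, 0, 0, 0, 0, 0, 1]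
  | 6, t => !![1, 0, 0, 0, 0, 0, 0; 0, 1, t, 0, 0, 0, 0; 0, 0, 1, 0, 0, 0, 0; 0, 0, 0, 1, 0, 0, 0; 0, 0, 0, 0, 1, -t, 0; 0, 0, 0, 0, 0, 1, 0; 0, 0, 0, 0, 0, 0, 1]
  | 7, t => !![1, t, 0, 0, 0, 0, 0; 0, 1, 0, 0, 0, 0, 0; 0, 0, 1, 2 * t, t ^ 2, 0, 0; 0, 0, 0, 1, t, 0, 0; 0, 0, 0, 0, 1, 0, 0; 0, 0, 0, 0, 0, 1, -t; 0, 0, 0, 0, 0, 0, 1]
  | 8, t => !![1, 0, -t, 0, 0, 0, 0; 0, 1, 0, 2 * t, 0, t ^ 2, 0; 0, 0, 1, 0, 0, 0, 0; 0, 0, 0, 1, 0, t, 0; 0, 0, 0, 0, 1, 0, t; 0, 0, 0, 0, 0, 1, 0; 0, 0, 0, 0, 0, 0, 1]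
  | 9, t => !![1, 0, 0, -(2 * t), 0, 0, t ^ 2; 0, 1, 0, 0, t, 0, 0; 0, 0, 1, 0, 0, -t, 0; 0, 0, 0, 1, 0, 0, -t; 0, 0, 0, 0, 1, 0, 0; 0, 0, 0, 0, 0, 1, 0; 0, 0, 0, 0, 0, 0, 1]
  | 10, t => !![1, 0, 0, 0, t, 0, 0; 0, 1, 0, 0, 0, 0, 0; 0, 0, 1, 0, 0, 0, -t; 0, 0, 0, 1, 0, 0, 0; 0, 0, 0, 0, 1, 0, 0; 0, 0, 0, 0, 0, 1, 0; 0, 0, 0, 0, 0, 0, 1]
  | 11, t => !![1, 0, 0, 0, 0, t, 0; 0, 1, 0, 0, 0, 0, -t; 0, 0, 1, 0, 0, 0, 0; 0, 0, 0, 1, 0, 0, 0; 0, 0, 0, 0, 1, 0, 0; 0, 0, 0, 0, 0, 1, 0; 0, 0, 0, 0, 0, 0, 1]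
  | _ + 12, _ => 1

theorem Y_add (r : ℕ) (t u : K) : Y r (t + u) = Y r t * Y r u := by
  by_cases h : r < 12
  · interval_cases r <;> simp only [Y, mul7, mul_zero, zero_mul, add_zero, zero_add, mul_one, one_mul] <;>
      apply eq7 <;> ring
  · obtain ⟨k, rfl⟩ := Nat.exists_eq_add_of_le' (not_lt.1 h)
    exact (one_mul _).symm

theorem Y_zero (r : ℕ) : Y r (0 : K) = 1 := by
  by_cases h : r < 12
  · rw [one7]
    interval_cases r <;> simp only [Y] <;> apply eq7 <;> ring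
  · obtain ⟨k, rfl⟩ := Nat.exists_eq_add_of_le' (not_lt.1 h)
    rfl

variable (K) in
/-- The root elements. -/
def yy (r : ℕ) (t : K) : (Matrix (Fin 7) (Fin 7) K)ˣ :=
  ⟨Y r t, Y r (-t), by rw [← Y_add, add_neg_cancel, Y_zero], by rw [← Y_add, neg_add_cancel, Y_zero]⟩

theorem yy_val (r : ℕ) (t : K) : (yy K r t : Matrix (Fin 7) (Fin 7) K) = Y r t := rfl

/-- The commutator terms. -/
def ctG2 (r s : ℕ) : List (ℕ × ℤ × ℕ × ℕ) := (([[[], [], [], [], [], [], [(1, 1, 1, 1)], [], [(2, 1, 1, 1), (4, 1, 1, 2), (6, -1, 1, 3), (1, -2, 2, 3)], [(3, -1, 1, 1), (7, -1, 1, 2), (10, -1, 1, 3), (5, 2, 2, 3)], [(5, -1, 1, 1)], []], [[], [], [], [], [], [(0, 1, 1, 1)], [], [(2, 1, 1, 1), (3, -1, 1, 2), (5, 1, 1, 3), (0, 2, 2, 3)], [], [(4, -1, 1, 1), (8, 1, 1, 2), (11, 1, 1, 3), (6, -2, 2, 3)], [], [(6, -1, 1, 1)]], [[], [], [], [(0, 3, 1, 1)], [(1, 3, 1, 1)], [], [], [(3, -2,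 1, 1), (0, -3, 2, 1), (5, 3, 1, 2)], [(4, 2, 1, 1), (1, 3, 2, 1), (6, -3, 1, 2)], [], [(7, -1, 1, 1), (3, 1, 2, 1), (0, 1, 3, 1), (5, 1, 3, 2)], [(8, -1, 1, 1), (4, -1, 2, 1), (1, -1, 3, 1), (6, -1, 3, 2)]], [[], [], [(0, -3, 1, 1)], [], [(2, -2, 1, 1), (0, 3, 2, 1), (1, -3, 1, 2)], [], [(4, 1, 1, 1), (2, -1, 2, 1), (0, 1, 3, 1), (1, -1, 3, 2)], [(5, -3, 1, 1)], [], [(7, 2, 1, 1), (5, -3, 2, 1), (10, 3, 1, 2)], [], [(9, 1, 1, 1), (7, 1, 2, 1), (5, -1, 3, 1), (10, 1, 3, 2)]], [[], [], [(1, -3, 1, 1)], [(2, 2, 1, 1), (1, -3, 2, 1), (0, 3, 1, 2)], [], [(3, 1, 1, 1), (2, 1, 2, 1), (1, -1, 3, 1), (0, 1, 3, 2)], [], [], [(6, -3, 1, 1)], [(8, -2, 1, 1), (6, 3, 2, 1), (11, -3, 1, 2)], [(9, 1, 1, 1), (8, -1, 2, 1), (6, 1, 3, 1), (11, -1, 3, 2)], []], [[], [(0, -1, 1, 1)], [], [], [(3, -1, 1, 1), (2, 1, 1, 2), (1, 1, 1, 3), (0, -2, 2, 3)], [], [], [], [(7, 1, 1, 1), (9,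 -1, 1, 2), (11, 1, 1, 3), (10, 2, 2, 3)], [], [], [(10, 1, 1, 1)]], [[(1, -1, 1, 1)], [], [], [(4, -1, 1, 1), (2, -1, 1, 2), (0, -1, 1, 3), (1, 2, 2, 3)], [], [], [], [(8, 1, 1, 1), (9, 1, 1, 2), (10, -1, 1, 3), (11, -2, 2, 3)], [], [], [(11, 1, 1, 1)], []], [[], [(2, -1, 1, 1), (3, -1, 2, 1), (5, -1, 3, 1), (0, -1, 3, 2)], [(3, 2, 1, 1), (5, 3, 2, 1), (0, -3, 1, 2)], [(5, 3, 1, 1)], [], [], [(8, -1, 1, 1), (9, 1, 2, 1), (10, 1, 3, 1), (11, 1, 3, 2)], [], [(9, -2, 1, 1), (10, -3, 2, 1), (11, 3, 1, 2)], [(10, 3, 1, 1)], [], []], [[(2, -1, 1, 1), (4, 1, 2, 1), (6, 1, 3, 1), (1, 1, 3, 2)], [], [(4, -2, 1, 1), (6, -3, 2, 1), (1, 3, 1, 2)], [], [(6, 3, 1, 1)], [(7, -1, 1, 1), (9, -1, 2, 1), (11, -1, 3, 1), (10, -1, 3, 2)], [], [(9, 2, 1, 1), (11, 3, 2, 1), (10, -3, 1, 2)], [], [(11, 3, 1, 1)], [], []], [[(3, 1, 1, 1), (7, -1, 2, 1), (10, 1, 3, 1), (5, -1, 3, 2)], [(4,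 1, 1, 1), (8, 1, 2, 1), (11, -1, 3, 1), (6, 1, 3, 2)], [], [(7, -2, 1, 1), (10, 3, 2, 1), (5, -3, 1, 2)], [(8, 2, 1, 1), (11, -3, 2, 1), (6, 3, 1, 2)], [], [], [(10, -3, 1, 1)], [(11, -3, 1, 1)], [], [], []], [[(5, 1, 1, 1)], [], [(7, 1, 1, 1), (3, 1, 1, 2), (0, -1, 1, 3), (5, -2, 2, 3)], [], [(9, -1, 1, 1), (8, -1, 1, 2), (6, -1, 1, 3), (11, 2, 2, 3)], [], [(11, -1, 1, 1)], [], [], [], [], []], [[], [(6, 1, 1, 1)], [(8, 1, 1, 1), (4, -1, 1, 2), (1, 1, 1, 3), (6, 2, 2, 3)], [(9, -1, 1, 1), (7, 1, 1, 2), (5, 1, 1, 3), (10, -2, 2, 3)], [], [(10, -1, 1, 1)], [], [], [], [], [], []]] : List (List (List (ℕ × ℤ × ℕ × ℕ)))).getD r []).getD s []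

set_option synthInstance.maxSize 4000 in
theorem ct_eq : ∀ r < 12, ∀ s < 12, chevG2.commTerms r s = ctG2 r s := by decide +kernel

theorem comm0 (s : ℕ) (hs : s < 12) (h1 : s ≠ 0) (h2 : s ≠ 11) (t u : K) : yy K s u * yy K 0 t = yy K 0 t * (yy K s u *
    ev (yy K) ((ctG2 0 s).map fun c => (c.1, (c.2.1 : K) * (-t) ^ c.2.2.1 * u ^ c.2.2.2))) := by
  refine Units.ext ?_
  interval_cases s <;> first | exact absurd rfl h1 | exact absurd rfl h2 |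
    (simp only [ctG2, List.getD_cons_succ, List.getD_cons_zero, List.map_cons, List.map_nil, ev_cons, ev_nil, Units.val_mul,
      yy_val, Y, Units.val_one, mul7, mul_zero, zero_mul, add_zero, zero_add, mul_one, one_mul] <;>
     apply eq7 <;> push_cast <;> ring)

theorem comm1 (s : ℕ) (hs : s < 12) (h1 : s ≠ 1) (h2 : s ≠ 10) (t u : K) : yy K s u * yy K 1 t = yy K 1 t * (yy K s u *
    ev (yy K) ((ctG2 1 s).map fun c => (c.1, (c.2.1 : K) * (-t) ^ c.2.2.1 * u ^ c.2.2.2))) := by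
  refine Units.ext ?_
  interval_cases s <;> first | exact absurd rfl h1 | exact absurd rfl h2 |
    (simp only [ctG2, List.getD_cons_succ, List.getD_cons_zero, List.map_cons, List.map_nil, ev_cons, ev_nil, Units.val_mul,
      yy_val, Y, Units.val_one, mul7, mul_zero, zero_mul, add_zero, zero_add, mul_one, one_mul] <;>
     apply eq7 <;> push_cast <;> ring)

theorem comm2 (s : ℕ) (hs : s < 12) (h1 : s ≠ 2) (h2 : s ≠ 9) (t u : K) : yy K s u * yy K 2 t = yy K 2 t * (yy K s u *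
    ev (yy K) ((ctG2 2 s).map fun c => (c.1, (c.2.1 : K) * (-t) ^ c.2.2.1 * u ^ c.2.2.2))) := by
  refine Units.ext ?_
  interval_cases s <;> first | exact absurd rfl h1 | exact absurd rfl h2 |
    (simp only [ctG2, List.getD_cons_succ, List.getD_cons_zero, List.map_cons, List.map_nil, ev_cons, ev_nil, Units.val_mul,
      yy_val, Y, Units.val_one, mul7, mul_zero, zero_mul, add_zero, zero_add, mul_one, one_mul] <;>
     apply eq7 <;> push_cast <;> ring)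

theorem comm3 (s : ℕ) (hs : s < 12) (h1 : s ≠ 3) (h2 : s ≠ 8) (t u : K) : yy K s u * yy K 3 t = yy K 3 t * (yy K s u *
    ev (yy K) ((ctG2 3 s).map fun c => (c.1, (c.2.1 : K) * (-t) ^ c.2.2.1 * u ^ c.2.2.2))) := by
  refine Units.ext ?_
  interval_cases s <;> first | exact absurd rfl h1 | exact absurd rfl h2 |
    (simp only [ctG2, List.getD_cons_succ, List.getD_cons_zero, List.map_cons, List.map_nil, ev_cons, ev_nil, Units.val_mul,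
      yy_val, Y, Units.val_one, mul7, mul_zero, zero_mul, add_zero, zero_add, mul_one, one_mul] <;>
     apply eq7 <;> push_cast <;> ring)

theorem comm4 (s : ℕ) (hs : s < 12) (h1 : s ≠ 4) (h2 : s ≠ 7) (t u : K) : yy K s u * yy K 4 t = yy K 4 t * (yy K s u *
    ev (yy K) ((ctG2 4 s).map fun c => (c.1, (c.2.1 : K) * (-t) ^ c.2.2.1 * u ^ c.2.2.2))) := by
  refine Units.ext ?_
  interval_cases s <;> first | exact absurd rfl h1 | exact absurd rfl h2 |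
    (simp only [ctG2, List.getD_cons_succ, List.getD_cons_zero, List.map_cons, List.map_nil, ev_cons, ev_nil, Units.val_mul,
      yy_val, Y, Units.val_one, mul7, mul_zero, zero_mul, add_zero, zero_add, mul_one, one_mul] <;>
     apply eq7 <;> push_cast <;> ring)

theorem comm5 (s : ℕ) (hs : s < 12) (h1 : s ≠ 5) (h2 : s ≠ 6) (t u : K) : yy K s u * yy K 5 t = yy K 5 t * (yy K s u *
    ev (yy K) ((ctG2 5 s).map fun c => (c.1, (c.2.1 : K) * (-t) ^ c.2.2.1 * u ^ c.2.2.2))) := by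
  refine Units.ext ?_
  interval_cases s <;> first | exact absurd rfl h1 | exact absurd rfl h2 |
    (simp only [ctG2, List.getD_cons_succ, List.getD_cons_zero, List.map_cons, List.map_nil, ev_cons, ev_nil, Units.val_mul,
      yy_val, Y, Units.val_one, mul7, mul_zero, zero_mul, add_zero, zero_add, mul_one, one_mul] <;>
     apply eq7 <;> push_cast <;> ring)

theorem comm6 (s : ℕ) (hs : s < 12) (h1 : s ≠ 6) (h2 : s ≠ 5) (t u : K) : yy K s u * yy K 6 t = yy K 6 t * (yy K s u *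
    ev (yy K) ((ctG2 6 s).map fun c => (c.1, (c.2.1 : K) * (-t) ^ c.2.2.1 * u ^ c.2.2.2))) := by
  refine Units.ext ?_
  interval_cases s <;> first | exact absurd rfl h1 | exact absurd rfl h2 |
    (simp only [ctG2, List.getD_cons_succ, List.getD_cons_zero, List.map_cons, List.map_nil, ev_cons, ev_nil, Units.val_mul,
      yy_val, Y, Units.val_one, mul7, mul_zero, zero_mul, add_zero, zero_add, mul_one, one_mul] <;>
     apply eq7 <;> push_cast <;> ring)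

theorem comm7 (s : ℕ) (hs : s < 12) (h1 : s ≠ 7) (h2 : s ≠ 4) (t u : K) : yy K s u * yy K 7 t = yy K 7 t * (yy K s u *
    ev (yy K) ((ctG2 7 s).map fun c => (c.1, (c.2.1 : K) * (-t) ^ c.2.2.1 * u ^ c.2.2.2))) := by
  refine Units.ext ?_
  interval_cases s <;> first | exact absurd rfl h1 | exact absurd rfl h2 |
    (simp only [ctG2, List.getD_cons_succ, List.getD_cons_zero, List.map_cons, List.map_nil, ev_cons, ev_nil, Units.val_mul,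
      yy_val, Y, Units.val_one, mul7, mul_zero, zero_mul, add_zero, zero_add, mul_one, one_mul] <;>
     apply eq7 <;> push_cast <;> ring)

theorem comm8 (s : ℕ) (hs : s < 12) (h1 : s ≠ 8) (h2 : s ≠ 3) (t u : K) : yy K s u * yy K 8 t = yy K 8 t * (yy K s u *
    ev (yy K) ((ctG2 8 s).map fun c => (c.1, (c.2.1 : K) * (-t) ^ c.2.2.1 * u ^ c.2.2.2))) := by
  refine Units.ext ?_
  interval_cases s <;> first | exact absurd rfl h1 | exact absurd rfl h2 |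
    (simp only [ctG2, List.getD_cons_succ, List.getD_cons_zero, List.map_cons, List.map_nil, ev_cons, ev_nil, Units.val_mul,
      yy_val, Y, Units.val_one, mul7, mul_zero, zero_mul, add_zero, zero_add, mul_one, one_mul] <;>
     apply eq7 <;> push_cast <;> ring)

theorem comm9 (s : ℕ) (hs : s < 12) (h1 : s ≠ 9) (h2 : s ≠ 2) (t u : K) : yy K s u * yy K 9 t = yy K 9 t * (yy K s u *
    ev (yy K) ((ctG2 9 s).map fun c => (c.1, (c.2.1 : K) * (-t) ^ c.2.2.1 * u ^ c.2.2.2))) := by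
  refine Units.ext ?_
  interval_cases s <;> first | exact absurd rfl h1 | exact absurd rfl h2 |
    (simp only [ctG2, List.getD_cons_succ, List.getD_cons_zero, List.map_cons, List.map_nil, ev_cons, ev_nil, Units.val_mul,
      yy_val, Y, Units.val_one, mul7, mul_zero, zero_mul, add_zero, zero_add, mul_one, one_mul] <;>
     apply eq7 <;> push_cast <;> ring)

theorem comm10 (s : ℕ) (hs : s < 12) (h1 : s ≠ 10) (h2 : s ≠ 1) (t u : K) : yy K s u * yy K 10 t = yy K 10 t * (yy K s u *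
    ev (yy K) ((ctG2 10 s).map fun c => (c.1, (c.2.1 : K) * (-t) ^ c.2.2.1 * u ^ c.2.2.2))) := by
  refine Units.ext ?_
  interval_cases s <;> first | exact absurd rfl h1 | exact absurd rfl h2 |
    (simp only [ctG2, List.getD_cons_succ, List.getD_cons_zero, List.map_cons, List.map_nil, ev_cons, ev_nil, Units.val_mul,
      yy_val, Y, Units.val_one, mul7, mul_zero, zero_mul, add_zero, zero_add, mul_one, one_mul] <;>
     apply eq7 <;> push_cast <;> ring)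

theorem comm11 (s : ℕ) (hs : s < 12) (h1 : s ≠ 11) (h2 : s ≠ 0) (t u : K) : yy K s u * yy K 11 t = yy K 11 t * (yy K s u *
    ev (yy K) ((ctG2 11 s).map fun c => (c.1, (c.2.1 : K) * (-t) ^ c.2.2.1 * u ^ c.2.2.2))) := by
  refine Units.ext ?_
  interval_cases s <;> first | exact absurd rfl h1 | exact absurd rfl h2 |
    (simp only [ctG2, List.getD_cons_succ, List.getD_cons_zero, List.map_cons, List.map_nil, ev_cons, ev_nil, Units.val_mul,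
      yy_val, Y, Units.val_one, mul7, mul_zero, zero_mul, add_zero, zero_add, mul_one, one_mul] <;>
     apply eq7 <;> push_cast <;> ring)

theorem isSt_yy : IsSt chevG2 (yy K) where
  out r hr t := Units.ext (by obtain ⟨k, rfl⟩ := Nat.exists_eq_add_of_le' (show 12 ≤ r from hr); rfl)
  add r t u := Units.ext (Y_add r t u)
  comm r s hr hs h1 h2 t u := by
    rw [mul_assoc, mul_assoc, inv_mul_eq_iff_eq_mul, inv_mul_eq_iff_eq_mul, ChevalleyDatum.commWord, ct_eq r hr s hs]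
    change r < 12 at hr
    interval_cases r
    exacts [comm0 s hs h1 h2 t u, comm1 s hs h1 h2 t u, comm2 s hs h1 h2 t u, comm3 s hs h1 h2 t u, comm4 s hs h1 h2 t u, comm5 s hs h1 h2 t u, comm6 s hs h1 h2 t u, comm7 s hs h1 h2 t u, comm8 s hs h1 h2 t u, comm9 s hs h1 h2 t u, comm10 s hs h1 h2 t u, comm11 s hs h1 h2 t u]

theorem isSC_xx [Finite K] : IsSC chevG2 (xx K) where
  toIsFaith := chev.toIsFaith
  r3 := stb.R3_of_finite
  gen := GG_xg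
  inj a ha := funext fun j => by
    have key : ∀ r < 12, wt chevG2 r = Pi.single j 1 → a j = 1 := fun r hr h => by
      have h2 := stb.acts_hProd a r 1
      simp only [ha, one_mul, inv_one, mul_one, h, torChar_single', Equiv.Perm.one_apply] at h2
      exact Units.val_eq_one.1 (chev.x_inj hr h2).symm
    fin_cases j
    · exact key 9 (by decide) (by decide +kernel)
    · exact key 11 (by decide) (by decide +kernel)

theorem exists_rho [Finite K] : ∃ ρ : chevG2.group K →* Matrix (Fin 7) (Fin 7) K, ∀ r t, ρ (xx K r t) = Y r t := by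
  obtain ⟨φ, h⟩ := isSC_xx.exists_hom' (isSt_yy (K := K)) isSt_yy.R3_of_finite
  exact ⟨(Units.coeHom _).comp φ, fun r t => congrArg Units.val (h r t)⟩

end Cfsg.Agent.H7.AG
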