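import Cfsg.Agent.H7.AG2

/-! Products of two classes in `G₂(q)`. -/

set_option autoImplicit false
set_option linter.unusedSectionVars false
set_option linter.unusedSimpArgs false
set_option maxRecDepth 100000

namespace Cfsg.Agent.H7.AG

open Matrix Cfsg.Lie Cfsg.Agent.H8 Cfsg.Agent.H2 Cfsg.Agent.H2.Ree Cfsg.Agent.H9.AH

variable {K : Type*} [Field K]

/-- The corner entry. -/
def c60 (B : Matrix (Fin 7) (Fin 7) K) : K := B 6 0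

theorem e60 (a00 a01 a02 a03 a04 a05 a06 a10 a11 a12 a13 a14 a15 a16 a20 a21 a22 a23 a24 a25 a26 a30 a31 a32 a33 a34 a35 a36 a40 a41 a42 a43 a44 a45 a46 a50 a51 a52 a53 a54 a55 a56 a60 a61 a62 a63 a64 a65 a66 : K) :
    c60 !![a00, a01, a02, a03, a04, a05, a06; a10, a11, a12, a13, a14, a15, a16; a20, a21, a22, a23, a24, a25, a26; a30, a31, a32, a33, a34, a35, a36; a40, a41, a42, a43, a44, a45, a46; a50, a51, a52, a53, a54, a55, a56; a60, a61, a62, a63, a64, a65, a66] = a60 := rfl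

theorem mn7 (a00 a01 a02 a03 a04 a05 a06 a10 a11 a12 a13 a14 a15 a16 a20 a21 a22 a23 a24 a25 a26 a30 a31 a32 a33 a34 a35 a36 a40 a41 a42 a43 a44 a45 a46 a50 a51 a52 a53 a54 a55 a56 a60 a61 a62 a63 a64 a65 a66 : K) :
    mn !![a00, a01, a02, a03, a04, a05, a06; a10, a11, a12, a13, a14, a15, a16; a20, a21, a22, a23, a24, a25, a26; a30, a31, a32, a33, a34, a35, a36; a40, a41, a42, a43, a44, a45, a46; a50, a51, a52, a53, a54, a55, a56; a60, a61, a62, a63, a64, a65, a66] = a50 * a61 - a51 * a60 := rfl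

/-- The elements of the cells. -/
def nf (l : List (Fin chevG2.rank)) (p r : Kˣ) (y1 y2 y3 y4 y5 y6 : K) : chevG2.group K :=
  hE chevG2 (xx K) 7 p * hE chevG2 (xx K) 6 r * nWd chevG2 (xx K) l *
    (xx K 7 y1 * xx K 6 y2 * xx K 8 y3 * xx K 9 y4 * xx K 10 y5 * xx K 11 y6)

/-- The matrix of `nf lL`. -/
def aL (p r y1 y2 y3 y4 y5 y6 : K) : Matrix (Fin 7) (Fin 7) K :=
  !![0, 0, 0, 0, 0, -p, p * y1;
    0, 0, 0, 0, 0, 0, p⁻¹ * r;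
    0, 0, p ^ 2 * r⁻¹, 2 * p ^ 2 * r⁻¹ * y1, p ^ 2 * r⁻¹ * y1 ^ 2, -p ^ 2 * r⁻¹ * y4 + 2 * p ^ 2 * r⁻¹ * y1 * y3 - p ^ 2 * r⁻¹ * y1 ^ 2 * y2, -p ^ 2 * r⁻¹ * y5 - 2 * p ^ 2 * r⁻¹ * y1 * y4 + p ^ 2 * r⁻¹ * y1 ^ 2 * y3;
    0, 0, 0, 1, y1, y3 - y1 * y2, -y4 + y1 * y3;
    0, 0, 0, 0, p⁻¹ ^ 2 * r, -p⁻¹ ^ 2 * r * y2, p⁻¹ ^ 2 * r * y3;
    p * r⁻¹, p * r⁻¹ * y1, -p * r⁻¹ * y3 + p * r⁻¹ * y1 * y2, -2 * p * r⁻¹ * y4 + 2 * p * r⁻¹ * y1 * y3, p * r⁻¹ * y5 + p * r⁻¹ * y1 * y4, p * r⁻¹ * y6 + p * r⁻¹ * y3 * y4 - p * r⁻¹ * y1 * y2 * y4 + p * r⁻¹ * y1 * y3 ^ 2, -p * r⁻¹ * y1 * y6 + p * r⁻¹ * y3 * y5 + p * r⁻¹ * y4 ^ 2 - p * r⁻¹ * y1 * y2 * y5 - 2 * p * r⁻¹ * y1 * y3 * y4;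
    0, -p⁻¹, -p⁻¹ * y2, -2 * p⁻¹ * y3, -p⁻¹ * y4, p⁻¹ * y2 * y4 - p⁻¹ * y3 ^ 2, p⁻¹ * y6 + p⁻¹ * y2 * y5 + 2 * p⁻¹ * y3 * y4]

/-- The matrix of `nf lS`. -/
def aS (p r y1 y2 y3 y4 y5 y6 : K) : Matrix (Fin 7) (Fin 7) K :=
  !![0, 0, 0, 0, 0, 0, p;
    0, 0, 0, 0, -p⁻¹ * r, p⁻¹ * r * y2, -p⁻¹ * r * y3;
    0, 0, 0, 0, 0, p ^ 2 * r⁻¹, -p ^ 2 * r⁻¹ * y1;
    0, 0, 0, -1, -y1, -y3 + y1 * y2, y4 - y1 * y3;
    0, p⁻¹ ^ 2 * r, p⁻¹ ^ 2 * r * y2, 2 * p⁻¹ ^ 2 * r * y3, p⁻¹ ^ 2 * r * y4, -p⁻¹ ^ 2 * r * y2 * y4 + p⁻¹ ^ 2 * r * y3 ^ 2, -p⁻¹ ^ 2 * r * y6 - p⁻¹ ^ 2 * r * y2 * y5 - 2 * p⁻¹ ^ 2 * r * y3 * y4;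
    0, 0, -p * r⁻¹, -2 * p * r⁻¹ * y1, -p * r⁻¹ * y1 ^ 2, p * r⁻¹ * y4 - 2 * p * r⁻¹ * y1 * y3 + p * r⁻¹ * y1 ^ 2 * y2, p * r⁻¹ * y5 + 2 * p * r⁻¹ * y1 * y4 - p * r⁻¹ * y1 ^ 2 * y3;
    p⁻¹, p⁻¹ * y1, -p⁻¹ * y3 + p⁻¹ * y1 * y2, -2 * p⁻¹ * y4 + 2 * p⁻¹ * y1 * y3, p⁻¹ * y5 + p⁻¹ * y1 * y4, p⁻¹ * y6 + p⁻¹ * y3 * y4 - p⁻¹ * y1 * y2 * y4 + p⁻¹ * y1 * y3 ^ 2, -p⁻¹ * y1 * y6 + p⁻¹ * y3 * y5 + p⁻¹ * y4 ^ 2 - p⁻¹ * y1 * y2 * y5 - 2 * p⁻¹ * y1 * y3 * y4]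

/-- The matrix of `nf l0`. -/
def a0 (p r y1 y2 y3 y4 y5 y6 : K) : Matrix (Fin 7) (Fin 7) K :=
  !![0, 0, 0, 0, 0, 0, p;
    0, 0, 0, 0, 0, p⁻¹ * r, -p⁻¹ * r * y1;
    0, 0, 0, 0, p ^ 2 * r⁻¹, -p ^ 2 * r⁻¹ * y2, p ^ 2 * r⁻¹ * y3;
    0, 0, 0, -1, -y1, -y3 + y1 * y2, y4 - y1 * y3;
    0, 0, p⁻¹ ^ 2 * r, 2 * p⁻¹ ^ 2 * r * y1, p⁻¹ ^ 2 * r * y1 ^ 2, -p⁻¹ ^ 2 * r * y4 + 2 * p⁻¹ ^ 2 * r * y1 * y3 - p⁻¹ ^ 2 * r * y1 ^ 2 * y2, -p⁻¹ ^ 2 * r * y5 - 2 * p⁻¹ ^ 2 * r * y1 * y4 + p⁻¹ ^ 2 * r * y1 ^ 2 * y3;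
    0, p * r⁻¹, p * r⁻¹ * y2, 2 * p * r⁻¹ * y3, p * r⁻¹ * y4, -p * r⁻¹ * y2 * y4 + p * r⁻¹ * y3 ^ 2, -p * r⁻¹ * y6 - p * r⁻¹ * y2 * y5 - 2 * p * r⁻¹ * y3 * y4;
    p⁻¹, p⁻¹ * y1, -p⁻¹ * y3 + p⁻¹ * y1 * y2, -2 * p⁻¹ * y4 + 2 * p⁻¹ * y1 * y3, p⁻¹ * y5 + p⁻¹ * y1 * y4, p⁻¹ * y6 + p⁻¹ * y3 * y4 - p⁻¹ * y1 * y2 * y4 + p⁻¹ * y1 * y3 ^ 2, -p⁻¹ * y1 * y6 + p⁻¹ * y3 * y5 + p⁻¹ * y4 ^ 2 - p⁻¹ * y1 * y2 * y5 - 2 * p⁻¹ * y1 * y3 * y4]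

variable (p r y1 y2 y3 y4 y5 y6 t : K)

theorem tL4 : c60 (Y 4 t * aL p r y1 y2 y3 y4 y5 y6 * Y 4 (-t)) =
    (0) + (p⁻¹ - p * r⁻¹) * t + (p * r⁻¹ * y1) * t ^ 2 := by
  simp only [Y, aL, mul7, mul_zero, zero_mul, add_zero, zero_add, mul_one, one_mul, e60, mn7]
  grind

theorem tL3 (hp : p * p⁻¹ = 1) (hr : r * r⁻¹ = 1) : c60 (Y 3 1 * aL p r y1 y2 y3 y4 y5 y6 * Y 3 (-1)) =
    -p⁻¹ * y2 := by
  simp only [Y, aL, mul7, mul_zero, zero_mul, add_zero, zero_add, mul_one, one_mul, e60, mn7]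
  grind

theorem tL1 : c60 (Y 1 1 * aL p r 0 0 y3 y4 y5 y6 * Y 1 (-1)) =
    p⁻¹ * y4 := by
  simp only [Y, aL, mul7, mul_zero, zero_mul, add_zero, zero_add, mul_one, one_mul, e60, mn7]
  grind

theorem tL0 : c60 (Y 0 1 * aL p r 0 0 y3 0 y5 y6 * Y 0 (-1)) =
    p⁻¹ * y3 ^ 2 := by
  simp only [Y, aL, mul7, mul_zero, zero_mul, add_zero, zero_add, mul_one, one_mul, e60, mn7]
  grind

theorem tL14 : c60 (Y 1 1 * (Y 4 1 * aL p r 0 0 0 0 y5 y6 * Y 4 (-1)) * Y 1 (-1)) =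
    p⁻¹ - p * r⁻¹ + p * r⁻¹ * y5 := by
  simp only [Y, aL, mul7, mul_zero, zero_mul, add_zero, zero_add, mul_one, one_mul, e60, mn7]
  grind

theorem tL2 (hp : p * p⁻¹ = 1) (hr : r * r⁻¹ = 1) : c60 (Y 2 1 * aL p r 0 0 0 0 0 y6 * Y 2 (-1)) =
    -2 + p⁻¹ * y6 := by
  simp only [Y, aL, mul7, mul_zero, zero_mul, add_zero, zero_add, mul_one, one_mul, e60, mn7]
  grind

theorem tS5 (hp : p * p⁻¹ = 1) (hr : r * r⁻¹ = 1) : mn (Y 5 t * aS p r y1 y2 y3 y4 y5 y6 * Y 5 (-t)) =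
    (0) + (p⁻¹ ^ 3 * r - r⁻¹) * t + (-p⁻¹ ^ 3 * r * y2) * t ^ 2 := by
  simp only [Y, aS, mul7, mul_zero, zero_mul, add_zero, zero_add, mul_one, one_mul, e60, mn7]
  grind

theorem tS1 (hp : p * p⁻¹ = 1) (hr : r * r⁻¹ = 1) : mn (Y 1 1 * aS p r y1 0 y3 y4 y5 y6 * Y 1 (-1)) =
    r⁻¹ * y1 ^ 3 := by
  simp only [Y, aS, mul7, mul_zero, zero_mul, add_zero, zero_add, mul_one, one_mul, e60, mn7]
  grind

theorem tS0 (hp : p * p⁻¹ = 1) (hr : r * r⁻¹ = 1) : mn (Y 0 t * aS p r 0 0 y3 y4 y5 y6 * Y 0 (-t)) =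
    t * ((-r⁻¹ * y5) + (-1 + r⁻¹ * y5 * y6 - r⁻¹ * y4 ^ 3) * t + (y6) * t ^ 2) := by
  simp only [Y, aS, mul7, mul_zero, zero_mul, add_zero, zero_add, mul_one, one_mul, e60, mn7]
  grind

theorem tS3 (hp : p * p⁻¹ = 1) (hr : r * r⁻¹ = 1) : mn (Y 3 t * aS p r 0 0 y3 y4 0 0 * Y 3 (-t)) =
    3 * t ^ 2 * ((-p⁻¹ - r⁻¹ * y4) + (2 * p⁻¹ * y3) * t + (-p⁻¹ * y3 ^ 2) * t ^ 2) := by
  simp only [Y, aS, mul7, mul_zero, zero_mul, add_zero, zero_add, mul_one, one_mul, e60, mn7]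
  grind

variable [Finite K]

theorem rho_aL (p r : Kˣ) : rho (nf lL p r y1 y2 y3 y4 y5 y6) = aL (p : K) r y1 y2 y3 y4 y5 y6 := by
  rw [nf, map_mul, map_mul, rho_H, rho_U, rho_lL]
  simp only [Hm, Um, aL, mul7, mul_zero, zero_mul, add_zero, zero_add, mul_one, one_mul]
  apply eq7 <;> ring

theorem rho_aS (p r : Kˣ) : rho (nf lS p r y1 y2 y3 y4 y5 y6) = aS (p : K) r y1 y2 y3 y4 y5 y6 := by
  rw [nf, map_mul, map_mul, rho_H, rho_U, rho_lS]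
  simp only [Hm, Um, aS, mul7, mul_zero, zero_mul, add_zero, zero_add, mul_one, one_mul]
  apply eq7 <;> ring

theorem rho_a0 (p r : Kˣ) : rho (nf l0 p r y1 y2 y3 y4 y5 y6) = a0 (p : K) r y1 y2 y3 y4 y5 y6 := by
  rw [nf, map_mul, map_mul, rho_H, rho_U, rho_l0]
  simp only [Hm, Um, a0, mul7, mul_zero, zero_mul, add_zero, zero_add, mul_one, one_mul]
  apply eq7 <;> ring

theorem conj_long {s t : K} (hs : s ≠ 0) (ht : t ≠ 0) : IsConj (xx K 11 s) (xx K 11 t) := by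
  refine isConj_iff.2 ⟨hE chevG2 (xx K) 6 (t / s), ?_⟩
  rw [stb.hE_conj (by decide) (div_ne_zero ht hs), show A chevG2 6 11 = 1 by decide +kernel, zpow_one, div_mul_cancel₀ _ hs]

theorem class_L {p r : Kˣ} {y1 y2 y3 y4 y5 y6 : K} [Fintype K] (h3 : 3 ≤ Fintype.card K)
    (h : ¬ SO (nf lL p r y1 y2 y3 y4 y5 y6)) : ∀ t ≠ 0, IsConj (nf lL p r y1 y2 y3 y4 y5 y6) (xx K 11 t) := by
  have hp := mul_inv_cancel₀ p.ne_zero
  have hr := mul_inv_cancel₀ r.ne_zero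
  have h' : ∀ a', IsConj (nf lL p r y1 y2 y3 y4 y5 y6) a' → c60 (rho a') = 0 := fun a' k => by_contra fun e => h ⟨a', k, e⟩
  have key : ∀ k t, c60 (Y k t * aL (p : K) r y1 y2 y3 y4 y5 y6 * Y k (-t)) = 0 := fun k t => by
    rw [← rho_aL, ← rho_conj]; exact h' _ (isConj_conj _ _)
  have h14 := h' _ ((isConj_conj (xx K 4 1) _).trans (isConj_conj (xx K 1 1) _))
  rw [rho_conj, rho_conj, rho_aL] at h14
  obtain ⟨e1, e2, -⟩ := quad_all h3 fun t => (tL4 _ _ _ _ _ _ _ _ t).symm.trans (key 4 t)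
  obtain rfl : y1 = 0 := by grind
  obtain rfl : y2 = 0 := by have := key 3 1; rw [tL3 _ _ _ _ _ _ _ _ hp hr] at this; grind
  obtain rfl : y4 = 0 := by have := key 1 1; rw [tL1] at this; grind
  obtain rfl : y3 = 0 := by
    have := key 0 1; rw [tL0] at this
    exact pow_eq_zero_iff two_ne_zero |>.1 ((mul_eq_zero.1 this).resolve_left (inv_ne_zero p.ne_zero))
  obtain rfl : y5 = 0 := by rw [tL14] at h14; grind
  have e3 := key 2 1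
  rw [tL2 _ _ _ hp hr] at e3
  have e : nf lL p r 0 0 0 0 0 y6 = xx K 11 (-p) * xx K 0 (p : K)⁻¹ * (xx K 11 (-p))⁻¹ := rho_inj (by
    rw [rho_aL, rho_conj, rho_x]
    simp only [aL, Y, mul7, mul_zero, zero_mul, add_zero, zero_add, mul_one, one_mul]
    generalize (p : K)⁻¹ = p' at *
    generalize (r : K)⁻¹ = r' at *
    apply eq7 <;> grind)
  intro t ht
  rw [e]
  refine (isConj_conj _ _).symm.trans ((isConj_conj (nE chevG2 (xx K) 11 1) _).trans ?_)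
  rw [show xx K 0 = xx K (chevG2.neg 11) from rfl, stb.nE_conj_neg (by decide) one_ne_zero]
  exact conj_long (by simp) ht

theorem class_S {p r : Kˣ} {y1 y2 y3 y4 y5 y6 : K} [Fintype K] (h4 : 4 ≤ Fintype.card K) (h3 : (3 : K) ≠ 0)
    (h : ∀ b', IsConj (nf lS p r y1 y2 y3 y4 y5 y6) b' → mn (rho b') = 0) :
    nf lS p r y1 y2 y3 y4 y5 y6 ^ 3 = 1 ∧ Commute (xx K 6 1) (nf lS p r y1 y2 y3 y4 y5 y6) := by
  have hp := mul_inv_cancel₀ p.ne_zero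
  have hr := mul_inv_cancel₀ r.ne_zero
  have key : ∀ k t, mn (Y k t * aS (p : K) r y1 y2 y3 y4 y5 y6 * Y k (-t)) = 0 := fun k t => by
    rw [← rho_aS, ← rho_conj]; exact h _ (isConj_conj _ _)
  obtain ⟨e1, e2, -⟩ := quad_all (by omega) fun t => (tS5 _ _ _ _ _ _ _ _ t hp hr).symm.trans (key 5 t)
  obtain rfl : y2 = 0 := by grind
  obtain rfl : y1 = 0 := by
    have := key 1 1; rw [tS1 _ _ _ _ _ _ _ hp hr] at this
    exact pow_eq_zero_iff three_ne_zero |>.1 ((mul_eq_zero.1 this).resolve_left (inv_ne_zero r.ne_zero))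
  obtain ⟨rfl, e3, -⟩ := quad_ne h4 fun t ht =>
    (mul_eq_zero.1 ((tS0 _ _ _ _ _ _ t hp hr).symm.trans (key 0 t))).resolve_left ht
  obtain ⟨-, -, e4⟩ := quad_ne h4 fun t ht =>
    (mul_eq_zero.1 ((tS0 _ _ _ _ _ _ t hp hr).symm.trans (key 0 t))).resolve_left ht
  obtain rfl : y5 = 0 := by grind
  obtain ⟨e5, -, e6⟩ := quad_ne h4 fun t ht =>
    (mul_eq_zero.1 ((tS3 _ _ _ _ t hp hr).symm.trans (key 3 t))).resolve_left (mul_ne_zero h3 (pow_ne_zero 2 ht))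
  obtain rfl : y3 = 0 := pow_eq_zero_iff two_ne_zero |>.1 ((mul_eq_zero.1 e5).resolve_left (by simp))
  refine ⟨rho_inj ?_, rho_inj ?_⟩
  · rw [pow_succ, pow_two, map_mul, map_mul, rho_aS, map_one, one7]
    simp only [aS, mul7, mul_zero, zero_mul, add_zero, zero_add, mul_one, one_mul]
    generalize (p : K)⁻¹ = p' at *
    generalize (r : K)⁻¹ = r' at *
    apply eq7 <;> grind
  · rw [map_mul, map_mul, rho_aS, rho_x]
    simp only [aS, Y, mul7, mul_zero, zero_mul, add_zero, zero_add, mul_one, one_mul]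
    generalize (p : K)⁻¹ = p' at *
    generalize (r : K)⁻¹ = r' at *
    apply eq7 <;> grind

variable (K) in
/-- The conclusion of the maximal displacement lemma. -/
def Max : Prop := ∀ a : chevG2.group K, a ≠ 1 → ∃ w n u, NRep chevG2 (xx K) n w ∧ u ∈ UU chevG2 (xx K) ∧ IsConj a (n * u) ∧
  w ≠ 1 ∧ ∀ i : Fin chevG2.rank, chevG2.IsPosRoot (w (chevG2.simple i)) → w (chevG2.simple i) = chevG2.simple i

set_option synthInstance.maxSize 4000 in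
theorem exists_nf (hM : Max K) {a : chevG2.group K} (ha : a ≠ 1) :
    ∃ l ∈ [lL, lS, l0], ∃ p r y1 y2 y3 y4 y5 y6, IsConj a (nf l p r y1 y2 y3 y4 y5 y6) := by
  obtain ⟨w, n, u, hn, hu, k, h1, h2⟩ := hM a ha
  have hw := hn.mem_W
  have ext : ∀ v ∈ W chevG2, v 7 = w 7 → v 6 = w 6 → w = v := fun v hv e1 e2 => by
    refine (inv_mul_eq_one.1 (eq_one_of_simple_pos (mul_mem (inv_mem hv) hw) fun i => ?_)).symm
    have : w (chevG2.simple i) = v (chevG2.simple i) := by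
      fin_cases i
      exacts [e1.symm, e2.symm]
    rw [Equiv.Perm.mul_apply, this, perm_inv_apply]
    exact simple_pos i
  obtain ⟨l, hl, e1, e2⟩ := (by decide +kernel : ∀ r < 12, ∀ s < 12, A chevG2 r s = A chevG2 7 6 →
    (chevG2.IsPosRoot r → r = 7) → (chevG2.IsPosRoot s → s = 6) → ¬ (7 = r ∧ 6 = s) →
    ∃ l ∈ [lL, lS, l0], wordW chevG2 l 7 = r ∧ wordW chevG2 l 6 = s) (w 7) (W_lt hw (by decide)) (w 6) (W_lt hw (by decide))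
    (A_W hw 7 6) (h2 (0 : Fin 2)) (h2 (1 : Fin 2)) fun e => h1 (ext 1 (one_mem _) e.1 e.2)
  obtain rfl := ext _ (wordW_mem l) e1 e2
  obtain ⟨p, r, e⟩ := exists_HH (hn.mul_inv_mem stb (NRep.nWd _ l))
  obtain ⟨y1, y2, y3, y4, y5, y6, rfl⟩ := exists_UU hu
  exact ⟨l, hl, p, r, y1, y2, y3, y4, y5, y6, by rwa [nf, ← e, inv_mul_cancel_right]⟩

theorem long_of [Fintype K] (hM : Max K) (h3 : 3 ≤ Fintype.card K) {a : chevG2.group K} (ha : a ≠ 1) (h : ¬ SO a) :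
    ∀ t ≠ 0, IsConj a (xx K 11 t) := by
  obtain ⟨l, hl, p, r, y1, y2, y3, y4, y5, y6, k⟩ := exists_nf hM ha
  simp only [List.mem_cons, List.not_mem_nil, or_false] at hl
  rcases hl with rfl | rfl | rfl
  · exact fun t ht => k.trans (class_L h3 (fun ⟨b, l, e⟩ => h ⟨b, k.trans l, e⟩) t ht)
  · exact (h ⟨_, k, show c60 _ ≠ 0 by rw [rho_aS, aS, e60]; simp⟩).elim
  · exact (h ⟨_, k, show c60 _ ≠ 0 by rw [rho_a0, a0, e60]; simp⟩).elim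

theorem three_false [Fintype K] (hM : Max K) (hq : 3 ≤ Fintype.card K) (h3 : (3 : K) = 0) [CharP K 3]
    {a b c : chevG2.group K} (h : CP a b c) (ha : ¬ SO a) : False := by
  obtain ⟨φ, hφ⟩ := exists_graph h3 (RingHom.id K)
  have := chev.finite_G (x := xx K) GG_xg
  have hs : Function.Surjective φ := by
    rw [← MonoidHom.range_eq_top, eq_top_iff, ← (GG_xg : GG (xx K) = ⊤)]
    refine (Subgroup.closure_le _).2 ?_
    rintro _ ⟨r, -, t, rfl⟩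
    by_cases hr : r < 12
    · obtain ⟨h1, h2 | h2⟩ : piR (piR r) = r ∧ (exR (piR r) = 1 ∨ exR (piR r) = 3) := by interval_cases r <;> decide
      · exact ⟨xx K (piR r) t, by rw [hφ, h1, h2, pow_one]; rfl⟩
      · have := Fact.mk Nat.prime_three
        obtain ⟨s, rfl⟩ := (bijective_frobenius K 3).2 t
        exact ⟨xx K (piR r) s, by rw [hφ, h1, h2]; rfl⟩
    · exact ⟨1, (map_one φ).trans (stb.out r (not_lt.1 hr) t).symm⟩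
  let e := MulEquiv.ofBijective φ (Finite.surjective_iff_bijective.1 hs)
  have h' := h.map e
  have k1 : IsConj (e a) (xx K 9 1) := by
    have := φ.map_isConj (long_of hM hq h.ha ha 1 one_ne_zero)
    rwa [hφ, map_one, one_pow] at this
  have k2 : SO (e a) := ⟨_, k1.trans (isConj_conj (nE chevG2 (xx K) 9 1) _), show c60 _ ≠ 0 by
    rw [stb.nE_conj_self (by decide) one_ne_zero, rho_x, show chevG2.neg 9 = 2 from rfl, Y, e60]; simp⟩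
  have k3 := long_of hM hq h'.hb (ext_short hq h' k2) 1 one_ne_zero
  have k5 : orderOf (e c) ∣ 3 := by
    rw [← h'.order k1 k3]
    refine orderOf_dvd_of_pow_eq_one (rho_inj ?_)
    rw [pow_succ, pow_two]
    simp only [map_mul, rho_x, map_one, one7, Y, mul7, mul_zero, zero_mul, add_zero, zero_add, mul_one, one_mul]
    apply eq7 <;> grind
  rw [← h'.order (k1.trans (isConj_conj (nE chevG2 (xx K) 11 1) _)) k3, orderOf_dvd_iff_pow_eq_one, pow_succ, pow_two] at k5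
  replace k5 := congrArg rho k5
  simp only [nE, show chevG2.neg 11 = 0 from rfl, _root_.mul_inv_rev, ← stb.neg, map_mul, rho_x, Y, mul7, mul_zero, zero_mul, add_zero, zero_add, mul_one, one_mul, inv_one, map_one,
    one7, eq7_iff] at k5
  grind

theorem x_pow (r : ℕ) (t : K) (n : ℕ) : xx K r t ^ n = xx K r (n * t) := by
  induction n with
  | zero => simp [stb.zero]
  | succ n ih => rw [pow_succ, ih, ← stb.add]; push_cast; ring_nf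

theorem good_of_max {F : Type*} [Field F] [Fintype F] (hM : Max F) (p : ℕ) [hp : Fact p.Prime] [CharP F p]
    (hq : 3 ≤ Fintype.card F) : Good p (chevG2.group F) := by
  have := chev.finite_G (x := xx F) GG_xg
  have key : ∀ a b c : chevG2.group F, CP a b c → ¬ SO a → Concl p a b c := fun a b c h ha => by
    by_cases h3 : (3 : F) = 0
    · obtain rfl : p = 3 := (Nat.prime_dvd_prime_iff_eq hp.out Nat.prime_three).1 ((CharP.cast_eq_zero_iff F p 3).1 h3)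
      exact (three_false hM hq h3 h ha).elim
    have h4 : 4 ≤ Fintype.card F := lt_of_le_of_ne hq fun e => h3 (by simpa [← e] using FiniteField.cast_card_eq_zero F)
    have k1 := long_of hM hq h.ha ha
    have k2 := fun b' => ext_long h4 h k1 (b' := b')
    obtain ⟨l, hl, s, r, y1, y2, y3, y4, y5, y6, k⟩ := exists_nf hM h.hb
    simp only [List.mem_cons, List.not_mem_nil, or_false] at hl
    rcases hl with rfl | rfl | rfl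
    · exact absurd (k2 _ k) (by rw [rho_aL, aL, mn7]; simp)
    · obtain ⟨e1, e2⟩ := class_S h4 h3 fun b' l => k2 b' (k.trans l)
      have k3 : IsConj a (xx F 6 1) := (k1 1 one_ne_zero).trans (isConj_iff.2 ⟨nE chevG2 (xx F) 10 1, rho_inj (by
        simp only [nE, show chevG2.neg 10 = 1 from rfl, _root_.mul_inv_rev, ← stb.neg, map_mul, rho_x, Y, mul7, mul_zero, zero_mul, add_zero, zero_add, mul_one, one_mul, inv_one]
        apply eq7 <;> ring)⟩)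
      refine h.concl_comm k3 k e2 (PEl.conj (pel_of_pow (k := 1) ?_) k3.symm) fun e => h3 ?_
      · rw [pow_one, x_pow]; simp [stb.zero]
      · exact (CharP.cast_eq_zero_iff F p 3).2 (e.trans (conj_order k ▸ orderOf_dvd_of_pow_eq_one e1))
    · exact absurd (k2 _ k) (by rw [rho_a0, a0, mn7]; simp)
  intro a b c h
  by_cases ha : SO a
  · exact (key b a c h.symm (ext_short hq h ha)).symm
  · exact key a b c h ha

end Cfsg.Agent.H7.AG
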