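import Cfsg.Agent.H8.AF0
import Cfsg.Agent.H8.TwD4

/-! Corner entries of words in the Chevalley group of type `D4`. -/

set_option autoImplicit false
set_option linter.unusedSectionVars false
set_option maxRecDepth 100000

namespace Cfsg.Agent.H7.AD

open Matrix Cfsg.Lie Cfsg.Agent.H8 Cfsg.Agent.H8.AF

variable {K : Type*} [Field K]

/-- The variable number `i`. -/
def vr (i : ℕ) : Pol := [(1, List.replicate i 0 ++ [1])]

@[simp] theorem pev_vr (v : ℕ → K) (i : ℕ) : pev v (vr i) = v i := by
  induction i generalizing v with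
  | zero => simp [vr, mev]
  | succ i ih => simpa [vr, mev, List.replicate_succ] using ih (fun i => v (i + 1))

/-- A polynomial given by a list of monomials. -/
noncomputable def pm (l : List (ℤ × List ℕ)) : Pol :=
  l.foldr (fun a acc => padd 0 (pscale 0 a.1 (a.2.foldr (fun i m => pmul 0 (vr i) m) [(1, [])])) acc) []

theorem pev_pm (v : ℕ → K) (l : List (ℤ × List ℕ)) :
    pev v (pm l) = (l.map fun a => (a.1 : K) * (a.2.map v).prod).sum := by
  have hp : ((0 : ℕ) : K) = 0 := by simp
  have : ∀ m : List ℕ, pev v (m.foldr (fun i m => pmul 0 (vr i) m) [(1, [])]) = (m.map v).prod := fun m => by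
    induction m with
    | nil => simp [mev]
    | cons i m ih => rw [List.foldr_cons, pev_pmul hp, ih]; simp
  induction l with
  | nil => rfl
  | cons a l ih => rw [pm, List.foldr_cons, pev_padd hp, pev_pscale hp, this, ← pm, ih]; simp

variable (K) in
/-- The root elements. -/
abbrev xd : ℕ → K → chevD4.group K := xg chevD4 K

/-- The corner entry. -/
def en (g : chevD4.group K) : K :=
  ((g : GL chevD4.Idx K) : Matrix chevD4.Idx chevD4.Idx K) (Sum.inr ⟨0, by decide⟩) (Sum.inr ⟨23, by decide⟩)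

theorem st : IsSt chevD4 (xd K) := (isChev_xg (D := chevD4) (F := K)).toIsSt

theorem en_word {w : SW} {l : List (ℤ × List ℕ)} (h : peq 0 (ent fastD4 0 w 0 23) (pm l) = true) (v : ℕ → K) :
    en (evS (xd K) v w) = (l.map fun a => (a.1 : K) * (a.2.map v).prod).sum := by
  rw [← pev_pm, ← peq_sound (by simp) v h, en, evS_xg]
  exact (pev_ent (p := 0) (by simp) agrD4 v w _ _).symm

theorem en_H {h : chevD4.group K} (hh : h ∈ HH chevD4 (xd K)) (g : chevD4.group K) : en (h * g) = 0 ↔ en g = 0 := by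
  have := Subgroup.mem_map_of_mem (chevD4.group K).subtype hh
  rw [map_HH] at this
  obtain ⟨a, ha⟩ := exists_dg_of_mem_HH (D := chevD4) (F := K) (g := h) this
  rw [en, Subgroup.coe_mul, Units.val_mul, ha, dg_val, charDiag_eq, diagonal_mul]
  exact mul_eq_zero_iff_left (Units.ne_zero _)

theorem conj_H {h : chevD4.group K} (hh : h ∈ HH chevD4 (xd K)) :
    ∃ c : ℕ → Kˣ, ∀ s t, xd K s t * h = h * xd K s (c s * t) := by
  obtain ⟨a, ha⟩ := st.acts_of_mem_HH (inv_mem hh)
  exact ⟨fun s => torChar a (wt chevD4 s), fun s t => by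
    have := ha s t
    rw [Equiv.Perm.one_apply] at this
    rw [← this]; simp [mul_assoc]⟩

/-- The positive roots. -/
def LU : List ℕ := [14, 18, 13, 12, 19, 16, 15, 21, 20, 17, 22, 23]

/-- The generic element of `U` with some vanishing coordinates. -/
def wU (z : List ℕ) : SW := LU.map fun r => (r, if r ∈ z then [] else vr r)

/-- Words for the elements of `N`. -/
def wN (l : List (Fin chevD4.rank)) : SW :=
  l.flatMap fun i : Fin chevD4.rank => [(chevD4.simple i, [(1, [])]), (chevD4.neg (chevD4.simple i), [(-1, [])]), (chevD4.simple i, [(1, [])])]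

/-- The values of the variables. -/
def vv (p : List K) (f : ℕ → K) (i : ℕ) : K := if i < 12 then p.getD i 0 else f i

theorem evS_wU (p : List K) {f : ℕ → K} {z : List ℕ} (hz : ∀ r ∈ z, f r = 0) :
    evS (xd K) (vv p f) (wU z) = oprod (xd K) LU f := by
  rw [evS, wU, List.map_map, oprod]
  refine congrArg List.prod (List.map_congr_left fun r hr => ?_)
  have h1 : ¬ r < 12 := (by decide : ∀ r ∈ LU, ¬ r < 12) r hr
  by_cases h : r ∈ z
  · simp [h, hz r h]
  · simp [h, vv, h1]

theorem evS_app (v : ℕ → K) (w w' : SW) : evS (xd K) v (w ++ w') = evS (xd K) v w * evS (xd K) v w' := by simp [evS]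

theorem evS_wN (v : ℕ → K) (l : List (Fin chevD4.rank)) : evS (xd K) v (wN l) = nWd chevD4 (xd K) l := by
  induction l with
  | nil => rfl
  | cons i l ih => rw [wN, List.flatMap_cons, evS_app, ← wN, ih, nWd_cons]; simp [nE, mev, mul_assoc]

theorem evS_inv (v : ℕ → K) (w : SW) : evS (xd K) v (winv 0 w []) = (evS (xd K) v w)⁻¹ := by
  rw [st.evS_winv (by simp)]; simp

/-- Words in the Weyl group. -/
def l0 : List (Fin chevD4.rank) := ([0, 2, 3, 1, 0, 2, 3, 1, 0, 2, 3, 1] : List (Fin 4))
/-- See `l0`. -/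
def lT : List (Fin chevD4.rank) := ([1, 0, 2, 3, 1, 0, 2, 3, 1] : List (Fin 4))
/-- See `l0`. -/
def l3 : List (Fin chevD4.rank) := ([0, 2, 3, 1, 0, 2, 3, 1, 0, 2, 3] : List (Fin 4))
/-- See `l0`. -/
def lb : List (Fin chevD4.rank) := ([1] : List (Fin 4))

variable (K) in
/-- The representative of the reflection in the central root. -/
noncomputable abbrev nb : chevD4.group K := nWd chevD4 (xd K) lb

variable (K) in
/-- The representative of the exceptional element of the Weyl group. -/
noncomputable abbrev n3 : chevD4.group K := nWd chevD4 (xd K) l3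

variable (f : ℕ → K)

theorem t0 {l : List (Fin chevD4.rank)} (hl : l ∈ [l0, lT]) : en (nWd chevD4 (xd K) l * oprod (xd K) LU f) = -1 := by
  have := en_word ((by decide +kernel : ∀ l ∈ [l0, lT], peq 0 (ent fastD4 0 (wN l ++ wU []) 0 23) (pm [(-1, [])]) = true) l hl)
    (vv [] f)
  rw [evS_app, evS_wN, evS_wU _ (by simp)] at this
  simpa using this

theorem tB : en (nb K * (n3 K * oprod (xd K) LU f) * (nb K)⁻¹) = - f 14 := by
  have := en_word (w := wN lb ++ (wN l3 ++ wU []) ++ winv 0 (wN lb) []) (l := [(-1, [14])]) (by decide +kernel) (vv [] f)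
  simp only [evS_app, evS_wN, evS_inv, evS_wU _ (z := []) (by simp)] at this
  simpa [vv] using this

theorem tA (s : K) : en (xd K 1 s * (n3 K * oprod (xd K) LU f) * (xd K 1 1)⁻¹) = - (f 18 * f 13 * f 12) := by
  have := en_word (w := [(1, vr 0)] ++ (wN l3 ++ wU []) ++ winv 0 [(1, [(1, [])])] []) (l := [(-1, [18, 13, 12])])
    (by decide +kernel) (vv [s] f)
  simp only [evS_app, evS_wN, evS_inv, evS_wU _ (z := []) (by simp)] at this
  simpa [vv, mev, mul_assoc] using this

theorem tC (s : K) (hz : ∀ r ∈ [14, 18, 13, 12], f r = 0) :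
    en (xd K 1 s * (nb K * (n3 K * oprod (xd K) LU f) * (nb K)⁻¹) * (xd K 1 1)⁻¹) = f 19 * f 16 * f 15 := by
  have := en_word (w := [(1, vr 0)] ++ (wN lb ++ (wN l3 ++ wU [14, 18, 13, 12]) ++ winv 0 (wN lb) []) ++ winv 0 [(1, [(1, [])])] [])
    (l := [(1, [19, 16, 15])]) (by decide +kernel) (vv [s] f)
  simp only [evS_app, evS_wN, evS_inv, evS_wU _ hz] at this
  simpa [vv, mev, mul_assoc] using this

theorem tD (a b c a' b' c' : K) (hz : ∀ r ∈ [14, 18, 13, 12, 19, 16, 15], f r = 0) :
    en (nb K * (xd K 5 a' * (xd K 10 b' * xd K 11 c') * (n3 K * oprod (xd K) LU f) * (xd K 5 a * (xd K 10 b * xd K 11 c))⁻¹) *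
      (nb K)⁻¹) = -(a' * a) - b' * b - c' * c + a * b * f 21 + a * c * f 20 - b * c * f 17 + a * b * c * f 22 := by
  have := en_word (w := wN lb ++ ([(5, vr 3), (10, vr 4), (11, vr 5)] ++ (wN l3 ++ wU [14, 18, 13, 12, 19, 16, 15]) ++
      winv 0 [(5, vr 0), (10, vr 1), (11, vr 2)] []) ++ winv 0 (wN lb) [])
    (l := [(-1, [3, 0]), (-1, [4, 1]), (-1, [5, 2]), (1, [0, 1, 21]), (1, [0, 2, 20]), (-1, [1, 2, 17]), (1, [0, 1, 2, 22])])
    (by decide +kernel) (vv [a, b, c, a', b', c'] f)
  simp only [evS_app, evS_wN, evS_inv, evS_wU _ hz] at this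
  simp only [evS_cons, evS_nil, pev_vr, mul_one] at this
  refine this.trans ?_
  simp [vv]; ring

end Cfsg.Agent.H7.AD
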