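import Cfsg.Agent.H7.AG4
import Cfsg.Agent.H7.AG3
import Cfsg.Agent.H7.TwOutD4
import Cfsg.Agent.H8.TwCard
import Cfsg.Agent.L0.AR.A
import Cfsg.Agent.H9.AH4

/-! Every non-trivial element of the twisted group of type `D4` maps a long root subgroup to an opposite one. -/

set_option autoImplicit false
set_option linter.unusedSectionVars false
set_option maxRecDepth 100000

namespace Cfsg.Agent.H7.AD

open Matrix Cfsg.Lie Cfsg.Agent.H8 Cfsg.Agent.H8.AF Cfsg.Agent.H9.AH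

variable {K : Type*} [Field K]

section Co

variable {D : ChevalleyDatum} {G : Type*} [Group G] {x : ℕ → K → G} [RootFacts D] [NFacts D]

theorem co_list (hx : IsSt D x) (i : Fin D.rank) {r : ℕ} (hr : D.simple i = r) (L : List (ℕ × K))
    (hL : ∀ a ∈ L.map Prod.fst, D.IsPosRoot a) :
    Co D x i (L.map fun a => x a.1 a.2).prod (L.map fun a => if a.1 = r then a.2 else 0).sum := by
  subst hr
  induction L with
  | nil => exact Co.one hx
  | cons a L ih =>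
    simp only [List.map_cons, List.prod_cons, List.sum_cons, List.forall_mem_cons] at hL ⊢
    exact (Co.root hx hL.1 i _).mul hx (ih hL.2)

theorem co_pi {σ : G →* G} {ρ : Equiv.Perm ℕ} {π : Fin D.rank → Fin D.rank} {f : ℕ → K → K} {S : Subgroup G}
    {O : Fin D.rank → Set ℕ} {e : Fin D.rank → ℕ} {z : Fin D.rank → S} (h : TwD D x σ ρ π f S O e z) {u : G} (hu : u ∈ S)
    {i : Fin D.rank} {t : K} (hc : Co D x i u t) : Co D x (π i) u (t ^ e i) := by
  have := hc.map h.tw.map (h.tw.simple i) fun r hr hne =>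
    ⟨(h.tw.pos r).2 hr, fun e => hne (ρ.injective (e.trans (h.tw.simple i).symm))⟩
  rwa [h.sub.fix u hu, (h.exp i t).1] at this

theorem dom_pos {w : Equiv.Perm ℕ} (h : Dom D w) {i : Fin D.rank} (hi : D.IsPosRoot (w (D.simple i))) :
    w (D.simple i) = D.simple i := by
  exact (h.fix' (by_contra fun h2 => not_neg_of_pos (simple_pos i) (by simpa using h.neg hi h2))).symm.trans
    (perm_inv_apply w _)

variable (D x) in
theorem twD_un (hx : IsChev D x) (hG : GG x = ⊤) : TwD D x (MonoidHom.id G) 1 id (fun _ t => t) ⊤ (fun i => {i.1}) (fun _ => 1)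
    fun i => ⟨x (D.simple i) 1, trivial⟩ where
  sub := ⟨hG.ge, fun _ _ => rfl, fun _ => rfl, fun _ _ h => ⟨0, Fin.ext h.symm⟩,
    fun _ => let ⟨n, hn⟩ := NRep.exists_rep _ (wJ_mem_W _); ⟨n, trivial, hn⟩, fun _ _ _ _ => trivial⟩
  tw := ⟨fun _ _ => rfl, fun _ => Iff.rfl, fun _ => Iff.rfl, fun _ _ => rfl, fun _ => rfl, fun _ _ _ h => h, fun _ _ _ _ => rfl⟩
  chev := hx
  top := hG
  pi_mem _ := rfl
  orb _ _ h := congrArg _ h
  exp _ _ := by simp
  gen M h1 h2 := hG ▸ hx.toIsSt.GG_le_of_pm_simple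
    (fun i t => h1 i ⟨trivial, x_mem_XS (by exact ⟨simple_pos i, simple_inRootSub.2 rfl⟩) t⟩) fun i t => h2 i ⟨trivial,
      x_mem_XS (by exact ⟨(neg_neg_iff (simple_lt i)).2 (simple_pos i), H8.inRootSub_neg (simple_inRootSub.2 rfl)⟩) t⟩
  zmem i := x_mem_XS (by exact ⟨simple_pos i, simple_inRootSub.2 rfl⟩) 1
  zco i := Co.self i 1
  zpi _ := rfl

end Co

theorem two_le [Fintype K] {q : ℕ} (hK : Fintype.card K = q ^ 3) : 2 ≤ q := by
  have := Fintype.one_lt_card (α := K)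
  by_contra h0
  obtain rfl | rfl : q = 0 ∨ q = 1 := by omega
  all_goals simp [hK] at this

/-- The conclusion of the maximal displacement lemma. -/
def MaxS (S : Subgroup (chevD4.group K)) : Prop := ∀ a ∈ S, a ≠ 1 → ∃ w n, ∃ u ∈ S, ∃ g ∈ S, NRep chevD4 (xd K) n w ∧
  u ∈ UU chevD4 (xd K) ∧ g * a * g⁻¹ = n * u ∧ w ≠ 1 ∧
  ∀ i : Fin chevD4.rank, chevD4.IsPosRoot (w (chevD4.simple i)) → ∃ j : Fin chevD4.rank, w (chevD4.simple i) = chevD4.simple j

variable {q : ℕ} {φ : K →+* K} {σ : chevD4.group K →* chevD4.group K}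
  (h : TwD chevD4 (xd K) σ rhoD4 pfD4 (twF triD4 φ) (twS (xd K) (d4Words K q)) (fun i => {j | j ∈ oLD4 i}) (fun _ => q)
    (zD4 (xd K) q))
include h

theorem co3 (hq : q ≠ 0) (L : List (ℕ × K)) (hL : ∀ a ∈ L.map Prod.fst, chevD4.IsPosRoot a)
    (hu : (L.map fun a => xd K a.1 a.2).prod ∈ twS (xd K) (d4Words K q)) {a b c : K}
    (ha : (L.map fun a => if a.1 = 18 then a.2 else 0).sum = a) (hb : (L.map fun a => if a.1 = 13 then a.2 else 0).sum = b)
    (hc : (L.map fun a => if a.1 = 12 then a.2 else 0).sum = c) (e : a * b * c = 0) : a = 0 ∧ b = 0 ∧ c = 0 := by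
  have k0 := co_list st (0 : Fin 4) (r := 18) rfl L hL
  have k2 := co_list st (2 : Fin 4) (r := 13) rfl L hL
  have k3 := co_list st (3 : Fin 4) (r := 12) rfl L hL
  rw [ha] at k0
  rw [hb] at k2
  rw [hc] at k3
  have l2 := co_pi h hu k0
  have l3 := co_pi h hu k2
  rw [show pfD4 (0 : Fin 4) = (2 : Fin 4) from rfl] at l2
  rw [show pfD4 (2 : Fin 4) = (3 : Fin 4) from rfl] at l3
  have e2 : b = a ^ q := k2.unique h.faith l2
  have e3 : c = b ^ q := k3.unique h.faith l3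
  rw [e3, e2] at e ⊢
  simpa [hq] using e

omit h in
theorem nb_mem (hφ : ∀ t, φ t = t ^ q) : nb K ∈ twS (xd K) (d4Words K q) := by
  have hm : (-1 : K) ^ q = -1 := by rw [← hφ]; simp
  show xd K 14 1 * xd K 9 (-1⁻¹) * xd K 14 1 * 1 ∈ _
  rw [mul_one, inv_one]
  exact mul_mem (mul_mem (mem_d4a (by simp) (one_pow q)) (mem_d4a (by simp) hm)) (mem_d4a (by simp) (one_pow q))

theorem fix_mem (hφ : ∀ t, φ t = t ^ q) {r : ℕ} (hr : r ∈ [0, 1, 9, 14, 22, 23]) {t : K} (ht : t ^ q = t) :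
    xd K r t ∈ twS (xd K) (d4Words K q) := by
  obtain ⟨h1, h2⟩ := (by decide +kernel : ∀ r ∈ [0, 1, 9, 14, 22, 23], twT triD4 r = (r, 1, 1) ∧
    (chevD4.IsPosRoot r ∨ chevD4.IsNegRoot r)) r hr
  have h3 : σ (xd K r t) = xd K r t := by rw [h.tw.map_one' h1, pow_one, hφ, ht]
  exact h2.elim (fun h2 => h.sub.mem_of_UU h.tw h.faith (x_mem_UU _ h2 t) h3)
    fun h2 => h.sub.mem_of_VV h.tw h.faith (x_mem_VV _ h2 t) h3

theorem case3 [Fintype K] (hφ : ∀ t, φ t = t ^ q) (hK : Fintype.card K = q ^ 3) {d u : chevD4.group K}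
    (hd : d ∈ HH chevD4 (xd K)) (hu : u ∈ UU chevD4 (xd K)) (hS : u ∈ twS (xd K) (d4Words K q))
    (hD : ∀ g ∈ twS (xd K) (d4Words K q), en (g * (d * (n3 K * u)) * g⁻¹) = 0) : False := by
  classical
  have hq := two_le hK
  obtain ⟨f, rfl⟩ := st.exists_oprod (L := LU) isClosed_pos (one_mem _) (fun _ h => h)
    (fun k => ⟨(by decide +kernel : ∀ k ∈ LU, chevD4.IsPosRoot k) k,
      fun hk => (by decide +kernel : ∀ k < 24, chevD4.IsPosRoot k → k ∈ LU) k hk.1 hk⟩) (by decide) hu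
  have hb := nb_mem hφ
  have hn := NRep.nWd (D := chevD4) (xd K) lb
  have hd' := st.NN_conj_HH hn.mem_NN hd
  have h1 := fix_mem h hφ (r := 1) (by simp) (one_pow q)
  obtain ⟨c, hc⟩ := conj_H hd
  obtain ⟨c', hc'⟩ := conj_H hd'
  have e1 : f 14 = 0 := by
    have := hD _ hb
    rw [show ∀ y, nb K * (d * y) * (nb K)⁻¹ = nb K * d * (nb K)⁻¹ * (nb K * y * (nb K)⁻¹) from fun y => by group,
      en_H hd', tB] at this
    exact neg_eq_zero.1 this
  obtain ⟨e2, e3, e4⟩ : f 18 = 0 ∧ f 13 = 0 ∧ f 12 = 0 := by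
    have := hD _ h1
    rw [← mul_assoc, hc, mul_assoc, mul_assoc, en_H hd, ← mul_assoc, tA] at this
    exact co3 h (by omega) (LU.map fun r => (r, f r)) (by simp only [List.map_map, Function.comp_def]; decide +kernel)
      (by simpa [oprod, Function.comp_def] using hS) (by simp [LU]) (by simp [LU]) (by simp [LU]) (neg_eq_zero.1 this)
  obtain ⟨e5, e6, e7⟩ : f 19 = 0 ∧ f 16 = 0 ∧ f 15 = 0 := by
    have := hD _ (mul_mem h1 hb)
    rw [show ∀ y, xd K 1 1 * nb K * (d * y) * (xd K 1 1 * nb K)⁻¹ =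
      xd K 1 1 * (nb K * d * (nb K)⁻¹) * ((nb K * y * (nb K)⁻¹) * (xd K 1 1)⁻¹) from fun y => by group,
      hc', mul_assoc, en_H hd', ← mul_assoc, tC _ _ (by simp [e1, e2, e3, e4])] at this
    obtain ⟨m, hm, ha⟩ := hn.acts st
    obtain ⟨w1, w2, w3, w4, w5, w6, w7, w8⟩ := (by decide +kernel : wordW chevD4 lb 19 = 18 ∧ wordW chevD4 lb 16 = 13 ∧
      wordW chevD4 lb 15 = 12 ∧ wordW chevD4 lb 21 = 21 ∧ wordW chevD4 lb 20 = 20 ∧ wordW chevD4 lb 17 = 17 ∧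
      wordW chevD4 lb 22 = 23 ∧ wordW chevD4 lb 23 = 22)
    have k := co3 h (by omega) ([19, 16, 15, 21, 20, 17, 22, 23].map fun r => (wordW chevD4 lb r, m r * f r))
      (by simp only [List.map_map, Function.comp_def]; decide +kernel) (a := m 19 * f 19) (b := m 16 * f 16) (c := m 15 * f 15) (by
        convert mul_mem (mul_mem hb hS) (inv_mem hb) using 1
        simp only [List.map, ← ha _ _, LU, oprod_cons, oprod_nil, e1, e2, e3, e4, st.zero, List.prod_cons, List.prod_nil]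
        group) (by simp [w1, w2, w3, w4, w5, w6, w7, w8]) (by simp [w1, w2, w3, w4, w5, w6, w7, w8])
      (by simp [w1, w2, w3, w4, w5, w6, w7, w8]) (by linear_combination m 19 * m 16 * m 15 * this)
    exact ⟨(mul_eq_zero.1 k.1).resolve_left (hm.ne_zero (by decide)), (mul_eq_zero.1 k.2.1).resolve_left (hm.ne_zero (by decide)),
      (mul_eq_zero.1 k.2.2).resolve_left (hm.ne_zero (by decide))⟩
  have h8 : q + q ^ 2 < q ^ 3 ∧ 2 * q ^ 2 ≤ q ^ 3 ∧ 2 * q ≤ q ^ 2 := ⟨by nlinarith, by nlinarith, by nlinarith⟩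
  refine (c 5).ne_zero (neg_eq_zero.1 (L0.AR.coef_zero [(-(c 10 : K), 2 * q), (-(c 11 : K), 2 * q ^ 2), (f 21, 1 + q),
    (f 20, 1 + q ^ 2), (-f 17, q + q ^ 2), (f 22, 1 + q + q ^ 2)] _ 2 ?_ fun t _ => ?_))
  · simp only [List.forall_mem_cons, hK, List.not_mem_nil, IsEmpty.forall_iff, implies_true, and_true]
    omega
  · have := hD _ (mul_mem hb (mem_d4b (r := 5) (s := 10) (k := 11) (by simp) t))
    rw [show ∀ a b e y, nb K * (a * (b * e)) * (d * y) * (nb K * (a * (b * e)))⁻¹ =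
      nb K * (a * (b * (e * d))) * (y * (a * (b * e))⁻¹ * (nb K)⁻¹) from fun a b e y => by group, hc, ← mul_assoc _ d, hc,
      mul_assoc d, ← mul_assoc _ d, hc, mul_assoc d,
      show ∀ y z a, nb K * (d * y) * (z * a * (nb K)⁻¹) = nb K * d * (nb K)⁻¹ * (nb K * (y * z * a) * (nb K)⁻¹) from
        fun y z a => by group, en_H hd', tD _ _ _ _ _ _ _ (by simp [e1, e2, e3, e4, e5, e6, e7])] at this
    simp only [List.map, List.sum_cons, List.sum_nil]
    rw [← pow_mul, ← pow_two] at this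
    linear_combination this

set_option synthInstance.maxSize 4000 in
theorem opp_of_max [Fintype K] (hφ : ∀ t, φ t = t ^ q) (hK : Fintype.card K = q ^ 3) (hM : MaxS (twS (xd K) (d4Words K q)))
    {a : chevD4.group K} (ha : a ∈ twS (xd K) (d4Words K q)) (h1 : a ≠ 1) :
    ∃ g ∈ twS (xd K) (d4Words K q), en (g * a * g⁻¹) ≠ 0 := by
  obtain ⟨w, n, u, hS, g, hg, hn, hu, e, h2, h3⟩ := hM a ha h1
  have hw := hn.mem_W
  have hc : Commute rhoD4 w := h.tw.commute_of_cell h.faith hn.mem_cell (h.sub.fix n (by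
    simpa [e] using mul_mem (mul_mem (mul_mem hg ha) (inv_mem hg)) (inv_mem hS)))
  have c1 : w 13 = rhoD4 (w 18) := Twist.comm_apply hc 18
  have c2 : w 12 = rhoD4 (w 13) := Twist.comm_apply hc 13
  have c3 : w 14 = rhoD4 (w 14) := Twist.comm_apply hc 14
  have hs : ∀ i : Fin chevD4.rank, chevD4.simple i ∈ [18, 14, 13, 12] := by decide
  obtain ⟨l, hl, k⟩ := (by decide +kernel : ∀ r < 24, ∀ s < 24, s = rhoD4 s → A chevD4 r s = A chevD4 18 14 →
    A chevD4 r (rhoD4 r) = A chevD4 18 13 → (chevD4.IsPosRoot r → r ∈ [18, 14, 13, 12]) →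
    (chevD4.IsPosRoot s → s ∈ [18, 14, 13, 12]) → ∃ l ∈ [[], l0, lT, l3], ∀ k ∈ [r, s, rhoD4 r, rhoD4 (rhoD4 r)],
      chevD4.IsPosRoot ((wordW chevD4 l)⁻¹ k)) (w 18) (W_lt hw (by decide)) (w 14) (W_lt hw (by decide)) c3 (A_W hw 18 14)
    (c1 ▸ A_W hw 18 13) (fun p => let ⟨j, hj⟩ := h3 (0 : Fin 4) p; (show w 18 = _ from hj) ▸ hs j)
    fun p => let ⟨j, hj⟩ := h3 (1 : Fin 4) p; (show w 14 = _ from hj) ▸ hs j
  obtain rfl : wordW chevD4 l = w := inv_mul_eq_one.1 (eq_one_of_simple_pos (mul_mem (inv_mem (wordW_mem l)) hw) fun i => by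
    rw [← c1, ← c2] at k
    refine k _ ?_
    fin_cases i
    exacts [.head _, .tail _ (.head _), .tail _ (.tail _ (.head _)), .tail _ (.tail _ (.tail _ (.head _)))])
  have hd := hn.mul_inv_mem st (NRep.nWd _ l)
  have e2 : n * u = n * (nWd chevD4 (xd K) l)⁻¹ * (nWd chevD4 (xd K) l * u) := by group
  by_contra hD
  push Not at hD
  rcases List.mem_cons.1 hl with rfl | hl
  · exact h2 rfl
  by_cases h4 : l = l3
  · subst h4
    refine case3 h hφ hK hd hu hS fun y hy => ?_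
    rw [← e2, ← e, show y * (g * a * g⁻¹) * y⁻¹ = y * g * a * (y * g)⁻¹ by group]
    exact hD _ (mul_mem hy hg)
  · have := hD g hg
    obtain ⟨f, rfl⟩ := st.exists_oprod (L := LU) isClosed_pos (one_mem _) (fun _ h => h)
      (fun k => ⟨(by decide +kernel : ∀ k ∈ LU, chevD4.IsPosRoot k) k,
        fun hk => (by decide +kernel : ∀ k < 24, chevD4.IsPosRoot k → k ∈ LU) k hk.1 hk⟩) (by decide) hu
    rw [e, e2, en_H hd, t0 f (by simpa [h4] using hl)] at this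
    simp at this

theorem nt [Fintype K] (hφ : ∀ t, φ t = t ^ q) (hK : Fintype.card K = q ^ 3) :
    NT chevD4 (xd K) (twS (xd K) (d4Words K q)) fun i => {j | j ∈ oLD4 i} := fun i j hj hne w _ _ c => by
  have hq := two_le hK
  have h2 : ∀ t : K, ((t ^ q) ^ q) ^ q = t := fun t => by
    rw [← pow_mul, ← pow_mul, ← pow_three, ← hK, FiniteField.pow_card]
  obtain ⟨t, ht⟩ := exists_pow_ne (K := K) hq (by rw [hK]; exact lt_self_pow₀ hq (by decide))
  have h3 : t ≠ (t ^ q) ^ q := fun e => ht (by rw [e, h2, ← e])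
  have h4 : t ^ q ≠ (t ^ q) ^ q := fun e => ht (by rw [e, e, h2])
  have key : ∀ s : K, ([s, 0, s ^ q, (s ^ q) ^ q].getD i 0 ≠ c * [s, 0, s ^ q, (s ^ q) ^ q].getD j 0) →
      ∃ u ∈ twS (xd K) (d4Words K q), u ∈ XJ chevD4 (xd K) {j | j ∈ oLD4 i} ∧ ∃ t t', Co chevD4 (xd K) i u t ∧
        Co chevD4 (xd K) j u t' ∧ t ≠ c * t' := fun s hs => by
    obtain ⟨h5, h6, h7⟩ := (by decide +kernel : ∀ i j : Fin chevD4.rank, j.1 ∈ oLD4 i → j ≠ i →
      (0 ∈ oLD4 i ∧ 2 ∈ oLD4 i ∧ 3 ∈ oLD4 i)) i j hj hne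
    have hX : ∀ k : Fin chevD4.rank, k.1 ∈ oLD4 i → ∀ t, xd K (chevD4.simple k) t ∈ XJ chevD4 (xd K) {j | j ∈ oLD4 i} :=
      fun k hk t => x_mem_XS (by exact ⟨simple_pos k, simple_inRootSub.2 hk⟩) t
    exact ⟨_, mem_d4b (r := 18) (s := 13) (k := 12) (by simp) s, mul_mem (hX (0 : Fin 4) h5 _) (mul_mem (hX (2 : Fin 4) h6 _)
      (hX (3 : Fin 4) h7 _)), _, _, co_d4 st _ _ _ i, co_d4 st _ _ _ j, hs⟩
  by_cases hc : c = 1
  · refine key t ?_
    revert hj hne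
    fin_cases i <;> fin_cases j <;> simp [hc, oLD4, ht, h3, h4, ht.symm, h3.symm, h4.symm]
  · refine key 1 ?_
    revert hj hne
    fin_cases i <;> fin_cases j <;> simp [oLD4, Ne.symm hc]

theorem maxS [Fintype K] (hφ : ∀ t, φ t = t ^ q) (hK : Fintype.card K = q ^ 3) : MaxS (twS (xd K) (d4Words K q)) :=
  fun a ha h1 => by
  obtain ⟨w, hm⟩ := TwD.exists_max h ⟨a, ha⟩
  obtain ⟨m, v, k, hn, hv⟩ := TwD.exists_nf h hm
  obtain ⟨g, hg⟩ := isConj_iff.1 k
  obtain ⟨i, hi⟩ := TwD.max_ne h (nt h hφ hK) hm fun e => h1 (congrArg Subtype.val e)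
  exact ⟨w, m, v, v.2, g, g.2, hn, hv, congrArg Subtype.val hg, fun e => hi (by rw [e]; rfl),
    fun j hj => ⟨j, dom_pos (TwD.dom h (nt h hφ hK) hm) hj⟩⟩

omit h

/-- Every non-trivial element of the twisted group of type `D4` has a conjugate with a non-zero corner entry. -/
theorem opp [Fintype K] (hK : Fintype.card K = q ^ 3) (a : twS (xg chevD4 K) (d4Words K q)) (ha : a ≠ 1) :
    ∃ g : twS (xg chevD4 K) (d4Words K q), en (g * a * g⁻¹ : twS (xg chevD4 K) (d4Words K q)).1 ≠ 0 := by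
  obtain ⟨φ, hφ⟩ := exists_frob hK three_ne_zero
  have h2 : ∀ t, φ (φ (φ t)) = t := fun t => by
    rw [hφ, hφ, hφ, ← pow_mul, ← pow_mul, ← pow_three, ← hK, FiniteField.pow_card]
  obtain ⟨σ, hσ⟩ := exists_twistD4 (isChev_xg (F := K)) GG_xg φ
  have h := twD_D4 isChev_xg GG_xg hφ h2 hσ
  obtain ⟨g, hg, k⟩ := opp_of_max h hφ hK (maxS h hφ hK) a.2 fun e => ha (Subtype.ext e)
  exact ⟨⟨g, hg⟩, k⟩

theorem noCP_3D4 [Fintype K] (hK : Fintype.card K = q ^ 3) (hq : 3 ≤ q) : NoCP (twistedD4 K q) := by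
  refine NoCP.congr (fun a b c k => ?_) (twEquiv (d4Words K q)).symm
  obtain ⟨φ, hφ⟩ := exists_frob hK three_ne_zero
  have h2 : ∀ t, φ (φ (φ t)) = t := fun t => by
    rw [hφ, hφ, hφ, ← pow_mul, ← pow_mul, ← pow_three, ← hK, FiniteField.pow_card]
  obtain ⟨σ, hσ⟩ := exists_twistD4 (isChev_xg (F := K)) GG_xg φ
  have h := twD_D4 isChev_xg GG_xg hφ h2 hσ
  obtain ⟨g, hg⟩ := opp hK a k.ha
  obtain ⟨g', hg'⟩ := opp hK b k.hb
  obtain ⟨u, hu, h0, h1⟩ : ∃ u : K, u ^ q = u ∧ u ≠ 0 ∧ u ≠ 1 := by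
    classical
    obtain ⟨⟨u, hu⟩, h1⟩ := AG.exists_notMem (K := φ.eqLocusField (RingHom.id K)) [0, 1] (by
      rw [← Nat.card_eq_fintype_card, Nat.card_congr (Equiv.subtypeEquivRight (q := fun t => t ^ q = t) fun t => by
        rw [← hφ]; rfl), card_fixed hK three_ne_zero]; exact hq)
    simp only [List.mem_cons, List.not_mem_nil, or_false, not_or, Subtype.ext_iff] at h1
    exact ⟨u, hφ u ▸ hu, h1⟩
  exact la2D4.ext (ρ := ((Units.coeHom _).comp (chevD4.group K).subtype).comp (Subgroup.subtype _)) h0 h1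
    (fun r hr => ⟨⟨⟨_, fix_mem h hφ (r := r) (by revert r; decide) (one_pow q)⟩, rfl⟩,
      ⟨_, fix_mem h hφ (r := r) (by revert r; decide) hu⟩, rfl⟩)
    ((k.congr (isConj_conj g a) (isConj_conj g' b)).trace _) hg hg'

theorem good_G2 {F : Type*} [Field F] [Fintype F] (p : ℕ) [Fact p.Prime] [CharP F p] (hq : 3 ≤ Fintype.card F) :
    Good p (chevG2.group F) := by
  refine AG.good_of_max (fun a ha => ?_) p hq
  have h := twD_un chevG2 _ (isChev_xg (F := F)) GG_xg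
  have hnt : NT chevG2 (xg chevG2 F) ⊤ fun i => {i.1} := fun i j hj hne => (hne (Fin.ext hj)).elim
  obtain ⟨w, hm⟩ := TwD.exists_max h ⟨a, trivial⟩
  obtain ⟨m, v, k, hn, hv⟩ := TwD.exists_nf h hm
  obtain ⟨i, hi⟩ := TwD.max_ne h hnt hm fun e => ha (congrArg Subtype.val e)
  exact ⟨w, m, v, hn, hv, (Subgroup.subtype ⊤).map_isConj k, fun e => hi (by rw [e]; rfl),
    fun j hj => dom_pos (TwD.dom h hnt hm) hj⟩

theorem good_3D4 [Fintype K] (p : ℕ) (hK : Fintype.card K = q ^ 3) (hq : 3 ≤ q) : Good p (twistedD4 K q) :=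
  (noCP_3D4 hK hq).good p

end Cfsg.Agent.H7.AD
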