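import Cfsg.Agent.H7.AG5
import Cfsg.Agent.H3.AT7

/-! The data for the twisted group of type `D4` over the field with eight elements. -/

set_option autoImplicit false
set_option linter.unusedSectionVars false
set_option maxRecDepth 100000

namespace Cfsg.Agent.H7.AD

open Matrix Cfsg.Lie Cfsg.Agent.H8 Cfsg.Agent.H9.AH Cfsg.Agent.H3.AT

variable {K : Type} [Field K] [Fintype K] [CharP K 2] [Finite (chevD4.group K)]

theorem sum_pow8 (hK : Fintype.card K = 2 ^ 3) (n : ℕ) : ∑ t : K, t ^ n = if n ≠ 0 ∧ 7 ∣ n then 1 else 0 := by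
  classical
  by_cases hn : n = 0
  · simpa [hn, hK] using (CharP.cast_eq_zero_iff K 2 8).2 (by decide)
  have h1 := FiniteField.sum_pow_units K n
  rw [hK, CharTwo.neg_eq] at h1
  rw [← Finset.sum_erase (a := 0) _ (by simp [hn]), ← Finset.sum_subtype_of_mem (p := fun t : K => t ≠ 0) _
    fun t ht => (Finset.mem_erase.1 ht).1]
  simp only [hn, ne_eq, not_false_eq_true, true_and]
  refine Eq.trans ?_ h1
  exact Finset.sum_bij (fun a _ => Units.mk0 a.1 a.2) (fun _ _ => Finset.mem_univ _)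
    (fun a _ b _ e => Subtype.ext (congrArg Units.val e)) (fun a _ => ⟨⟨a, a.ne_zero⟩, by simp, by simp⟩) fun _ _ => rfl

/-- The orbits of the symmetry on the roots. -/
def TR : List (ℕ × ℕ × ℕ) := [(18, 13, 12), (13, 12, 18), (12, 18, 13), (5, 10, 11), (10, 11, 5), (11, 5, 10), (17, 20, 21),
  (20, 21, 17), (19, 16, 15), (16, 15, 19)]

/-- The short root elements. -/
def zz (a : ℕ × ℕ × ℕ) (t : K) : chevD4.group K := xd K a.1 t * (xd K a.2.1 (t ^ 2) * xd K a.2.2 (t ^ 4))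

theorem x_lv {r : ℕ} (hr : r < chevD4.nroots) (e : A chevD4 23 r = 0) (t : K) {v : chevD4.Idx → K}
    (hv : v ∈ Lv K (lv chevD4 23) 1) : ac chevD4 K (xd K r t) v = v + t • ad chevD4 K r v := by
  rw [x_eq hr, kap_Lv hv (e_Lv hr e) (by omega), mul_zero, zero_smul, add_zero]

theorem ad_lv {r : ℕ} (hr : r < chevD4.nroots) (e : A chevD4 23 r = 0) {v : chevD4.Idx → K}
    (hv : v ∈ Lv K (lv chevD4 23) 1) : ad chevD4 K r v ∈ Lv K (lv chevD4 23) 1 := by
  simpa [lv_wt, e] using ad_Lv hr hv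

theorem zz_lv {a b c : ℕ} (ha : a < chevD4.nroots) (hb : b < chevD4.nroots) (hc : c < chevD4.nroots) (ea : A chevD4 23 a = 0)
    (eb : A chevD4 23 b = 0) (ec : A chevD4 23 c = 0) (t : K) {v : chevD4.Idx → K} (hv : v ∈ Lv K (lv chevD4 23) 1) :
    ac chevD4 K (zz (a, b, c) t) v = t ^ 0 • v + t ^ 1 • ad chevD4 K a v + t ^ 2 • ad chevD4 K b v + t ^ 4 • ad chevD4 K c v +
      t ^ 3 • ad chevD4 K a (ad chevD4 K b v) + t ^ 5 • ad chevD4 K a (ad chevD4 K c v) +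
      t ^ 6 • ad chevD4 K b (ad chevD4 K c v) + t ^ 7 • ad chevD4 K a (ad chevD4 K b (ad chevD4 K c v)) := by
  simp only [zz, ac_mul, x_lv hc ec _ hv, map_add, map_smul, x_lv hb eb _ hv, x_lv hb eb _ (ad_lv hc ec hv), x_lv ha ea _ hv,
    x_lv ha ea _ (ad_lv hc ec hv), x_lv ha ea _ (ad_lv hb eb hv), x_lv ha ea _ (ad_lv hb eb (ad_lv hc ec hv))]
  module

variable {σ : chevD4.group K →* chevD4.group K}

theorem sit {φ : K →+* K} (hφ : ∀ t, φ t = t ^ 2)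
    (h : TwD chevD4 (xd K) σ rhoD4 pfD4 (twF triD4 φ) (twS (xd K) (d4Words K 2)) (fun i => {j | j ∈ oLD4 i}) (fun _ => 2)
      (zD4 (xd K) 2)) : Sit (twS (xd K) (d4Words K 2)) σ rhoD4 23 22 where
  fix := h.sub.fix
  map r t := by
    rw [h.tw.map]
    by_cases hr : r < 24
    · obtain ⟨h1, h2⟩ := (by decide +kernel : ∀ r < 24, (twT triD4 r).2.1 = 1 ∧ ((twT triD4 r).2.2 = 1 ∨ (twT triD4 r).2.2 = -1)) r hr
      rcases h2 with h2 | h2 <;> simp [twF, h1, h2, hφ, CharTwo.neg_eq]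
    · exact (AD.st.out _ (not_lt.1 fun e => hr ((h.tw.lt r).1 e)) _).trans (AD.st.out _ (not_lt.1 fun e => hr ((h.tw.lt r).1 e)) _).symm
  lt := h.tw.lt
  pos := h.tw.pos
  neg := h.tw.neg
  memU g := h.sub.mem_of_UU h.tw h.faith
  memV g := h.sub.mem_of_VV h.tw h.faith
  bru g hg := by
    obtain ⟨w, -, -, u, hu, n, hn, hw, u', hu', e⟩ := h.sub.bruhat h.tw h.faith hg
    exact ⟨w, u, hu, n, hn, hw, u', ⟨hu'.1, Um_le_UU _ _ hu'.2⟩, e⟩
  hθ := by decide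
  θfix := by decide +kernel
  lev := by decide +kernel
  dom r hr := (by decide +kernel : ∀ r < 24, chevD4.IsPosRoot r → 0 ≤ A chevD4 23 r) r hr.1 hr
  zero := by decide +kernel
  hα := by decide
  αlev := by decide +kernel
  αfix := by decide +kernel
  αdom r hr := (by decide +kernel : ∀ r < 24, chevD4.IsPosRoot r → A chevD4 23 r = 0 → 0 ≤ A chevD4 22 r) r hr.1 hr
  chain := by decide +kernel
  nb := by decide +kernel

variable {S : Subgroup (chevD4.group K)} (hK : Fintype.card K = 2 ^ 3) (h : Sit S σ rhoD4 23 22)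
include hK h

set_option synthInstance.maxSize 2000 in
theorem zz_mem {a : ℕ × ℕ × ℕ} (ha : a ∈ TR) (t : K) : zz a t ∈ S := by
  obtain ⟨h1, h2, h3, h4, h5, h6, h7, h8⟩ := (by decide +kernel : ∀ a ∈ TR, rhoD4 a.1 = a.2.1 ∧ rhoD4 a.2.1 = a.2.2 ∧
    rhoD4 a.2.2 = a.1 ∧ chevD4.commTerms a.1 a.2.1 = [] ∧ a.2.1 ≠ chevD4.neg a.1 ∧ chevD4.commTerms a.1 a.2.2 = [] ∧
    a.2.2 ≠ chevD4.neg a.1 ∧ ((chevD4.IsPosRoot a.1 ∧ chevD4.IsPosRoot a.2.1 ∧ chevD4.IsPosRoot a.2.2) ∨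
      (chevD4.IsNegRoot a.1 ∧ chevD4.IsNegRoot a.2.1 ∧ chevD4.IsNegRoot a.2.2))) a ha
  have e : σ (zz a t) = zz a t := by
    rw [zz, map_mul, map_mul, h.map, h.map, h.map, h1, h2, h3, ← pow_mul, ← pow_mul, show 4 * 2 = 2 ^ 3 from rfl, ← hK,
      FiniteField.pow_card, ((AD.st.commute h5 h4 _ _).mul_right (AD.st.commute h7 h6 _ _)).eq, mul_assoc]
  exact h8.elim (fun k => h.memU _ (mul_mem (x_mem_UU _ k.1 _) (mul_mem (x_mem_UU _ k.2.1 _) (x_mem_UU _ k.2.2 _))) e)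
    fun k => h.memV _ (mul_mem (x_mem_VV _ k.1 _) (mul_mem (x_mem_VV _ k.2.1 _) (x_mem_VV _ k.2.2 _))) e

theorem zz_LL {a b c : ℕ} (ht : (a, b, c) ∈ TR) (ha : a < chevD4.nroots) (hb : b < chevD4.nroots) (hc : c < chevD4.nroots)
    (ea : A chevD4 23 a = 0) (eb : A chevD4 23 b = 0) (ec : A chevD4 23 c = 0) (t : K) : zz (a, b, c) t ∈ S ⊓ LL chevD4 K 23 :=
  ⟨zz_mem hK h ht t, mul_mem (x_LL h.hθ ha ea _) (mul_mem (x_LL h.hθ hb eb _) (x_LL h.hθ hc ec _))⟩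

theorem adInv : AdInv 23 S := fun η hη e v hv Y hY => by
  obtain ⟨⟨a, b, c⟩, ht, rfl, hb, hc, eb, ec⟩ := (by decide +kernel : ∀ η < 24, A chevD4 23 η = 0 → ∃ a ∈ TR, η = a.1 ∧ a.2.1 < 24 ∧
    a.2.2 < 24 ∧ A chevD4 23 a.2.1 = 0 ∧ A chevD4 23 a.2.2 = 0) η hη e
  have := Y.sum_mem (t := Finset.univ) fun (t : K) _ => Y.smul_mem (t ^ 6) (hY _ (zz_LL hK h ht hη hb hc e eb ec t))
  simp only [zz_lv hη hb hc e eb ec _ hv, smul_add, smul_smul, ← pow_add, Finset.sum_add_distrib, ← Finset.sum_smul,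
    sum_pow8 hK] at this
  simpa using this

theorem fam {a : ℕ} (ha : a ∈ [17, 19, 20, 16]) : Fam 23 S a := by
  obtain ⟨⟨a, b, c⟩, ht, rfl, h1, h2, h3, e1, e2, e3⟩ := (by decide +kernel : ∀ a ∈ [17, 19, 20, 16], ∃ b ∈ TR, a = b.1 ∧ b.1 < 24 ∧
    b.2.1 < 24 ∧ b.2.2 < 24 ∧ A chevD4 23 b.1 = 1 ∧ A chevD4 23 b.2.1 = 1 ∧ A chevD4 23 b.2.2 = 1) a ha
  refine ⟨K, Finset.univ, fun t => t ^ 6, zz (a, b, c), fun t => t • ad chevD4 K a + (t ^ 2 • ad chevD4 K b + t ^ 4 • ad chevD4 K c),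
    fun t => ⟨zz_mem hK h ht t, (Ld.x h1 e1 _).mul ((Ld.x h2 e2 _).mul (Ld.x h3 e3 _)), ?_⟩, by simp [sum_pow8 hK], ?_⟩
  · have := ((Ld.x h3 e3 (t ^ 4)).mul (Ld.x h2 e2 (t ^ 2))).mul (Ld.x h1 e1 t)
    rw [add_comm, add_comm (t ^ 4 • _)] at this
    simpa only [zz, _root_.mul_inv_rev, x_inv] using this
  · simp only [smul_add, smul_smul, ← pow_add, ← pow_succ, Finset.sum_add_distrib, ← Finset.sum_smul, sum_pow8 hK]
    simp

theorem no_t3 (l : chevD4.group K) : ¬ T3 23 S l := fun hl => by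
  have h5 : refl chevD4 23 22 = 9 :=
    wt_inj (refl_lt _ (by decide)) (by decide) (by rw [wt_refl_one h.αlev]; decide +kernel)
  refine h.not_t3 (adInv hK h) (by rw [h5]; decide +kernel) Finset.univ (by rw [Finset.card_univ, hK]; decide) (zz (5, 10, 11))
    (zz_LL hK h (by decide) (by decide) (by decide) (by decide) (by decide +kernel) (by decide +kernel) (by decide +kernel)) ?_ hl
  simp only [zz_lv (a := 5) (b := 10) (c := 11) (by decide) (by decide) (by decide) (by decide +kernel) (by decide +kernel)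
    (by decide +kernel) _ h.eα, Finset.sum_add_distrib, ← Finset.sum_smul, sum_pow8 hK]
  rw [ad_sum (r := 11) (s := 22) (k := 21) (by decide) (by decide) (by decide) (by decide +kernel),
    ad_sum (r := 10) (s := 21) (k := 19) (by decide) (by decide) (by decide) (by decide +kernel),
    ad_sum (r := 5) (s := 19) (k := 14) (by decide) (by decide) (by decide) (by decide +kernel),
    h5, show chevD4.neg 9 = 14 from rfl]
  simp

omit h in
theorem opp' : Opp' 23 (twS (xd K) (d4Words K 2)) := fun a ha => by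
  obtain ⟨g, hg⟩ := opp hK a ha
  exact ⟨_, isConj_conj g a, by rw [kap_mat (by decide)]; exact hg⟩

omit hK h in
theorem xD : XD chevD4 23 22 17 19 20 16 := by constructor <;> decide +kernel

omit h in
theorem exists_sit : ∃ σ, Sit (twS (xd K) (d4Words K 2)) σ rhoD4 23 22 := by
  obtain ⟨φ, hφ⟩ := exists_frob hK three_ne_zero
  have h2 : ∀ t, φ (φ (φ t)) = t := fun t => by
    rw [hφ, hφ, hφ, ← pow_mul, ← pow_mul, ← pow_three, ← hK, FiniteField.pow_card]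
  obtain ⟨σ, hσ⟩ := exists_twistD4 (isChev_xg (F := K)) GG_xg φ
  exact ⟨σ, sit hφ (twD_D4 isChev_xg GG_xg hφ h2 hσ)⟩

omit h in
theorem noCP_two_of (hT : ∀ (S : Subgroup (chevD4.group K)) σ, Sit S σ rhoD4 23 22 → AdInv 23 S → XD chevD4 23 22 17 19 20 16 →
    Fam 23 S 17 → Fam 23 S 19 → Fam 23 S 20 → Fam 23 S 16 → Opp' 23 S → (∀ l, ¬ T3 23 S l) → NoCP S) :
    NoCP (twistedD4 K 2) := by
  obtain ⟨σ, h⟩ := exists_sit hK
  exact (hT _ σ h (adInv hK h) xD (fam hK h (by simp)) (fam hK h (by simp)) (fam hK h (by simp)) (fam hK h (by simp))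
    (opp' hK) (no_t3 hK h)).congr (twEquiv (d4Words K 2)).symm

end Cfsg.Agent.H7.AD
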