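import Cfsg.Agent.H7.AG6
import Cfsg.Agent.H3.AT9

/-! Products of two classes in the twisted groups of type `D4`. -/

set_option autoImplicit false

namespace Cfsg.Agent.H7.AD

open Cfsg.Lie Cfsg.Agent.H8 Cfsg.Agent.H9.AH

theorem noCP_3D4_all {K : Type} [Field K] [Fintype K] {q : ℕ} (hK : Fintype.card K = q ^ 3) : NoCP (twistedD4 K q) := by
  obtain hq | rfl := (two_le hK).lt_or_eq
  · exact noCP_3D4 hK hq
  obtain ⟨p, _, n, hp, hn⟩ := FiniteField.card' K
  obtain rfl : p = 2 := (Nat.prime_dvd_prime_iff_eq hp Nat.prime_two).1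
    (hp.dvd_of_dvd_pow (hK ▸ hn ▸ dvd_pow_self p n.ne_zero : p ∣ 2 ^ 3))
  have := (isChev_xg (D := chevD4) (F := K)).finite_G GG_xg
  exact noCP_two_of hK fun S σ h hi hx a a' b b' ho hno => h.noCP hi hx a a' b b' ho hno

theorem good_3D4_all {K : Type} [Field K] [Fintype K] {q : ℕ} (p : ℕ) (hK : Fintype.card K = q ^ 3) : Good p (twistedD4 K q) :=
  (noCP_3D4_all hK).good p

end Cfsg.Agent.H7.AD
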