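import Cfsg.Agent.H7.StSS
import Cfsg.Agent.H7.Dynkin
import Cfsg.Agent.H8.InvN
import Cfsg.Agent.H8.Torus

/-! Gauss decomposition with prescribed semisimple part. -/

set_option autoImplicit false
set_option linter.unusedSectionVars false

namespace Cfsg.Agent.H7

open Cfsg.Lie Cfsg.Agent.H8

variable {D : ChevalleyDatum} {K : Type*} [Field K] {G : Type*} [Group G] [hD : RootFacts D] [hN : NFacts D]
  {x : ℕ → K → G} {g h n : G} {w : Equiv.Perm ℕ}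

theorem IsChev.eq_one_of_core (hx : IsChev D x) (H : ∀ y, y * g * y⁻¹ ∈ BB D x) : g = 1 := by
  have hs := hx.toIsSt
  obtain ⟨n, hn⟩ := NRep.exists_rep x (w0_mem (D := D))
  have h0 : g ∈ BB D x := by simpa using H 1
  have h1 : g ∈ HH D x := hx.mem_HH_of_BB h0 (by
    obtain ⟨u, hu, t, ht, e⟩ := hs.mem_BB.1 (H n⁻¹)
    have := mul_mem (Subgroup.mem_sup_left (T := HH D x) (IsFaith.conj_UU_mem_VV hs hn hu))
      (Subgroup.mem_sup_right (hs.NN_conj_HH hn.mem_NN ht))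
    rw [conj_mul, ← e] at this
    simpa [mul_assoc] using this)
  obtain ⟨a, ha⟩ := hs.acts_of_mem_HH h1
  have h2 : ∀ r, D.IsNegRoot r → torChar a (wt D r) = 1 := fun r hr => by
    have h3 := mul_mem h0 (inv_mem (H (x r 1)))
    rw [mul_inv_rev, mul_inv_rev, inv_inv, ← mul_assoc, ← mul_assoc, ha, ← hs.neg, Equiv.Perm.one_apply, ← hs.add] at h3
    exact Units.ext (by
      rw [Units.val_one]; linear_combination hx.eq_zero_of_x hr.1 (hx.eq_one_of_VV_BB (x_mem_VV x hr _) h3))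
  refine hx.HH_ext h1 (one_mem _) ha (Acts.one x) fun s hs => ?_
  rcases pos_or_neg hs with h3 | h3
  · simpa [wt_neg hs, torChar_neg] using h2 _ ((neg_neg_iff hs).2 h3)
  · simp [h2 s h3]

theorem IsChev.exists_full [DiagFacts D] (hx : IsChev D x) (hG : GG x = ⊤) (hg : g ≠ 1) :
    ∃ y w, y * g * y⁻¹ ∈ Cell D x w ∧ ∀ J, w ∈ WJ D J → ∀ i : Fin D.rank, i.1 ∈ J := by
  have hs := hx.toIsSt
  have h0 : ∀ y, ∃ w ∈ W D, y * g * y⁻¹ ∈ Cell D x w := fun y => hs.exists_cell (hG ▸ Subgroup.mem_top _)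
  obtain ⟨w, ⟨y, hy⟩, hm⟩ := exists_max_len (D := D) (P := fun w => ∃ y, y * g * y⁻¹ ∈ Cell D x w)
    (let ⟨w, _, h⟩ := h0 1; ⟨w, 1, h⟩)
  have hw := Cell.mem_W hy
  refine ⟨y, w, hy, fun J hJ i => by_contra fun hi => hg (hx.eq_one_of_core fun z => ?_)⟩
  have h1 := conn (fun i => w ∈ WJ D {j | j ≠ i.1}) (fun i j hij hc h => ?_) (i := i)
    (WJ_mono (J' := {j | j ≠ i.1}) (fun j hj (e : j.1 = i.1) => hi (by rwa [← e])) hJ)
  · obtain rfl : w = 1 := by_contra fun h => by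
      obtain ⟨k, hk⟩ := exists_simple_neg hw h
      exact simple_inRootSub.1 (WJ_inv_pos (h1 k) (simple_pos k) hk) rfl
    obtain ⟨v, hv, h⟩ := h0 z
    obtain rfl := eq_one_of_len hv (Nat.le_zero.1 (len_one (D := D) ▸ hm v ⟨z, h⟩))
    exact hs.mem_cell_one.1 h
  have h2 : ¬ D.InRootSub {j | j ≠ i.1} (D.simple i) := fun e => simple_inRootSub.1 e rfl
  have h3 := WJ_pos (inv_mem h) (simple_pos i) h2
  have h4 : w (D.simple i) = D.simple i := by_contra fun e => by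
    have h4 := sref_pos (WJ_pos h (simple_pos i) h2) e
    have h5 := hs.cell_mul_sref_of_pos (hs.sref_mul_cell_of_pos (NRep.simple x i) hy h3)
      (sref_inv (D := D) i ▸ ((NRep.simple x i).inv hs).mem_cell) h4
    have h6 := hm (sref D i * w * sref D i) ⟨nE D x (D.simple i) 1 * y, by simpa [mul_assoc] using h5⟩
    rw [len_mul_sref_of_pos (mul_mem (sref_mem i) hw) h4, len_sref_mul_of_pos hw h3] at h6
    omega
  have h5 : Red D {j | j ≠ i.1} (sref D i) := fun k hk => sref_pos (simple_pos k) fun e => hk (congrArg _ (simple_inj e))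
  refine WJ_mono ?_ (kilmoyer (sref_mem i) (sref_inv (D := D) i ▸ h5) h5 h (by
    rwa [← mul_inv_eq_iff_eq_mul.1 (conj_sref hw h4), sref_inv, mul_assoc, sref_mul_self, mul_one]))
  rintro k ⟨-, l, hl, e⟩ h6
  obtain rfl : k = j := Fin.ext h6
  have h7 := congrFun (cor_reflectRoot i (D.simple k)) i
  rw [← sref_apply, e, hD.cor_simple, hD.cor_simple, A_simple] at h7
  exact hc (by simpa [wt, hij, show i ≠ l from fun e => hl (congrArg _ e.symm)] using h7)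

theorem IsChev.exists_VV (hx : IsChev D x) (hw : w ∈ W D) : ∃ J, w ∈ WJ D J ∧ ∃ n, NRep D x n w ∧
    ∀ a : Fin D.rank → Kˣ, (∀ i : Fin D.rank, i.1 ∉ J → a i = 1) → ∃ u ∈ UU D x, ∃ u' ∈ UU D x,
      u * (hProd D x a * n) * u' ∈ VV D x := by
  have hs := hx.toIsSt
  have h3 := hx.R3
  refine len_induction (P := fun w => ∃ J, w ∈ WJ D J ∧ ∃ n, NRep D x n w ∧ ∀ a : Fin D.rank → Kˣ,
    (∀ i : Fin D.rank, i.1 ∉ J → a i = 1) → ∃ u ∈ UU D x, ∃ u' ∈ UU D x, u * (hProd D x a * n) * u' ∈ VV D x)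
    ⟨∅, one_mem _, 1, NRep.one, fun a ha => ⟨1, one_mem _, 1, one_mem _, by
      simp [show a = 1 from funext fun i => ha i id, hProd_one hs h3]⟩⟩ ?_ hw
  rintro w hw i hi ⟨J, hJ, n, hn, ih⟩
  refine ⟨insert i.1 J, mul_mem (WJ_mono (fun _ => .inr) hJ) (sref_mem_WJ (.inl rfl)), _, hn.mul hs (NRep.simple x i),
    fun a ha => ?_⟩
  obtain ⟨u, hu, u', hu', h1⟩ := ih (a * (fun k => a i ^ cor D (w (D.simple i)) k)⁻¹) fun k hk => by
    by_cases e : k = i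
    · simp [e, cor_WJ hJ _ (e ▸ hk), hD.cor_simple]
    · simp [e, cor_WJ hJ _ hk, hD.cor_simple, ha k (by simp [hk, Fin.ext_iff.not.1 e])]
  obtain ⟨c, hc, h2⟩ := hn.acts hs
  have h4 := hs.acts_conj_hE h3 hw h2 hc (simple_lt i) (a i).ne_zero
  rw [hs.hE_eq_hProdHom h3 (W_lt hw (simple_lt i)), hs.hProdHom_eq] at h4
  obtain ⟨b, hb, t, h5⟩ := hs.UU_split' i (mul_mem hu' (x_mem_UU x (simple_pos i) (-(a i : K))))
  have h6 := (NRep.nE hs (simple_lt i) (a i).ne_zero).conj_XS' hs (T := {r | D.IsPosRoot r}) (fun r hr => by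
    rw [refl_inv, refl_simple]; exact sref_pos hr.1 hr.2) hb
  have h7 : ∀ y ∈ UU D x, ∀ z ∈ HH D x, z * y * z⁻¹ ∈ UU D x := fun y hy z hz => hs.HH_conj_XS hz hy
  refine ⟨_, mul_mem hu (h7 _ (h2 _ t ▸ x_mem_UU x hi _) _ (hProd_mem_HH x (a * (fun k => a i ^ cor D (w (D.simple i)) k)⁻¹))),
    _, mul_mem h6 (x_mem_UU x (simple_pos i) (-(a i : K))), ?_⟩
  convert mul_mem h1 (x_mem_VV x (neg_simple_neg i) (-(a i : K)⁻¹)) using 1
  have h8 : x (D.neg (D.simple i)) (-(a i : K)⁻¹) =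
      x (D.simple i) (-(a i : K)) * nE D x (D.simple i) (a i) * x (D.simple i) (-(a i : K)) := by
    simp [nE, hs.neg, mul_assoc]
  have h9 : hProd D x a = hProd D x (a * (fun k => a i ^ cor D (w (D.simple i)) k)⁻¹) *
      (n * hE D x (D.simple i) (a i) * n⁻¹) := by rw [h4, ← hProd_mul hs h3, inv_mul_cancel_right]
  rw [h8, h9, hE, hs.nE_neg]
  have h10 := congrArg (fun y => y * nE D x (D.simple i) (a i) * x (D.simple i) (-(a i : K))) h5
  simp only [mul_assoc] at h10 ⊢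
  simp [h10]

/-- Ellers–Gordeev: a non-trivial element is conjugate to `u h v` for any prescribed `h ∈ H`. -/
theorem IsChev.exists_gauss [DiagFacts D] (hx : IsChev D x) (hG : GG x = ⊤) (hg : g ≠ 1) (hh : h ∈ HH D x) :
    ∃ y, ∃ u ∈ UU D x, ∃ v ∈ VV D x, y * g * y⁻¹ = u * h * v := by
  have hs := hx.toIsSt
  obtain ⟨y, w, hy, hf⟩ := hx.exists_full hG hg
  obtain ⟨J, hJ, n, hn, H⟩ := hx.exists_VV (Cell.mem_W hy)
  obtain ⟨u1, h1, m, hm, u2, h2, e⟩ := hs.cell_sharp hy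
  obtain ⟨a, ha⟩ := hs.exists_hProd hx.R3 (mul_mem (inv_mem hh) (hm.mul_inv_mem hs hn))
  obtain ⟨u, hu, u', hu', h3⟩ := H a fun i hi => (hi (hf J hJ i)).elim
  have h4 : u2 ∈ UU D x := XS_mono x (fun r hr => hr.1) h2
  refine ⟨u'⁻¹ * u2 * y, _, mul_mem (mul_mem (mul_mem (inv_mem hu') h4) h1) (hs.HH_conj_XS hh (inv_mem hu)), _, h3, ?_⟩
  rw [← ha, show u'⁻¹ * u2 * y * g * (u'⁻¹ * u2 * y)⁻¹ = u'⁻¹ * u2 * (y * g * y⁻¹) * (u'⁻¹ * u2)⁻¹ by group, e]
  group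

end Cfsg.Agent.H7
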