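import Cfsg.Agent.H7.OvField

/-! Overgroups of the rational points of a twisted group. -/

set_option autoImplicit false
set_option linter.unusedSectionVars false

namespace Cfsg.Agent.H7

open Cfsg.Lie Cfsg.Agent.H8 Matrix

variable {D : ChevalleyDatum} [hD : RootFacts D] [hG : DiagFacts D] {K : Type*} [Field K] {G : Type*} [Group G]
  [hN : NFacts D] {x : ℕ → K → G} {g d y z : G} {r : ℕ} {t : K}

/-- The norm for an endomorphism of order `k + 2`. -/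
def Nm (σ : G →* G) (k : ℕ) (y : G) : G := y * (σ y * σ (σ y) ^ k)

omit hG hN in
theorem two_mul_ht {c : Fin D.rank → ℤ} (hc : ∀ i : Fin D.rank, c ⬝ᵥ wt D (D.simple i) = 2) (r : ℕ) :
    2 * ht D r = c ⬝ᵥ wt D r := by
  rw [wt_eq_rc, dotProduct_sum]
  simp only [ht, hc, Finset.mul_sum, dotProduct_smul, smul_eq_mul, mul_comm]

variable (D) in
/-- Tables for a symmetry of the root system. -/
def TabT (ρ : Equiv.Perm ℕ) (π : Fin D.rank → Fin D.rank) (O : ℕ → List ℕ) (k ts : ℕ) (c : Fin D.rank → ℤ) : Prop :=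
  (∀ i : Fin D.rank, c ⬝ᵥ wt D (D.simple i) = 2) ∧
  (∀ r < D.nroots, c ⬝ᵥ wt D (ρ r) = c ⬝ᵥ wt D r ∧ (∀ i, cor D (ρ r) (π i) = cor D r i) ∧
    (ρ r ≠ r → ρ r ≠ D.neg r ∧ D.commTerms r (ρ r) = []) ∧
    (c ⬝ᵥ wt D r = c ⬝ᵥ wt D ts → r = ts ∨ r = ρ ts ∨ r = ρ (ρ ts)) ∧ (c ⬝ᵥ wt D ts < c ⬝ᵥ wt D r → ρ r = r)) ∧
  (∀ i : Fin D.rank, (π i).1 ∈ O i ∧ (π (π i)).1 ∈ O i ∧ ∀ j : Fin D.rank, j.1 ∈ O i →
    D.IsNegRoot ((if π i = i then sref D i else sref D i * (sref D (π i) * sref D (π (π i)) ^ k)) (D.simple j))) ∧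
  ρ (D.nroots - 1) = D.nroots - 1 ∧ D.IsPosRoot ts ∧ ρ ts ≠ ts ∧ A D (D.nroots - 1) ts = 1 ∧
  ∃ i, π i = i ∧ D.reflectRoot i 0 ≠ 0

set_option synthInstance.maxSize 2000 in
instance decTabT (ρ : Equiv.Perm ℕ) (π : Fin D.rank → Fin D.rank) (O : ℕ → List ℕ) (k ts : ℕ) (c : Fin D.rank → ℤ) :
    Decidable (TabT D ρ π O k ts c) := by unfold TabT; infer_instance

variable (D) in
/-- A subgroup of the twisted group containing the rational points. -/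
structure OvT (x : ℕ → K → G) (σ φ : G →* G) (ρ : Equiv.Perm ℕ) (π : Fin D.rank → Fin D.rank) (e : ℕ → K → K)
    (f : K →+* K) (S H : Subgroup G) (O : ℕ → List ℕ) (k ts : ℕ) (c : Fin D.rank → ℤ) : Prop where
  chev : IsChev D x
  top : GG x = ⊤
  tw : Twist D x σ ρ π e
  sub : TwSub D x σ π S fun i => {j | j ∈ O i}
  frob : ∀ r t, φ (x r t) = x r (f t)
  le : H ≤ S
  mem : ∀ g ∈ S, φ g = g → g ∈ H
  ef : ∀ r t, f (e r t) = e r (f t)
  efix : ∀ r < D.nroots, ρ r = r → ∀ t, e r t = f t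
  ord : (k = 0 ∧ ∀ r t, σ (σ (x r t)) = x r t) ∨ (k = 1 ∧ ∀ r t, σ (σ (σ (x r t))) = x r t)
  tab : TabT D ρ π O k ts c
  near : Ov.Near D

namespace OvT

variable {σ φ : G →* G} {ρ : Equiv.Perm ℕ} {π : Fin D.rank → Fin D.rank} {e : ℕ → K → K} {f : K →+* K}
  {S H : Subgroup G} {O : ℕ → List ℕ} {k ts : ℕ} {c : Fin D.rank → ℤ} (h : OvT D x σ φ ρ π e f S H O k ts c)
include h

theorem st : IsSt D x := h.chev.toIsSt

theorem ord' : (k = 0 ∧ ∀ g, σ (σ g) = g) ∨ (k = 1 ∧ ∀ g, σ (σ (σ g)) = g) :=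
  h.ord.imp (And.imp_right fun h' => DFunLike.congr_fun (hom_ext_XS (φ := σ.comp σ) (ψ := MonoidHom.id G) h.top fun r _ => h' r))
    (And.imp_right fun h' => DFunLike.congr_fun (hom_ext_XS (φ := σ.comp (σ.comp σ)) (ψ := MonoidHom.id G) h.top fun r _ => h' r))

theorem map_Nm (y : G) : φ (Nm σ k y) = Nm σ k (φ y) := by
  have h1 : ∀ g, φ (σ g) = σ (φ g) := DFunLike.congr_fun (hom_ext_XS (φ := φ.comp σ) (ψ := σ.comp φ) h.top
    fun r _ t => by simp [h.tw.map, h.frob, h.ef])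
  simp [Nm, h1]

theorem fix_Nm (hy : Commute y (σ y)) : σ (Nm σ k y) = Nm σ k y := by
  obtain ⟨rfl, h1⟩ | ⟨rfl, h1⟩ := h.ord'
  · simp [Nm, h1, hy.eq]
  · have h2 := hy.map (σ.comp σ)
    simp only [MonoidHom.comp_apply, h1] at h2
    simp only [Nm, pow_one, map_mul, h1]
    rw [h2.eq, ← mul_assoc, ← hy.eq, mul_assoc]

theorem Nm_mul (h1 : Commute z (σ y)) (h2 : Commute y (σ z)) : Nm σ k (y * z) = Nm σ k y * Nm σ k z := by
  obtain ⟨rfl, h3⟩ | ⟨rfl, h3⟩ := h.ord'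
  · simp only [Nm, pow_zero, mul_one, map_mul]
    exact h1.mul_mul_mul_comm _ _
  · have h4 := h2.map (σ.comp σ)
    simp only [MonoidHom.comp_apply, h3] at h4
    simp only [Nm, pow_one, map_mul]
    rw [(h1.map σ).mul_mul_mul_comm, (h1.mul_right h4.symm).mul_mul_mul_comm]

omit h in
theorem conj_Nm (hg : σ g = g) (y : G) : g * Nm σ k y * g⁻¹ = Nm σ k (g * y * g⁻¹) := by
  simp only [Nm, map_mul, map_inv, hg, conj_pow, conj_mul]

theorem comm (hr : r < D.nroots) (h1 : ρ r ≠ r) (t u : K) : Commute (x r t) (σ (x r u)) := by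
  rw [h.tw.map]
  exact h.st.commute ((h.tab.2.1 r hr).2.2.1 h1).1 ((h.tab.2.1 r hr).2.2.1 h1).2 _ _

theorem Nm_add (hr : r < D.nroots) (h1 : ρ r ≠ r) (t u : K) : Nm σ k (x r (t + u)) = Nm σ k (x r t) * Nm σ k (x r u) := by
  rw [h.st.add, h.Nm_mul (h.comm hr h1 _ _) (h.comm hr h1 _ _)]

theorem Nm_mem (hr : r < D.nroots) (h1 : ρ r ≠ r) (t : K) :
    (x r t)⁻¹ * Nm σ k (x r t) ∈ XS x {s | s ≠ r ∧ (s = ρ r ∨ s = ρ (ρ r))} := by
  rw [Nm, inv_mul_cancel_left, h.tw.map, h.tw.map]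
  refine mul_mem (x_mem_XS (S := {s | s ≠ r ∧ (s = ρ r ∨ s = ρ (ρ r))}) ⟨h1, Or.inl rfl⟩ _) ?_
  obtain ⟨rfl, -⟩ | ⟨rfl, h2⟩ := h.ord
  · simp
  · refine pow_mem (x_mem_XS (S := {s | s ≠ r ∧ (s = ρ r ∨ s = ρ (ρ r))}) ⟨fun e => h1 ?_, Or.inr rfl⟩ _) _
    have := h2 r 1
    rw [h.tw.map, h.tw.map, h.tw.map, e] at this
    exact (h.chev.root_eq hr one_ne_zero this.symm).symm

theorem hht (r : ℕ) : ht D (ρ r) = ht D r := by
  refine mul_left_cancel₀ two_ne_zero ?_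
  rw [two_mul_ht h.tab.1, two_mul_ht h.tab.1]
  by_cases hr : r < D.nroots
  · exact (h.tab.2.1 r hr).1
  · rw [hD.wt_ge r (not_lt.1 hr), hD.wt_ge _ (not_lt.1 (mt (h.tw.lt r).1 hr))]

theorem exists_orb (hr : r < D.nroots) (h1 : f t = t) : ∃ v, σ v = v ∧ φ v = v ∧
    (x r t)⁻¹ * v ∈ XS x {s | s ≠ r ∧ (s = ρ r ∨ s = ρ (ρ r))} := by
  by_cases h2 : ρ r = r
  · exact ⟨x r t, by rw [h.tw.map, h2, h.efix r hr h2, h1], by rw [h.frob, h1], by simp⟩
  · exact ⟨_, h.fix_Nm (h.comm hr h2 t t), by rw [h.map_Nm, h.frob, h1], h.Nm_mem hr h2 t⟩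

theorem orb_UU (hr : D.IsPosRoot r) (h1 : (x r t)⁻¹ * g ∈ XS x {s | s ≠ r ∧ (s = ρ r ∨ s = ρ (ρ r))}) : g ∈ UU D x := by
  rw [← mul_mem_cancel_left (inv_mem (x_mem_UU x hr t))]
  refine XS_mono x ?_ h1
  rintro _ ⟨-, rfl | rfl⟩ <;> simpa [h.tw.pos] using hr

theorem Nm_mem_S (hr : r < D.nroots) (h1 : ρ r ≠ r) (t : K) : Nm σ k (x r t) ∈ S := by
  rcases pos_or_neg hr with h2 | h2
  · exact h.sub.mem_of_UU h.tw h.chev.toIsFaith (h.orb_UU h2 (h.Nm_mem hr h1 t)) (h.fix_Nm (h.comm hr h1 t t))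
  · have h3 := h.tw.map_VV (x_mem_VV x h2 t)
    exact h.sub.mem_of_VV h.tw h.chev.toIsFaith (mul_mem (x_mem_VV x h2 t) (mul_mem h3 (pow_mem (h.tw.map_VV h3) k)))
      (h.fix_Nm (h.comm hr h1 t t))

theorem x_mem (hr : r < D.nroots) (h1 : ρ r = r) (h2 : f t = t) : x r t ∈ H := by
  have h3 : σ (x r t) = x r t := by rw [h.tw.map, h1, h.efix r hr h1, h2]
  refine h.mem _ ?_ (by rw [h.frob, h2])
  rcases pos_or_neg hr with h4 | h4
  exacts [h.sub.mem_of_UU h.tw h.chev.toIsFaith (x_mem_UU x h4 t) h3, h.sub.mem_of_VV h.tw h.chev.toIsFaith (x_mem_VV x h4 t) h3]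

theorem nE_mem (hr : r < D.nroots) (h1 : ρ r = r) (h2 : f t = t) : nE D x r t ∈ H :=
  mul_mem (mul_mem (h.x_mem hr h1 h2) (h.x_mem (neg_lt hr) (by rw [h.tw.neg r hr, h1]) (by simp [h2]))) (h.x_mem hr h1 h2)

theorem map_nE (r : ℕ) : φ (nE D x r 1) = nE D x r 1 := by simp [nE, h.frob]

theorem rep0 (i : Fin D.rank) : ∃ n ∈ H, φ n = n ∧ NRep D x n (wJ D {j | j ∈ O i}) := by
  have hs := h.st
  obtain ⟨h1, h2, h3⟩ := h.tab.2.2.1 i
  have h4 := sref_mem_WJ (h.sub.self i)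
  rw [← eq_wJ ?_ h3]
  · split_ifs with h5
    · exact ⟨_, h.nE_mem (simple_lt i) (by rw [h.tw.simple, h5]) (map_one f), h.map_nE _, NRep.simple x i⟩
    have h6 : ρ (D.simple i) ≠ D.simple i := fun e => h5 (simple_inj ((h.tw.simple i).symm.trans e))
    have h7 : ρ (D.neg (D.simple i)) ≠ D.neg (D.simple i) := fun e => h6 (neg_inj ((h.tw.lt _).2 (simple_lt i)) (simple_lt i)
      ((h.tw.neg _ (simple_lt i)).symm.trans e))
    have h8 : ∀ t u, Commute (x (D.simple i) t) (σ (x (D.neg (D.simple i)) u)) := fun t u => by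
      rw [h.tw.map, h.tw.neg _ (simple_lt i), h.tw.simple]; exact commute_simple_neg hs (Ne.symm h5) _ _
    have h9 : ∀ t u, Commute (x (D.neg (D.simple i)) t) (σ (x (D.simple i) u)) := fun t u => by
      rw [h.tw.map, h.tw.simple]; exact (commute_simple_neg hs h5 _ _).symm
    have h10 := h.comm (simple_lt i) h6 1 1
    have h11 : φ (Nm σ k (nE D x (D.simple i) 1)) = Nm σ k (nE D x (D.simple i) 1) := by rw [h.map_Nm, h.map_nE]
    refine ⟨_, h.mem _ ?_ h11, h11, (NRep.simple x i).mul hs ((h.tw.map_simple hs i).mul hs ?_)⟩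
    · rw [nE, h.Nm_mul (by rw [map_mul]; exact h10.mul_right (h8 _ _)) (h10.mul_left (h9 _ _)), h.Nm_mul (h9 _ _) (h8 _ _)]
      exact mul_mem (mul_mem (h.Nm_mem_S (simple_lt i) h6 _) (h.Nm_mem_S (neg_lt (simple_lt i)) h7 _)) (h.Nm_mem_S (simple_lt i) h6 _)
    · obtain ⟨rfl, -⟩ | ⟨rfl, -⟩ := h.ord
      · simpa using NRep.one
      · simpa [h.tw.conj_sref h.chev.toIsFaith] using h.tw.map_NRep h.chev.toIsFaith (h.tw.map_simple hs i)
  · split_ifs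
    exacts [h4, mul_mem h4 (mul_mem (sref_mem_WJ h1) (pow_mem (sref_mem_WJ h2) k))]

theorem ov : Ov D x σ φ ρ π e f S H fun i => {j | j ∈ O i} where
  chev := h.chev
  top := h.top
  tw := h.tw
  sub := h.sub
  frob := h.frob
  le := h.le
  hht := h.hht
  hcor r i := by
    by_cases hr : r < D.nroots
    · exact (h.tab.2.1 r hr).2.1 i
    · rw [hD.cor_ge r (not_lt.1 hr), hD.cor_ge _ (not_lt.1 (mt (h.tw.lt r).1 hr))]; rfl
  memU u hu h1 := h.mem u (h.sub.mem_of_UU h.tw h.chev.toIsFaith hu h1)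
  rep w hw h1 := h.sub.induction h.tw h.chev.toIsFaith (P := fun w => ∃ n ∈ H, φ n = n ∧ NRep D x n w)
    ⟨1, one_mem _, map_one _, NRep.one⟩ (fun w _ _ i _ ⟨n, a, b, c⟩ => by
      obtain ⟨m, a', b', c'⟩ := h.rep0 i
      exact ⟨_, mul_mem a a', by rw [map_mul, b, b'], c.mul h.st c'⟩) hw h1
  orb r hr := h.exists_orb hr.1 (map_one f)
  theta := by rw [h.tw.map, h.tab.2.2.2.1, h.efix _ theta_lt h.tab.2.2.2.1, map_one]

theorem lay_map (h1 : Lay D x r g t) : Lay D x (ρ r) (σ g) (e r t) := h1.map h.tw.map h.hht ρ.injective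

theorem lay_frob (h1 : Lay D x r g t) : Lay D x r (φ g) (f t) :=
  h1.map (ρ := id) (f := fun _ => f) h.frob (fun _ => rfl) Function.injective_id

theorem e_zero (r : ℕ) (hr : r < D.nroots) : e r 0 = 0 :=
  h.chev.eq_zero_of_x ((h.tw.lt r).2 hr) (by rw [← h.tw.map, h.st.zero, map_one])

theorem lay_orb (hr : D.IsPosRoot r) (hg : σ g = g) (h1 : Lay D x r g 0) {s : ℕ} (hs : s = r ∨ s = ρ r ∨ s = ρ (ρ r)) :
    Lay D x s g 0 := by
  have h2 : ∀ r, D.IsPosRoot r → Lay D x r g 0 → Lay D x (ρ r) g 0 := fun r hr h1 => by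
    simpa [hg, h.e_zero r hr.1] using h.lay_map h1
  obtain rfl | rfl | rfl := hs
  exacts [h1, h2 r hr h1, h2 _ ((h.tw.pos r).2 hr) (h2 r hr h1)]

theorem lay_of_orb (h1 : (x r t)⁻¹ * g ∈ XS x {s | s ≠ r ∧ (s = ρ r ∨ s = ρ (ρ r))}) : Lay D x r g t :=
  XS_mono x (fun s hs => And.intro (by obtain rfl | rfl := hs.2 <;> simp [h.hht]) hs.1) h1

theorem strip {m : ℤ} (hm : 0 < m) (hg : g ∈ FH D x m) (h1 : σ g = g) (h2 : g⁻¹ * φ g ∈ FH D x (m + 1)) :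
    ∃ v ∈ H, φ v = v ∧ σ v = v ∧ v⁻¹ * g ∈ FH D x (m + 1) := by
  have hs := h.st
  have h0 : ∀ g, {s | ht D s = m ∧ ¬ Lay D x s g 0}.Finite := fun g =>
    (Set.finite_lt_nat D.nroots).subset fun s hs => (pos_of_ht (hs.1 ▸ hm)).1
  induction hn : {s | ht D s = m ∧ ¬ Lay D x s g 0}.ncard using Nat.strong_induction_on generalizing g with
  | _ n ih =>
    by_cases h3 : ∀ s, ht D s = m → Lay D x s g 0
    · exact ⟨1, one_mem _, map_one _, map_one _, by simpa using h.chev.mem_succ hm hg h3⟩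
    obtain ⟨r, rfl, h4⟩ := by simpa using h3
    have hr := pos_of_ht hm
    obtain ⟨t, h5⟩ := exists_lay hs hr hg
    obtain ⟨v, h6, h7, h8⟩ := h.exists_orb hr.1 (t := t) (by
      linear_combination ((h5.inv hs hr).mul hs hr (h.lay_frob h5)).unique h.chev.toIsFaith hr
        ((Lay.zero_iff hs).2 (FH_le_YH (lt_add_one _) h2)))
    have h9 := h.lay_of_orb h8
    suffices h10 : {s | ht D s = ht D r ∧ ¬ Lay D x s (v⁻¹ * g) 0} ⊂ {s | ht D s = ht D r ∧ ¬ Lay D x s g 0} by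
      obtain ⟨v', a, b, c, d⟩ := ih _ (hn ▸ Set.ncard_lt_ncard h10 (h0 g))
        (mul_mem (inv_mem h9.mem) hg) (by simp [h1, h6]) (by simpa [h7, mul_assoc] using h2) rfl
      exact ⟨v * v', mul_mem (h.ov.memU v (h.orb_UU hr h8) h6 h7) a, by simp [b, h7], by simp [c, h6], by simpa [mul_assoc] using d⟩
    refine ⟨fun s hs' => ⟨hs'.1, fun h10 => hs'.2 ?_⟩, fun h10 => ?_⟩
    · by_cases h11 : s = r ∨ s = ρ r ∨ s = ρ (ρ r)
      · exact h.lay_orb hr (by simp [h1, h6]) (by simpa using (h9.inv hs hr).mul hs hr h5) h11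
      · have h12 := pos_of_ht (hs'.1 ▸ hm)
        have h13 : Lay D x s v 0 := by
          rw [← mul_inv_cancel_left (x r t) v, Lay.zero_iff hs]
          refine mul_mem (x_mem_XS (S := {k | ht D s ≤ ht D k ∧ k ≠ s}) ⟨hs'.1.le, fun e => h11 (Or.inl e.symm)⟩ t)
            (XS_mono x (fun k hk => And.intro ?_ fun e : k = s => h11 (Or.inr (e ▸ hk.2))) h8)
          obtain rfl | rfl := hk.2 <;> simp [h.hht, hs'.1]
        simpa using (h13.inv hs h12).mul hs h12 h10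
    · exact (h10 ⟨rfl, h4⟩).2 (by simpa using (h9.inv hs hr).mul hs hr h5)

theorem strip' {m : ℤ} (hm : 0 < m) (hg : g ∈ UU D x) (h1 : σ g = g) (h2 : g⁻¹ * φ g ∈ FH D x m) :
    ∃ v ∈ H, φ v = v ∧ σ v = v ∧ v⁻¹ * g ∈ FH D x m := by
  induction m, (show 1 ≤ m from hm) using Int.le_induction with
  | base => exact ⟨1, one_mem _, map_one _, map_one _, by simpa [FH_one] using hg⟩
  | succ m h3 ih =>
    obtain ⟨v, a, b, c, d⟩ := ih h3 (FH_mono (by omega) h2)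
    obtain ⟨v', a', b', c', d'⟩ := h.strip h3 d (by simp [c, h1]) (by simpa [b, mul_assoc] using h2)
    exact ⟨v * v', mul_mem a a', by simp [b, b'], by simp [c, c'], by simpa [mul_assoc] using d'⟩

theorem top_layer (hg : g ∈ H) (h1 : Lay D x ts g t) : Nm σ k (x ts t) ∈ H ∧ (f t = t → φ g = g) := by
  have hs := h.st
  obtain ⟨h2, h3, -, -, h4, h5, -⟩ := h.tab
  have h6 := h.fix_Nm (h.comm h4.1 h5 t t)
  have h7 := h.lay_of_orb (h.Nm_mem h4.1 h5 t)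
  have h8 : σ ((Nm σ k (x ts t))⁻¹ * g) = (Nm σ k (x ts t))⁻¹ * g := by simp [h6, h.ov.fix hg]
  have h9 := h.chev.mem_succ (ht_pos h4) (mul_mem (inv_mem h7.mem) h1.mem) fun r hr =>
    h.lay_orb h4 h8 (by simpa using (h7.inv hs h4).mul hs h4 h1) ((h3 r (pos_of_ht (hr ▸ ht_pos h4)).1).2.2.2.1
      (by rw [← two_mul_ht h2, ← two_mul_ht h2, hr]))
  have h10 := (XS_le (H := φ.eqLocus σ)).2 (fun r hr t => by
    have h10 := (pos_of_ht ((ht_pos h4).trans (lt_add_one _) |>.trans_le hr)).1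
    have h11 := (h3 r h10).2.2.2.2 (by rw [← two_mul_ht h2, ← two_mul_ht h2]; have : ht D ts + 1 ≤ ht D r := hr; omega)
    exact (h.frob r t).trans (by rw [h.tw.map, h11, h.efix r h10 h11])) h9
  replace h10 := Eq.trans h10 h8
  refine ⟨by simpa using mul_mem hg (inv_mem (h.ov.memU _ ((hup_FH (by have := ht_pos h4; omega)).le h9) h8 h10)), fun h11 => ?_⟩
  simpa [h.map_Nm, h.frob, h11] using h10

theorem scale {a : K} (ha : f a = a) (h1 : Nm σ k (x ts t) ∈ H) : Nm σ k (x ts (a * t)) ∈ H := by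
  by_cases h2 : a = 0
  · simp [h2, h.st.zero, Nm]
  have h3 := mul_mem (h.nE_mem theta_lt h.tab.2.2.2.1 ha) (h.nE_mem theta_lt h.tab.2.2.2.1 (t := -1) (by simp))
  have := mul_mem (mul_mem h3 h1) (inv_mem h3)
  rwa [conj_Nm (h.ov.fix h3), ← hE, h.st.hE_conj theta_lt h2, h.tab.2.2.2.2.2.2.1, zpow_one] at this

theorem trans (l : List ℕ) (h1 : (∀ r < D.nroots, ρ (wordW D (fl D l) r) = wordW D (fl D l) (ρ r)) ∧ wordW D (fl D l) ts = r)
    (h2 : Nm σ k (x ts t) ∈ H) : Nm σ k (x r t) ∈ H := by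
  obtain ⟨n, h3, h4, hn⟩ := h.ov.rep _ (wordW_mem (fl D l)) (Equiv.ext fun r => by
    by_cases hr : r < D.nroots
    · exact h1.1 r hr
    · simp [W_apply_ge (wordW_mem _) (not_lt.1 hr), W_apply_ge (wordW_mem _) (not_lt.1 (mt (h.tw.lt r).1 hr))])
  obtain ⟨a, ha, h5⟩ := hn.acts h.st
  have h6 := h.tab.2.2.2.2.1.1
  have h7 := congrArg φ (h5 ts 1)
  rw [map_mul, map_mul, map_inv, h4, h.frob, h.frob, map_one, h5, mul_one] at h7
  have := mul_mem (mul_mem h3 (h.scale (a := (a ts)⁻¹) (by rw [map_inv₀, ← h.chev.x_inj (W_lt hn.mem_W h6) h7]) h2)) (inv_mem h3)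
  rwa [conj_Nm (h.ov.fix h3), h5, mul_inv_cancel_left₀ (ha.ne_zero h6), h1.2] at this

theorem fix [Finite K] (p : ℕ) [Fact p.Prime] [CharP K p] (h1 : ∀ r, D.IsPosRoot r → ht D r < ht D ts → ∀ d ∈ FH D x (ht D r),
    (∀ q ∈ UU D x, σ q = q → φ q = q → Commute q d) → Lay D x r d 0) (h2 : ∀ t, Nm σ k (x ts t) ∈ H → f t = t) (hg : g ∈ H) :
    φ g = g := by
  have hs := h.st
  have h0 := h.tab.2.2.2.2.1
  have hU := h.ov.hU_of p fun g hg hu hc => by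
    have h3 : ∀ m : ℤ, 1 ≤ m → m ≤ ht D ts → g⁻¹ * φ g ∈ FH D x m := fun m hm => by
      induction m, hm using Int.le_induction with
      | base => exact fun _ => FH_one (D := D) (x := x) ▸ mul_mem (inv_mem hu) (frob_XS h.frob hu)
      | succ m h3 ih =>
        exact fun h4 => h.chev.mem_succ h3 (ih (by omega)) fun r hr =>
          h1 r (pos_of_ht (by omega)) (by omega) _ (hr ▸ ih (by omega)) hc
    obtain ⟨v, a, b, -, d⟩ := h.strip' (ht_pos h0) hu (h.ov.fix hg) (h3 _ (ht_pos h0) le_rfl)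
    obtain ⟨t, h4⟩ := exists_lay hs h0 d
    have h5 := h.top_layer (mul_mem (inv_mem a) hg) h4
    simpa [b] using h5.2 (h2 t h5.1)
  have hB : ∀ b ∈ H, b ∈ BB D x → φ b = b := fun b hb hb' => by
    have h3 := (h.ov.cent_BB hU hb hb').1
    obtain ⟨u, hu, t, ht, rfl⟩ := hs.mem_BB.1 hb'
    have h4 := h.ov.fix_HH hu ht h3
    have h5 := h.sub.mem_of_UU h.tw h.chev.toIsFaith hu (h.tw.fix_sharp h.chev.toIsFaith hu (NRep.of_mem_HH ht) (one_mem _)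
      (by simpa using h.ov.fix hb)).1
    rw [map_mul, h4, hU u ((mul_mem_cancel_right (h.mem t ((mul_mem_cancel_left h5).1 (h.le hb)) h4)).1 hb) hu]
  obtain ⟨w, -, hw⟩ := hs.exists_cell (g := g) (h.top ▸ Subgroup.mem_top _)
  by_cases h3 : w (D.nroots - 1) = 0
  swap
  · exact h.ov.fix_of_cell hB p h.near hg hw h3
  obtain ⟨i, h4, h5⟩ := h.tab.2.2.2.2.2.2.2
  have h6 := (h.tw.simple i).trans (congrArg (D.simple ·.1) h4)
  obtain ⟨u, hu, n, hn, u', hu', rfl⟩ := hs.cell_sharp hw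
  obtain ⟨t, h7⟩ := exists_lay hs (simple_pos i) (g := u) (by rwa [ht_simple, FH_one])
  have h8 := h.lay_map h7
  rw [h6, (h.tw.fix_sharp h.chev.toIsFaith hu hn hu' (h.ov.fix hg)).1, h.efix _ (simple_lt i) h6] at h8
  replace h8 := h8.unique h.chev.toIsFaith (simple_pos i) h7
  have h9 := h.ov.fix_of_cell hB p h.near (mul_mem (mul_mem (h.nE_mem (simple_lt i) h6 (map_one f))
    (inv_mem (h.x_mem (simple_lt i) h6 h8))) hg) (w := sref D i * w) ⟨_, UU_le_BB x ((NRep.simple x i).conj_XS hs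
      (fun s hs => sref_pos ((hup_YH (simple_pos i)).pos s hs) hs.2) h7), _, (NRep.simple x i).mul hs hn, u',
      UU_le_BB x (Um_le_UU x w hu'), by group⟩ (by rwa [Equiv.Perm.mul_apply, h3])
  rw [map_mul, map_mul, map_inv, h.map_nE, h.frob, h8] at h9
  exact mul_left_cancel h9

end OvT

end Cfsg.Agent.H7
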