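import Cfsg.Agent.H7.OvTw
import Cfsg.Agent.H7.Spec
import Cfsg.Agent.H8.TwE6
import Cfsg.Agent.H8.TwD4

/-! The rational points of the twisted groups of types `E6` and `D4` are maximal subgroups. -/

set_option autoImplicit false
set_option linter.unusedSectionVars false

namespace Cfsg.Agent.H7

open Cfsg.Lie Cfsg.Agent.H8 Matrix

variable {K : Type*} [Field K] [Finite K] {G : Type*} [Group G] {x : ℕ → K → G} {φ : G →* G} {f : K →+* K} {q : ℕ}
  {H : Subgroup G} (p : ℕ) [Fact p.Prime] [CharP K p]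

/-- Twice the height. -/
def cE6 : Fin chevE6.rank → ℤ := (![16, 22, 30, 42, 30, 16] : Fin 6 → ℤ)

/-- Twice the height. -/
def cD4 : Fin chevD4.rank → ℤ := (![6, 10, 6, 6] : Fin 4 → ℤ)

theorem tabTE6 : TabT chevE6 rhoE6 pfE6 oLE6 0 66 cE6 := by decide +kernel

theorem tabTD4 : TabT chevD4 rhoD4 pfD4 oLD4 1 17 cD4 := by decide +kernel

set_option synthInstance.maxSize 2000 in
theorem lowE6 : ∀ r < 72, chevE6.IsPosRoot r → cE6 ⬝ᵥ wt chevE6 r <
    cE6 ⬝ᵥ wt chevE6 66 → ∃ c ∈ ([(38, 37, 1), (38, 36, -1), (41, 39, 1), (40, 37, -1), (41, 36, -1), (45, 42, 1), (43, 39, -1), (45, 38, -1), (45, 36, -1), (52, 46, -1), (47, 39, -1), (48, 37, -1), (49, 36, -1), (52, 42, -1), (52, 38, -1), (52, 36, -1), (54, 39, -1), (54, 36, -1), (55, 37, -1), (66, 56, 1), (57, 42, -1), (58, 39, -1), (59, 37, -1), (62, 46, -1), (63, 46, -1), (62, 37, -1), (64, 39, -1), (65, 39, -1), (66, 38, 1), (66, 37, -1), (0,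 0, 0), (68, 36, -1)] : List (ℕ × ℕ × ℤ))[r - 36]?,
      certB chevE6 c.1 r c.2.1 c.2.2 1 1 ∧ c.2.2.natAbs = 1 ∧ ∀ s ∈ [rhoE6 c.2.1, rhoE6 (rhoE6 c.2.1)],
        s = c.2.1 ∨ ∀ a < chevE6.nroots, wt chevE6 c.1 ≠ wt chevE6 a + wt chevE6 s := by decide +kernel

include p

theorem overE6 (hx : IsChev chevE6 x) (h0 : GG x = ⊤) (hφ : ∀ r t, φ (x r t) = x r (f t)) (hf : ∀ t, f t = t ^ q)
    (h2 : ∀ t, f (f t) = t) (h3 : H ≤ twS x (e6Words K q)) (h4 : ∀ g ∈ twS x (e6Words K q), φ g = g → g ∈ H) :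
    (∀ g ∈ H, φ g = g) ∨ twS x (e6Words K q) ≤ H := by
  obtain ⟨σ, hσ⟩ := exists_twistE6 hx h0 f
  have h5 : ∀ r < chevE6.nroots, (twT twE6 r).2.1 = 1 ∧ (rhoE6 r = r → (twT twE6 r).2.2 = 1) ∧ rhoE6 (rhoE6 r) = r ∧
    (twT twE6 (rhoE6 r)).2.1 = 1 ∧ (twT twE6 (rhoE6 r)).2.2 * (twT twE6 r).2.2 = 1 := by decide +kernel
  have h := OvT.mk hx h0 hσ (twSubE6 hx.toIsFaith hf h2 hσ) hφ h3 h4 (by simp [twF])
    (fun r hr e t => by simp [twF, h5 r hr, (h5 r hr).2.1 e]) (Or.inl ⟨rfl, fun r t => by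
      by_cases hr : r < chevE6.nroots
      · simp [hσ.map, twF, h5 r hr, h2, ← mul_assoc, ← Int.cast_mul]
      · simp [hx.out r (not_lt.1 hr)]⟩) tabTE6 tabME6.1
  by_cases h6 : ∀ t, Nm σ 0 (x 66 t) ∈ H → f t = t
  · refine Or.inl fun g => h.fix p (fun r hr h7 d hd h8 => ?_) h6
    obtain ⟨c, -, h9, h10, h11⟩ := lowE6 r hr.1 hr (by rw [← two_mul_ht tabTE6.1, ← two_mul_ht tabTE6.1]; omega)
    exact h.ov.lay_zero (cert_of_certB h9) (cast_ne_of_natAbs h10) (fun s hs => h11 s (by simpa using hs)) hd h8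
  obtain ⟨a, ha, h7⟩ := by simpa using h6
  have h8 : ∀ t, Nm σ 0 (x 66 t) ∈ H := fun t => by
    have h8 := sub_ne_zero.2 h7
    have h9 := sub_ne_zero.2 (Ne.symm h7)
    have h10 : f ((f t - t) / (f a - a)) = (f t - t) / (f a - a) := by
      rw [map_div₀, map_sub, map_sub, h2, h2]; field_simp; ring
    have h11 : f (t - (f t - t) / (f a - a) * a) = t - (f t - t) / (f a - a) * a := by
      rw [map_sub, map_mul, h10]; field_simp; ring
    rw [← sub_add_cancel t ((f t - t) / (f a - a) * a), h.Nm_add (by decide) (by decide +kernel)]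
    exact mul_mem (h.mem _ (h.Nm_mem_S (by decide) (by decide +kernel) _) (by rw [h.map_Nm, hφ, h11])) (h.scale h10 ha)
  refine Or.inr (twS_le.2 ?_)
  rintro _ (⟨t, ht, r, hr, rfl⟩ | ⟨t, r, hr, rfl⟩)
  · exact h4 _ (by simpa using mem_e6a hr ht) (by simp [hφ, hf, ht])
  · obtain ⟨l, -, h9, h10⟩ := (by decide +kernel : ∀ r ∈ [(56, 36), (15, 35), (42, 37), (29, 34)], ∃ l ∈
      [[2, 4, 3, 2, 4, 1, 3, 0, 5, 2, 4, 0, 5], [0, 5, 2, 4, 3, 2, 4, 1, 3, 0, 5, 2, 4, 0, 5], [3, 0, 5, 2, 4, 1, 3, 0, 5, 2, 4, 0, 5],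
        [2, 4, 3, 0, 5, 2, 4, 1, 3, 0, 5, 2, 4, 0, 5]], ((∀ r < chevE6.nroots, rhoE6 (wordW chevE6 (fl chevE6 l) r) =
          wordW chevE6 (fl chevE6 l) (rhoE6 r)) ∧ wordW chevE6 (fl chevE6 l) 66 = r.1) ∧ twT twE6 r.1 = (r.2, 1, 1)) r hr
    simpa [Nm, hσ.map_one' h10, hf] using h.trans l h9 (h8 t)

omit p in
theorem lay_three {D : ChevalleyDatum} [RootFacts D] [NFacts D] (hx : IsFaith D x) {k : ℕ} (hk : D.IsPosRoot k) {a b c d : G}
    {s t u : K} (ha : Lay D x k (a⁻¹ * d⁻¹ * a * d) s) (hb : Lay D x k (b⁻¹ * d⁻¹ * b * d) t)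
    (hc : Lay D x k (c⁻¹ * d⁻¹ * c * d) u) (h1 : b ∈ UU D x) (h2 : c ∈ UU D x) (h : Commute (a * (b * c)) d) : s + (t + u) = 0 :=
  (ha.comm_mul hx.toIsSt hk (hb.comm_mul hx.toIsSt hk hc h2) (mul_mem h1 h2)).eq_zero_of_commute hx hk h

set_option synthInstance.maxSize 2000 in
theorem overD4 (hx : IsChev chevD4 x) (h0 : GG x = ⊤) (hφ : ∀ r t, φ (x r t) = x r (f t)) (hf : ∀ t, f t = t ^ q)
    (h2 : ∀ t, f (f (f t)) = t) (h3 : H ≤ twS x (d4Words K q)) (h4 : ∀ g ∈ twS x (d4Words K q), φ g = g → g ∈ H) :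
    (∀ g ∈ H, φ g = g) ∨ twS x (d4Words K q) ≤ H := by
  obtain ⟨σ, hσ⟩ := exists_twistD4 hx h0 f
  have hs := hx.toIsSt
  have h5 : ∀ r < chevD4.nroots, (twT triD4 r).2.1 = 1 ∧ (rhoD4 r = r → (twT triD4 r).2.2 = 1) ∧ rhoD4 (rhoD4 (rhoD4 r)) = r ∧
    (twT triD4 (rhoD4 r)).2.1 = 1 ∧ (twT triD4 (rhoD4 (rhoD4 r))).2.1 = 1 ∧
    (twT triD4 (rhoD4 (rhoD4 r))).2.2 * (twT triD4 (rhoD4 r)).2.2 * (twT triD4 r).2.2 = 1 := by decide +kernel
  have h := OvT.mk hx h0 hσ (twSubD4 hx.toIsFaith hf h2 hσ) hφ h3 h4 (by simp [twF])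
    (fun r hr e t => by simp [twF, h5 r hr, (h5 r hr).2.1 e]) (Or.inr ⟨rfl, fun r t => by
      by_cases hr : r < chevD4.nroots
      · simp [hσ.map, twF, h5 r hr, h2, ← mul_assoc, ← Int.cast_mul]
      · simp [hx.out r (not_lt.1 hr)]⟩) tabTD4 tabMD4.1
  have hN : ∀ (r s k : ℕ) (a b : ℤ), twT triD4 r = (s, 1, a) ∧ twT triD4 s = (k, 1, b) → ∀ t, Nm σ 1 (x r t) =
      x r t * (x s (a * f t) * x k (b * (a * f (f t)))) := fun r s k a b e t => by
    simp [Nm, hσ.map, twF, e, show rhoD4 r = s from congrArg Prod.fst e.1, show rhoD4 s = k from congrArg Prod.fst e.2]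
  have hh : ∀ (r : ℕ) (n : ℤ), cD4 ⬝ᵥ wt chevD4 r = 2 * n → ht chevD4 r = n := fun r n e => by
    have := two_mul_ht tabTD4.1 r; omega
  by_cases h6 : ∀ t, Nm σ 1 (x 17 t) ∈ H → f t = t
  · refine Or.inl fun g => h.fix p (fun r hr h7 d hd h8 => ?_) h6
    obtain h9 | ⟨c, -, h9, h10, h11⟩ := (by decide +kernel : ∀ r < 24, chevD4.IsPosRoot r → cD4 ⬝ᵥ wt chevD4 r < cD4 ⬝ᵥ wt chevD4 17 →
      r ∈ [15, 16, 19] ∨ ∃ c ∈ ([(15, 14, 1), (16, 14, 1), (15, 12, -1), (19, 14, -1)] : List (ℕ × ℕ × ℤ)),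
        certB chevD4 c.1 r c.2.1 c.2.2 1 1 ∧ c.2.2.natAbs = 1 ∧ ∀ s ∈ [rhoD4 c.2.1, rhoD4 (rhoD4 c.2.1)],
          s = c.2.1 ∨ ∀ a < chevD4.nroots, wt chevD4 c.1 ≠ wt chevD4 a + wt chevD4 s) r hr.1 hr
      (by rw [← two_mul_ht tabTD4.1, ← two_mul_ht tabTD4.1]; omega)
    swap
    · exact h.ov.lay_zero (cert_of_certB h9) (cast_ne_of_natAbs h10) (fun s hs => h11 s (by simpa using hs)) hd h8
    have h10 : ∀ r ∈ [15, 16, 19], ht chevD4 r = 2 := fun r hr => hh r 2 (by revert r; decide +kernel)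
    rw [h10 r h9] at hd
    obtain ⟨a, ha⟩ := exists_lay hs (r := 15) (by decide +kernel) (by rwa [h10 _ (by simp)])
    obtain ⟨b, hb⟩ := exists_lay hs (r := 16) (by decide +kernel) (by rwa [h10 _ (by simp)])
    obtain ⟨c, hc⟩ := exists_lay hs (r := 19) (by decide +kernel) (by rwa [h10 _ (by simp)])
    have h11 : ∀ r, chevD4.IsPosRoot r ∧ rhoD4 r ≠ r → Commute (Nm σ 1 (x r 1)) d := fun r hr =>
      h8 _ (h.orb_UU hr.1 (h.Nm_mem hr.1.1 hr.2 1)) (h.fix_Nm (h.comm hr.1.1 hr.2 1 1)) (by rw [h.map_Nm, hφ, map_one])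
    have h12 := h11 18 (by decide +kernel)
    have h13 := h11 17 (by decide +kernel)
    rw [hN 18 13 12 1 1 (by decide +kernel)] at h12
    rw [hN 17 20 21 (-1) 1 (by decide +kernel)] at h13
    have h14 : ∀ k s, chevD4.IsPosRoot k ∧ chevD4.IsPosRoot s ∧ cD4 ⬝ᵥ wt chevD4 k = 2 * 3 ∧ cD4 ⬝ᵥ wt chevD4 s = 2 * 1 ∧
        (∀ a < chevD4.nroots, wt chevD4 k ≠ wt chevD4 a + wt chevD4 s) → ∀ t, Lay chevD4 x k ((x s t)⁻¹ * d⁻¹ * x s t * d) 0 :=
      fun k s e t => Lay.comm_zero hs two_pos hd e.1 (x_mem_XS (S := {s}) rfl t) fun _ e' => e' ▸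
        ⟨e.2.1, by rw [hh _ _ e.2.2.1, hh _ _ e.2.2.2.1]; rfl, e.2.2.2.2⟩
    have h15 : ∀ r, chevD4.IsPosRoot r → ∀ t, x r t ∈ UU chevD4 x := fun r => x_mem_UU x
    have e1 := lay_three hx.toIsFaith (k := 20) (by decide +kernel) (ha.comm hs (cert_of_certB (N := 1) (by decide +kernel)) _)
      (h14 20 13 (by decide +kernel) _) (hc.comm hs (cert_of_certB (N := -1) (by decide +kernel)) _)
      (h15 _ (by decide +kernel) _) (h15 _ (by decide +kernel) _) h12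
    have e2 := lay_three hx.toIsFaith (k := 21) (by decide +kernel) (hb.comm hs (cert_of_certB (N := 1) (by decide +kernel)) _)
      (hc.comm hs (cert_of_certB (N := -1) (by decide +kernel)) _) (h14 21 12 (by decide +kernel) _)
      (h15 _ (by decide +kernel) _) (h15 _ (by decide +kernel) _) h12
    have e3 := lay_three hx.toIsFaith (k := 23) (by decide +kernel) (hc.comm hs (cert_of_certB (N := -1) (by decide +kernel)) _)
      (hb.comm hs (cert_of_certB (N := -1) (by decide +kernel)) _) (ha.comm hs (cert_of_certB (N := -1) (by decide +kernel)) _)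
      (h15 _ (by decide +kernel) _) (h15 _ (by decide +kernel) _) h13
    simp only [map_one, Int.cast_one, Int.cast_neg] at e1 e2 e3
    obtain rfl : a = 0 := by linear_combination e2 - e3
    obtain rfl : c = 0 := by linear_combination e1
    obtain rfl : b = 0 := by linear_combination -e2
    simp only [List.mem_cons, List.not_mem_nil, or_false] at h9
    rcases h9 with rfl | rfl | rfl <;> assumption
  obtain ⟨a, ha, h7⟩ := by simpa using h6
  have h8 := h.trans [1, 0, 2, 3] (r := 18) (by decide +kernel) ha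
  have h9 := h.x_mem (r := 14) (by decide) (by decide +kernel) (map_one f)
  have h10 := mul_mem (inv_mem (h.trans [0, 2, 3] (r := 19) (by decide +kernel) ha))
    (mul_mem (inv_mem h9) (mul_mem (inv_mem h8) (mul_mem h9 h8)))
  have h11 := hs.eq_of_weq agrD4 (p := 0) (by simp) (fun i => [a, f a, f (f a)].getD i 0) (key := id)
    (w := [(15, [(1, [0, 0, 1])]), (16, [(1, [0, 1])]), (19, [(-1, [1])]), (14, [(-1, [])]), (12, [(-1, [0, 0, 1])]),
      (13, [(-1, [0, 1])]), (18, [(-1, [1])]), (14, [(1, [])]), (18, [(1, [1])]), (13, [(1, [0, 1])]), (12, [(1, [0, 0, 1])])])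
    (w' := [(17, [(1, [0, 1, 1])]), (20, [(-1, [1, 0, 1])]), (21, [(-1, [1, 1])]), (22, [(1, [1, 1, 1])]), (23, [(1, [1, 1, 1])])])
    (by decide +kernel)
  have h12 := (h.top_layer h10 (t := f a * f (f a)) (by
    rw [hN 18 13 12 1 1 (by decide +kernel), hN 19 16 15 (-1) 1 (by decide +kernel)]
    have h12 := evS_mem (x := x) (v := fun i => [a, f a, f (f a)].getD i 0) (S := {s | ht chevD4 17 ≤ ht chevD4 s ∧ s ≠ 17})
      (w := [(20, [(-1, [1, 0, 1])]), (21, [(-1, [1, 1])]), (22, [(1, [1, 1, 1])]), (23, [(1, [1, 1, 1])])]) (by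
        simp [hh 17 3 (by decide +kernel), hh 20 3 (by decide +kernel), hh 21 3 (by decide +kernel),
          hh 22 4 (by decide +kernel), hh 23 5 (by decide +kernel)])
    rw [evS_cons _ _ (17, _), ← inv_mul_eq_iff_eq_mul] at h11
    rw [← h11] at h12
    simpa [Lay, YH, mev, hs.neg, mul_assoc] using h12)).1
  have h14 := sub_ne_zero.2 h7
  have h15 := sub_ne_zero.2 (f.injective.ne h7)
  have h16 : a - f (f a) ≠ 0 := sub_ne_zero.2 (by simpa only [h2] using f.injective.ne (f.injective.ne h7))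
  have h17 : ∀ t, Nm σ 1 (x 17 t) ∈ H := fun t => by
    obtain ⟨m, hm⟩ : ∃ m, m = (t * a * (f (f a) - f a) + f t * f a * (a - f (f a)) + f (f t) * f (f a) * (f a - a)) /
      ((f a - a) * (f (f a) - f a) * (a - f (f a))) := ⟨_, rfl⟩
    obtain ⟨n, hn⟩ : ∃ n, n = (t * (f (f a) - f a) + f t * (a - f (f a)) + f (f t) * (f a - a)) /
      ((f a - a) * (f (f a) - f a) * (a - f (f a))) := ⟨_, rfl⟩
    have h17 : f (-m) = -m := by simp only [hm, map_neg, map_div₀, map_add, map_mul, map_sub, h2]; ring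
    have h18 : f (-n) = -n := by simp only [hn, map_neg, map_div₀, map_add, map_mul, map_sub, h2]; ring
    have h19 : f (t - (-m * a + -n * (f a * f (f a)))) = t - (-m * a + -n * (f a * f (f a))) := by
      rw [map_sub, map_add, map_mul, map_mul, h17, h18, map_mul, h2, hm, hn]; field_simp; ring
    rw [← sub_add_cancel t (-m * a + -n * (f a * f (f a))), h.Nm_add (by decide) (by decide +kernel),
      h.Nm_add (by decide) (by decide +kernel)]
    exact mul_mem (h.mem _ (h.Nm_mem_S (by decide) (by decide +kernel) _) (by rw [h.map_Nm, hφ, h19]))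
      (mul_mem (h.scale h17 ha) (h.scale h18 h12))
  refine Or.inr (twS_le.2 ?_)
  rintro _ (⟨t, ht, r, hr, rfl⟩ | ⟨t, r, hr, rfl⟩)
  · exact h4 _ (by simpa using mem_d4a hr ht) (by simp [hφ, hf, ht])
  · obtain ⟨l, -, h9, h10⟩ := (by decide +kernel : ∀ r ∈ [(18, 13, 12), (5, 10, 11)], ∃ l ∈ [[1, 0, 2, 3], [0, 2, 3, 1, 0, 2, 3]],
      ((∀ r < chevD4.nroots, rhoD4 (wordW chevD4 (fl chevD4 l) r) = wordW chevD4 (fl chevD4 l) (rhoD4 r)) ∧
        wordW chevD4 (fl chevD4 l) 17 = r.1) ∧ twT triD4 r.1 = (r.2.1, 1, 1) ∧ twT triD4 r.2.1 = (r.2.2, 1, 1)) r hr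
    simpa [hN _ _ _ _ _ h10, hf, pow_two, pow_mul] using h.trans l h9 (h17 t)

omit p in
theorem max_of_over {D : ChevalleyDatum} [RootFacts D] [MatFacts D] [NFacts D] [ChainFacts D] {K : Type*} [Field K] [Fintype K]
    {q n : ℕ} (hK : Fintype.card K = q ^ n) (hn : 1 < n) {f : K →+* K} (hf : ∀ t, f t = t ^ q) {Wd : Set (List (ℕ × K))}
    {L : List ℕ} {r : ℕ} (hL : (∀ k ∈ r :: L, D.IsPosRoot k) ∧ (r :: L).Nodup)
    (h1 : ∀ t, ∃ c, c r = t ∧ oprod (xg D K) (r :: L) c ∈ twS (xg D K) Wd)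
    (h2 : ∀ H ≤ twS (xg D K) Wd, (∀ g ∈ twS (xg D K) Wd, frobG D f g = g → g ∈ H) → (∀ g ∈ H, frobG D f g = g) ∨ twS (xg D K) Wd ≤ H)
    {M : Subgroup (GL D.Idx K)} (hM : ∀ g, g ∈ M ↔ g ∈ D.genSubgroup K Wd ∧
      ∀ i j, (g : Matrix D.Idx D.Idx K) i j ^ q = (g : Matrix D.Idx D.Idx K) i j) :
    M ≠ D.genSubgroup K Wd ∧ ∀ H, M ≤ H → H ≤ D.genSubgroup K Wd → H = M ∨ H = D.genSubgroup K Wd := by
  have h3 : ∀ g : D.group K, g.1 ∈ D.genSubgroup K Wd ↔ g ∈ twS (xg D K) Wd := fun g => by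
    rw [← map_twS_xg]; exact Subgroup.mem_map_iff_mem (D.group K).subtype_injective
  have h4 : D.genSubgroup K Wd ≤ D.group K := map_twS_xg (D := D) Wd ▸ Subgroup.map_subtype_le _
  have h5 : ∀ g : D.group K, g.1 ∈ M ↔ g ∈ twS (xg D K) Wd ∧ frobG D f g = g := fun g => by
    simp only [hM, h3, frobG_eq_iff, hf]
  refine ⟨fun e => ?_, fun H h6 h7 => ?_⟩
  · have h6 := card_fixed hK (by omega)
    rw [Nat.card_congr (Equiv.subtypeUnivEquiv fun t => ?_), Nat.card_eq_fintype_card, hK] at h6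
    · have h7 := (Nat.one_lt_pow_iff (by omega : n ≠ 0)).1 (hK ▸ Fintype.one_lt_card)
      exact (Nat.pow_right_injective h7 (h6.trans (pow_one q).symm)).not_gt hn
    obtain ⟨c, rfl, h6⟩ := h1 t
    have h7 := ((h5 _).1 (e ▸ (h3 _).2 h6)).2
    simp only [map_oprod, frobG_xg] at h7
    exact hf _ ▸ (H7.isChev_xg (D := D) (F := K)).oprod_inj (one_mem _) hL.1 hL.2 (f := fun k => f (c k)) h7 r (by simp)
  rcases h2 (H.subgroupOf _) (fun g hg => (h3 g).1 (h7 hg)) (fun g a b => h6 ((h5 g).2 ⟨a, b⟩)) with h8 | h8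
  · exact Or.inl (le_antisymm (fun g hg => (h5 ⟨g, h4 (h7 hg)⟩).2 ⟨(h3 _).1 (h7 hg), h8 _ hg⟩) h6)
  · exact Or.inr (le_antisymm h7 fun g hg => h8 ((h3 ⟨g, h4 hg⟩).1 hg))

end Cfsg.Agent.H7
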