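import Cfsg.Agent.H7.StChar
import Cfsg.Agent.H7.Vanish
import Cfsg.Agent.H1.SLnBlock

/-! The Steinberg character has defect zero. -/

set_option autoImplicit false
set_option linter.unusedSectionVars false

namespace Cfsg.Agent.H7

open Cfsg.Lie Cfsg.Agent.H8 Finset Classical

variable {D : ChevalleyDatum} {K : Type*} [Field K] {G : Type*} [Group G] [hD : RootFacts D] [hN : NFacts D]
  {x : ℕ → K → G} {g g' : G} {w w' d d' : Equiv.Perm ℕ} [Fintype G]

theorem exists_St_int : ∃ f : G → ℤ, ∀ g, St D x g = f g :=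
  ⟨fun g => ∑ L ∈ (range D.rank).powerset, (-1) ^ L.card * Nat.card (MulAction.fixedBy (G ⧸ PJ D x L) g), fun g => by
    simp [St, fixedPointCharacter]⟩

theorem IsChev.pow_factorization (hx : IsChev D x) (hG : GG x = ⊤) (p : ℕ) [Fact p.Prime] [CharP K p] [Finite K] :
    p ^ (Nat.card G).factorization p = Nat.card (UU D x) := by
  obtain ⟨S, hS⟩ := hx.exists_sylow p hG
  rw [← hS, S.card_eq_multiplicity]

theorem IsChev.St_vanish (hx : IsChev D x) (hG : GG x = ⊤) (p : ℕ) [hp : Fact p.Prime] [CharP K p] [Finite K]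
    (hg : p ∣ orderOf g) : St D x g = 0 := by
  obtain ⟨f, hf⟩ := exists_St_int (D := D) (x := x)
  obtain ⟨S, hS⟩ := hx.exists_sylow p hG
  have hi := hx.St_irr hG
  have hc := H1.IsGeneralizedCharacter.isClassFunction (isGen_St (D := D) (x := x))
  have h1 : ∀ g, St D x g⁻¹ = St D x g := fun g => by
    rw [H1.IsGeneralizedCharacter.apply_inv isGen_St, hf]; simp
  rw [hf, vanish_of_idem hp.out (f := f) (m := (UU D x).index) (by exact_mod_cast hS ▸ S.not_dvd_index) (fun h => ?_)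
    (fun g h => ?_) hg, Int.cast_zero]
  · have h2 := H1.IsIrrCharacter.sum_mul_mul hi hc h
    have h3 := hx.St_inner hG
    rw [classInner, inv_mul_eq_one₀ card_ne] at h3
    simp only [← H1.IsGeneralizedCharacter.apply_inv isGen_St, h1] at h3
    rw [← h3, hx.St_one hG, ← (UU D x).index_mul_card, Nat.cast_mul, mul_div_cancel_right₀ _ card_ne,
      ← Equiv.sum_comp (Equiv.inv G)] at h2
    simp only [Equiv.inv_apply, h1] at h2
    simp only [hf] at h2
    exact_mod_cast h2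
  · have := hc g h
    rw [hf, hf] at this
    exact_mod_cast this

omit [Fintype G] in
theorem IsFaith.eq_w0_of_conj (hx : IsFaith D x) (hg : g ∈ Cell D x w)
    (h : ∀ u ∈ UU D x, g⁻¹ * u * g ∈ UU D x → u = 1) : w⁻¹ = w0 D := by
  have hs := hx.toIsSt
  have hw := inv_mem (Cell.mem_W hg)
  refine eq_w0 hw fun r hr => negRoot_of_not_pos (W_lt hw hr.1) fun h' => ?_
  obtain ⟨b, hb, m, hm, b', hb', rfl⟩ := hg
  have h3 : m⁻¹ * x r 1 * m ∈ UU D x := hm.conj_XS' hs (S := {r}) (by rintro s rfl; exact h') (x_mem_XS (Set.mem_singleton r) 1)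
  have h2 := h _ (IsFaith.BB_conj_UU hs hb (x_mem_UU x hr 1)) (by
    simpa [mul_assoc] using IsFaith.BB_conj_UU hs (inv_mem hb') h3)
  exact hx.x_ne_one hr.1 one_ne_zero (conj_eq_one_iff.1 h2)

omit [Fintype G] in
theorem IsChev.exists_splitData (hx : IsChev D x) (hG : GG x = ⊤) [Finite K] :
    ∃ S : H1.SplitData G K (Fin D.rank), S.U = UU D x := by
  have hs := hx.toIsSt
  obtain ⟨n, hn⟩ := NRep.exists_rep x (w0_mem (D := D))
  refine ⟨H1.SplitData.ofR1 (UU D x) n (fun i => x (D.simple i)) (fun i => x (D.neg (D.simple i)))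
    (fun i => ⟨hx.add _, hx.add _, fun t ht => hs.nE_conj_self (simple_lt i) ht⟩) (fun i a => hx.eq_zero_of_x (simple_lt i))
    (fun i => x_mem_UU x (simple_pos i)) (fun g h => ?_) (fun i a ha u hu => ?_) (fun i u hu => ?_)
    (fun i a => IsFaith.conj_VV_mem_UU hs hn (x_mem_VV x (neg_simple_neg i) a)) (fun i v hv => ?_) (fun H h1 h2 => ?_), rfl⟩
  · obtain ⟨w, hw, hg⟩ := hs.exists_cell (hG ▸ Subgroup.mem_top g)
    have h1 := hx.toIsFaith.eq_w0_of_conj hg h
    rw [inv_eq_iff_eq_inv, w0_inv] at h1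
    obtain ⟨b, hb, b', hb', rfl⟩ := (hs.mem_cell_iff hn).1 (h1 ▸ hg)
    obtain ⟨u, hu, t, ht, rfl⟩ := hs.mem_BB.1 hb
    exact ⟨u, hu, n⁻¹ * t * n * b', fun v hv => by
      simpa only [inv_inv] using IsFaith.BB_conj_UU hs (inv_mem (mul_mem (HH_le_BB x (hs.NN_conj_HH' hn.mem_NN ht)) hb')) hv,
      1, one_mem _, by simp [mul_assoc]⟩
  · have := hs.HH_conj_XS (inv_mem (hE_mem_HH x (simple_lt i) ha)) hu
    rw [inv_inv] at this
    exact this
  · obtain ⟨u', hu', a, rfl⟩ := hs.UU_split' i hu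
    refine ⟨a, u', rfl, fun b => ?_⟩
    have := (NRep.simple x i).conj_XS' hs (T := {r | D.IsPosRoot r})
      (fun s hs => by rw [sref_inv]; exact sref_pos hs.1 hs.2) (IsFaith.Ui_normal hs i (inv_mem (x_mem_BB x (simple_pos i) b)) hu')
    simp only [mul_assoc, inv_inv, mul_inv_rev] at this ⊢
    exact this
  · have h1 : v ∈ VV D x := by
      have h2 := hn.inv hs
      rw [w0_inv] at h2
      simpa [mul_assoc] using IsFaith.conj_UU_mem_VV hs h2 hv
    obtain ⟨a, ha, b, hb, rfl⟩ := hs.exists_mul (S₁ := {r | ¬ D.InRootSub {i.1} r}) (S₂ := {D.neg (D.simple i)}) isClosed_neg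
      w0_mem (fun k hk => w0_pos_of_neg hk) (fun k hk => by
        by_cases h : D.InRootSub {i.1} k
        · exact Or.inr ((inRootSub_singleton h).resolve_left fun e => not_pos_of_neg hk (e ▸ simple_pos i))
        · exact Or.inl h) h1
    obtain ⟨t, rfl⟩ := hs.mem_XS_singleton (XS_mono x Set.inter_subset_right hb)
    exact ⟨a, t, rfl, fun c => IsFaith.conj_VV_mem_UU hs hn (VJ_le_VV (LJ_conj_VJ hs (J := {i.1}) (x_mem_LJ (simple_inRootSub.2 (Set.mem_singleton _)) c) ha))⟩
  · refine eq_top_iff.2 (hG ▸ hs.GG_le_of_simple h2 fun i => mul_mem (mul_mem (h2 i _) (h1 _ ?_)) (h2 i _))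
    exact IsFaith.conj_VV_mem_UU hs hn (x_mem_VV x (neg_simple_neg i) _)

theorem IsChev.defZero_St (hx : IsChev D x) (hG : GG x = ⊤) (p : ℕ) [Fact p.Prime] [CharP K p] [Finite K] :
    H1.DefZero p (St D x) := by
  rw [H1.DefZero, H1.charDegree_eq (hx.St_one hG), hx.pow_factorization hG]

theorem IsChev.eq_St (hx : IsChev D x) (hG : GG x = ⊤) (p : ℕ) [Fact p.Prime] [CharP K p] [Finite K] {χ : G → ℂ}
    (h : IsIrrCharacter G χ) (hd : H1.DefZero p χ) : χ = St D x := by
  have := Fintype.ofFinite K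
  obtain ⟨S, hS⟩ := hx.exists_splitData hG
  exact S.defZero_unique (hS ▸ hx.isPGroup_UU p) h (hx.St_irr hG) hd (hx.defZero_St hG p)

theorem St_xg {F : Type*} [Field F] [MatFacts D] [ChainFacts D] [Fintype (D.group F)] :
    D.steinbergCharacter F = St D (xg D F) := by
  ext g
  simp only [ChevalleyDatum.steinbergCharacter, St, ChevalleyDatum.parabolicIn, PJ_eq isChev_xg.toIsSt, cellSubgroup_xg]

end Cfsg.Agent.H7
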