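import Cfsg.Agent.H7.StMore
import Cfsg.Agent.H7.BT
import Cfsg.Agent.H7.CentU

/-! The values of the Steinberg character at semisimple elements. -/

set_option autoImplicit false
set_option linter.unusedSectionVars false

namespace Cfsg.Agent.H7

open Cfsg.Lie Cfsg.Agent.H8 Finset Classical

theorem exists_conj_eq_pow {G : Type*} [Group G] [Finite G] {p : ℕ} [hp : Fact p.Prime] {U : Subgroup G} (hU : IsPGroup p U)
    {s t : G} (hn : ∀ u ∈ U, s * u * s⁻¹ ∈ U) (hs : ¬ p ∣ orderOf s) (ht : t * s⁻¹ ∈ U) :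
    ∃ a ∈ U, ∃ m : ℕ, a * s * a⁻¹ = t ^ m := by
  obtain ⟨k, hk⟩ := IsPGroup.iff_card.1 hU
  obtain ⟨m, h1, h2⟩ := Nat.chineseRemainder (Nat.Coprime.pow_left k (hp.out.coprime_iff_not_dvd.2 hs)) 0 1
  let C := (Subgroup.centralizer {s}).subgroupOf U
  have hC : ∀ c : C, Commute (c.1 : G) s := fun c => Subgroup.mem_centralizer_singleton_iff.1 c.2
  have h3 : ∀ (a : G) (c : C), (a * (c.1 * s) * a⁻¹) ^ m = a * s * a⁻¹ := fun a c => by
    have : c.1 ^ m = 1 := orderOf_dvd_iff_pow_eq_one.1 ((hk ▸ orderOf_dvd_natCard c.1).trans (Nat.modEq_zero_iff_dvd.1 h1))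
    rw [conj_pow, (hC c).mul_pow, ← Subgroup.coe_pow, this, pow_eq_pow_iff_modEq.2 h2]; simp
  let f : (U ⧸ C) × C → U := fun z => ⟨z.1.out * (z.2.1 * s) * (z.1.out : G)⁻¹ * s⁻¹, by
    simpa [mul_assoc] using mul_mem (mul_mem z.1.out.2 z.2.1.2) (hn _ (inv_mem z.1.out.2))⟩
  have hf : Function.Injective f := by
    rintro ⟨a, c⟩ ⟨b, c'⟩ e
    have e := mul_right_cancel (congrArg Subtype.val e)
    have h4 := (h3 _ c).symm.trans ((congrArg (· ^ m) e).trans (h3 _ c'))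
    obtain rfl : a = b := by
      rw [← a.out_eq, ← b.out_eq]
      refine QuotientGroup.eq.2 (Subgroup.mem_centralizer_singleton_iff.2 ?_)
      simp only [Subgroup.coe_subtype, Subgroup.coe_mul, Subgroup.coe_inv]
      rw [mul_assoc, inv_mul_eq_iff_eq_mul, ← mul_assoc, ← mul_assoc, h4]; simp
    simpa using e
  obtain ⟨⟨a, c⟩, e⟩ := ((Nat.bijective_iff_injective_and_card f).2 ⟨hf, by
    rw [Nat.card_prod, ← Subgroup.card_eq_card_quotient_mul_card_subgroup]⟩).2 ⟨_, ht⟩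
  exact ⟨_, a.out.2, m, by rw [← mul_right_cancel (congrArg Subtype.val e), h3]⟩

variable {D : ChevalleyDatum} {K : Type*} [Field K] {G : Type*} [Group G] [hD : RootFacts D] [hN : NFacts D]
  {x : ℕ → K → G} {g g' : G} {w d v : Equiv.Perm ℕ} {J L : Set ℕ}

omit hN in
theorem kilmoyer (hd : d ∈ W D) (h1 : Red D J d⁻¹) (h2 : Red D L d) (hv : v ∈ WJ D L) (h : d * v * d⁻¹ ∈ WJ D J) :
    v ∈ WJ D {j | j ∈ L ∧ ∃ k : Fin D.rank, k.1 ∈ J ∧ d (D.simple j) = D.simple k} := by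
  revert h
  refine WJ_len_induction (P := fun v => d * v * d⁻¹ ∈ WJ D J → v ∈ WJ D _) (fun _ => one_mem _) (fun v hv i hi hp ih h => ?_) hv
  have h3 := W_pos_of_J hd h2 hp ((inRootSub_WJ hv).2 (simple_inRootSub.2 hi))
  have h4 : D.InRootSub J (d (D.simple i)) := WJ_inv_pos h (h2 i hi) (by
    rw [Equiv.Perm.mul_apply, perm_inv_apply, ← mul_assoc]
    exact mul_sref_neg_of_pos (mul_mem hd (WJ_le _ hv)) h3)
  obtain ⟨k, hk⟩ := simple_of_W (inv_mem hd) (h2 i hi) (perm_inv_apply d _) fun j hj => h1 j (by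
    by_contra h5
    exact (pos_not_iff.2 ⟨j, h5, lt_of_le_of_ne (rc_nonneg_of_par (.inl (h2 i hi)) h5) hj.symm⟩).2 h4)
  have h5 : k.1 ∈ J := simple_inRootSub.1 (hk ▸ h4)
  have h6 : d * sref D i * d⁻¹ = sref D k := by rw [← refl_simple, conj_refl hd, hk, refl_simple]
  refine mul_mem (ih ?_) (sref_mem_WJ ⟨hi, k, h5, hk⟩)
  have := mul_mem h (inv_mem (sref_mem_WJ h5))
  rw [← h6] at this
  simpa [mul_assoc] using this

theorem IsFaith.kilmoyer (hx : IsFaith D x) {n : G} (hn : NRep D x n d) (h1 : Red D J d⁻¹) (h2 : Red D L d)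
    (hg : g ∈ PJ D x L) (h : n * g * n⁻¹ ∈ PJ D x J) :
    g ∈ PJ D x {j | j ∈ L ∧ ∃ k : Fin D.rank, k.1 ∈ J ∧ d (D.simple j) = D.simple k} := by
  have hs := hx.toIsSt
  obtain ⟨v, hv, h3⟩ := (mem_PJ hs).1 hg
  obtain ⟨u, hu, h4⟩ := (mem_PJ hs).1 h
  have h5 := hs.cell_mul_of_len hn.mem_cell h3 (len_mul_WJ hn.mem_W h2 hv)
  have h6 := hs.cell_mul_of_len h4 hn.mem_cell (len_WJ_mul hn.mem_W h1 hu)
  rw [inv_mul_cancel_right] at h6
  exact (mem_PJ hs).2 ⟨v, H7.kilmoyer hn.mem_W h1 h2 hv (by rw [hx.cell_unique h5 h6]; simpa using hu), h3⟩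

theorem PJ_mono' (hx : IsSt D x) (h : ∀ i : Fin D.rank, i.1 ∈ J → i.1 ∈ L) : PJ D x J ≤ PJ D x L := fun _ hg => by
  obtain ⟨v, hv, h1⟩ := (mem_PJ hx).1 hg
  exact (mem_PJ hx).2 ⟨v, Subgroup.closure_mono (Set.image_mono h) hv, h1⟩

omit hN in
theorem UJ_anti (h : ∀ i : Fin D.rank, i.1 ∈ J → i.1 ∈ L) : UJ D x L ≤ UJ D x J :=
  XS_mono x fun _ hr => (pos_not_iff.1 hr).elim fun i hi => pos_not_iff.2 ⟨i, fun h' => hi.1 (h i h'), hi.2⟩

variable [Fintype G]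

theorem IsFaith.St_LJ (hx : IsFaith D x) (hG : GG x = ⊤) {J : Finset ℕ} (hg : g ∈ LJ D x J)
    (hm : ∀ c ∈ PJ D x J, ∀ I ⊆ J, c⁻¹ * g * c ∈ PJ D x I → ∀ i : Fin D.rank, i.1 ∈ J → i.1 ∈ I) :
    ∃ k : ℕ, St D x g = (-1) ^ k * Nat.card ↥(UJ D x J ⊓ Subgroup.centralizer {g}) := by
  have hs := hx.toIsSt
  have := Fintype.ofFinite (W D)
  choose n hn using fun d : W D => NRep.exists_rep x d.2
  have hgP := LJ_le_PJ hs hg
  let Q : Finset ℕ → W D → G → Prop := fun L d y => (Red D J d.1⁻¹ ∧ Red D L d.1) ∧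
    (∃ c ∈ PJ D x J, (c * n d)⁻¹ * y ∈ PJ D x L) ∧ y⁻¹ * g * y ∈ PJ D x L
  let f : W D → Finset ℕ → ℂ := fun d L => (#{y | Q L d y} : ℂ) / Nat.card (PJ D x L)
  have h1 : ∀ L : Finset ℕ, fixedPointCharacter (PJ D x L) g = ∑ d, f d L := fun L => by
    rw [eq_div_of_mul_eq card_ne (fpc_mul _ g), ← sum_div]
    simp only [card_filter, Nat.cast_sum]
    rw [sum_comm]
    congr 1
    refine sum_congr rfl fun y _ => ?_
    obtain ⟨w, hw, hy⟩ := hs.exists_cell (hG ▸ Subgroup.mem_top y)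
    obtain ⟨d, hd, h1, h2, u, hu, v, hv, rfl⟩ := exists_dred J L hw
    obtain ⟨a, ha⟩ := NRep.exists_rep x (WJ_le _ hu)
    obtain ⟨b, hb⟩ := NRep.exists_rep x (WJ_le _ hv)
    obtain ⟨c, hc, c', hc', e⟩ := (hs.mem_cell_iff ((ha.mul hs (hn ⟨d, hd⟩)).mul hs hb)).1 hy
    rw [sum_eq_single ⟨d, hd⟩ (fun d' _ h => ?_) (by simp)]
    · refine congrArg _ (if_congr ⟨fun h => ⟨⟨h1, h2⟩, ⟨c * a, mul_mem (BB_le_PJ hc) ((mem_PJ hs).2 ⟨u, hu, ha.mem_cell⟩), ?_⟩, h⟩,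
        fun h => h.2.2⟩ rfl rfl)
      simpa [e, mul_assoc] using mul_mem ((mem_PJ hs).2 ⟨v, hv, hb.mem_cell⟩) (BB_le_PJ hc')
    · rw [if_neg, Nat.cast_zero]
      rintro ⟨⟨h3, h4⟩, ⟨c, hc, h5⟩, -⟩
      obtain ⟨u', hu', h6⟩ := PJ_mul_cell hs (hn d').mem_cell hc
      obtain ⟨v', hv', h7⟩ := cell_mul_PJ hs h6 h5
      rw [mul_inv_cancel_left] at h7
      have h8 : (u⁻¹ * u') * d' * (v' * v⁻¹) = d := by
        have := hx.cell_unique hy h7
        calc _ = u⁻¹ * (u' * d' * v') * v⁻¹ := by simp only [mul_assoc]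
          _ = d := by rw [← this]; simp [mul_assoc]
      exact h (Subtype.ext ((dred_unique d'.2 h3 h4 (mul_mem (inv_mem hu) hu') (mul_mem hv' (inv_mem hv)) (h8 ▸ h1)
        (h8 ▸ h2)).symm.trans h8))
  let d0 : W D := ⟨wJ D J * w0 D, mul_mem (wJ_mem_W _) w0_mem⟩
  have h2 : ∀ d ≠ d0, ∑ L ∈ (range D.rank).powerset, (-1 : ℂ) ^ L.card * f d L = 0 := fun d hd => by
    by_cases h : Red D J d.1⁻¹
    swap
    · exact sum_eq_zero fun L _ => by simp [f, Q, h]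
    obtain ⟨j, hj, hj'⟩ : ∃ j : Fin D.rank, D.IsPosRoot (d.1 (D.simple j)) ∧
        ∀ k : Fin D.rank, k.1 ∈ J → d.1 (D.simple j) ≠ D.simple k := by
      by_contra! h3
      refine hd (Subtype.ext (eq_mul_of_inv_mul_eq ?_))
      rw [wJ_inv]
      refine eq_w0 (mul_mem (wJ_mem_W _) d.2) fun r hr => W_neg_of_J (J := Set.univ) (mul_mem (wJ_mem_W _) d.2)
        (fun i _ => ?_) hr (inRootSub_iff.2 ⟨hr.1, by simp⟩)
      rcases pos_or_neg (W_lt d.2 (simple_lt i)) with h4 | h4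
      · obtain ⟨k, hk, e⟩ := h3 i h4
        rw [Equiv.Perm.mul_apply, e]; exact wJ_simple hk
      · refine WJ_neg (wJ_mem _) h4 fun h5 => not_neg_of_pos (simple_pos i) ?_
        simpa using W_neg_neg (inv_mem d.2) h4 (W_pos_of_J (inv_mem d.2) h ((neg_pos_iff h4.1).2 h4) (H8.inRootSub_neg h5))
    refine sum_toggle (mem_range.2 j.2) _ fun L hL => ?_
    have hLL : PJ D x L ≤ PJ D x (insert j.1 L : Finset ℕ) := PJ_mono (coe_subset.2 (subset_insert _ _))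
    by_cases h3 : Red D L d.1
    swap
    · have : ¬ Red D (insert j.1 L : Finset ℕ) d.1 := fun h4 => h3 fun i hi => h4 i (mem_insert_of_mem hi)
      simp only [f, Q, h3, this]; simp
    have h4 : Red D (insert j.1 L : Finset ℕ) d.1 := fun i hi =>
      (mem_insert.1 hi).elim (fun e => by rwa [Fin.ext e]) (h3 i)
    have h5 : ∀ a a', (∃ c ∈ PJ D x J, (c * n d)⁻¹ * a ∈ PJ D x L) → (∃ c ∈ PJ D x J, (c * n d)⁻¹ * a' ∈ PJ D x L) →
        a⁻¹ * a' ∈ PJ D x (insert j.1 L : Finset ℕ) → a⁻¹ * a' ∈ PJ D x L := by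
      rintro a a' ⟨c, hc, e⟩ ⟨c', hc', e'⟩ h6
      have h7 := PJ_mono' hs (L := L) (fun i hi => (mem_insert.1 hi.1).resolve_left fun e => by
          obtain ⟨k, hk, e'⟩ := hi.2
          exact hj' k hk (e ▸ e'))
        (hx.kilmoyer (hn d) h h4 (mul_mem (mul_mem (hLL e) h6) (inv_mem (hLL e')))
          (by simpa [mul_assoc] using mul_mem (inv_mem hc) hc'))
      simpa [mul_assoc] using mul_mem (mul_mem (inv_mem e) h7) e'
    have h6 := count_transversal hLL (fun a => ∃ c ∈ PJ D x J, (c * n d)⁻¹ * a ∈ PJ D x L) (Q (insert j.1 L) d)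
      (fun y ⟨_, ⟨c, hc, e⟩, _⟩ => ⟨c * n d, ⟨c, hc, by simp⟩, e⟩) h5
      (fun a b ⟨c, hc, e⟩ hb => ⟨c, hc, by simpa [mul_assoc] using mul_mem e hb⟩)
      (fun y p ⟨e0, ⟨c, hc, e⟩, e'⟩ hp => ⟨e0, ⟨c, hc, by simpa [mul_assoc] using mul_mem e hp⟩,
        by simpa [mul_assoc] using mul_mem (mul_mem (inv_mem hp) e') hp⟩)
    simp only [f]
    rw [div_eq_div_iff card_ne card_ne, ← Nat.cast_mul, ← Nat.cast_mul, ← h6]
    congr 3
    ext a
    simp only [mem_filter, mem_univ, true_and]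
    refine ⟨fun ⟨⟨c, hc, e⟩, h7⟩ => ⟨⟨h, h3⟩, ⟨c, hc, e⟩, ?_⟩, fun ⟨_, ⟨c, hc, e⟩, h7⟩ =>
      ⟨⟨c, hc, e⟩, ⟨h, h4⟩, ⟨c, hc, hLL e⟩, hLL h7⟩⟩
    rw [mul_assoc]
    exact h5 a _ ⟨c, hc, e⟩ ⟨g * c, mul_mem hgP hc, by simpa [mul_assoc] using e⟩ (mul_assoc a⁻¹ _ _ ▸ h7.2.2)
  let M := (range D.rank).filter (· ∈ Jstar D J)
  have hM : ∀ i : Fin D.rank, i.1 ∈ M ↔ i.1 ∈ Jstar D J := fun i => by simp [M]
  have hM' : PJ D x M = PJ D x (Jstar D J) :=
    le_antisymm (PJ_mono' hs fun i => (hM i).1) (PJ_mono' hs fun i => (hM i).2)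
  have e0 : d0.1⁻¹ = w0 D * wJ D J := by simp [d0, w0_inv, wJ_inv]
  have e1 : ∀ r, D.InRootSub (Jstar D J) (d0.1⁻¹ r) ↔ D.InRootSub J r := fun r => by
    rw [← inRootSub_w0, e0, Equiv.Perm.mul_apply, w0_w0, inRootSub_WJ (wJ_mem _)]
  have e2 : ∀ r, D.IsPosRoot r → ¬ D.InRootSub J r → D.IsNegRoot (d0.1⁻¹ r) := fun r h h' =>
    e0 ▸ w0_neg_of_pos (WJ_pos (wJ_mem _) h h')
  have e3 : Red D J d0.1⁻¹ := fun i hi => e0 ▸ w0_pos_of_neg (wJ_simple hi)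
  have e4 : ∀ j : Fin D.rank, D.IsPosRoot (d0.1 (D.simple j)) ↔ j.1 ∈ Jstar D J := fun j => by
    rw [← simple_inRootSub, ← perm_inv_apply d0.1 (D.simple j), e1, perm_inv_apply]
    refine ⟨fun h => by_contra fun h' => not_neg_of_pos (simple_pos j) (by simpa using e2 _ h h'), fun h => ?_⟩
    refine (pos_or_neg h.1).resolve_right fun h4 => not_neg_of_pos (simple_pos j) ?_
    simpa using W_neg_neg (inv_mem d0.2) h4 (W_pos_of_J (inv_mem d0.2) e3 ((neg_pos_iff h4.1).2 h4) (H8.inRootSub_neg h))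
  have h3 : ∀ L ∈ (range D.rank).powerset, L ≠ M → (-1 : ℂ) ^ L.card * f d0 L = 0 := fun L hL h => by
    rw [mul_eq_zero, div_eq_zero_iff, Nat.cast_eq_zero, card_eq_zero, filter_eq_empty_iff]
    refine .inr (.inl fun y _ ⟨⟨_, h1⟩, ⟨c, hc, h2⟩, h3⟩ => h ?_)
    have h4 := hx.kilmoyer ((hn d0).inv hs) (J := L) (L := J) (by simpa using h1) e3 (g := c⁻¹ * g * c)
      (mul_mem (mul_mem (inv_mem hc) hgP) hc) (by simpa [mul_assoc] using mul_mem (mul_mem h2 h3) (inv_mem h2))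
    have h5 := hm c hc (J.filter fun j => ∃ k : Fin D.rank, k.1 ∈ L ∧ d0.1⁻¹ (D.simple j) = D.simple k) (filter_subset _ _)
      (PJ_mono' hs (fun i hi => by simpa using hi) h4)
    ext i
    refine ⟨fun hi => (hM ⟨i, mem_range.1 (mem_powerset.1 hL hi)⟩).2 ((e4 _).1 (h1 _ hi)), fun hi => ?_⟩
    have hi' := mem_range.1 (mem_filter.1 hi).1
    have h6 := (e4 ⟨i, hi'⟩).2 (mem_filter.1 hi).2
    have h7 := (e1 (d0.1 (D.simple i))).1 (by simpa using (simple_inRootSub (i := ⟨i, hi'⟩)).2 (mem_filter.1 hi).2)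
    obtain ⟨k, hk⟩ := simple_of_W (inv_mem d0.2) h6 (perm_inv_apply _ _) fun j hj => e3 j (by
      by_contra h5
      exact (pos_not_iff.2 ⟨j, h5, lt_of_le_of_ne (rc_nonneg_of_par (.inl h6) h5) hj.symm⟩).2 h7)
    obtain ⟨k', hk', e⟩ := (mem_filter.1 (h5 k (simple_inRootSub.1 (hk ▸ h7)))).2
    rw [← hk, perm_inv_apply] at e
    have := simple_inRootSub.1 (e ▸ simple_inRootSub.2 hk' : D.InRootSub L (D.simple (⟨i, hi'⟩ : Fin D.rank)))
    exact this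
  refine ⟨M.card, ?_⟩
  simp only [St, h1, mul_sum]
  rw [sum_comm, sum_eq_single d0 (fun d _ => h2 d) (by simp), sum_eq_single M h3 (by simp [M])]
  congr 1
  have h4 : ∀ u ∈ UJ D x J, (n d0)⁻¹ * u * n d0 ∈ PJ D x M → u = 1 := fun u hu h => by
    have := hx.eq_one_of_VJ_PJ ((hn d0).conj_XS' hs (T := {r | D.IsNegRoot r ∧ ¬ D.InRootSub (Jstar D J) r})
      (fun r hr => And.intro (e2 r hr.1 hr.2) fun h => hr.2 ((e1 r).1 h)) hu) (hM' ▸ h)
    simpa [mul_assoc, inv_mul_eq_one] using this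
  have h5 : ∀ l ∈ LJ D x J, (n d0)⁻¹ * l * n d0 ∈ PJ D x M := fun l hl => by
    obtain ⟨u, hu, t, ht, rfl⟩ := hs.mem_XS_sup_HH.1 (by rwa [LJ, sup_comm] at hl)
    have := mul_mem ((hn d0).conj_XS' hs (T := {r | D.InRootSub (Jstar D J) r}) (fun r hr => (e1 r).2 hr) hu |>
      (le_sup_right : _ ≤ LJ D x _)) (HH_le_LJ (hs.NN_conj_HH' (hn d0).mem_NN ht))
    exact hM' ▸ LJ_le_PJ hs (by simpa [mul_assoc, LJ] using this)
  have h6 := count_transversal (bot_le (a := PJ D x M)) (fun a => a * (n d0)⁻¹ ∈ UJ D x J) (Q M d0)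
    (fun y ⟨_, ⟨c, hc, e⟩, _⟩ => by
      obtain ⟨u, hu, l, hl, rfl⟩ := (mem_PJ_iff_mul hs).1 hc
      exact ⟨u * n d0, by simpa using hu, by simpa [mul_assoc] using mul_mem (h5 l hl) e⟩)
    (fun a a' ha ha' h => by
      have := h4 _ (mul_mem (inv_mem ha) ha') (by simpa [mul_assoc] using h)
      rw [inv_mul_eq_one, mul_left_inj] at this
      simp [this])
    (fun a b ha hb => by rwa [Subgroup.mem_bot.1 hb, mul_one])
    (fun y p ⟨e0, ⟨c, hc, e⟩, e'⟩ hp => ⟨e0, ⟨c, hc, by simpa [mul_assoc] using mul_mem e hp⟩,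
      by simpa [mul_assoc] using mul_mem (mul_mem (inv_mem hp) e') hp⟩)
  rw [Subgroup.card_bot, mul_one] at h6
  simp only [f]
  rw [div_eq_iff card_ne, ← h6, ← Nat.cast_mul]
  congr 2
  rw [← card_filter_mem]
  refine card_nbij' (· * (n d0)⁻¹) (· * n d0) (fun a ha => ?_) (fun u hu => ?_) (fun _ _ => by simp) fun _ _ => by simp
  · simp only [coe_filter, mem_univ, true_and, Set.mem_setOf_eq, Subgroup.mem_inf, Subgroup.mem_centralizer_singleton_iff] at ha ⊢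
    have := h4 _ (mul_mem (inv_mem ha.1) (PJ_conj_UJ hs hgP ha.1))
      (by simpa [mul_assoc] using mul_mem ha.2.2.2 (inv_mem (h5 g hg)))
    exact ⟨ha.1, by rw [inv_mul_eq_one, eq_mul_inv_iff_mul_eq] at this; exact this⟩
  · simp only [coe_filter, mem_univ, true_and, Set.mem_setOf_eq, Subgroup.mem_inf, Subgroup.mem_centralizer_singleton_iff] at hu ⊢
    refine ⟨by simpa using hu.1, ⟨e3, fun i hi => (e4 i).2 ((hM i).1 hi)⟩, ⟨u, UJ_le_PJ hu.1, by simpa using one_mem _⟩, ?_⟩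
    have := h5 g hg
    rw [mul_assoc, ← mul_assoc g, ← hu.2]
    simpa [mul_assoc] using this

theorem IsChev.St_ss (hx : IsChev D x) (hG : GG x = ⊤) (p : ℕ) [hp : Fact p.Prime] [CharP K p] [Finite K]
    (hg : ¬ p ∣ orderOf g) : ∃ k : ℕ, St D x g =
      (-1) ^ k * (p ^ (Nat.card (Subgroup.centralizer {g})).factorization p : ℕ) := by
  have hs := hx.toIsSt
  let Q : Finset ℕ → G → Prop := fun J a => IsConj g a ∧ ∃ S : Subgroup G,
    Nat.card S = p ^ (Nat.card (Subgroup.centralizer {g})).factorization p ∧ S ≤ UJ D x J ⊓ Subgroup.centralizer {a}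
  have hQ : ∀ {a} {S : Subgroup G} (I : Finset ℕ) (c : G), IsConj g a →
      Nat.card S = p ^ (Nat.card (Subgroup.centralizer {g})).factorization p → S ≤ Subgroup.centralizer {a} →
      (∀ v ∈ S, c⁻¹ * v * c ∈ UJ D x I) → Q I (c⁻¹ * a * c) := fun {a S} I c h1 h2 h3 h4 => by
    refine ⟨h1.trans (isConj_iff.2 ⟨c⁻¹, by simp⟩), S.map (MulAut.conj c⁻¹).toMonoidHom,
      (Subgroup.card_map_of_injective (MulAut.conj c⁻¹).injective).trans h2, ?_⟩
    rintro _ ⟨v, hv, rfl⟩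
    have := Subgroup.mem_centralizer_singleton_iff.1 (h3 hv)
    refine ⟨by simpa using h4 v hv, Subgroup.mem_centralizer_singleton_iff.2 ?_⟩
    simp [mul_assoc, ← mul_assoc v, this]
  have h0 : ∃ m, ∃ J : Finset ℕ, J.card = m ∧ ∃ a ∈ PJ D x J, Q J a := by
    obtain ⟨S⟩ : Nonempty (Sylow p (Subgroup.centralizer {g})) := inferInstance
    have h1 := (Subgroup.card_map_of_injective (K := S.1) (Subgroup.centralizer {g}).subtype_injective).trans
      S.card_eq_multiplicity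
    have h2 := Subgroup.map_subtype_le S.1
    by_cases h : S.1.map (Subgroup.centralizer {g}).subtype = ⊥
    · exact ⟨_, range D.rank, rfl, g, PJ_range hs hG ▸ Subgroup.mem_top _, IsConj.refl _, _, h1, h ▸ bot_le⟩
    obtain ⟨c, J, -, h3, h4⟩ := hx.borel_tits hG p (S.isPGroup'.map _) h
    refine ⟨_, (range D.rank).filter (· ∈ J), rfl, _, PJ_mono' hs (by simp) (h3 g fun v hv => ?_),
      hQ _ c (IsConj.refl _) h1 h2 fun v hv => UJ_anti (by simp) (h4 v hv)⟩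
    rwa [mul_assoc, Subgroup.mem_centralizer_singleton_iff.1 (h2 hv), inv_mul_cancel_left]
  obtain ⟨J, hJ, a, ha, h1, S, h2, h3⟩ := Nat.find_spec h0
  obtain ⟨u, hu, l, hl, e⟩ := (mem_PJ_iff_mul hs).1 ha
  obtain ⟨c, hc, m, e'⟩ := exists_conj_eq_pow (hx.toIsFaith.isPGroup_UJ p) (t := l) (fun u => PJ_conj_UJ hs ha)
    (by obtain ⟨c, rfl⟩ := isConj_iff.1 h1; rwa [← MulAut.conj_apply, MulEquiv.orderOf_eq]) (by simpa [e] using hu)
  obtain ⟨h4, S', h5, h6⟩ := hQ J c⁻¹ h1 h2 (h3.trans inf_le_right) fun v hv =>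
    mul_mem (mul_mem (inv_mem (inv_mem hc)) (h3 hv).1) (inv_mem hc)
  rw [inv_inv] at h4 h6
  obtain ⟨k, hk⟩ := hx.toIsFaith.St_LJ hG (e' ▸ pow_mem hl m) fun b hb I hI h i hi => by
    have := Nat.find_min' h0 ⟨I, rfl, _, h, hQ I b h4 h5 (h6.trans inf_le_right) fun v hv =>
      UJ_anti (fun i hi => hI hi) (by simpa using PJ_conj_UJ hs (inv_mem hb) (h6 hv).1)⟩
    rwa [eq_of_subset_of_card_le hI (hJ ▸ this)]
  refine ⟨k, ?_⟩
  rw [H1.IsClassFunction.of_isConj (H1.IsGeneralizedCharacter.isClassFunction isGen_St) h4, hk]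
  congr 2
  obtain ⟨j, hj⟩ := IsPGroup.iff_card.1 ((hx.toIsFaith.isPGroup_UJ (J := J) p).to_inf_left
    (K := Subgroup.centralizer {c * a * c⁻¹}))
  have h7 : Nat.card (Subgroup.centralizer {c * a * c⁻¹}) = Nat.card (Subgroup.centralizer {g}) := by
    have : Nonempty {y // IsConj g y} := ⟨⟨g, IsConj.refl _⟩⟩
    refine Nat.eq_of_mul_eq_mul_left (Nat.card_pos (α := {y // IsConj g y})) ?_
    rw [H1.card_conj_mul_card_centralizer, ← H1.card_conj_mul_card_centralizer (c * a * c⁻¹)]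
    congr 1
    exact Nat.card_congr (Equiv.subtypeEquivRight fun y => ⟨h4.symm.trans, h4.trans⟩)
  refine le_antisymm (Nat.le_of_dvd (pow_pos hp.out.pos _) ?_) (h5 ▸ Subgroup.card_le_of_le h6)
  rw [hj]
  exact pow_dvd_pow _ ((hp.out.pow_dvd_iff_le_factorization Nat.card_pos.ne').1
    (hj ▸ h7 ▸ Subgroup.card_dvd_of_le inf_le_right))

end Cfsg.Agent.H7
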