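import Cfsg.Agent.H7.TT0

/-! Abstract root data for split BN-pairs. -/

set_option autoImplicit false
set_option linter.unusedSectionVars false

namespace Cfsg.Agent.H7

/-- Abstract (relative) root data. -/
structure RS (W Φ ι : Type*) [Group W] [MulAction W Φ] where
  pos : Φ → Prop
  neg : Φ → Φ
  sp : ι → Φ → Prop
  α : ι → Φ
  σ : ι → W
  smul_neg : ∀ (w : W) γ, w • neg γ = neg (w • γ)
  pos_neg : ∀ γ, pos (neg γ) ↔ ¬ pos γ
  sp_neg : ∀ s γ, sp s (neg γ) ↔ sp s γ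
  sp_ne : ∀ γ, ∃ s, sp s γ
  α_pos : ∀ s, pos (α s)
  sp_α : ∀ s t, sp t (α s) → t = s
  σσ : ∀ s, σ s * σ s = 1
  σ_α : ∀ s, ¬ pos (σ s • α s)
  sp_σ : ∀ s t γ, t ≠ s → (sp t (σ s • γ) ↔ sp t γ)
  σ_pos : ∀ s t γ, pos γ → t ≠ s → sp t γ → pos (σ s • γ)
  conv : ∀ (w : W) γ, pos γ → (∀ s, sp s γ → pos (w • α s)) → pos (w • γ)
  conv' : ∀ (w : W) γ, pos γ → (∀ s, sp s γ → ¬ pos (w • α s)) → ¬ pos (w • γ)
  rigid : ∀ w : W, (∀ s, pos (w • α s)) → w = 1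

namespace RS

variable {W Φ ι : Type*} [Group W] [MulAction W Φ] (R : RS W Φ ι)

/-- Support inside `J`. -/
def In (J : Set ι) (γ : Φ) : Prop := ∀ s, R.sp s γ → s ∈ J

/-- Parabolic subgroups of the Weyl group. -/
def WJ (J : Set ι) : Subgroup W := Subgroup.closure (R.σ '' J)

/-- Left descents. -/
def Ds (w : W) : Set ι := {s | ¬ R.pos (w⁻¹ • R.α s)}

open Classical in
/-- The length. -/
noncomputable def len [Fintype Φ] (w : W) : ℕ := (Finset.univ.filter fun γ => R.pos γ ∧ ¬ R.pos (w⁻¹ • γ)).card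

variable {R} {J : Set ι} {v w : W} {γ : Φ} {s t : ι}

theorem σ_inv (s : ι) : (R.σ s)⁻¹ = R.σ s := inv_eq_of_mul_eq_one_right (R.σσ s)

theorem σ_ne (s : ι) : R.σ s ≠ 1 := fun h => R.σ_α s (by rw [h, one_smul]; exact R.α_pos s)

theorem σ_mem (h : s ∈ J) : R.σ s ∈ R.WJ J := Subgroup.subset_closure ⟨s, h, rfl⟩

theorem sp_self (s : ι) : R.sp s (R.α s) := by
  obtain ⟨t, ht⟩ := R.sp_ne (R.α s)
  rwa [R.sp_α s t ht] at ht

theorem in_α : R.In J (R.α s) ↔ s ∈ J := ⟨fun h => h s (sp_self s), fun h t ht => R.sp_α s t ht ▸ h⟩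

theorem in_neg : R.In J (R.neg γ) ↔ R.In J γ := by simp only [In, R.sp_neg]

theorem WJ_aux (hv : v ∈ R.WJ J) : ∀ γ, (∀ t ∉ J, (R.sp t (v • γ) ↔ R.sp t γ)) ∧
    (R.pos γ → ¬ R.In J γ → R.pos (v • γ)) := by
  have hin : ∀ {v : W} {γ}, (∀ t ∉ J, (R.sp t (v • γ) ↔ R.sp t γ)) → (R.In J (v • γ) ↔ R.In J γ) := fun h =>
    ⟨fun h1 t ht => by_contra fun h2 => h2 (h1 t ((h t h2).2 ht)),
      fun h1 t ht => by_contra fun h2 => h2 (h1 t ((h t h2).1 ht))⟩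
  induction hv using Subgroup.closure_induction with
  | mem x hx =>
    obtain ⟨s, hs, rfl⟩ := hx
    refine fun γ => ⟨fun t ht => R.sp_σ s t γ (by rintro rfl; exact ht hs), fun h1 h2 => ?_⟩
    simp only [In, not_forall] at h2
    obtain ⟨t, h3, h4⟩ := h2
    exact R.σ_pos s t γ h1 (by rintro rfl; exact h4 hs) h3
  | one => simp +contextual
  | mul x y _ _ hx hy =>
    refine fun γ => ⟨fun t ht => by rw [mul_smul, (hx _).1 t ht, (hy _).1 t ht], fun h1 h2 => ?_⟩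
    rw [mul_smul]
    exact (hx _).2 ((hy _).2 h1 h2) (by rwa [hin (hy _).1])
  | inv x _ hx =>
    have h0 : ∀ γ, ∀ t ∉ J, (R.sp t (x⁻¹ • γ) ↔ R.sp t γ) := fun γ t ht => by
      rw [← (hx _).1 t ht, smul_inv_smul]
    refine fun γ => ⟨h0 γ, fun h1 h2 => by_contra fun h3 => ?_⟩
    have := (hx (R.neg (x⁻¹ • γ))).2 ((R.pos_neg _).2 h3) (by rwa [in_neg, hin (h0 γ)])
    rw [R.smul_neg, smul_inv_smul, R.pos_neg] at this
    exact this h1

theorem sp_WJ (hv : v ∈ R.WJ J) (ht : t ∉ J) : R.sp t (v • γ) ↔ R.sp t γ := (WJ_aux hv γ).1 t ht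

theorem pos_WJ (hv : v ∈ R.WJ J) (h1 : R.pos γ) (h2 : ¬ R.In J γ) : R.pos (v • γ) := (WJ_aux hv γ).2 h1 h2

theorem in_WJ (hv : v ∈ R.WJ J) : R.In J (v • γ) ↔ R.In J γ :=
  ⟨fun h1 t ht => by_contra fun h2 => h2 (h1 t ((sp_WJ hv h2).2 ht)),
    fun h1 t ht => by_contra fun h2 => h2 (h1 t ((sp_WJ hv h2).1 ht))⟩

theorem flip_of_sub (h : J ⊆ R.Ds w) (h1 : R.In J γ) : R.pos (w⁻¹ • γ) ↔ ¬ R.pos γ := by
  refine ⟨fun h2 h3 => R.conv' _ γ h3 (fun s hs => h (h1 s hs)) h2, fun h2 => ?_⟩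
  have := R.conv' w⁻¹ _ ((R.pos_neg γ).2 h2) fun s hs => h (in_neg.2 h1 s hs)
  rwa [R.smul_neg, R.pos_neg, not_not] at this

theorem keep_of_disj (h : ∀ s ∈ J, s ∉ R.Ds w) (h1 : R.In J γ) : R.pos (w⁻¹ • γ) ↔ R.pos γ := by
  refine ⟨fun h2 => by_contra fun h3 => ?_, fun h2 => R.conv _ γ h2 fun s hs => not_not.1 (h s (h1 s hs))⟩
  have := R.conv w⁻¹ _ ((R.pos_neg γ).2 h3) fun s hs => not_not.1 (h s (in_neg.2 h1 s hs))
  rw [R.smul_neg, R.pos_neg] at this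
  exact this h2

theorem exists_Ds (h : w ≠ 1) : ∃ s, s ∈ R.Ds w := by
  by_contra hn
  exact h (inv_eq_one.1 (R.rigid _ fun s => by_contra fun hs => hn ⟨s, hs⟩))

theorem mem_Ds_σ : s ∈ R.Ds (R.σ s * w) ↔ s ∉ R.Ds w := by
  have h1 : R.In {s} (R.σ s • R.α s) := (in_WJ (σ_mem (Set.mem_singleton s))).2 (in_α.2 rfl)
  rw [Ds, Set.mem_setOf_eq, mul_inv_rev, σ_inv, mul_smul]
  by_cases h : s ∈ R.Ds w
  · rw [flip_of_sub (Set.singleton_subset_iff.2 h) h1]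
    simp [h, R.σ_α]
  · rw [keep_of_disj (by simpa using h) h1]
    simp [h, R.σ_α]

theorem in_of_σ (h1 : R.pos γ) (h2 : ¬ R.pos ((R.σ s)⁻¹ • γ)) : R.In {s} γ :=
  by_contra fun h => h2 (pos_WJ (inv_mem (σ_mem (Set.mem_singleton s))) h1 h)

variable [Fintype Φ]

theorem len_lt (h : J ⊆ R.Ds w) (hv : v ∈ R.WJ J) (h1 : v ≠ 1) : R.len (v * w) < R.len w := by
  classical
  obtain ⟨s, hs⟩ := exists_Ds (R := R) h1
  have hJ : s ∈ J := by_contra fun h2 => hs (pos_WJ (inv_mem hv) (R.α_pos s) (by rwa [in_α]))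
  have hm : R.α s ∈ Finset.univ.filter fun γ => R.pos γ ∧ ¬ R.pos (w⁻¹ • γ) :=
    Finset.mem_filter.2 ⟨Finset.mem_univ _, R.α_pos s, h hJ⟩
  unfold len
  refine lt_of_le_of_lt ?_ (Finset.card_erase_lt_of_mem hm)
  refine Finset.card_le_card_of_injOn (fun γ => if R.In J γ then γ else v⁻¹ • γ) (fun γ hγ => ?_)
    fun γ _ δ _ e => ?_
  · simp only [Finset.coe_filter, Finset.mem_univ, true_and, Set.mem_setOf_eq, mul_inv_rev, mul_smul,
      Finset.coe_erase, Set.mem_diff, Set.mem_singleton_iff] at hγ ⊢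
    split_ifs with h2
    · refine ⟨⟨hγ.1, by simpa [flip_of_sub h h2] using hγ.1⟩, ?_⟩
      rintro rfl
      exact hγ.2 ((flip_of_sub h ((in_WJ (inv_mem hv)).2 h2)).2 hs)
    · refine ⟨⟨pos_WJ (inv_mem hv) hγ.1 h2, hγ.2⟩, fun e => h2 ?_⟩
      rw [← in_WJ (inv_mem hv), e, in_α]
      exact hJ
  · simp only at e
    split_ifs at e with h2 h3 h3
    · exact e
    · exact absurd ((in_WJ (inv_mem hv)).1 (e ▸ h2)) h3
    · exact absurd ((in_WJ (inv_mem hv)).1 (e ▸ h3)) h2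
    · exact smul_left_cancel _ e

theorem len_σ_lt (h : s ∈ R.Ds w) : R.len (R.σ s * w) < R.len w :=
  len_lt (Set.singleton_subset_iff.2 h) (σ_mem rfl) (σ_ne s)

theorem len_lt_σ (h : s ∉ R.Ds w) : R.len w < R.len (R.σ s * w) := by
  have := len_σ_lt (mem_Ds_σ.2 h)
  rwa [← mul_assoc, R.σσ, one_mul] at this

/-- Induction on the length. -/
theorem len_induction {P : W → Prop} (h1 : P 1) (h : ∀ w s, s ∈ R.Ds w → P (R.σ s * w) → P w) (w : W) : P w := by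
  induction' hn : R.len w using Nat.strong_induction_on with n ih generalizing w
  by_cases h2 : w = 1
  · exact h2 ▸ h1
  obtain ⟨s, hs⟩ := exists_Ds (R := R) h2
  exact h w s hs (ih _ (hn ▸ len_σ_lt hs) _ rfl)

theorem WJ_univ : R.WJ Set.univ = ⊤ := by
  refine eq_top_iff.2 fun w _ => len_induction (R := R) (P := (· ∈ R.WJ Set.univ)) (one_mem _) (fun w s _ h => ?_) w
  exact (mul_mem_cancel_left (σ_mem (Set.mem_univ s))).1 h

theorem exists_wJ [Finite W] (J : Set ι) : ∃ v ∈ R.WJ J, J ⊆ R.Ds v := by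
  obtain ⟨v, hv, h⟩ := Set.exists_max_image (R.WJ J : Set W) R.len (Set.toFinite _) ⟨1, one_mem _⟩
  exact ⟨v, hv, fun s hs => by_contra fun h1 => (h _ (mul_mem (σ_mem hs) hv)).not_gt (len_lt_σ h1)⟩

section wJ
variable (hv : v ∈ R.WJ J) (h : J ⊆ R.Ds v)
include hv h

omit [Fintype Φ] in
theorem sub_Ds_mul (hw : ∀ s ∈ J, s ∉ R.Ds w) : J ⊆ R.Ds (v * w) := fun s hs => by
  rw [Ds, Set.mem_setOf_eq, mul_inv_rev, mul_smul, keep_of_disj hw ((in_WJ (inv_mem hv)).2 (in_α.2 hs))]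
  exact h hs

omit [Fintype Φ] in
theorem not_Ds_inv_mul (hw : J ⊆ R.Ds w) : ∀ s ∈ J, s ∉ R.Ds (v⁻¹ * w) := fun s hs => by
  have h1 := (in_WJ hv).2 (in_α.2 hs)
  rw [Ds, Set.mem_setOf_eq, mul_inv_rev, inv_inv, mul_smul, flip_of_sub hw h1, not_not,
    ← flip_of_sub h h1, inv_smul_smul]
  exact R.α_pos s

theorem exists_not_Ds (hs : s ∈ J) : ∃ t ∈ J, t ∉ R.Ds (v * R.σ s) := by
  by_contra hn
  have h1 : J ⊆ R.Ds (v * R.σ s) := fun t ht => by_contra fun h2 => hn ⟨t, ht, h2⟩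
  have h2 : v * R.σ s * v⁻¹ ∈ R.WJ J := mul_mem (mul_mem hv (σ_mem hs)) (inv_mem hv)
  have h3 : v * R.σ s * v⁻¹ ≠ 1 := by simpa using σ_ne s
  have h4 := len_lt h h2 h3
  have h5 := len_lt h1 h2 h3
  rw [inv_mul_cancel_right] at h4
  rw [show v * R.σ s * v⁻¹ * (v * R.σ s) = v * (R.σ s * R.σ s) by group, R.σσ, mul_one] at h5
  omega

end wJ

end RS

end Cfsg.Agent.H7
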