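import Cfsg.Agent.H7.TT11
import Cfsg.Agent.H8.TwP
import Cfsg.Agent.H2.MinT2

/-! The commutator subgroup of the maximal unipotent subgroup: general tools. -/

set_option autoImplicit false
set_option linter.unusedSectionVars false

namespace Cfsg.Agent.H7

open Cfsg.Lie Matrix Cfsg.Agent.H8
open scoped commutatorElement

theorem top_of_sq {K : Type*} [Field K] [Finite K] (C : AddSubgroup K) {t : K} (ht : t ∈ C) (h0 : t ≠ 0)
    (h : ∀ l ≠ 0, l ^ 2 * t ∈ C) (u : K) : u ∈ C := by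
  have h1 : ∀ l, l ^ 2 * t ∈ C := fun l => by
    by_cases e : l = 0
    · simp [e]
    · exact h l e
  by_cases h2 : (2 : K) = 0
  · have := ringChar.of_eq (R := K) (p := 2) (CharP.ringChar_of_prime_eq_zero Nat.prime_two h2)
    obtain ⟨l, hl⟩ := (Finite.injective_iff_surjective.1 (frobenius K 2).injective) (u / t)
    simpa [← frobenius_def, hl, h0] using h1 l
  · convert sub_mem (h1 ((u / t + 1) / 2)) (h1 ((u / t - 1) / 2)) using 1
    field_simp; ring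

variable {D : ChevalleyDatum} {K : Type*} [Field K] {G : Type*} [Group G] {x : ℕ → K → G}
  [hD : RootFacts D] [hN : NFacts D] {lay b : ℕ → ℕ} {n k r : ℕ}

variable (D x) in
/-- The commutator subgroup of `U ∩ S`. -/
def CU (S : Subgroup G) : Subgroup G := ⁅UU D x ⊓ S, UU D x ⊓ S⁆

omit hD hN [Field K] in
theorem mem_CU {S : Subgroup G} {u : S} (h : (u : G) ∈ CU D x S) :
    u ∈ ⁅(UU D x).subgroupOf S, (UU D x).subgroupOf S⁆ := by
  rw [CU, ← Subgroup.subgroupOf_map_subtype, ← Subgroup.map_commutator] at h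
  obtain ⟨v, hv, e⟩ := h
  rwa [← (Subtype.ext e : v = u)]

omit hD hN [Field K] in
theorem CU_le (S : Subgroup G) : CU D x S ≤ UU D x ⊓ S := Subgroup.commutator_le.2 fun _ ha _ hb =>
  mul_mem (mul_mem (mul_mem ha hb) (inv_mem ha)) (inv_mem hb)

theorem conj_CU (hx : IsSt D x) {S : Subgroup G} {h g : G} (h1 : h ∈ S) (h2 : h ∈ HH D x) (hg : g ∈ CU D x S) :
    h * g * h⁻¹ ∈ CU D x S := by
  have : (UU D x ⊓ S).map (MulAut.conj h).toMonoidHom ≤ UU D x ⊓ S := by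
    rintro _ ⟨u, hu, rfl⟩
    exact ⟨hx.HH_conj_XS h2 hu.1, S.mul_mem (S.mul_mem h1 hu.2) (S.inv_mem h1)⟩
  exact (Subgroup.map_commutator _ _ _).le.trans (Subgroup.commutator_mono this this) ⟨g, hg, rfl⟩

theorem mem_nonsimple (hx : IsFaith D x) {u : G} (hu : u ∈ UU D x) (h : ∀ j, Co D x j u 0) :
    u ∈ XS x {r | D.IsPosRoot r ∧ ∀ j : Fin D.rank, r ≠ D.simple j} := by
  have : ∀ l : List (Fin D.rank), IsClosed D {r | D.IsPosRoot r ∧ ∀ j ∈ l, r ≠ D.simple j} ∧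
      u ∈ XS x {r | D.IsPosRoot r ∧ ∀ j ∈ l, r ≠ D.simple j} := fun l => by
    induction l with
    | nil => simpa using ⟨isClosed_pos, hu⟩
    | cons i l ih =>
      rw [show {r | D.IsPosRoot r ∧ ∀ j ∈ i :: l, r ≠ D.simple j} = {r | D.IsPosRoot r ∧ r ≠ D.simple i} ∩
        {r | D.IsPosRoot r ∧ ∀ j ∈ l, r ≠ D.simple j} by ext; simp; tauto]
      exact ⟨(isClosed_pos_ne i).inter ih.1, hx.mem_XS_inter (one_mem _) (isClosed_pos_ne i) ih.1 (fun _ h => h.1)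
        (fun _ h => h.1) ((Co.zero_iff hx.toIsSt).1 (h i)) ih.2⟩
  simpa using (this (List.finRange _)).2

/-- A product of commutators of words. -/
noncomputable def cw (p : ℕ) (l : List (SW × SW)) : SW :=
  List.rec [] (fun a _ ih => wapp a.1 (wapp a.2 (winv p a.1 (winv p a.2 ih)))) l

variable (D) in
/-- The leading term of a word. -/
def Hd (p : ℕ) (lay : ℕ → ℕ) (r : ℕ) (good : List Pol) (w : SW) : Prop :=
  (w.headD (0, [])).1 = r ∧ (∃ P ∈ good, isNil (padd p (w.headD (0, [])).2 P) = true) ∧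
    ∀ a ∈ w.tail, (D.IsPosRoot a.1 ∧ lay r ≤ lay a.1) ∧ a.1 ≠ r

noncomputable instance decHd (p : ℕ) (lay : ℕ → ℕ) (r : ℕ) (good : List Pol) (w : SW) : Decidable (Hd D p lay r good w) := by
  unfold Hd; infer_instance

omit hN in
theorem cw_mem (hx : IsSt D x) {T : Fast} (hT : Agree D T) {p : ℕ} (hp : (p : K) = 0) (v : ℕ → K) {S : Subgroup G}
    {l : List (SW × SW)} (hl : ∀ a ∈ l, evS x v a.1 ∈ UU D x ⊓ S ∧ evS x v a.2 ∈ UU D x ⊓ S) (key : ℕ → ℕ) :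
    evS x v (scol T p key (cw p l)) ∈ CU D x S := by
  rw [hx.evS_scol hT hp]
  induction l with
  | nil => exact one_mem _
  | cons a l ih =>
    rw [show cw p (a :: l) = wapp a.1 (wapp a.2 (winv p a.1 (winv p a.2 (cw p l)))) from rfl, evS_wapp, evS_wapp,
      hx.evS_winv hp, hx.evS_winv hp]
    simpa [CU, commutatorElement_def, mul_assoc] using mul_mem (Subgroup.commutator_mem_commutator (hl a (by simp)).1
      (hl a (by simp)).2) (ih fun a ha => hl a (by simp [ha]))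

omit hN in
theorem exists_CU (hx : IsSt D x) {T : Fast} (hT : Agree D T) {p : ℕ} (hp : (p : K) = 0) (v : ℕ → K) {S : Subgroup G}
    {l : List (SW × SW)} (hl : ∀ a ∈ l, evS x v a.1 ∈ UU D x ⊓ S ∧ evS x v a.2 ∈ UU D x ⊓ S) {good : List Pol}
    (hg : ∀ P ∈ good, pev v P ≠ 0) {key : ℕ → ℕ} (h : Hd D p lay r good (scol T p key (cw p l))) :
    ∃ g ∈ CU D x S, ∃ t ≠ 0, CoL D x lay r g t := by
  have h1 := cw_mem hx hT hp v hl key
  generalize scol T p key (cw p l) = w at h h1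
  obtain ⟨h2, ⟨P, h3, h4⟩, h5⟩ := h
  have h6 := pev_padd hp v (w.headD (0, [])).2 P
  rw [isNil_iff.1 h4, pev_nil, eq_comm, add_eq_zero_iff_eq_neg] at h6
  cases w with
  | nil => exact absurd (by simpa using h6) (hg P h3)
  | cons a w =>
    refine ⟨_, h1, _, h6 ▸ neg_ne_zero.2 (hg P h3), ?_⟩
    rw [evS_cons, show a.1 = r from h2]
    exact CoL.of_mul (evS_mem h5) _

namespace TwD

variable {σ : G →* G} {ρ : Equiv.Perm ℕ} {π : Fin D.rank → Fin D.rank} {f : ℕ → K → K} {S : Subgroup G}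
  {O : Fin D.rank → Set ℕ} {e : Fin D.rank → ℕ} {z : Fin D.rank → S} (h : TwD D x σ ρ π f S O e z)
  (L : LayOK D K ρ lay b n)
include h L

theorem all_of_sq [Finite K] (hr : D.IsPosRoot r) (h1 : ∃ g ∈ CU D x S, ∃ t ≠ 0, CoL D x lay r g t)
    (h2 : ∀ l ≠ 0, ∃ a ∈ S, a ∈ HH D x ∧ ∃ c, Acts x a 1 c ∧ c r = l ^ 2) (t : K) : ∃ g ∈ CU D x S, CoL D x lay r g t := by
  obtain ⟨g, hg, t0, h0, h3⟩ := h1
  refine top_of_sq
    { carrier := {t | ∃ g ∈ CU D x S, CoL D x lay r g t}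
      zero_mem' := ⟨1, one_mem _, by simp [CoL, h.st.zero]⟩
      add_mem' := fun ⟨a, ha, h4⟩ ⟨b, hb, h5⟩ => ⟨_, mul_mem ha hb, L.coL_mul h.st hr h4 h5⟩
      neg_mem' := fun {u} ⟨a, ha, h4⟩ => ⟨_, inv_mem ha, by
        simpa [CoL, h.st.neg, mul_assoc] using L.conj h.st upL_FL' (x_mem_UU x hr u) (inv_mem h4)⟩ }
    ⟨g, hg, h3⟩ h0 (fun l hl => ?_) t
  obtain ⟨a, h4, h5, c, h6, h7⟩ := h2 l hl
  exact ⟨_, conj_CU h.st h4 h5 hg, h7 ▸ h3.acts h6⟩

theorem star_of {k0 : ℕ} (h0 : ∀ r, D.IsPosRoot r → lay r < k0 → ∃ j : Fin D.rank, r = D.simple j)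
    (H : ∀ k < n, k0 ≤ k → ∀ g ∈ S, ∀ t, CoL D x lay (b k) g t → ∃ g' ∈ CU D x S, CoL D x lay (b k) g' t)
    (u : S) (hu : (u : G) ∈ UU D x) (h1 : ∀ j, Co D x j u 0) : u ∈ ⁅(UU D x).subgroupOf S, (UU D x).subgroupOf S⁆ := by
  obtain ⟨co, χ, F, h2, -⟩ := L.exists_filt h.chev h.tw (θ := S.subtype) (by simp) fun g => h.sub.fix g g.2
  have key : ∀ j k, k + j = n → k0 ≤ k → ∀ g : S, (g : G) ∈ XS x (FL D lay k) → (g : G) ∈ CU D x S := fun j => by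
    induction j with
    | zero =>
      rintro k rfl - g hg
      rw [show (g : G) = 1 from F.last hg]; exact one_mem _
    | succ j ih =>
      intro k hk h3 g hg
      have h4 := L.base k (by omega)
      obtain ⟨t, ht⟩ := L.exists_coL h.st h4.1 (h4.2.symm ▸ hg)
      obtain ⟨g', h5, h6⟩ := H k (by omega) h3 g g.2 t ht
      have h7 := ih (k + 1) (by omega) (by omega) ((⟨g', (CU_le S h5).2⟩ : S)⁻¹ * g) ((F.crd k (by omega)).eq (a' := g)
        (h4.2 ▸ h6.mem h4.1) hg ((h2 k (by omega) ⟨g', _⟩ _ h6).trans (h2 k (by omega) g _ ht).symm))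
      simpa using mul_mem h5 h7
  by_cases hk : k0 ≤ n
  · refine mem_CU (key (n - k0) k0 (by omega) le_rfl u (XS_mono x (fun r hr => And.intro hr.1 ?_) (mem_nonsimple h.faith hu h1)))
    by_contra h3
    obtain ⟨j, hj⟩ := h0 r hr.1 (not_le.1 h3)
    exact hr.2 j hj
  · have := XS_mono x (T := ∅) (fun r hr => let ⟨j, hj⟩ := h0 r hr.1 (by have := L.lt r hr.1; omega); hr.2 j hj)
      (mem_nonsimple h.faith hu h1)
    rw [XS_empty, Subgroup.mem_bot] at this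
    rw [show u = 1 from Subtype.ext this]; exact one_mem _

end TwD

variable [hS : SLFacts D]

theorem th_sq {σ : G →* G} {ρ : Equiv.Perm ℕ} {π : Fin D.rank → Fin D.rank} {f : ℕ → K → K} {S : Subgroup G}
    {O : Fin D.rank → Set ℕ} {φ : K →+* K} {m : ℕ} (h : H2.TH D x σ ρ π f S O φ m) (hr : r < D.nroots) (h1 : ρ r ≠ r)
    {l : K} (hl : l ≠ 0) : ∃ a ∈ S, a ∈ HH D x ∧ (∀ t, a * H2.nm σ m (x r t) * a⁻¹ = H2.nm σ m (x r (l ^ 2 * t))) ∧
      ∃ c, Acts x a 1 c ∧ c r = l ^ 2 := by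
  have hT := h.ind_pm hr h1
  have hx := h.faith.toIsSt
  have h2 := h.nm_HH (hE_mem_HH x hr hl) m
  have h3 : ∀ t, H2.nm σ m (hE D x r l) * H2.nm σ m (x r t) * (H2.nm σ m (hE D x r l))⁻¹ = H2.nm σ m (x r (l ^ 2 * t)) :=
    fun t => by
      have := map_mul (h.nmH hT) (⟨_, h.hE_mem r l⟩ * ⟨_, x_mem_XS (Or.inl rfl) t⟩) (⟨_, h.hE_mem r l⟩⁻¹)
      rw [map_inv, map_mul (h.nmH hT) ⟨_, h.hE_mem r l⟩] at this
      refine this.symm.trans (congrArg (H2.nm σ m) ?_)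
      show _ * _ * _⁻¹ = _
      rw [hx.hE_conj hr hl, A_self hr, zpow_ofNat]
  obtain ⟨a, ha⟩ := hx.acts_of_mem_HH h2
  refine ⟨_, h.nmH_S hT ⟨_, h.hE_mem r l⟩, h2, h3, _, ha, ?_⟩
  have h4 := mul_mem (ha.conj_mem_XS (fun _ h => h) (h.nm_eq hr h1 1)) (inv_mem (h.nm_eq hr h1 (l ^ 2 * 1)))
  rw [← h3, show ∀ a b c d : G, a * (b⁻¹ * c) * a⁻¹ * (d⁻¹ * (a * c * a⁻¹))⁻¹ = (a * b * a⁻¹)⁻¹ * d from fun _ _ _ _ => by group,
    ha r 1] at h4
  have h5 := XS_mono x (T := ∅) (fun s hs => hs.1.2 hs.2) (h.inter hr (T := H2.orb ρ r ∩ {r}ᶜ) Set.inter_subset_left (U := {r})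
    (fun _ e => e ▸ .refl _ _) h4 (mul_mem (inv_mem (x_mem_XS (Set.mem_singleton r) _)) (x_mem_XS (Set.mem_singleton r) _)))
  rw [XS_empty, Subgroup.mem_bot, inv_mul_eq_one] at h5
  simpa using h.faith.x_inj hr h5

variable {k : Type*} [Field k] [Finite k] [Finite G] {M : H2.MD D K G k}

theorem z_mem_CU (hr : M.Fx r) (hp : D.IsPosRoot r) (hn : ∀ j : Fin D.rank, r ≠ D.simple j) (t : k) :
    (M.z r t : G) ∈ CU D M.x M.S := by
  obtain ⟨i, hi⟩ := hD.descent r hp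
  have h1 : A D r (D.simple i) = 1 := by
    rw [← A_simple] at hi
    rcases H2.A_le (simple_lt i) hr.1 with h | h
    · exact absurd h (hn i)
    · rw [A_symm]; omega
  have h2 := H2.sm_cpl hr.1 (simple_lt i) h1
  have h3 : D.IsPosRoot (H2.cpl D r (D.simple i)) := by
    rw [wt_inj h2.2.1 (W_lt (sref_mem i) hr.1) (by
      rw [wt_sref, ← A_simple, A_symm, h1, one_smul, h2.2.2.2]; simp)]
    exact sref_pos hp (hn i)
  obtain ⟨u, hu, h4⟩ := H2.MD.exists_ne_one (M := M) (simple_lt i)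
  obtain ⟨y, hy, e⟩ := H2.MD.heis' hr h2 hu h4 t
  rw [← e]
  exact Subgroup.commutator_mem_commutator ⟨XS_mono _ (fun s e => (H2.MD.pos_orb e).2 h3) hy, y.2⟩
    ⟨XS_mono _ (fun s e => (H2.MD.pos_orb e).2 (simple_pos i)) hu, u.2⟩

theorem star_fx (h : ∀ r, M.ρ r = r) (u : M.S) (hu : (u : G) ∈ UU D M.x) (h1 : ∀ j, Co D M.x j u 0) :
    u ∈ ⁅(UU D M.x).subgroupOf M.S, (UU D M.x).subgroupOf M.S⁆ := by
  refine H2.MD.gen (T := {r | D.IsPosRoot r ∧ ∀ j : Fin D.rank, r ≠ D.simple j}) (fun r hr s hs k hk i j hi hj e =>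
    ⟨(pos_comb hr.1 hs.1 hi hj e).1, (H2.sm_of_comb hr.1.1 hs.1.1 hk (H2.ne_neg_pos hr.1 hs.1) hi hj e).ne_simple hr.1 hs.1⟩)
    (fun _ h => h.1) (fun r s e hr => ?_) (fun r hr y hy => ?_) (mem_nonsimple M.faith hu h1)
  · rwa [((H2.MD.eq_orb ⟨hr.1.1, h r⟩ e).2 rfl : s = r)]
  · obtain ⟨t, rfl⟩ := H2.MD.exists_z ⟨hr.1.1, h r⟩ hy
    exact mem_CU (z_mem_CU ⟨hr.1.1, h r⟩ hr.1 hr.2 t)

end Cfsg.Agent.H7
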