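import Cfsg.Agent.H7.TT12
import Cfsg.Agent.H2.MinUn
import Cfsg.Agent.H8.InvG2
import Cfsg.Agent.H8.TwPF4
import Cfsg.Agent.H8.TwPE6
import Cfsg.Agent.H8.TwMD4
import Cfsg.Agent.H8.LiftTabE6
import Cfsg.Agent.H8.LiftTabSmall

/-! Borel subgroups of the exceptional groups are transitive in a 2-transitive action. -/

set_option autoImplicit false
set_option linter.unusedSectionVars false
set_option synthInstance.maxSize 4000

namespace Cfsg.Agent.H7

open Cfsg.Lie Matrix Cfsg.Agent.H8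

theorem TT.top {G Ω : Type*} [Group G] [MulAction G Ω] (h : TT G Ω) : TT (⊤ : Subgroup G) Ω :=
  ⟨h.nt, fun a b c d h1 h2 => let ⟨g, hg⟩ := h.move a b c d h1 h2; ⟨⟨g, trivial⟩, hg⟩⟩

section gen

variable {D : ChevalleyDatum} [hD : RootFacts D] [hN : NFacts D] {TW TC : ℕ}

variable (D TW TC) in
/-- For each orbit of nodes there is an orthogonal positive root involving it. -/
def H2c (oL : ℕ → List ℕ) : Prop := ∀ i < D.rank, ∃ γ < D.nroots, (∀ j ∈ oL i, pk TW D.rank γ j = 0) ∧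
  (∃ j ∈ oL i, j < D.rank ∧ pk TC D.rank γ j ≠ 0) ∧ D.IsPosRoot γ

instance decH2c (oL : ℕ → List ℕ) : Decidable (H2c D TW TC oL) := by unfold H2c; infer_instance

theorem h2_of (hT : chkTables D TW TC = true) {oL : ℕ → List ℕ} (h : H2c D TW TC oL) (i : Fin D.rank) :
    ∃ γ < D.nroots, D.IsPosRoot γ ∧ (∀ j : Fin D.rank, j.1 ∈ oL i → wt D γ j = 0) ∧
      ∃ j : Fin D.rank, j.1 ∈ oL i ∧ cor D γ j ≠ 0 :=
  let ⟨γ, h1, h2, ⟨j, h3, h4, h5⟩, h6⟩ := h i i.2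
  ⟨γ, h1, h6, fun j hj => (wt_eq_pk hT h1 j).trans (h2 j hj), ⟨j, h4⟩, h3, (cor_eq_pk hT h1 _).trans_ne h5⟩

variable [MatFacts D] [ChainFacts D] {F : Type*} [Field F] [Finite F] {Ω : Type*} [Finite Ω] [MulAction (D.group F) Ω]

theorem hU_un (hT : chkTables D TW TC = true) (h : H2c D TW TC fun i => [i]) (ht : TT (D.group F) Ω) (y : Ω) :
    ¬ ∀ u ∈ UU D (xg D F), u • y = y := fun h1 =>
  (twD_un D _ isChev_xg GG_xg).not_fix ht.top (fun i => by simpa using h2_of hT h i) y fun u hu => h1 u hu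

theorem hB_sl [SLFacts D] (hT : chkTables D TW TC = true) (h : H2c D TW TC fun i => [i]) {c : List ℤ}
    (hc : ∀ r < D.nroots, D.IsPosRoot r → 0 < ordOf D TW c r) (ht : TT (D.group F) Ω) (y y' : Ω) :
    ∃ b ∈ BB D (xg D F), b • y = y' :=
  have := (isChev_xg (D := D) (F := F)).finite_G GG_xg
  let ⟨b, hb⟩ := (twD_un D _ isChev_xg GG_xg).B_trans ht.top (fun y h1 => hU_un hT h ht y fun u hu => h1 ⟨u, trivial⟩ hu)
    (star_fx (M := H2.mdU F c hT hc) fun _ => rfl) y y'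
  ⟨b, hb⟩

theorem hB_un (hT : chkTables D TW TC = true) (h : H2c D TW TC fun i => [i]) {lay b : ℕ → ℕ} {n k0 : ℕ}
    (L : LayOK D F (1 : Equiv.Perm ℕ) lay b n) (h0 : ∀ r < D.nroots, D.IsPosRoot r → lay r < k0 → ∃ j : Fin D.rank, r = D.simple j)
    (H : ∀ k < n, k0 ≤ k → ∃ g ∈ CU D (xg D F) ⊤, ∃ t ≠ 0, CoL D (xg D F) lay (b k) g t) (ht : TT (D.group F) Ω)
    (y y' : Ω) : ∃ b ∈ BB D (xg D F), b • y = y' :=
  have h1 := twD_un D _ (isChev_xg (F := F)) GG_xg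
  let ⟨b, hb⟩ := h1.B_trans ht.top (fun y h1 => hU_un hT h ht y fun u hu => h1 ⟨u, trivial⟩ hu)
    (h1.star_of L (fun r hr => h0 r hr.1 hr) fun k hk h2 _ _ t _ => h1.all_of_sq L (L.base k hk).1 (H k hk h2)
      (fun l hl => ⟨_, trivial, hE_mem_HH _ (L.base k hk).1.1 hl, _, h1.st.acts_hE (L.base k hk).1.1 hl, by
        simp only [A_self (L.base k hk).1.1, zpow_ofNat]⟩) t) y y'
  ⟨b, hb⟩

omit hN [MatFacts D] [ChainFacts D] in
theorem evS_one {G : Type*} [Group G] {x : ℕ → F → G} {v : ℕ → F} {a : ℕ} {P : Pol} (h : D.IsPosRoot a) :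
    evS x v [(a, P)] ∈ UU D x ⊓ ⊤ := ⟨evS_mem (by simpa using h), trivial⟩

end gen

variable {F : Type*} [Field F] [Fintype F] {Ω : Type*} [Finite Ω]

theorem hU_G2 [MulAction (chevG2.group F) Ω] (ht : TT (chevG2.group F) Ω) (y : Ω) :
    ¬ ∀ u ∈ UU chevG2 (xg chevG2 F), u • y = y := hU_un tablesG2 (by decide +kernel) ht y

theorem hU_F4 [MulAction (chevF4.group F) Ω] (ht : TT (chevF4.group F) Ω) (y : Ω) :
    ¬ ∀ u ∈ UU chevF4 (xg chevF4 F), u • y = y := hU_un tablesF4 (by decide +kernel) ht y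

theorem hB_G2 (h3 : 3 < Fintype.card F) [MulAction (chevG2.group F) Ω] (ht : TT (chevG2.group F) Ω) (y y' : Ω) :
    ∃ b ∈ BB chevG2 (xg chevG2 F), b • y = y' := by
  obtain ⟨l, hl⟩ := exists_pow_ne (K := F) (q := 3) (by omega) h3
  have h0 : l ≠ 0 := fun e => hl (by simp [e])
  have h1 : l - 1 ≠ 0 := fun e => hl (by simp [sub_eq_zero.1 e])
  have h2 : l + 1 ≠ 0 := fun e => hl (by linear_combination l * (l - 1) * e)
  refine hB_un tablesG2 (by decide +kernel) (lay := (· - 6)) (b := (· + 6)) (n := 6) (k0 := 2)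
    (layOK_of agrG2 (p := 0) (by simp) (by decide +kernel)) (by decide +kernel) (fun k hk h4 => ?_) ht y y'
  obtain ⟨w, h5, h6⟩ := (by decide +kernel : ∀ k < 6, 2 ≤ k → ∃ w ∈ ([[((6, [(1, [0])]), (7, [(1, [0])]))],
    [((6, [(1, [0])]), (10, [(1, [0])]))], [((6, [(1, [1])]), (7, [(1, [0])])), ((7, [(1, [1])]), (6, [(1, [0])]))],
    [((6, [(1, [5]), (-1, [4])]), (7, [(1, [0])])), ((6, [(1, [2]), (-1, [4])]), (7, [(1, [1])])),
      ((6, [(1, [2]), (-1, [1])]), (7, [(1, [2])]))]] : List (List ((ℕ × Pol) × ℕ × Pol))),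
      (∀ a ∈ w, chevG2.IsPosRoot a.1.1 ∧ chevG2.IsPosRoot a.2.1) ∧ Hd chevG2 0 (· - 6) (k + 6)
      [[(1, [0])], [(-1, [0])], [(1, [1]), (-1, [2])], [(-1, [1]), (1, [2])], [(1, [8]), (-2, [7]), (2, [5]), (-1, [4])]]
      (scol fastG2 0 id (cw 0 (w.map fun a => ([a.1], [a.2]))))) k hk h4 |>.imp fun _ h => h.2
  refine exists_CU isChev_xg.toIsSt agrG2 (by simp) (fun _ => l)
    (List.forall_mem_map.2 fun a h => ⟨evS_one (h5 a h).1, evS_one (h5 a h).2⟩) ?_ h6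
  simp only [List.forall_mem_cons, pev_cons, pev_nil, mev]
  refine ⟨by simp, by simp, fun e => mul_ne_zero h0 h1 ?_, fun e => mul_ne_zero h0 h1 ?_,
    fun e => mul_ne_zero (pow_ne_zero 4 h0) (mul_ne_zero (pow_ne_zero 3 h1) h2) ?_, by simp⟩ <;> push_cast at e
  exacts [by linear_combination -e, by linear_combination e, by linear_combination e]

/-- The positive roots of `F4`, fundamental roots first. -/
def lF4 : List ℕ := [24, 25, 27, 33, 26, 28, 29, 30, 31, 32, 34, 35, 36, 37, 38, 39, 40, 41, 42, 43, 44, 45, 46, 47]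

theorem hB_F4 (h3 : 2 < Fintype.card F) [MulAction (chevF4.group F) Ω] (ht : TT (chevF4.group F) Ω) (y y' : Ω) :
    ∃ b ∈ BB chevF4 (xg chevF4 F), b • y = y' := by
  obtain ⟨l, hl⟩ := exists_pow_ne (K := F) (q := 2) (by omega) h3
  refine hB_un tablesF4 (by decide +kernel) (lay := lF4.idxOf) (b := (lF4.getD · 0)) (n := 24) (k0 := 4)
    (layOK_of agrF4 (p := 0) (by simp) (by decide +kernel)) (by decide +kernel) (fun k hk h4 => ?_) ht y y'
  obtain ⟨a, -, s, -, -, h5, w, h6, h7⟩ := (by decide +kernel : ∀ k < 24, 4 ≤ k → ∃ a ∈ lF4, ∃ s ∈ lF4,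
    ctR fastF4 a s ≠ [] ∧ (chevF4.IsPosRoot a ∧ chevF4.IsPosRoot s) ∧ ∃ w ∈ ([[([(a, [(1, [0])])], [(s, [(1, [0])])])],
      [([(a, [(1, [1])])], [(s, [(1, [0])])]), ([(s, [(1, [1])])], [(a, [(1, [0])])])]] : List (List (SW × SW))),
      Hd chevF4 0 lF4.idxOf (lF4.getD k 0) [[(1, [0])], [(-1, [0])], [(1, [1]), (-1, [2])], [(-1, [1]), (1, [2])]]
        (scol fastF4 0 lF4.idxOf (cw 0 w))) k hk h4
  refine exists_CU isChev_xg.toIsSt agrF4 (by simp) (fun _ => l) ?_ ?_ h7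
  · simp only [List.mem_cons, List.not_mem_nil, or_false] at h6
    rcases h6 with rfl | rfl <;> simp only [List.forall_mem_cons, evS_one h5.1, evS_one h5.2] <;> simp
  · simp only [List.forall_mem_cons, pev_cons, pev_nil, mev]
    refine ⟨by simp, by simp, fun e => hl ?_, fun e => hl ?_, by simp⟩ <;> push_cast at e
    exacts [by linear_combination -e, by linear_combination e]

section tw

variable {D : ChevalleyDatum} [hD : RootFacts D] [hN : NFacts D] [hS : SLFacts D] {K : Type*} [Field K] [Finite K]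
  {G : Type*} [Group G] [Finite G] {x : ℕ → K → G} {σ : G →* G} {ρ : Equiv.Perm ℕ} {π : Fin D.rank → Fin D.rank}
  {f : ℕ → K → K} {S : Subgroup G} {O : Fin D.rank → Set ℕ} {e : Fin D.rank → ℕ} {z : Fin D.rank → S} {φ : K →+* K} {m : ℕ}

theorem hB_th (h : TwD D x σ ρ π f S O e z) (hT : H2.TH D x σ ρ π f S O φ m) {c : Fin D.rank → ℤ}
    (h1 : ∀ r, c ⬝ᵥ wt D (ρ r) = c ⬝ᵥ wt D r) (h2 : ∀ r, D.IsPosRoot r → 0 < c ⬝ᵥ wt D r)
    (h3 : Nat.card (φ.eqLocusField (RingHom.id K)) ^ m = Nat.card K)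
    {lay b : ℕ → ℕ} {n k0 : ℕ} (L : LayOK D K ρ lay b n)
    (h0 : ∀ r < D.nroots, D.IsPosRoot r → (lay r < k0 ↔ ∃ j : Fin D.rank, r = D.simple j))
    (H : ∀ k < n, k0 ≤ k → ρ (b k) ≠ b k → ∃ g ∈ CU D x S, ∃ t ≠ 0, CoL D x lay (b k) g t) [MulAction S Ω] (ht : TT S Ω)
    (h4 : ∀ i, ∃ γ < D.nroots, D.IsPosRoot γ ∧ (∀ j : Fin D.rank, j.1 ∈ O i → wt D γ j = 0) ∧
      ∃ j : Fin D.rank, j.1 ∈ O i ∧ cor D γ j ≠ 0) (y y' : Ω) : ∃ b : S, (b : G) ∈ BB D x ∧ b • y = y' := by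
  refine h.B_trans ht (h.not_fix ht h4) (h.star_of L (fun r hr => (h0 r hr.1 hr).1) fun k hk h5 g hg t h6 => ?_) y y'
  obtain ⟨h7, h8⟩ := L.base k hk
  by_cases e : ρ (b k) = b k
  · have h9 := L.coL_map h.tw h7 h6
    rw [e, h.sub.fix g hg, hT.fx _ h7.1 e] at h9
    have h10 := z_mem_CU (M := hT.md c h1 h2 h3) ⟨h7.1, e⟩ h7 (fun j e => by
      have := (h0 _ h7.1 h7).2 ⟨j, e⟩; omega) ⟨t, L.coL_unique h.faith h7 h9 h6⟩
    rw [H2.MD.z_val ⟨h7.1, e⟩] at h10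
    exact ⟨_, h10, by simp [CoL, H2.TH.md]⟩
  · exact h.all_of_sq L h7 (H k hk h5 e) (fun l hl => let ⟨a, h1, h2, _, h3⟩ := th_sq hT h7.1 e hl; ⟨a, h1, h2, h3⟩) t

end tw

variable {K : Type*} [Field K] [Fintype K] {q : ℕ}

/-- Fixed elements with coefficient one. -/
def w2 (a : ℕ) : SW := if (twT twE6 a).1 = a then [(a, [(1, [])])] else [(a, [(1, [])]), ((twT twE6 a).1, [((twT twE6 a).2.2, [])])]

theorem hB_2E6 (hK : Fintype.card K = q ^ 2) [MulAction (twS (xg chevE6 K) (e6Words K q)) Ω]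
    (ht : TT (twS (xg chevE6 K) (e6Words K q)) Ω) (y y' : Ω) :
    ∃ b : twS (xg chevE6 K) (e6Words K q), (b : chevE6.group K) ∈ BB chevE6 (xg chevE6 K) ∧ b • y = y' := by
  obtain ⟨φ, hφ⟩ := exists_frob hK two_ne_zero
  have hx : IsChev chevE6 (xg chevE6 K) := isChev_xg
  have := hx.finite_G GG_xg
  obtain ⟨σ, h1⟩ := exists_twistE6 hx GG_xg φ
  have h := twD_E6 hx GG_xg hφ (fun t => by rw [hφ, hφ, ← pow_mul, ← pow_two, ← hK, FiniteField.pow_card]) h1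
  have h3 : H2.TwChk chevE6.nroots 2 (A chevE6) (fun r => (fun i : Fin chevE6.rank =>
      [2241586, 2377282, 3434595, 4623492, 3434595, 2241586].getD i 0) ⬝ᵥ wt chevE6 r) rhoE6 fun r => (twT twE6 r).2.2 := by
    rw [H2.A_tab tablesE6, H2.F_tab tablesE6]; decide +kernel
  have hT := H2.th_of hK hφ le_rfl okE6 h.sub h1 hx.toIsFaith h3
  refine hB_th h hT (h3.c_rho h1.lt) (fun r hr => by
    rw [ord_eq_pk tablesE6 _ hr.1]
    exact (by decide +kernel : ∀ r < 72, chevE6.IsPosRoot r →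
      0 < ordOf chevE6 H8.twE6 [2241586, 2377282, 3434595, 4623492, 3434595, 2241586] r) r hr.1 hr)
    (by rw [H2.card_eqLocus hK hφ two_ne_zero, Nat.card_eq_fintype_card, hK]) layOK_E6 (k0 := 4) (by decide +kernel)
    (fun k hk h4 h5 => ?_) ht (h2_of tablesE6 (by decide +kernel)) y y'
  have h6 : ∀ a, chevE6.IsPosRoot a ∧ (twT twE6 a).2.1 = 1 → evS (xg chevE6 K) (fun _ => 0) (w2 a) ∈
      UU chevE6 (xg chevE6 K) ⊓ twS (xg chevE6 K) (e6Words K q) := fun a ha => by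
    unfold w2
    split_ifs with e
    · have : rhoE6 a = a := e
      simpa [mev] using ⟨x_mem_UU _ ha.1 1, h.x_mem ha.1.1 (by rw [h1.map, this, hT.fx a ha.1.1 this, map_one])⟩
    · have h7 := hT.nm_S ha.1.1 1
      simp only [H2.nm, List.range_succ, List.range_zero, List.nil_append, List.cons_append, List.map, List.prod_cons,
        List.prod_nil, Function.iterate_succ_apply', Function.iterate_zero_apply, h1.map, twF, map_one, one_pow] at h7
      refine ⟨evS_mem (by simpa using ⟨ha.1, (h1.pos a).2 ha.1⟩), ?_⟩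
      simpa [mev] using! h7
  obtain ⟨a, -, s, -, -, ⟨h7, h8⟩, h9⟩ := (by decide +kernel : ∀ k < 24, 4 ≤ k → rhoE6 (bE6 k) ≠ bE6 k →
    ∃ a ∈ List.range' 36 36, ∃ s ∈ List.range' 36 36, ctR fastE6 a s ≠ [] ∧ ((chevE6.IsPosRoot a ∧ (twT twE6 a).2.1 = 1) ∧
      chevE6.IsPosRoot s ∧ (twT twE6 s).2.1 = 1) ∧ Hd chevE6 0 layE6 (bE6 k) [[(1, [])], [(-1, [])]]
        (scol fastE6 0 (fun r => 2 * layE6 r + if r = bE6 k then 0 else 1) (cw 0 [(w2 a, w2 s)]))) k hk h4 h5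
  exact exists_CU hx.toIsSt agrE6 (by simp) (fun _ => 0) (by simpa using ⟨h6 a h7, h6 s h8⟩) (by simp [mev]) h9

theorem hB_3D4 (hK : Fintype.card K = q ^ 3) [MulAction (twS (xg chevD4 K) (d4Words K q)) Ω]
    (ht : TT (twS (xg chevD4 K) (d4Words K q)) Ω) (y y' : Ω) :
    ∃ b : twS (xg chevD4 K) (d4Words K q), (b : chevD4.group K) ∈ BB chevD4 (xg chevD4 K) ∧ b • y = y' := by
  obtain ⟨φ, hφ⟩ := exists_frob hK three_ne_zero
  have hx : IsChev chevD4 (xg chevD4 K) := isChev_xg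
  have := hx.finite_G GG_xg
  obtain ⟨σ, h1⟩ := exists_twistD4 hx GG_xg φ
  have hc := cube_D4 hK hφ
  have h := twD_D4 hx GG_xg hφ hc h1
  have h3 : H2.TwChk chevD4.nroots 3 (A chevD4) (fun r => (fun i : Fin chevD4.rank => [3, 5, 3, 3].getD i 0) ⬝ᵥ wt chevD4 r)
      rhoD4 fun r => (twT triD4 r).2.2 := by rw [H2.A_tab tablesD4, H2.F_tab tablesD4]; decide +kernel
  have hT := H2.th_of hK hφ (by omega) okD4 h.sub h1 hx.toIsFaith h3
  refine hB_th h hT (h3.c_rho h1.lt) (fun r hr => by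
    rw [ord_eq_pk tablesD4 _ hr.1]
    exact (by decide +kernel : ∀ r < 24, chevD4.IsPosRoot r → 0 < ordOf chevD4 twD4 [3, 5, 3, 3] r) r hr.1 hr)
    (by rw [H2.card_eqLocus hK hφ three_ne_zero, Nat.card_eq_fintype_card, hK]) layOK_D4 (k0 := 2) (by decide +kernel)
    (fun k hk h4 h5 => ?_) ht (h2_of tablesD4 (by decide +kernel)) y y'
  obtain ⟨t, h6⟩ : ∃ t : K, φ t + φ (φ t) ≠ 0 := by
    by_cases h2 : (2 : K) = 0
    swap
    · exact ⟨1, by simpa [one_add_one_eq_two] using h2⟩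
    have hq : 1 < q := by
      have := Fintype.one_lt_card (α := K)
      rw [hK] at this
      exact (Nat.one_lt_pow_iff three_ne_zero).1 this
    obtain ⟨t, ht⟩ := exists_pow_ne (K := K) hq (hK ▸ lt_self_pow₀ hq (by omega))
    exact ⟨t, fun e => ht (hφ t ▸ φ.injective (by linear_combination e - φ t * h2))⟩
  have h7 := hT.nm_S (r := 19) (by decide) 1
  simp only [H2.nm, List.range_succ, List.range_zero, List.nil_append, List.cons_append, List.map, List.prod_cons,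
    List.prod_nil, Function.iterate_succ_apply', Function.iterate_zero_apply, h1.map, twF, map_one, one_pow,
    show rhoD4 19 = 16 from rfl, show rhoD4 16 = 15 from rfl, show twT triD4 19 = (16, 1, -1) from rfl,
    show twT triD4 16 = (15, 1, 1) from rfl] at h7
  obtain ⟨w, h8, h9⟩ := (by decide +kernel : ∀ k < 6, 2 ≤ k → rhoD4 (bD4 k) ≠ bD4 k → ∃ w ∈ ([[(14, [(1, [0, 0, 0])])],
      [(19, [(1, [0, 0, 0])]), (16, [(-1, [0, 0, 0])]), (15, [(-1, [0, 0, 0])])]] : List SW),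
      Hd chevD4 0 layD4 (bD4 k) [[(-1, [1, 0, 0])], [(-1, [0, 1, 0]), (-1, [0, 0, 1])]]
      (scol fastD4 0 (fun r => 2 * layD4 r + if r = bD4 k then 0 else 1)
        (cw 0 [(w, [(18, [(1, [1, 0, 0])]), (13, [(1, [0, 1, 0])]), (12, [(1, [0, 0, 1])])])]))) k hk h4 h5
  refine exists_CU hx.toIsSt agrD4 (by simp) (fun i => [t, φ t, φ (φ t)].getD i 0) (List.forall_mem_singleton.2 ⟨?_,
    evS_mem (by simp only; decide +kernel), ?_⟩) ?_ h9
  · simp only [List.mem_cons, List.not_mem_nil, or_false] at h8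
    rcases h8 with rfl | rfl
    · exact ⟨evS_mem (by decide +kernel), by simpa [mev] using mem_d4a (r := 14) (t := 1) (by simp) (by simp)⟩
    · exact ⟨evS_mem (by decide +kernel), by simpa [mev] using h7⟩
  · simpa [mev, hφ] using mem_d4b (r := 18) (s := 13) (k := 12) (by simp) t
  · simp only [List.forall_mem_cons, pev_cons, pev_nil, mev]
    refine ⟨fun e => h6 ?_, fun e => h6 ?_, by simp⟩ <;> simp at e
    exacts [by simp [e], by linear_combination -e]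

theorem hB_2F4 {m : ℕ} (hm : 1 ≤ m) (hK : Fintype.card K = 2 ^ (2 * m + 1))
    [MulAction (twS (xg chevF4 K) (f4Words K (2 ^ m))) Ω] (ht : TT (twS (xg chevF4 K) (f4Words K (2 ^ m))) Ω) (y y' : Ω) :
    ∃ b : twS (xg chevF4 K) (f4Words K (2 ^ m)), (b : chevF4.group K) ∈ BB chevF4 (xg chevF4 K) ∧ b • y = y' := by
  have : CharP K 2 := charP_of_card_eq_prime_pow hK
  obtain ⟨φ, hφ⟩ : ∃ φ : K →+* K, ∀ t, φ t = t ^ 2 ^ m := ⟨iterateFrobenius K 2 m, fun _ => rfl⟩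
  have h2 : ∀ t, φ (φ t) ^ 2 = t := fun t => by
    rw [hφ, hφ, ← pow_mul, ← pow_mul, ← pow_succ, ← pow_add, ← add_assoc, ← two_mul, ← hK, FiniteField.pow_card]
  have hx : IsChev chevF4 (xg chevF4 K) := isChev_xg
  obtain ⟨σ, h1⟩ := exists_twistF4 hx GG_xg φ
  have h := twD_F4 hx GG_xg hφ h2 h1
  obtain ⟨s, hs⟩ := exists_pow_ne (K := K) (q := 2) (by omega) (hK ▸ lt_self_pow₀ one_lt_two (by omega))
  have hp := CharP.cast_eq_zero K 2
  refine h.B_trans ht (h.not_fix ht (h2_of tablesF4 (by decide +kernel))) (h.star_of layOK_F4 (k0 := 2)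
    (fun r hr => (by decide +kernel : ∀ r < 48, chevF4.IsPosRoot r → layF4 r < 2 → ∃ j : Fin chevF4.rank, r = chevF4.simple j)
      r hr.1 hr) fun k hk h4 _ _ t _ => h.all_of_sq layOK_F4 ((layOK_F4 (K := K)).base k hk).1 ?_ (fun l hl => ?_) t) y y'
  · let y1 : SW := [(27, [(1, [0, 0])]), (25, [(1, [0, 0])]), (28, [(1, [0, 0])])]
    let ys : SW := [(27, [(1, [1, 0])]), (25, [(1, [0, 1])]), (28, [(1, [1, 1])])]
    let P : List (ℕ × ℕ) := [(33, 24), (28, 30), (36, 42), (37, 32), (38, 43), (39, 45), (40, 46)]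
    let C : List SW := y1 :: ys :: scol fastF4 2 id (cw 2 [(xiW (33, 24) [0, 0] [0, 0], y1)]) ::
      (P.map fun r => xiW r [0, 0] [0, 0]) ++ [(33, 24), (28, 30)].map fun r => xiW r [1, 0] [0, 1]
    have h5 : ∀ r ∈ P, ∀ t, xiF (xg chevF4 K) φ r t ∈ UU chevF4 (xg chevF4 K) ⊓ twS (xg chevF4 K) (f4Words K (2 ^ m)) :=
      fun r hr t => let ⟨h5, h6, h7⟩ := (by decide +kernel : ∀ r ∈ P, chevF4.IsPosRoot r.1 ∧ chevF4.IsPosRoot r.2 ∧
        XiOK r ∧ r.1 ≠ chevF4.neg r.2 ∧ chevF4.commTerms r.2 r.1 = []) r hr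
        ⟨mul_mem (x_mem_UU _ h6 _) (x_mem_UU _ h5 _), xiF_mem hφ h2 h h7 t⟩
    have h6 : ∀ t, xg chevF4 K 27 (φ t) * (xg chevF4 K 25 t * xg chevF4 K 28 (φ t * t)) ∈
        UU chevF4 (xg chevF4 K) ⊓ twS (xg chevF4 K) (f4Words K (2 ^ m)) := fun t =>
      ⟨mul_mem (x_mem_UU _ (by decide +kernel) _) (mul_mem (x_mem_UU _ (by decide +kernel) _) (x_mem_UU _ (by decide +kernel) _)), by
        simpa [← hφ, h.st.zero] using mem_f4b (x := xg chevF4 K) (e := 2 ^ m) (a := 27) (b := 25) (c := 28) (d := 30) (by simp) t 0⟩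
    have h7 : evS (xg chevF4 K) (fun i => [φ s, s].getD i 0) y1 ∈
        UU chevF4 (xg chevF4 K) ⊓ twS (xg chevF4 K) (f4Words K (2 ^ m)) := by simpa [y1, mev] using h6 1
    have h8 : ∀ r ∈ P, evS (xg chevF4 K) (fun i => [φ s, s].getD i 0) (xiW r [0, 0] [0, 0]) ∈
        UU chevF4 (xg chevF4 K) ⊓ twS (xg chevF4 K) (f4Words K (2 ^ m)) := fun r hr => by
      simpa [xiW, xiF, mev] using h5 r hr 1
    have h9 : ∀ w ∈ C, evS (xg chevF4 K) (fun i => [φ s, s].getD i 0) w ∈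
        UU chevF4 (xg chevF4 K) ⊓ twS (xg chevF4 K) (f4Words K (2 ^ m)) := by
      refine List.forall_mem_cons.2 ⟨h7, List.forall_mem_cons.2 ⟨by simpa [ys, mev] using h6 s, List.forall_mem_cons.2
        ⟨CU_le _ (cw_mem h.st agrF4 hp _ (List.forall_mem_singleton.2 ⟨h8 _ (by simp [P]), h7⟩) _),
          List.forall_mem_append.2 ⟨List.forall_mem_map.2 h8, List.forall_mem_map.2 fun r hr => ?_⟩⟩⟩⟩
      simpa [xiW, xiF, mev] using h5 r (by revert r; simp [P]) s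
    obtain ⟨l, h10, h11⟩ := (by decide +kernel : ∀ k < 12, 2 ≤ k → ∃ l ∈ [(10, 4), (11, 3)] ::
      (List.range 10).flatMap fun i => (List.range 10).map fun j => [(i, j)], (∀ a ∈ l, a.1 < C.length ∧ a.2 < C.length) ∧
      Hd chevF4 2 layF4 (bF4 k) [[(1, [0, 0])], [(1, [2, 0]), (1, [0, 1])]] (scol fastF4 2
        (fun r => 2 * layF4 r + if r = bF4 (layF4 r) then 0 else 1) (cw 2 (l.map fun a => (C.getD a.1 [], C.getD a.2 [])))))
      k hk h4 |>.imp fun _ h => h.2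
    refine exists_CU h.st agrF4 hp _ (List.forall_mem_map.2 fun a ha => ⟨h9 _ ?_, h9 _ ?_⟩) ?_ h11
    · rw [List.getD_eq_getElem _ _ (h10 a ha).1]; exact List.getElem_mem _
    · rw [List.getD_eq_getElem _ _ (h10 a ha).2]; exact List.getElem_mem _
    · simp only [List.forall_mem_cons, pev_cons, pev_nil, mev]
      refine ⟨by simp, fun e => hs ?_, by simp⟩
      have e1 : φ s ^ 2 = s := by simpa [CharTwo.add_eq_zero] using e
      have e2 : s = φ s := φ.injective ((frobenius K 2).injective (e1.trans (h2 s).symm))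
      rwa [← e2] at e1
  · obtain ⟨g, g1, g2, g3⟩ := tor_F4 hφ h2 h exists_DF (tabF4 k k) (.mk0 _ (pow_ne_zero 2 hl))
    refine ⟨g, g1, g2, _, g3, ?_⟩
    simp only [rc_F4 ((layOK_F4 (K := K)).base k hk).1.1,
      (by decide +kernel : ∀ k < 12, exv (mF4 (tabF4 k k)) (rcF4 (bF4 k)) = (1, 0, 0)) k hk]
    simp [mono]

end Cfsg.Agent.H7
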