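import Cfsg.Agent.H7.TT1

/-! Abstract split BN-pairs: a point stabilizer of a 2-transitive action does not contain `U`. -/

set_option autoImplicit false
set_option linter.unusedSectionVars false

namespace Cfsg.Agent.H7

open MulAction

variable {W Φ ι : Type*} [Group W] [MulAction W Φ]

/-- Abstract split BN-pairs. -/
structure AX (G : Type*) [Group G] (R : RS W Φ ι) where
  U : Subgroup G
  B : Subgroup G
  Um : Set G
  Rep : G → W → Prop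
  P : ι → Subgroup G
  Y : ι → Subgroup G
  rep_mul : ∀ {n m w y}, Rep n w → Rep m y → Rep (n * m) (w * y)
  rep_inv : ∀ {n w}, Rep n w → Rep n⁻¹ w⁻¹
  rep_ex : ∀ w, ∃ n, Rep n w
  rep_one : ∀ {n}, Rep n 1 → n ∈ B
  U_le : U ≤ B
  conj_U : ∀ {b u}, b ∈ B → u ∈ U → b * u * b⁻¹ ∈ U
  B_eq : ∀ {b}, b ∈ B → ∃ t, Rep t 1 ∧ b * t⁻¹ ∈ U
  bruhat : ∀ g, ∃ w n u b, Rep n w ∧ u ∈ U ∧ n⁻¹ * u * n ∈ Um ∧ b ∈ B ∧ g = u * n * b
  uniq : ∀ {n m w y b b'}, Rep n w → Rep m y → b ∈ B → b' ∈ B → m = b * n * b' → y = w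
  hull1 : ∀ {u n m w y}, u ∈ U → Rep n w → n⁻¹ * u * n ∈ B → Rep m y →
    (∀ γ, R.pos γ → R.pos (w⁻¹ • γ) → R.pos (y⁻¹ • γ)) → m⁻¹ * u * m ∈ U
  hull2 : ∀ {u n m w y}, u ∈ U → Rep n w → n⁻¹ * u * n ∈ Um → Rep m y →
    (∀ γ, R.pos γ → ¬ R.pos (w⁻¹ • γ) → R.pos (y⁻¹ • γ)) → m⁻¹ * u * m ∈ U
  B_le : ∀ s, B ≤ P s
  rep_P : ∀ {s n}, Rep n (R.σ s) → n ∈ P s
  P_rep : ∀ {s n w}, Rep n w → n ∈ P s → w = 1 ∨ w = R.σ s
  Y_ne : ∀ s, ¬ U ≤ Y s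
  comm_le : ∀ s, ⁅U, U⁆ ≤ Y s
  Us_le : ∀ {s u n}, u ∈ U → Rep n (R.σ s) → n⁻¹ * u * n ∈ U → u ∈ Y s

namespace AX

open RS

variable {G : Type*} [Group G] {R : RS W Φ ι} (A : AX G R)

/-- The Bruhat cell of an element. -/
noncomputable def cell (g : G) : W := (A.bruhat g).choose

/-- Representatives. -/
noncomputable def nn (w : W) : G := (A.rep_ex w).choose

theorem rep_nn (w : W) : A.Rep (A.nn w) w := (A.rep_ex w).choose_spec

/-- The elements of `U_w^-`. -/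
def Xw (w : W) (a : G) : Prop := a ∈ A.U ∧ ∃ n, A.Rep n w ∧ n⁻¹ * a * n ∈ A.Um

variable {A} {g n m u a b b' h : G} {w y : W} {s t : ι}

theorem cell_spec (g : G) : ∃ n u b, A.Rep n (A.cell g) ∧ u ∈ A.U ∧ n⁻¹ * u * n ∈ A.Um ∧ b ∈ A.B ∧ g = u * n * b :=
  (A.bruhat g).choose_spec

theorem cell_eq (hn : A.Rep n w) (hb : b ∈ A.B) (hb' : b' ∈ A.B) (e : g = b * n * b') : A.cell g = w := by
  obtain ⟨m, u, c, h1, h2, -, h3, h4⟩ := cell_spec (A := A) g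
  exact A.uniq hn h1 (mul_mem (inv_mem (A.U_le h2)) hb) (mul_mem hb' (inv_mem h3))
    (by rw [show m = u⁻¹ * g * c⁻¹ by rw [h4]; group, e]; group)

theorem rep_div (hn : A.Rep n w) (hm : A.Rep m w) : n⁻¹ * m ∈ A.B :=
  A.rep_one (by simpa using A.rep_mul (A.rep_inv hn) hm)

theorem sharp (hn : A.Rep n (A.cell g)) : ∃ u b, A.Xw (A.cell g) u ∧ b ∈ A.B ∧ g = u * n * b := by
  obtain ⟨m, u, c, h1, h2, h5, h3, h4⟩ := cell_spec (A := A) g
  exact ⟨u, n⁻¹ * m * c, ⟨h2, m, h1, h5⟩, mul_mem (rep_div hn h1) h3, by rw [h4]; group⟩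

theorem cell_rep (hn : A.Rep n w) : A.cell n = w := cell_eq hn (one_mem _) (one_mem _) (by group)

theorem cell_mul (hb : b ∈ A.B) (hb' : b' ∈ A.B) (g : G) : A.cell (b * g * b') = A.cell g := by
  obtain ⟨m, u, c, h1, h2, -, h3, h4⟩ := cell_spec (A := A) g
  exact cell_eq h1 (mul_mem hb (A.U_le h2)) (mul_mem h3 hb') (by rw [h4]; group)

theorem cell_left (hb : b ∈ A.B) (g : G) : A.cell (b * g) = A.cell g := by
  simpa using cell_mul hb (one_mem _) g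

theorem cell_right (hb : b ∈ A.B) (g : G) : A.cell (g * b) = A.cell g := by
  simpa using cell_mul (one_mem _) hb g

theorem cell_inv (g : G) : A.cell g⁻¹ = (A.cell g)⁻¹ := by
  obtain ⟨m, u, c, h1, h2, -, h3, h4⟩ := cell_spec (A := A) g
  exact cell_eq (A.rep_inv h1) (inv_mem h3) (inv_mem (A.U_le h2)) (by rw [h4]; group)

theorem mem_B_of_cell (h : A.cell g = 1) : g ∈ A.B := by
  obtain ⟨m, u, c, h1, h2, -, h3, h4⟩ := cell_spec (A := A) g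
  rw [h4]
  exact mul_mem (mul_mem (A.U_le h2) (A.rep_one (h ▸ h1))) h3

theorem decomp (hu : u ∈ A.U) (hn : A.Rep n w) : ∃ a, A.Xw w a ∧ a⁻¹ * u ∈ A.U ∧ n⁻¹ * (a⁻¹ * u) * n ∈ A.U := by
  have h0 : A.cell (u * n) = w := by rw [cell_left (A.U_le hu), cell_rep hn]
  obtain ⟨a, b, h1, h2, h3⟩ := sharp (g := u * n) (h0 ▸ hn)
  have h4 := mul_mem (inv_mem h1.1) hu
  refine ⟨a, h0 ▸ h1, h4, A.hull1 h4 hn ?_ hn fun _ _ h => h⟩
  rwa [show n⁻¹ * (a⁻¹ * u) * n = b by rw [mul_assoc, mul_assoc, h3]; group]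

theorem Xw.conj (ha : A.Xw w a) (hm : A.Rep m y) (h : ∀ γ, R.pos γ → ¬ R.pos (w⁻¹ • γ) → R.pos (y⁻¹ • γ)) :
    m⁻¹ * a * m ∈ A.U := by
  obtain ⟨h1, n, h2, h3⟩ := ha
  exact A.hull2 h1 h2 h3 hm h

theorem Xw.conj_σ (ha : A.Xw (R.σ s) a) (hm : A.Rep m y) (h : s ∉ R.Ds y) : m⁻¹ * a * m ∈ A.U :=
  ha.conj hm fun _ h1 h2 => (keep_of_disj (J := {s}) (by simpa using h) (in_of_σ h1 h2)).2 h1

theorem rep_σ_inv (hn : A.Rep n (R.σ s)) : A.Rep n⁻¹ (R.σ s) := by simpa [σ_inv] using A.rep_inv hn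

theorem exists_X (s : ι) (hu : u ∈ A.U) : ∃ a, A.Xw (R.σ s) a ∧ a⁻¹ * u ∈ A.Y s := by
  obtain ⟨a, h1, h2, h3⟩ := decomp hu (A.rep_nn (R.σ s))
  exact ⟨a, h1, A.Us_le h2 (A.rep_nn _) h3⟩

theorem exists_X_notMem (s : ι) : ∃ a, A.Xw (R.σ s) a ∧ a ∉ A.Y s := by
  obtain ⟨u, h1, h2⟩ := SetLike.not_le_iff_exists.1 (A.Y_ne s)
  obtain ⟨a, h3, h4⟩ := exists_X s h1
  exact ⟨a, h3, fun h => h2 (by simpa using mul_mem h h4)⟩

theorem Xw.mem_Y (ha : A.Xw (R.σ s) a) (h : t ≠ s) : a ∈ A.Y t :=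
  A.Us_le ha.1 (A.rep_nn _) (ha.conj_σ (A.rep_nn _) fun h1 => h1 (by
    rw [σ_inv]; exact R.σ_pos t s _ (R.α_pos s) h.symm (sp_self s)))

theorem cell_σ (hn : A.Rep n (R.σ s)) (hs : s ∉ R.Ds (A.cell g)) : A.cell (n * g) = R.σ s * A.cell g := by
  obtain ⟨m, u, c, h1, h2, -, h3, h4⟩ := cell_spec (A := A) g
  obtain ⟨a, h5, h6, h7⟩ := decomp (inv_mem h2) (rep_σ_inv hn)
  refine cell_eq (A.rep_mul hn h1) (inv_mem (A.U_le h7)) (mul_mem (inv_mem (A.U_le (h5.conj_σ h1 hs))) h3) ?_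
  rw [h4]; group

theorem cell_of_P (hh : h ∈ A.P s) : A.cell h = 1 ∨ A.cell h = R.σ s := by
  obtain ⟨m, u, c, h1, h2, -, h3, h4⟩ := cell_spec (A := A) h
  refine A.P_rep h1 ?_
  rw [show m = u⁻¹ * h * c⁻¹ by rw [h4]; group]
  exact mul_mem (mul_mem (inv_mem (A.B_le s (A.U_le h2))) hh) (inv_mem (A.B_le s h3))

theorem cell_P (hh : h ∈ A.P s) (g : G) : A.cell (h * g) = A.cell g ∨ A.cell (h * g) = R.σ s * A.cell g := by
  have key : ∀ h ∈ A.P s, ∀ g, s ∉ R.Ds (A.cell g) →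
      A.cell (h * g) = A.cell g ∨ A.cell (h * g) = R.σ s * A.cell g := fun h hh g hs => by
    rcases cell_of_P hh with e | e
    · exact .inl (cell_left (mem_B_of_cell e) g)
    obtain ⟨m, u, c, h1, h2, -, h3, h4⟩ := cell_spec (A := A) h
    right
    rw [h4, mul_assoc, mul_assoc, cell_left (A.U_le h2), cell_σ (e ▸ h1) (by rwa [cell_left h3]), cell_left h3]
  by_cases hs : s ∈ R.Ds (A.cell g)
  swap
  · exact key h hh g hs
  obtain ⟨m, u, c, h1, h2, -, h3, h4⟩ := cell_spec (A := A) g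
  have hn := A.rep_nn (R.σ s)
  have e : A.cell ((A.nn (R.σ s))⁻¹ * m * c) = R.σ s * A.cell g := by
    rw [cell_right h3, cell_rep (A.rep_mul (rep_σ_inv hn) h1)]
  have := key (h * u * A.nn (R.σ s)) (mul_mem (mul_mem hh (A.B_le s (A.U_le h2))) (A.rep_P hn)) _
    (by rw [e, mem_Ds_σ]; simpa using hs)
  rw [e, ← mul_assoc (R.σ s), R.σσ, one_mul, show h * u * A.nn (R.σ s) * ((A.nn (R.σ s))⁻¹ * m * c) = h * g by
    rw [h4]; group] at this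
  exact this.symm

theorem cell_WJ {J : Set ι} (hw : w ∈ R.WJ J) : ∀ n, A.Rep n w → ∀ g, A.cell (n * g) * (A.cell g)⁻¹ ∈ R.WJ J := by
  induction hw using Subgroup.closure_induction with
  | mem x hx =>
    obtain ⟨s, hs, rfl⟩ := hx
    intro n hn g
    rcases cell_P (A.rep_P hn) g with e | e
    · rw [e, mul_inv_cancel]; exact one_mem _
    · rw [e, mul_inv_cancel_right]; exact σ_mem hs
  | one =>
    intro n hn g
    rw [cell_left (A.rep_one hn), mul_inv_cancel]; exact one_mem _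
  | mul x y _ _ hx hy =>
    intro n hn g
    have h1 := hx _ (A.rep_nn x) ((A.nn x)⁻¹ * n * g)
    have h2 := hy ((A.nn x)⁻¹ * n) (by simpa using A.rep_mul (A.rep_inv (A.rep_nn x)) hn) g
    simpa [mul_assoc] using mul_mem h1 h2
  | inv x _ hx =>
    intro n hn g
    simpa using inv_mem (hx n⁻¹ (by simpa using A.rep_inv hn) (n * g))

variable [Fintype Φ] [Finite W] {Ω : Type*} [MulAction G Ω]

theorem B_fix (hT : TT G Ω) (hU : ∃ u ∈ A.U, ∃ y : Ω, u • y ≠ y) {x : Ω} (hx : ∀ u ∈ A.U, u • x = x)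
    (hb : b ∈ A.B) : b • x = x := by
  obtain ⟨t, ht, h1⟩ := A.B_eq hb
  have key : ∀ k, k • x = x → ∀ u ∈ A.U, (k * u * k⁻¹) • t • x = t • x := fun k hk u hu => by
    obtain ⟨m, v, c, h2, h3, -, h4, h5⟩ := cell_spec (A := A) k
    obtain ⟨t', h6, h7⟩ := A.B_eq h4
    have h8 := A.rep_mul h2 h6
    have h9 : (m * t') • x = x := by
      have := A.conj_U (inv_mem (A.rep_one h6)) h7
      rw [show m * t' = v⁻¹ * k * (t'⁻¹ * (c * t'⁻¹) * t'⁻¹⁻¹)⁻¹ by rw [h5]; group, mul_smul, mul_smul,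
        hx _ (inv_mem this), hk, hx _ (inv_mem h3)]
    have h10 : ∀ v ∈ A.U, v • t • x = t • x := fun v hv => by
      rw [← mul_smul, show v * t = t * (t⁻¹ * v * t⁻¹⁻¹) by group, mul_smul,
        hx _ (A.conj_U (inv_mem (A.rep_one ht)) hv)]
    have h11 : (m * t')⁻¹ * t⁻¹ * (m * t') ∈ A.B :=
      A.rep_one (by simpa using A.rep_mul (A.rep_mul (A.rep_inv h8) (A.rep_inv ht)) h8)
    have h12 := hx _ (A.conj_U (mul_mem h11 (mul_mem (inv_mem (A.rep_one h6)) h4)) hu)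
    have h13 : (m * t')⁻¹ • x = x := by rw [inv_smul_eq_iff, h9]
    calc (k * u * k⁻¹) • t • x = v • t • (m * t') • ((m * t')⁻¹ * t⁻¹ * (m * t') * (t'⁻¹ * c) * u *
          ((m * t')⁻¹ * t⁻¹ * (m * t') * (t'⁻¹ * c))⁻¹) • (m * t')⁻¹ • t⁻¹ • v⁻¹ • t • x := by
          simp only [← mul_smul]; congr 1; rw [h5]; group
      _ = t • x := by rw [h10 _ (inv_mem h3), inv_smul_smul, h13, h12, h9, h10 _ h3]
  have ht' : t • x = x := by
    by_contra hne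
    obtain ⟨u, hu, y, hy⟩ := hU
    obtain ⟨k, h2, h3⟩ := hT.move x y x (t • x) (by rintro rfl; exact hy (hx u hu)) (Ne.symm hne)
    have := key k h2 u hu
    rw [← h3, mul_smul, inv_smul_smul, mul_smul, smul_left_cancel_iff] at this
    exact hy this
  rw [show b = b * t⁻¹ * t by group, mul_smul, ht', hx _ h1]

theorem mem_WJ_of_fix {x : Ω} (hx : ∀ b ∈ A.B, b • x = x) (w : W) :
    ∀ n, A.Rep n w → n • x = x → w ∈ R.WJ {s | ∃ n, A.Rep n (R.σ s) ∧ n • x = x} := by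
  refine len_induction (R := R) (P := fun w => ∀ n, A.Rep n w → n • x = x → w ∈ R.WJ {s | ∃ n, A.Rep n (R.σ s) ∧ n • x = x})
    (fun _ _ _ => one_mem _) (fun w s hs ih n hn h1 => ?_) w
  obtain ⟨a, h2, h3⟩ := exists_X_notMem (A := A) s
  have hm := A.rep_nn (R.σ s)
  generalize A.nn (R.σ s) = m at hm
  have h4 := h2.conj_σ (A.rep_mul hm hn) (by rw [mem_Ds_σ]; simpa using hs)
  have h5 : (m⁻¹ * a * m) • x = x := by
    rw [show m⁻¹ * a * m = n * ((m * n)⁻¹ * a * (m * n)) * n⁻¹ by group, mul_smul, mul_smul,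
      show n⁻¹ • x = x by rw [inv_smul_eq_iff, h1], hx _ (A.U_le h4), h1]
  rcases cell_of_P (s := s) (mul_mem (mul_mem (inv_mem (A.rep_P hm)) (A.B_le s (A.U_le h2.1))) (A.rep_P hm))
    with e | e
  · exact absurd (A.Us_le h2.1 hm (A.hull1 h2.1 hm (mem_B_of_cell e) hm fun _ _ h => h)) h3
  obtain ⟨k, v, c, h6, h7, -, h8, h9⟩ := cell_spec (A := A) (m⁻¹ * a * m)
  rw [h9, mul_smul, mul_smul, hx c h8, ← eq_inv_smul_iff, hx _ (inv_mem (A.U_le h7))] at h5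
  rw [e] at h6
  exact (mul_mem_cancel_left (σ_mem (J := {s | ∃ n, A.Rep n (R.σ s) ∧ n • x = x}) ⟨k, h6, h5⟩)).1 (ih _ (A.rep_mul h6 hn) (by rw [mul_smul, h1, h5]))

/-- Case I: `U` fixes no point. -/
theorem not_fix (hT : TT G Ω) (hU : ∃ u ∈ A.U, ∃ y : Ω, u • y ≠ y)
    (h2 : ∀ s, ∃ γ, R.pos γ ∧ R.sp s γ ∧ ¬ R.In {s} γ ∧ R.sp s (R.σ s • γ)) (x : Ω) :
    ¬ ∀ u ∈ A.U, u • x = x := fun hx0 => by
  have hx : ∀ b ∈ A.B, b • x = x := fun b hb => B_fix hT hU hx0 hb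
  set J : Set ι := {s | ∃ n, A.Rep n (R.σ s) ∧ n • x = x} with hJ
  have hK : ∀ k, k • x = x → ∀ g, A.cell (k * g) * (A.cell g)⁻¹ ∈ R.WJ J := fun k hk g => by
    obtain ⟨m, v, c, h3, h4, -, h5, h6⟩ := cell_spec (A := A) k
    have h7 : m • x = x := by
      rwa [h6, mul_smul, mul_smul, hx c h5, ← eq_inv_smul_iff, hx _ (inv_mem (A.U_le h4))] at hk
    have := cell_WJ (mem_WJ_of_fix hx _ m h3 h7) m h3 (c * g)
    rwa [cell_left h5, ← cell_left (A.U_le h4), ← mul_assoc, ← mul_assoc, ← h6] at this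
  obtain ⟨s, hs⟩ : ∃ s, s ∉ J := by
    by_contra hn
    have h3 : ∀ w n, A.Rep n w → n • x = x := fun w => by
      refine len_induction (R := R) (P := fun w => ∀ n, A.Rep n w → n • x = x) (fun n h => hx n (A.rep_one h))
        (fun w s _ ih n h => ?_) w
      obtain ⟨m, h4, h5⟩ : s ∈ J := by_contra fun h => hn ⟨s, h⟩
      have := ih _ (A.rep_mul h4 h)
      rwa [mul_smul, ← eq_inv_smul_iff, show m⁻¹ • x = x by rw [inv_smul_eq_iff, h5]] at this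
    obtain ⟨g, hg⟩ := hT.exists_ne_smul x
    obtain ⟨m, v, c, h4, h5, -, h6, h7⟩ := cell_spec (A := A) g
    exact hg (by rw [h7, mul_smul, mul_smul, hx c h6, h3 _ m h4, hx v (A.U_le h5)])
  obtain ⟨v, -, hv⟩ := R.exists_wJ Set.univ
  have hv' : ∀ γ, R.pos (v⁻¹ • γ) ↔ ¬ R.pos γ := fun γ => flip_of_sub hv fun _ _ => trivial
  have h3 : A.nn v • x ≠ x := fun e => hv (Set.mem_univ s)
    (pos_WJ (inv_mem (mem_WJ_of_fix hx v _ (A.rep_nn v) e)) (R.α_pos s) (by rwa [in_α]))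
  obtain ⟨k, h4, h5⟩ := hT.move x (A.nn (R.σ s) • x) x (A.nn v • x) (fun e => hs ⟨_, A.rep_nn _, e.symm⟩) h3.symm
  have h6 := hK k h4 (A.nn (R.σ s))
  have h7 := hK ((A.nn v)⁻¹ * k * A.nn (R.σ s)) (by rw [mul_smul, mul_smul, h5, inv_smul_smul])
    (k * A.nn (R.σ s))⁻¹
  rw [mul_assoc _ k, mul_inv_cancel_right, cell_inv, cell_inv, inv_inv, cell_rep (A.rep_nn v)] at h7
  rw [cell_rep (A.rep_nn _), σ_inv] at h6
  obtain ⟨γ, h8, h9, h10, h11⟩ := h2 s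
  have h12 := pos_WJ h7 (pos_WJ (σ_mem (Set.mem_singleton s)) h8 h10) fun h => hs (h s h11)
  rw [mul_smul, ← mul_smul (A.cell _), hv'] at h12
  exact h12 (pos_WJ h6 h8 fun h => hs (h s h9))

end AX

end Cfsg.Agent.H7
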