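import Cfsg.Agent.H7.TT2

/-! Howlett's argument: multiplicities of linear characters of `U` in constituents of `1_B^G`. -/

set_option autoImplicit false
set_option linter.unusedSectionVars false

namespace Cfsg.Agent.H7

open Finset
open scoped Classical

variable {W Φ ι : Type*} [Group W] [MulAction W Φ] [Fintype Φ] [Fintype W]

namespace RS

variable (R : RS W Φ ι)

/-- The adapted basis of functions on `W`. -/
noncomputable def bv (v : W) : W → ℂ := fun x => if x * v⁻¹ ∈ R.WJ (R.Ds v) then 1 else 0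

/-- Invariance under a simple reflection. -/
def Inv (s : ι) (f : W → ℂ) : Prop := ∀ x, f (R.σ s * x) = f x

variable {R} {v x : W} {s : ι}

theorem bv_ne (h : R.bv v x ≠ 0) : x = v ∨ R.len x < R.len v := by
  have h1 : x * v⁻¹ ∈ R.WJ (R.Ds v) := by_contra fun h1 => h (if_neg h1)
  by_cases h2 : x * v⁻¹ = 1
  · exact .inl (mul_inv_eq_one.1 h2)
  · exact .inr (by simpa using len_lt subset_rfl h1 h2)

theorem inv_bv (h : s ∈ R.Ds v) : R.Inv s (R.bv v) := fun x => by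
  simp only [bv, mul_assoc, mul_mem_cancel_left (σ_mem h)]

theorem exists_top {r : W → ℂ} (h : r ≠ 0) : ∃ v, r v ≠ 0 ∧ ∑ u, r u * R.bv u v = r v ∧
    ∀ x, R.len v < R.len x → ∑ u, r u * R.bv u x = 0 := by
  obtain ⟨v0, h0⟩ := Function.ne_iff.1 h
  obtain ⟨v, h1, h2⟩ := exists_max_image (univ.filter fun u => r u ≠ 0) R.len ⟨v0, by simpa using h0⟩
  simp only [mem_filter, mem_univ, true_and] at h1 h2
  refine ⟨v, h1, ?_, fun x hx => sum_eq_zero fun u _ => by_contra fun h3 => ?_⟩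
  · rw [sum_eq_single v (fun u _ hu => by_contra fun h3 => ?_) (by simp)]
    · simp [bv]
    have := h2 u (left_ne_zero_of_mul h3)
    rcases bv_ne (right_ne_zero_of_mul h3) with e | e
    · exact hu e.symm
    · omega
  have := h2 u (left_ne_zero_of_mul h3)
  rcases bv_ne (right_ne_zero_of_mul h3) with rfl | e <;> omega

theorem li_bv : LinearIndependent ℂ R.bv := by
  refine Fintype.linearIndependent_iff.2 fun r hr => by_contra fun h => ?_
  obtain ⟨v, h1, h2, -⟩ := exists_top (R := R) (r := r) fun e => h fun i => congrFun e i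
  exact h1 (by simpa [h2] using congrFun hr v)

variable (R) in
/-- The adapted basis. -/
noncomputable def bB : Module.Basis W ℂ (W → ℂ) := basisOfLinearIndependentOfCardEqFinrank (li_bv (R := R)) (by simp)

theorem bB_apply (v : W) : R.bB v = R.bv v := by simp [bB]

theorem Inv.repr {f : W → ℂ} (hf : R.Inv s f) (h : s ∉ R.Ds v) : R.bB.repr f v = 0 := by
  by_contra hn
  obtain ⟨u, h1, h2, h3⟩ := exists_top (R := R) (r := fun u => if s ∈ R.Ds u then 0 else R.bB.repr f u)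
    fun e => hn (by simpa [h] using congrFun e v)
  have h4 : s ∉ R.Ds u := fun h => h1 (if_pos h)
  have key : ∀ x, ∑ u, (if s ∈ R.Ds u then 0 else R.bB.repr f u) * R.bv u x =
      f x - ∑ u, (if s ∈ R.Ds u then R.bB.repr f u * R.bv u x else 0) := fun x => by
    rw [← congrFun (R.bB.sum_repr f) x]
    simp only [Finset.sum_apply, bB_apply, ← sum_sub_distrib]
    exact sum_congr rfl fun u _ => by split_ifs <;> simp
  refine h1 (h2.symm.trans (Eq.trans ?_ (h3 _ (len_lt_σ h4))))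
  rw [key, key, hf]
  congr 1
  exact sum_congr rfl fun w _ => by
    split_ifs with h5
    exacts [by rw [inv_bv h5], rfl]

theorem trace_pi {Z : Type*} [Fintype Z] (f : (Z → ℂ) →ₗ[ℂ] Z → ℂ) :
    LinearMap.trace ℂ _ f = ∑ z, f (Pi.single z 1) z := by
  simp [LinearMap.trace_eq_matrix_trace ℂ (Pi.basisFun ℂ Z), Matrix.trace, LinearMap.toMatrix_apply]

theorem trace_quot {J : Set ι} (A : (W → ℂ) →ₗ[ℂ] W → ℂ) (hA : ∀ s f, R.Inv s f → R.Inv s (A f))
    (L : W → (W → ℂ) →ₗ[ℂ] ℂ) (h1 : ∀ w, ∀ s ∈ J, ∀ f, R.Inv s f → L w f = 0)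
    (h2 : ∀ v w, (∀ s ∈ J, s ∉ R.Ds v) → (∀ s ∈ J, s ∉ R.Ds w) → L w (Pi.single v 1) = if v = w then 1 else 0) :
    ∑ w with ∀ s ∈ J, s ∉ R.Ds w, L w (A (Pi.single w 1)) =
      ∑ w with ∀ s ∈ J, s ∉ R.Ds w, R.bB.repr (A (R.bv w)) w := by
  let Z := {w // ∀ s ∈ J, s ∉ R.Ds w}
  let Lm : (W → ℂ) →ₗ[ℂ] Z → ℂ := LinearMap.pi fun w => L w
  let ρ : (W → ℂ) →ₗ[ℂ] Z → ℂ := LinearMap.pi fun w => R.bB.coord w
  let C : (Z → ℂ) →ₗ[ℂ] W → ℂ := Fintype.linearCombination ℂ fun w => R.bv w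
  let E : (Z → ℂ) →ₗ[ℂ] W → ℂ := Fintype.linearCombination ℂ fun w => Pi.single w.1 1
  have key : ∀ f : (W → ℂ) →ₗ[ℂ] Z → ℂ, (∀ s ∈ J, ∀ v, s ∈ R.Ds v → f (R.bv v) = 0) → f = (f ∘ₗ C) ∘ₗ ρ := by
    refine fun f hf => R.bB.ext fun v => ?_
    by_cases hv : ∀ s ∈ J, s ∉ R.Ds v
    · have : ρ (R.bB v) = Pi.single (⟨v, hv⟩ : Z) 1 := funext fun w => by
        simp [ρ, Finsupp.single_apply, Pi.single_apply, Subtype.ext_iff, eq_comm]
      rw [LinearMap.comp_apply, this]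
      simp [C, bB_apply]
    have : ρ (R.bB v) = 0 := funext fun w => by
      simp [ρ, Finsupp.single_apply, show v ≠ w from fun e => hv (e ▸ w.2)]
    push Not at hv
    obtain ⟨s, h3, h4⟩ := hv
    rw [LinearMap.comp_apply, this, map_zero, bB_apply, hf s h3 v h4]
  have e1 := key Lm fun s hs v hv => funext fun w => h1 w s hs _ (inv_bv hv)
  have e2 := key (ρ ∘ₗ A) fun s hs v hv => funext fun w => (hA s _ (inv_bv hv)).repr (w.2 s hs)
  have e3 : (Lm ∘ₗ C) * (ρ ∘ₗ E) = 1 := by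
    rw [Module.End.mul_eq_comp, ← LinearMap.comp_assoc, ← e1]
    refine (Pi.basisFun ℂ Z).ext fun v => funext fun w => ?_
    simp [Lm, E, h2 v w v.2 w.2, Pi.single_apply, Subtype.val_inj, eq_comm]
  have e4 : Lm ∘ₗ A ∘ₗ E = (Lm ∘ₗ C) * (((ρ ∘ₗ A) ∘ₗ C) * (ρ ∘ₗ E)) := by
    rw [Module.End.mul_eq_comp, Module.End.mul_eq_comp, ← LinearMap.comp_assoc E, ← LinearMap.comp_assoc E, ← e2,
      ← LinearMap.comp_assoc, ← LinearMap.comp_assoc, ← e1]
  have e5 := congrArg (LinearMap.trace ℂ _) e4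
  rw [LinearMap.trace_mul_comm, mul_assoc, mul_eq_one_comm.1 e3, mul_one, trace_pi, trace_pi] at e5
  rw [sum_subtype (p := fun w => ∀ s ∈ J, s ∉ R.Ds w) _ (by simp),
    sum_subtype (p := fun w => ∀ s ∈ J, s ∉ R.Ds w) _ (by simp)]
  simpa [Lm, E, ρ, C] using e5

end RS

namespace AX

open RS

variable {G : Type*} [Group G] [Fintype G] {R : RS W Φ ι} {A : AX G R}

variable (A) in
/-- The operator on functions on `W` given by a kernel. -/
noncomputable def op (κ : G → ℂ) : (W → ℂ) →ₗ[ℂ] W → ℂ where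
  toFun f w := ∑ h, κ ((A.nn w)⁻¹ * h) * f (A.cell h)
  map_add' f f' := funext fun w => by simp [mul_add, sum_add_distrib]
  map_smul' c f := funext fun w => by simp [mul_sum, mul_left_comm]

variable (A) in
/-- Averaging against a linear character after translation by `n`. -/
noncomputable def Ph (l : A.U →* ℂ) (n g : G) : (W → ℂ) →ₗ[ℂ] ℂ where
  toFun f := ∑ u : A.U, l u * f (A.cell (n⁻¹ * u * g))
  map_add' f f' := by simp [mul_add, sum_add_distrib]
  map_smul' c f := by simp [mul_sum, mul_left_comm]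

theorem Ph_apply (l : A.U →* ℂ) (n g : G) (f : W → ℂ) :
    A.Ph l n g f = ∑ u : A.U, l u * f (A.cell (n⁻¹ * u * g)) := rfl

theorem Ph_mul (l : A.U →* ℂ) (n g : G) (f : W → ℂ) (u : A.U) {b : G} (hb : b ∈ A.B) :
    A.Ph l n (u * g * b) f = l u⁻¹ * A.Ph l n g f := by
  rw [Ph_apply, Ph_apply, ← Equiv.sum_comp (Equiv.mulRight u⁻¹), mul_sum]
  refine sum_congr rfl fun x _ => ?_
  rw [← cell_right hb (n⁻¹ * x * g)]
  simp [mul_assoc, mul_left_comm]

theorem cell_sum (F : G → ℂ) (m : G) : (Fintype.card A.U * Fintype.card A.B : ℂ) * ∑ h with A.cell h = A.cell m, F h =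
    #{h | A.cell h = A.cell m} * ∑ u : A.U, ∑ b : A.B, F (u * m * b) := by
  have h1 : ∀ h, A.cell h = A.cell m → ∑ u : A.U, ∑ b : A.B, F (u * h * b) = ∑ u : A.U, ∑ b : A.B, F (u * m * b) := by
    intro h hh
    obtain ⟨u, b, h2, h3, h4⟩ := sharp (g := h) (A.rep_nn _)
    obtain ⟨u', b', h5, h6, h7⟩ := sharp (g := m) (A.rep_nn _)
    rw [← Equiv.sum_comp (Equiv.mulRight (⟨u' * u⁻¹, mul_mem h5.1 (inv_mem h2.1)⟩ : A.U))]
    refine sum_congr rfl fun x _ => ?_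
    rw [← Equiv.sum_comp (Equiv.mulLeft (⟨b⁻¹ * b', mul_mem (inv_mem h3) h6⟩ : A.B))]
    refine sum_congr rfl fun y _ => congrArg F ?_
    rw [hh] at h4
    generalize A.nn _ = k at h4 h7
    subst h4 h7
    simp [mul_assoc]
  rw [← nsmul_eq_mul (#_), ← sum_const, ← sum_congr rfl fun h hh => h1 h (mem_filter.1 hh).2, sum_comm]
  rw [sum_congr rfl fun u _ => sum_comm]
  have h2 : ∀ (u : A.U) (b : A.B), ∑ h with A.cell h = A.cell m, F (u * h * b) = ∑ h with A.cell h = A.cell m, F h :=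
    fun u b => sum_equiv ((Equiv.mulLeft (u : G)).trans (Equiv.mulRight (b : G)))
      (fun h => by simp [cell_mul (A.U_le u.2) b.2]) fun h _ => rfl
  simp only [h2]
  simp [mul_assoc]

variable {κ : G → ℂ} (hκ : ∀ b ∈ A.B, ∀ b' ∈ A.B, ∀ g, κ (b * g * b') = κ g)
include hκ

theorem op_eq (f : W → ℂ) (g : G) : ∑ h, κ (g⁻¹ * h) * f (A.cell h) = A.op κ f (A.cell g) := by
  obtain ⟨u, b, h2, h3, h4⟩ := sharp (g := g) (A.rep_nn _)
  rw [← Equiv.sum_comp (Equiv.mulLeft u)]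
  refine sum_congr rfl fun h _ => ?_
  rw [← hκ _ h3 1 (one_mem _), Equiv.coe_mulLeft, cell_left (A.U_le h2.1)]
  congr 2
  generalize A.nn _ = k at h4
  subst h4
  group

theorem op_inv (s : ι) (f : W → ℂ) (hf : R.Inv s f) : R.Inv s (A.op κ f) := fun x => by
  have hn := A.rep_nn (R.σ s)
  rw [← cell_rep (A.rep_mul hn (A.rep_nn x)), ← op_eq hκ, ← Equiv.sum_comp (Equiv.mulLeft (A.nn (R.σ s)))]
  refine sum_congr rfl fun h _ => ?_
  rcases cell_P (A.rep_P hn) h with e | e <;> simp [e, mul_assoc, hf _]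

theorem Ph_op (l : A.U →* ℂ) (n g : G) (f : W → ℂ) :
    ∑ h, κ (g⁻¹ * h) * A.Ph l n h f = A.Ph l n g (A.op κ f) := by
  simp only [Ph_apply, mul_sum, ← op_eq hκ]
  rw [sum_comm]
  refine sum_congr rfl fun u _ => ?_
  rw [← Equiv.sum_comp (Equiv.mulLeft (n⁻¹ * u)⁻¹)]
  exact sum_congr rfl fun h _ => by simp [mul_assoc, mul_left_comm]

variable {l : A.U →* ℂ} {J : Set ι} (h1 : ∀ u : A.U, (∀ s ∈ J, (u : G) ∈ A.Y s) → l u = 1)
  (h2 : ∀ s ∈ J, ∃ a : A.U, A.Xw (R.σ s) a ∧ l a ≠ 1)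
include h1 h2

theorem howlett : ∑ g, ∑ u : A.U, l u⁻¹ * κ (g⁻¹ * u * g) =
    Fintype.card A.U * ∑ w with ∀ s ∈ J, s ∉ R.Ds w, R.bB.repr (A.op κ (R.bv w)) w := by
  obtain ⟨v, hv, hJ⟩ := R.exists_wJ J
  have hn := A.rep_nn v
  generalize A.nn v = n at hn
  have hm : ∀ w, A.Rep (n * A.nn w) (v * w) := fun w => A.rep_mul hn (A.rep_nn w)
  have kill : ∀ g, ∀ s ∈ J, ∀ f, R.Inv s f → A.Ph l n g f = 0 := fun g s hs f hf => by
    obtain ⟨t, ht, h3⟩ := exists_not_Ds hv hJ hs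
    obtain ⟨a, h4, h5⟩ := h2 t ht
    have h6 := A.rep_P (A.rep_nn (R.σ s))
    have h7 : n⁻¹ * a * n ∈ A.P s := by
      have := mul_mem (mul_mem h6 (A.B_le s (A.U_le (h4.conj_σ (hm _) h3)))) (inv_mem h6)
      simpa [mul_assoc] using this
    refine eq_zero_of_mul_eq_self_left h5 ?_
    conv_rhs => rw [Ph_apply, ← Equiv.sum_comp (Equiv.mulLeft a)]
    rw [Ph_apply, mul_sum]
    refine sum_congr rfl fun u _ => ?_
    rcases cell_P h7 (n⁻¹ * u * g) with e | e <;> simp only [mul_assoc, mul_inv_cancel_left] at e <;>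
      simp [mul_assoc, e, hf _]
  have hz : ∀ w, (∀ s ∈ J, s ∉ R.Ds w) → ∀ z, A.cell (n⁻¹ * z) = w →
      ∃ y : A.U, l y = 1 ∧ ∃ b ∈ A.B, z = y * (n * A.nn w) * b := fun w hw z e => by
    obtain ⟨a, b, h3, h4, h5⟩ := sharp (g := n⁻¹ * z) (A.rep_nn _)
    rw [e] at h3 h5
    have h6 : ∀ k y, A.Rep k y → y ∈ R.WJ J → k⁻¹ * a * k ∈ A.U := fun k y hk hy =>
      h3.conj hk fun γ h7 h8 => pos_WJ (inv_mem hy) h7 fun h => h8 ((keep_of_disj hw h).2 h7)
    have h7 := h6 _ _ (A.rep_inv hn) (inv_mem hv)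
    refine ⟨⟨_, h7⟩, h1 _ fun s hs => A.Us_le h7 (A.rep_nn _) ?_, b, h4, ?_⟩
    · simpa [mul_assoc] using h6 _ _ (A.rep_mul (A.rep_inv hn) (A.rep_nn (R.σ s))) (mul_mem (inv_mem hv) (σ_mem hs))
    · rw [inv_mul_eq_iff_eq_mul.1 h5]; group
  have hN : ∀ w, (∀ s ∈ J, s ∉ R.Ds w) → A.Ph l n (n * A.nn w) (Pi.single w 1) ≠ 0 := fun w hw => by
    have : A.Ph l n (n * A.nn w) (Pi.single w 1) = #{u : A.U | A.cell (n⁻¹ * u * (n * A.nn w)) = w} := by
      rw [Ph_apply, card_filter, Nat.cast_sum]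
      refine sum_congr rfl fun u _ => ?_
      split_ifs with e
      swap
      · simp [e]
      obtain ⟨y, h3, b, h4, h5⟩ := hz w hw (u * (n * A.nn w)) (by rwa [← mul_assoc])
      have := h1 (y⁻¹ * u) fun s hs => A.Us_le (y⁻¹ * u).2 (A.rep_nn _) (A.hull1 (y⁻¹ * u).2 (hm w)
        (by rwa [show (n * A.nn w)⁻¹ * (y⁻¹ * u : A.U) * (n * A.nn w) = b by
          rw [Subgroup.coe_mul, mul_assoc, mul_assoc, h5]; simp [mul_assoc]]) (A.rep_nn _) fun γ h6 h7 =>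
        by_contra fun h8 => (flip_of_sub (J := {s}) (by simpa using sub_Ds_mul hv hJ hw hs) (in_of_σ h6 h8)).1 h7 h6)
      rw [map_mul, map_inv, h3, inv_one, one_mul] at this
      simp [e, this]
    rw [this, Nat.cast_ne_zero, card_ne_zero]
    exact ⟨1, by simp [cell_rep (A.rep_nn w)]⟩
  have hs : ∀ w, (∀ s ∈ J, s ∉ R.Ds w) → ∀ h, A.cell h ≠ v * w → A.Ph l n h (Pi.single w 1) = 0 := fun w hw h e => by
    refine sum_eq_zero fun u _ => mul_eq_zero_of_right _ (Pi.single_eq_of_ne (fun e' => e ?_) _)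
    obtain ⟨y, -, b, h4, h5⟩ := hz w hw (u * h) (by rwa [← mul_assoc])
    rw [← cell_left (A.U_le u.2), h5, cell_mul (A.U_le y.2) h4, cell_rep (hm w)]
  have hT : ∀ (u : A.U) g b, b ∈ A.B → ∑ x : A.U, l x⁻¹ * κ ((u * g * b)⁻¹ * x * (u * g * b)) =
      ∑ x : A.U, l x⁻¹ * κ (g⁻¹ * x * g) := fun u g b hb => by
    rw [← Equiv.sum_comp (MulAut.conj u).toEquiv]
    refine sum_congr rfl fun x _ => ?_
    rw [← hκ _ hb _ (inv_mem hb)]
    simp [mul_assoc, mul_left_comm (l u), show l u ≠ 0 from (l.toHomUnits u).ne_zero]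
  rw [← trace_quot (A.op κ) (op_inv hκ) (fun w => (A.Ph l n (n * A.nn w) (Pi.single w 1))⁻¹ • A.Ph l n (n * A.nn w))
    (fun w s hs f hf => by simp [kill _ s hs f hf]) fun w w' hw hw' => ?_]
  swap
  · split_ifs with e
    · simp [e, hN w' hw']
    · simp [hs w hw _ (by rw [cell_rep (hm w')]; simpa [eq_comm] using e)]
  rw [← sum_fiberwise univ A.cell, ← Equiv.sum_comp (Equiv.mulLeft v), mul_sum, sum_filter]
  refine sum_congr rfl fun w _ => ?_
  rw [show Equiv.mulLeft v w = A.cell (n * A.nn w) from (cell_rep (hm w)).symm]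
  have e0 : ∀ g, A.cell g = A.cell (n * A.nn w) → ∑ x : A.U, l x⁻¹ * κ (g⁻¹ * x * g) =
      ∑ x : A.U, l x⁻¹ * κ ((n * A.nn w)⁻¹ * x * (n * A.nn w)) := fun g hg => by
    obtain ⟨u, b, h3, h4, h5⟩ := sharp (g := g) (n := n * A.nn w) (by rw [hg, cell_rep (hm w)]; exact hm w)
    rw [h5]
    exact hT ⟨u, h3.1⟩ _ b h4
  rw [sum_congr rfl fun g hg => e0 g (mem_filter.1 hg).2, sum_const, nsmul_eq_mul]
  split_ifs with hw
  · have e1 := cell_sum (A := A) (fun h => κ ((n * A.nn w)⁻¹ * h) * A.Ph l n h (Pi.single w 1)) (n * A.nn w)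
    rw [sum_filter_of_ne fun h _ e => by_contra fun e' => e (by
      rw [hs w hw h (by rwa [cell_rep (hm w)] at e'), mul_zero]), Ph_op hκ] at e1
    have e2 : ∀ (u : A.U) (b : A.B), κ ((n * A.nn w)⁻¹ * (u * (n * A.nn w) * b)) =
        κ ((n * A.nn w)⁻¹ * u * (n * A.nn w)) := fun u b => by
      rw [← hκ 1 (one_mem _) b b.2 ((n * A.nn w)⁻¹ * u * (n * A.nn w))]; congr 1; group
    simp only [e2, Ph_mul l n _ _ _ (Subtype.prop _), sum_const, card_univ, nsmul_eq_mul] at e1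
    have e3 : (Fintype.card A.B : ℂ) ≠ 0 := by simp
    have e4 := hN w hw
    rw [LinearMap.smul_apply, smul_eq_mul]
    refine mul_left_cancel₀ (mul_ne_zero e3 e4) (Eq.trans ?_ (e1.symm.trans (by field_simp)))
    simp only [mul_sum]
    exact sum_congr rfl fun u _ => by ring
  · refine mul_eq_zero_of_right _ ?_
    obtain ⟨s, hs, h3⟩ : ∃ s ∈ J, s ∉ R.Ds (v * w) := by
      by_contra hc
      exact hw (by simpa using not_Ds_inv_mul hv hJ fun s hs => by_contra fun h => hc ⟨s, hs, h⟩)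
    obtain ⟨a, h4, h5⟩ := h2 s hs
    refine eq_zero_of_mul_eq_self_left h5 ?_
    conv_lhs => rw [← Equiv.sum_comp (Equiv.mulRight a), mul_sum]
    refine sum_congr rfl fun u _ => ?_
    rw [← hκ 1 (one_mem _) _ (A.U_le (h4.conj_σ (hm w) h3)) ((n * A.nn w)⁻¹ * u * (n * A.nn w))]
    have : l a ≠ 0 := (l.toHomUnits a).ne_zero
    simp [mul_assoc, this]

end AX

end Cfsg.Agent.H7
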