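import Cfsg.Agent.H7.TT0

/-! Generic counting lemmas for 2-transitive actions. -/

set_option autoImplicit false
set_option linter.unusedSectionVars false

namespace Cfsg.Agent.H7

open Finset MulAction Cfsg.Agent.H1
open scoped Classical

variable {G Ω : Type*} [Group G] [MulAction G Ω]

/-- The length of an orbit of a subgroup. -/
noncomputable def ob (Q : Subgroup G) (x : Ω) : ℕ := Nat.card (orbit Q x)

theorem mem_orb {Q : Subgroup G} {x y : Ω} : y ∈ orbit Q x ↔ ∃ u ∈ Q, u • x = y :=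
  ⟨fun ⟨u, h⟩ => ⟨u, u.2, h⟩, fun ⟨u, hu, h⟩ => ⟨⟨u, hu⟩, h⟩⟩

theorem ob_mul (Q : Subgroup G) (x : Ω) : ob Q x * Nat.card ↥(Q ⊓ stabilizer G x) = Nat.card Q := by
  rw [ob, ← Nat.card_congr (orbitProdStabilizerEquivGroup Q x), Nat.card_prod]
  congr 1
  exact Nat.card_congr ⟨fun u => ⟨⟨u.1, u.2.1⟩, u.2.2⟩, fun u => ⟨u.1.1, u.1.2, u.2⟩, fun _ => rfl, fun _ => rfl⟩

theorem ob_dvd_card (Q : Subgroup G) (x : Ω) : ob Q x ∣ Nat.card Q := ⟨_, (ob_mul Q x).symm⟩

theorem ob_pos [Finite Ω] (Q : Subgroup G) (x : Ω) : 0 < ob Q x :=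
  have : Nonempty (orbit Q x) := ⟨⟨x, mem_orbit_self x⟩⟩
  Nat.card_pos

theorem ob_le [Finite Ω] {Q Q' : Subgroup G} {g : G} (h : ∀ u ∈ Q, g * u * g⁻¹ ∈ Q') (x : Ω) :
    ob Q x ≤ ob Q' (g • x) :=
  Nat.card_le_card_of_injective (fun y => ⟨g • y.1, by
    obtain ⟨u, hu, e⟩ := mem_orb.1 y.2
    exact mem_orb.2 ⟨_, h u hu, by rw [← e]; simp [mul_smul]⟩⟩) fun a b e => Subtype.ext (by simpa using e)

theorem ob_mono [Finite Ω] {Q Q' : Subgroup G} (h : Q ≤ Q') (x : Ω) : ob Q x ≤ ob Q' x := by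
  simpa using ob_le (g := 1) (Q := Q) (Q' := Q') (fun u hu => by simpa using h hu) x

theorem ob_eq_one {Q : Subgroup G} {x : Ω} (h : ob Q x = 1) {u : G} (hu : u ∈ Q) : u • x = x := by
  have := (Nat.card_eq_one_iff_unique.1 h).1
  exact congrArg Subtype.val (Subsingleton.elim (⟨u • x, mem_orb.2 ⟨u, hu, rfl⟩⟩ : orbit Q x) ⟨x, mem_orbit_self x⟩)

/-- The normaliser of `Q` is transitive. -/
def NT (Q : Subgroup G) (Ω : Type*) [MulAction G Ω] : Prop :=
  ∀ x y : Ω, ∃ g : G, g • x = y ∧ ∀ u ∈ Q, g * u * g⁻¹ ∈ Q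

theorem NT.ob_eq [Finite Ω] {Q : Subgroup G} (h : NT Q Ω) (x y : Ω) : ob Q x = ob Q y := by
  have : ∀ x y : Ω, ob Q x ≤ ob Q y := fun x y => by
    obtain ⟨g, rfl, hg⟩ := h x y
    exact ob_le hg x
  exact le_antisymm (this x y) (this y x)

theorem NT.card_eq [Finite Ω] {Q : Subgroup G} (h : NT Q Ω) (x : Ω) :
    Nat.card (orbitRel.Quotient Q Ω) * ob Q x = Nat.card Ω := by
  have := Fintype.ofFinite (orbitRel.Quotient Q Ω)
  rw [← Nat.card_congr (selfEquivSigmaOrbits Q Ω).symm, Nat.card_sigma]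
  exact ((sum_congr rfl fun a _ => h.ob_eq _ x).trans (by simp)).symm

theorem NT.ob_dvd [Finite Ω] {Q : Subgroup G} (h : NT Q Ω) (x : Ω) : ob Q x ∣ Nat.card Ω :=
  ⟨_, by rw [← h.card_eq x, mul_comm]⟩

/-- The action on the orbits of a normalised subgroup. -/
@[reducible] def qAct (P Q : Subgroup G) (h : ∀ g ∈ P, ∀ u ∈ Q, g * u * g⁻¹ ∈ Q) :
    MulAction P (orbitRel.Quotient Q Ω) where
  smul u := Quotient.map' (u • ·) fun a b ⟨y, hy⟩ =>
    ⟨⟨_, h _ u.2 _ y.2⟩, by simp [← hy, Subgroup.smul_def, mul_smul]⟩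
  one_smul a := Quotient.inductionOn' a fun a => congrArg Quotient.mk'' (one_smul P a)
  mul_smul u v a := Quotient.inductionOn' a fun a => congrArg Quotient.mk'' (mul_smul u v a)

/-- Burnside's lemma for a subgroup all of whose nonidentity elements are conjugate. -/
theorem burn_dvd [Finite G] [Finite Ω] (Y : Subgroup G) {a : G} (ha : a ∈ Y)
    (hY : ∀ b ∈ Y, b ≠ 1 → ∃ g, g * a * g⁻¹ = b) : Nat.card Y ∣ Nat.card Ω - Nat.card (fixedBy Ω a) := by
  have := Fintype.ofFinite Y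
  have h1 := H4.burnside_nat (G := Y) Ω
  rw [← add_sum_erase _ _ (mem_univ 1), sum_congr rfl (g := fun _ => Nat.card (fixedBy Ω a)) fun b hb => by
    obtain ⟨g, hg⟩ := hY b b.2 (by simpa using hb)
    rw [← H4.card_fixedBy_conj g a, hg]; rfl] at h1
  have h2 : Nat.card (fixedBy Ω a) ≤ Nat.card Ω := Finite.card_subtype_le _
  have h3 := Nat.card_pos (α := Y)
  simp only [fixedBy_one_eq_univ, Nat.card_univ, sum_const, card_erase_of_mem (mem_univ _), card_univ, smul_eq_mul,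
    ← Nat.card_eq_fintype_card] at h1
  refine (Nat.dvd_add_iff_left (dvd_mul_right _ (Nat.card (fixedBy Ω a)))).2 ⟨Nat.card (orbitRel.Quotient Y Ω), ?_⟩
  rw [mul_comm _ (Nat.card (orbitRel.Quotient Y Ω)), ← h1, Nat.sub_one_mul]
  have := Nat.le_mul_of_pos_left (Nat.card (fixedBy Ω a)) h3
  omega

/-- Few orbits of `Q`: a large subgroup with conjugate nonidentity elements fixes all of them or none. -/
theorem NT.orb_fix [Finite G] [Finite Ω] {P Q Y : Subgroup G} (h : NT Q Ω) (hP : ∀ g ∈ P, ∀ u ∈ Q, g * u * g⁻¹ ∈ Q)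
    (hY : Y ≤ P) {a : G} (ha : a ∈ Y) (hc : ∀ b ∈ Y, b ≠ 1 → ∃ g ∈ P, g * a * g⁻¹ = b) (x : Ω)
    (hn : Nat.card Ω < Nat.card Y * ob Q x ∨ Nat.card Ω ≤ Nat.card Y * ob Q x ∧ ∃ y : Ω, a • y ∈ orbit Q y)
    (y : Ω) : a • y ∈ orbit Q y := by
  let _ := qAct (Ω := Ω) P Q hP
  have h1 := burn_dvd (Ω := orbitRel.Quotient Q Ω) (Y.subgroupOf P) (a := ⟨a, hY ha⟩) ha fun b hb h1 => by
    obtain ⟨g, hg, e⟩ := hc b hb (by simpa using h1)
    exact ⟨⟨g, hg⟩, Subtype.ext e⟩
  rw [Nat.card_congr (Subgroup.subgroupOfEquivOfLe hY).toEquiv] at h1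
  have h2 : Nat.card (orbitRel.Quotient Q Ω) - Nat.card (fixedBy (orbitRel.Quotient Q Ω) (⟨a, hY ha⟩ : P)) = 0 := by
    refine Nat.eq_zero_of_dvd_of_lt h1 ?_
    rw [← h.card_eq x] at hn
    rcases hn with hn | ⟨hn, y, hy⟩
    · exact (Nat.sub_le _ _).trans_lt (lt_of_mul_lt_mul_right hn (Nat.zero_le _))
    · have : Nonempty (fixedBy (orbitRel.Quotient Q Ω) (⟨a, hY ha⟩ : P)) := ⟨⟨Quotient.mk'' y, Quotient.sound' hy⟩⟩
      have := Nat.card_pos (α := fixedBy (orbitRel.Quotient Q Ω) (⟨a, hY ha⟩ : P))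
      have := Nat.le_of_mul_le_mul_right hn (ob_pos Q x)
      have := Nat.card_pos (α := Y)
      omega
  have h3 : fixedBy (orbitRel.Quotient Q Ω) (⟨a, hY ha⟩ : P) = Set.univ :=
    (Set.eq_univ_iff_ncard _).2 (le_antisymm (Finite.card_subtype_le _) (Nat.sub_eq_zero_iff_le.1 h2))
  exact Quotient.exact' (h3 ▸ Set.mem_univ (Quotient.mk'' y) :
    Quotient.mk'' y ∈ fixedBy (orbitRel.Quotient Q Ω) (⟨a, hY ha⟩ : P))

/-- The elements of `P` fixing every orbit of `Q`. -/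
def kerO (P Q : Subgroup G) (Ω : Type*) [MulAction G Ω] (hP : ∀ g ∈ P, ∀ u ∈ Q, g * u * g⁻¹ ∈ Q) : Subgroup G where
  carrier := {a | a ∈ P ∧ ∀ y : Ω, a • y ∈ orbit Q y}
  one_mem' := ⟨one_mem _, by simp⟩
  mul_mem' {a b} ha hb := ⟨mul_mem ha.1 hb.1, fun y => by
    rw [mul_smul]; exact mem_orbit_iff.2 (by
      obtain ⟨u, h1⟩ := ha.2 (b • y); obtain ⟨v, h2⟩ := hb.2 y
      exact ⟨u * v, by rw [mul_smul]; exact (congrArg _ h2).trans h1⟩)⟩
  inv_mem' {a} ha := ⟨inv_mem ha.1, fun y => by simpa using mem_orbit_symm.1 (ha.2 (a⁻¹ • y))⟩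

theorem kerO_conj {P Q : Subgroup G} {hP : ∀ g ∈ P, ∀ u ∈ Q, g * u * g⁻¹ ∈ Q} {a g : G} (ha : a ∈ kerO P Q Ω hP)
    (hg : g ∈ P) : g * a * g⁻¹ ∈ kerO P Q Ω hP :=
  ⟨mul_mem (mul_mem hg ha.1) (inv_mem hg), fun y => by
    obtain ⟨u, hu, e⟩ := mem_orb.1 (ha.2 (g⁻¹ • y))
    exact mem_orb.2 ⟨_, hP g hg u hu, by simp [mul_smul, e]⟩⟩

theorem le_kerO {P Q : Subgroup G} {hP : ∀ g ∈ P, ∀ u ∈ Q, g * u * g⁻¹ ∈ Q} (h : Q ≤ P) : Q ≤ kerO P Q Ω hP :=
  fun u hu => ⟨h hu, fun _ => mem_orb.2 ⟨u, hu, rfl⟩⟩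

/-- A subgroup of index prime to the degree is transitive. -/
theorem trans_of_coprime [Finite G] [IsPretransitive G Ω] {H : Subgroup G} (h : H.index.Coprime (Nat.card Ω))
    (x y : Ω) : ∃ g ∈ H, g • x = y := by
  have : Finite Ω := .of_surjective _ (surjective_smul G x)
  have h1 : (stabilizer G x).index = Nat.card Ω := index_stabilizer_of_transitive G x
  have h2 : ob H x = Nat.card Ω := by
    refine le_antisymm (Finite.card_subtype_le _) (Nat.le_of_dvd (ob_pos _ _) (h.symm.dvd_of_dvd_mul_left ?_))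
    have h3 := ob_mul H x
    have h4 := (H ⊓ stabilizer G x).index_mul_card
    rw [← H.index_mul_card, ← h3, ← mul_assoc] at h4
    rw [← Nat.eq_of_mul_eq_mul_right Nat.card_pos h4, ← h1]
    exact Subgroup.index_dvd_of_le inf_le_right
  exact mem_orb.1 (((Set.eq_univ_iff_ncard _).2 h2 : orbit H x = Set.univ) ▸ Set.mem_univ y)

/-- An element of order a power of a prime not dividing the degree has a fixed point. -/
theorem exists_fix [Finite Ω] {r k : ℕ} (hr : r.Prime) {g : G} (hg : g ^ r ^ k = 1) (hn : ¬ r ∣ Nat.card Ω) :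
    ∃ x : Ω, g • x = x := by
  have := Fact.mk hr
  have h1 : IsPGroup r (Subgroup.zpowers g) := fun ⟨_, j, rfl⟩ =>
    ⟨k, Subtype.ext (by simp [← zpow_natCast, ← zpow_mul, mul_comm j]; rw [← Nat.cast_pow, zpow_mul, zpow_natCast, hg, one_zpow])⟩
  obtain ⟨x, hx⟩ := h1.nonempty_fixed_point_of_prime_not_dvd_card Ω hn
  exact ⟨x, hx ⟨g, Subgroup.mem_zpowers g⟩⟩

/-- Double counting for a transitive equivariant family. -/
theorem fix_mul [Finite Ω] [IsPretransitive G Ω] {A : Type*} [Finite A] [MulAction G A] [IsPretransitive G A]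
    (r : A → Ω → Prop) (hr : ∀ (g : G) a x, r a x → r (g • a) (g • x)) (a : A) (x : Ω) :
    Nat.card A * Nat.card {y // r a y} = Nat.card Ω * Nat.card {b // r b x} := by
  have := Fintype.ofFinite Ω
  have := Fintype.ofFinite A
  have k1 : ∀ a b, #{y | r a y} ≤ #{y | r b y} := fun a b => by
    obtain ⟨g, rfl⟩ := exists_smul_eq G a b
    exact card_le_card_of_injOn (g • ·) (fun y hy => by simpa using hr g a y (by simpa using hy))
      fun _ _ _ _ e => by simpa using e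
  have k2 : ∀ x y, #{a | r a x} ≤ #{a | r a y} := fun x y => by
    obtain ⟨g, rfl⟩ := exists_smul_eq G x y
    exact card_le_card_of_injOn (g • ·) (fun a ha => by simpa using hr g a x (by simpa using ha))
      fun _ _ _ _ e => by simpa using e
  simp only [Nat.card_eq_fintype_card, Fintype.card_subtype]
  calc _ = ∑ b, #{y | r b y} := by rw [sum_congr rfl fun b _ => le_antisymm (k1 b a) (k1 a b)]; simp
    _ = ∑ y, #{b | r b y} := by simp only [card_filter]; exact sum_comm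
    _ = _ := by rw [sum_congr rfl fun y _ => le_antisymm (k2 y x) (k2 x y)]; simp

theorem dvd_fix [Finite G] [Finite Ω] [IsPretransitive G Ω] (x : Ω) {C : Subgroup G} {t : G}
    (h : ∀ c ∈ C, c * t * c⁻¹ = t) : Nat.card Ω ∣ C.index * Nat.card (fixedBy Ω t) := by
  have := fix_mul (G := G) (A := G ⧸ C) (fun a y => ∃ g : G, a = g ∧ t • g⁻¹ • y = g⁻¹ • y)
    (fun g a x ⟨k, h1, h2⟩ => ⟨g * k, by rw [h1]; rfl, by simpa [mul_smul] using h2⟩) (1 : G) x
  refine ⟨_, Eq.trans (congrArg _ (Nat.card_congr (Equiv.subtypeEquivRight (p := (· ∈ fixedBy Ω t)) fun y =>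
    ⟨fun hy => ⟨1, rfl, by simpa using hy⟩, fun ⟨g, h1, h2⟩ => ?_⟩))) this⟩
  rw [mem_fixedBy, ← h g (by simpa using QuotientGroup.eq.1 h1), mul_smul, mul_smul, h2, smul_inv_smul]

variable [Finite Ω]

theorem TT.count_rel (h : TT G Ω) {A : Type*} [Finite A] [MulAction G A] (r : A → Ω → Ω → Prop)
    (hr : ∀ (g : G) a x y, r a x y → r (g • a) (g • x) (g • y)) (x : Ω) {e : ℕ}
    (he : ∀ a, Nat.card {y // y ≠ x ∧ r a x y} = e) : ∃ l ≤ Nat.card A, l * (Nat.card Ω - 1) = Nat.card A * e := by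
  have := Fintype.ofFinite Ω
  have := Fintype.ofFinite A
  have := h.nt
  obtain ⟨y, hy⟩ := exists_ne x
  have k : ∀ y z, y ≠ x → z ≠ x → #{a | r a x y} ≤ #{a | r a x z} := fun y z h1 h2 => by
    obtain ⟨g, h3, rfl⟩ := h.move x y x z h1.symm h2.symm
    exact card_le_card_of_injOn (g • ·) (fun a ha => by simpa [h3] using hr g a x y (by simpa using ha))
      fun _ _ _ _ e => by simpa using e
  refine ⟨#{a | r a x y}, by simpa using card_le_univ _, ?_⟩
  simp only [Nat.card_eq_fintype_card, Fintype.card_subtype] at he ⊢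
  calc _ = ∑ z ∈ univ.erase x, #{a | r a x z} := by
        rw [sum_congr rfl fun z hz => le_antisymm (k z y (ne_of_mem_erase hz) hy) (k y z hy (ne_of_mem_erase hz))]
        simp [mul_comm]
    _ = ∑ a, #{z | z ≠ x ∧ r a x z} := by
        simp only [card_filter]; rw [sum_comm]
        exact sum_congr rfl fun a _ => by rw [← filter_ne', sum_filter]; simp [ite_and]
    _ = _ := by simp [he]

theorem card_orb_ne (Q : Subgroup G) (x : Ω) : Nat.card {y // y ≠ x ∧ y ∈ orbit Q x} = ob Q x - 1 := by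
  rw [ob, Nat.card_coe_set_eq, ← Set.ncard_diff_singleton_of_mem (mem_orbit_self x), ← Nat.card_coe_set_eq]
  exact Nat.card_congr (Equiv.subtypeEquivRight fun y => by simp [and_comm])

theorem TT.count_orb (h : TT G Ω) {A : Type*} [Finite A] [MulAction G A] (R : A → Subgroup G)
    (hR : ∀ (g : G) a, ∀ u ∈ R a, g * u * g⁻¹ ∈ R (g • a)) (x : Ω) {e : ℕ} (he : ∀ a, ob (R a) x = e) :
    ∃ l ≤ Nat.card A, l * (Nat.card Ω - 1) = Nat.card A * (e - 1) :=
  h.count_rel (fun a x y => y ∈ orbit (R a) x) (fun g a x y hy => by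
    obtain ⟨u, hu, rfl⟩ := mem_orb.1 hy
    exact mem_orb.2 ⟨_, hR g a u hu, by simp [mul_smul]⟩) x fun a => by rw [card_orb_ne, he]

/-- The count for the conjugates of a subgroup normalised by a transitive subgroup `P`. -/
theorem TT.count_sub [Finite G] (h : TT G Ω) {P R : Subgroup G} (hP : ∀ g ∈ P, ∀ u ∈ R, g * u * g⁻¹ ∈ R)
    (hR : NT R Ω) (x : Ω) : ∃ l ≤ P.index, l * (Nat.card Ω - 1) = P.index * (ob R x - 1) :=
  h.count_rel (A := G ⧸ P) (fun a x y => ∃ g : G, a = g ∧ g⁻¹ • y ∈ orbit R (g⁻¹ • x))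
    (fun g a x y ⟨k, h1, h2⟩ => ⟨g * k, by rw [h1]; rfl, by simpa [mul_smul] using h2⟩) x fun a => by
      obtain ⟨g, rfl⟩ := QuotientGroup.mk_surjective a
      rw [hR.ob_eq x (g⁻¹ • x), ← card_orb_ne]
      refine Nat.card_congr ((MulAction.toPerm g⁻¹).subtypeEquiv fun y => and_congr (by simp)
        ⟨fun ⟨k, h1, h2⟩ => ?_, fun h1 => ⟨g, rfl, h1⟩⟩)
      obtain ⟨u, hu, e⟩ := mem_orb.1 h2
      refine mem_orb.2 ⟨_, hP _ (QuotientGroup.eq.1 h1) u hu, ?_⟩
      simp [mul_smul, e]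

/-- An element without fixed points. -/
theorem TT.count_elt [Finite G] (h : TT G Ω) {C : Subgroup G} {t : G} (hC : ∀ c ∈ C, c * t * c⁻¹ = t)
    (ht : ∀ x : Ω, t • x ≠ x) : Nat.card Ω - 1 ∣ C.index := by
  have := h.nt
  obtain ⟨x⟩ : Nonempty Ω := inferInstance
  refine h.count_all (A := G ⧸ C) (fun a => Quotient.liftOn' a (fun g => g * t * g⁻¹) fun a b e => ?_)
    (fun g a => ?_) x fun a => ?_
  · have := hC _ (QuotientGroup.leftRel_apply.1 e)
    calc _ = a * (a⁻¹ * b * t * (a⁻¹ * b)⁻¹) * a⁻¹ := by rw [this]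
      _ = _ := by group
  · induction a using Quotient.inductionOn' with | h a => exact (by group : g * a * t * (g * a)⁻¹ = g * (a * t * a⁻¹) * g⁻¹)
  · induction a using Quotient.inductionOn' with | h a =>
    exact fun e => ht (a⁻¹ • x) (by simpa [mul_smul, smul_eq_iff_eq_inv_smul a] using e)

/-- A transitive action in which a point stabiliser of the 2-transitive action is not transitive. -/
theorem TT.lt_card [Finite G] (h : TT G Ω) {X : Type*} [Finite X] [MulAction G X] [IsPretransitive G X] [Nonempty X] :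
    (∀ (ω : Ω) (x y : X), ∃ g : G, g • ω = ω ∧ g • x = y) ∨ Nat.card Ω < Nat.card X ∨
      Nat.card Ω = Nat.card X ∧ TT G X := by
  have := Fintype.ofFinite G
  have hπ : IsCharacter G (H4.pch G X) := isCharacter_fixedBy X
  have h1 : classInner (H4.pch G X) (fun _ => 1) = 1 := by rw [H4.inner_pch_one, H4.card_orbits_one]; simp
  have h2 : classInner (fun _ => 1) (H4.pch G Ω - fun _ => 1) = 0 := by rw [← classInner_conj, h.irr.2, map_zero]
  have hψ := IsCharacter.sub_irr hπ isIrrCharacter_one (by rw [h1]; simp)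
  by_cases hc : classInner (H4.pch G X - fun _ => 1) (H4.pch G Ω - fun _ => 1) = 0
  · left
    have h3 : classInner (H4.pch G X) (H4.pch G Ω) = 1 := by
      rw [classInner_sub_left, h2, classInner_sub_right, h1, sub_zero, sub_eq_zero] at hc
      exact hc
    rw [inner_pch] at h3
    obtain ⟨h5, -⟩ := Nat.card_eq_one_iff_unique.mp (show Nat.card (orbitRel.Quotient G (X × Ω)) = 1 by exact_mod_cast h3)
    intro ω x y
    have : (Quotient.mk _ (y, ω) : orbitRel.Quotient G (X × Ω)) = Quotient.mk _ (x, ω) := Subsingleton.elim _ _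
    obtain ⟨g, hg⟩ := mem_orbit_iff.mp (Quotient.exact this)
    exact ⟨g, congrArg Prod.snd hg, congrArg Prod.fst hg⟩
  right
  have h3 := IsCharacter.sub_irr hψ h.irr.1 hc
  obtain ⟨k, hk⟩ := IsCharacter.exists_one_eq h3
  have h4 : Nat.card X = Nat.card Ω + k := by
    simp only [H4.pch, Pi.sub_apply, fixedBy_one_eq_univ, Nat.card_univ] at hk
    exact_mod_cast (by linear_combination hk : (Nat.card X : ℂ) = Nat.card Ω + k)
  rcases k.eq_zero_or_pos with rfl | h5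
  · refine .inr ⟨by omega, Finite.one_lt_card_iff_nontrivial.1 (by have := h.two_le; omega), fun a b c d h6 h7 => ?_⟩
    have h8 : H4.pch G X = H4.pch G Ω := by
      simpa [sub_eq_zero] using IsCharacter.eq_zero_of_one_eq_zero h3 (by simpa using hk)
    have h9 : Nat.card (orbitRel.Quotient G (H4.offD G X)) = 1 := by
      have e : ∀ g : G, Nat.card (fixedBy (H4.offD G X) g) = Nat.card (fixedBy (H4.offD G Ω) g) := fun g => by
        have e1 : Nat.card (fixedBy X g) = Nat.card (fixedBy Ω g) := by simpa [H4.pch] using congrFun h8 g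
        have := H4.card_fixed_offD X g
        have := H4.card_fixed_offD Ω g
        rw [e1] at *; omega
      have e2 := H4.burnside_nat (G := G) (H4.offD G X)
      rw [sum_congr rfl fun g _ => e g, H4.burnside_nat, h.card_orbits_offD] at e2
      exact (Nat.eq_of_mul_eq_mul_right Nat.card_pos e2).symm
    obtain ⟨h10, -⟩ := Nat.card_eq_one_iff_unique.mp h9
    have : (Quotient.mk _ ⟨(c, d), h7⟩ : orbitRel.Quotient G (H4.offD G X)) = Quotient.mk _ ⟨(a, b), h6⟩ :=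
      Subsingleton.elim _ _
    obtain ⟨g, hg⟩ := mem_orbit_iff.mp (Quotient.exact this)
    exact ⟨g, congrArg (·.1.1) hg, congrArg (·.1.2) hg⟩
  · exact .inl (by omega)

theorem TT.index_le [Finite G] (h : TT G Ω) {N : ℕ} (hN : ∀ H : Subgroup G, H ≠ ⊤ → N ≤ H.index) :
    N ≤ Nat.card Ω := by
  have := h.nt
  have := h.pre
  obtain ⟨x⟩ : Nonempty Ω := inferInstance
  obtain ⟨g, hg⟩ := h.exists_ne_smul x
  rw [← index_stabilizer_of_transitive G x]
  exact hN _ fun e => hg (e ▸ Subgroup.mem_top g : g ∈ stabilizer G x)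

end Cfsg.Agent.H7
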