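import Cfsg.Agent.H7.TT5
import Cfsg.Agent.H7.TT4

/-! Pairing lemmas, the line lemma, and rank three actions of polar type. -/

set_option autoImplicit false
set_option linter.unusedSectionVars false

namespace Cfsg.Agent.H7

open Finset MulAction
open scoped Classical commutatorElement

/-- Character sums over a pairing. -/
theorem char_pair {A Y : Type*} [Group A] [Group Y] [Finite A] [Finite Y] (χ : A → Y → ℂ)
    (h1 : ∀ a b y, χ (a * b) y = χ a y * χ b y) (h2 : ∀ a y z, χ a (y * z) = χ a y * χ a z) (h3 : ∀ a, χ a 1 = 1)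
    (h4 : ∀ y, χ 1 y = 1) :
    Nat.card A * Nat.card {y // ∀ a, χ a y = 1} = Nat.card Y * Nat.card {a // ∀ y, χ a y = 1} := by
  have := Fintype.ofFinite A
  have := Fintype.ofFinite Y
  have k1 : ∀ y, ∑ a, χ a y = if ∀ a, χ a y = 1 then (Fintype.card A : ℂ) else 0 := fun y => by
    split_ifs with h
    · simp [h]
    · exact sum_hom_units_eq_zero (⟨⟨fun a => χ a y, h4 y⟩, fun a b => h1 a b y⟩ : A →* ℂ)
        fun e => h fun a => DFunLike.congr_fun e a
  have k2 : ∀ a, ∑ y, χ a y = if ∀ y, χ a y = 1 then (Fintype.card Y : ℂ) else 0 := fun a => by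
    split_ifs with h
    · simp [h]
    · exact sum_hom_units_eq_zero (⟨⟨fun y => χ a y, h3 a⟩, h2 a⟩ : Y →* ℂ) fun e => h fun a => DFunLike.congr_fun e a
  have := (sum_congr rfl fun y _ => k1 y).symm.trans (sum_comm.trans (sum_congr rfl fun a _ => k2 a))
  rw [← sum_filter, ← sum_filter, sum_const, sum_const, nsmul_eq_mul, nsmul_eq_mul] at this
  simp only [Nat.card_eq_fintype_card, Fintype.card_subtype]
  exact_mod_cast (by convert this using 1 <;> exact mul_comm _ _ :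
    (Fintype.card A : ℂ) * #{y | ∀ a, χ a y = 1} = Fintype.card Y * #{a | ∀ y, χ a y = 1})

theorem exists_char {H : Type*} [CommGroup H] [Finite H] {C : Subgroup H} (h : C ≠ ⊤) :
    ∃ l : H →* ℂ, l ≠ 1 ∧ ∀ u ∈ C, l u = 1 := by
  obtain ⟨s, -, h2, -, h3⟩ := exists_chars C (by simp [commutator_eq_bot])
  obtain ⟨l, hl, h4⟩ := exists_mem_ne (s := s) (h2 ▸ Subgroup.one_lt_index_of_ne_top h) 1
  exact ⟨l, h4, h3 l hl⟩

/-- The pairing lemma in additive form. -/
theorem pair_le {M M' C : Type*} [AddGroup M] [AddGroup M'] [AddCommGroup C] [Finite M] [Finite M'] [Finite C]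
    (β : M →+ M' →+ C) (A : AddSubgroup M) (A' : AddSubgroup M') {C0 : AddSubgroup C} (h0 : C0 ≠ ⊤)
    (h : ∀ a ∈ A, ∀ b ∈ A', β a b ∈ C0) (Z : Set M) (hs : ∀ a ∈ A, a ∉ Z → ∀ c, ∃ b, β a b = c) :
    Nat.card A * Nat.card A' ≤ Nat.card M' * Nat.card {a : A // a.1 ∈ Z} := by
  obtain ⟨l, h1, h2⟩ := exists_char (C := C0.toSubgroup) (by simpa using h0)
  have := char_pair (A := Multiplicative A) (Y := Multiplicative M')
    (fun a y => l (Multiplicative.ofAdd (β a.toAdd.1 y.toAdd))) (by simp) (by simp) (by simp) (by simp)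
  refine le_trans (Nat.mul_le_mul_left _ ?_) (this.le.trans (Nat.mul_le_mul_left _ ?_))
  · exact Nat.card_le_card_of_injective (fun b => ⟨Multiplicative.ofAdd b.1, fun a => h2 _ (h _ a.toAdd.2 _ b.2)⟩)
      fun a b e => Subtype.ext (by simpa using e)
  · refine Nat.card_le_card_of_injective (fun a => ⟨a.1.toAdd, by_contra fun hz => h1 (MonoidHom.ext fun c => ?_)⟩)
      fun a b e => Subtype.ext (by simpa using e)
    obtain ⟨b, hb⟩ := hs _ a.1.toAdd.2 hz c.toAdd
    simpa [hb] using a.2 (Multiplicative.ofAdd b)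

/-- The pairing lemma for a Heisenberg group. -/
theorem heis {G : Type*} [Group G] [Finite G] {Q R D : Subgroup G} (hR : R ≤ Q) (hc : ∀ r ∈ R, ∀ u ∈ Q, r * u = u * r)
    (h1 : ∀ u ∈ Q, ∀ v ∈ Q, ⁅u, v⁆ ∈ R) (h2 : ∀ u ∈ Q, u ∉ R → ∀ r ∈ R, ∃ v ∈ Q, ⁅u, v⁆ = r) (hD : D ≤ Q)
    (h : ¬ R ≤ D) : Nat.card D ^ 2 * Nat.card R ≤ Nat.card Q * Nat.card ↥(D ⊓ R) ^ 2 := by
  let _ : CommGroup R := { (inferInstance : Group R) with mul_comm := fun a b => Subtype.ext (hc _ a.2 _ (hR b.2)) }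
  obtain ⟨l, h3, h4⟩ := exists_char (C := D.subgroupOf R) (by simpa using h)
  let χ : D → Q → ℂ := fun a y => l ⟨⁅a.1, y.1⁆, h1 _ (hD a.2) _ y.2⟩
  have := char_pair χ (fun a b y => by
      rw [← map_mul]; refine congrArg l (Subtype.ext ?_)
      have := hc _ (h1 _ (hD b.2) _ y.2) _ (hD a.2)
      calc ⁅a.1 * b.1, y.1⁆ = a.1 * ⁅b.1, y.1⁆ * a.1⁻¹ * ⁅a.1, y.1⁆ := by group
        _ = ⁅b.1, y.1⁆ * ⁅a.1, y.1⁆ := by rw [← this]; group
        _ = _ := hc _ (h1 _ (hD b.2) _ y.2) _ (hR (h1 _ (hD a.2) _ y.2)))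
    (fun a y z => by
      rw [← map_mul]; refine congrArg l (Subtype.ext ?_)
      have := hc _ (h1 _ (hD a.2) _ z.2) _ y.2
      calc ⁅a.1, y.1 * z.1⁆ = ⁅a.1, y.1⁆ * (y.1 * ⁅a.1, z.1⁆ * y.1⁻¹) := by group
        _ = _ := by rw [← this]; simp)
    (fun a => (congrArg l (Subtype.ext (by simp))).trans (map_one l))
    (fun a => (congrArg l (Subtype.ext (by simp))).trans (map_one l))
  have h5 : Nat.card {a // ∀ y, χ a y = 1} ≤ Nat.card ↥(D ⊓ R) :=
    Nat.card_le_card_of_injective (fun a => ⟨a.1.1, a.1.2, by_contra fun hz => h3 (MonoidHom.ext fun c => by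
      obtain ⟨b, hb, e⟩ := h2 _ (hD a.1.2) hz c c.2
      simpa [χ, e] using a.2 ⟨b, hb⟩)⟩) fun a b e => Subtype.ext (Subtype.ext (congrArg (·.1) e))
  have h6 : Nat.card D * Nat.card R ≤ Nat.card {y // ∀ a, χ a y = 1} * Nat.card ↥(D ⊓ R) := by
    let f : D × R → {y // ∀ a, χ a y = 1} := fun p => ⟨⟨p.1 * p.2, mul_mem (hD p.1.2) (hR p.2.2)⟩, fun a => h4 _ (by
      have : ⁅a.1, p.1.1 * p.2.1⁆ = ⁅a.1, p.1.1⁆ := by
        calc _ = a.1 * p.1.1 * (p.2.1 * a.1⁻¹) * p.2.1⁻¹ * p.1.1⁻¹ := by group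
          _ = _ := by rw [hc _ p.2.2 _ (inv_mem (hD a.2))]; group
      simp only [Subgroup.mem_subgroupOf, this]
      exact mul_mem (mul_mem (mul_mem a.2 p.1.2) (inv_mem a.2)) (inv_mem p.1.2))⟩
    rw [← Nat.card_prod, ← Nat.card_prod]
    have k : ∀ p p' : D × R, f p = f p' → p'.1.1⁻¹ * p.1.1 = p'.2.1 * p.2.1⁻¹ := fun p p' e => by
      have : p.1.1 * p.2.1 = p'.1.1 * p'.2.1 := congrArg (·.1.1) e
      rw [inv_mul_eq_iff_eq_mul, ← mul_assoc, ← this]; group
    let s : {y // ∀ a, χ a y = 1} → D × R := Function.invFun f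
    have hs : ∀ p, f (s (f p)) = f p := fun p => Function.invFun_eq ⟨p, rfl⟩
    refine Nat.card_le_card_of_injective (fun p => (f p, ⟨(s (f p)).1.1⁻¹ * p.1.1,
      D.mul_mem (D.inv_mem (s _).1.2) p.1.2, k _ _ (hs p).symm ▸ R.mul_mem (s _).2.2 (R.inv_mem p.2.2)⟩))
      fun p p' e => ?_
    have e1 : f p = f p' := congrArg Prod.fst e
    have e2 : p.1.1 = p'.1.1 := by simpa [e1] using congrArg (·.2.1) e
    have e3 := k _ _ e1
    rw [e2, inv_mul_cancel, eq_comm, mul_inv_eq_one] at e3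
    exact Prod.ext (Subtype.ext e2) (Subtype.ext e3.symm)
  calc _ = Nat.card D * (Nat.card D * Nat.card R) := by ring
    _ ≤ Nat.card D * (Nat.card {y // ∀ a, χ a y = 1} * Nat.card ↥(D ⊓ R)) := Nat.mul_le_mul_left _ h6
    _ = Nat.card Q * (Nat.card {a // ∀ y, χ a y = 1} * Nat.card ↥(D ⊓ R)) := by rw [← mul_assoc, this, mul_assoc]
    _ ≤ _ := by rw [sq]; gcongr

/-- The line lemma: an additive subgroup of a plane meeting all lines in the same number of points. -/
theorem line_lemma {F : Type*} [Field F] [Finite F] (D : AddSubgroup (F × F)) {d : ℕ}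
    (h : ∀ v : F × F, v ≠ 0 → Nat.card {k : F // k • v ∈ D} = d) : d = 1 ∨ d = Nat.card F := by
  have := Fintype.ofFinite F
  obtain ⟨p, hp⟩ := CharP.exists F
  obtain ⟨f, hpp, hf⟩ := FiniteField.card F p
  have h1 : (Fintype.card F ^ 2 - 1) * (d - 1) = (Fintype.card F - 1) * (Nat.card D - 1) := by
    calc _ = ∑ v ∈ univ.erase (0 : F × F), #{k ∈ univ.erase (0 : F) | k • v ∈ D} := by
          rw [sum_congr rfl (g := fun _ => d - 1) fun v hv => by
            rw [filter_erase, card_erase_of_mem (by simp), ← h v (ne_of_mem_erase hv), Nat.card_eq_fintype_card,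
              Fintype.card_subtype]]
          simp [sq]
      _ = ∑ k ∈ univ.erase (0 : F), #{v ∈ univ.erase (0 : F × F) | k • v ∈ D} := by
          simp only [card_filter]; exact sum_comm
      _ = _ := by
          rw [sum_congr rfl (g := fun _ => Nat.card D - 1) fun k hk => by
            rw [filter_erase, card_erase_of_mem (by simp), Nat.card_eq_fintype_card, Fintype.card_subtype]
            congr 1
            exact card_equiv (MulAction.toPerm (Units.mk0 k (ne_of_mem_erase hk))) fun v => by simp]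
          simp
  let A : AddSubgroup F := D.comap (AddMonoidHom.inl F F)
  have h2 : Nat.card A = d := by
    rw [← h (1, 0) (by simp)]; exact Nat.card_congr (Equiv.subtypeEquivRight fun k => by simp [A])
  obtain ⟨a, ha, h3⟩ := (Nat.dvd_prime_pow hpp).1 (hf ▸ Nat.card_eq_fintype_card (α := F) ▸ A.card_addSubgroup_dvd_card)
  obtain ⟨c, -, h4⟩ := (Nat.dvd_prime_pow hpp).1 (show Nat.card D ∣ p ^ ((f : ℕ) + f) by
    simpa [hf, pow_add] using D.card_addSubgroup_dvd_card)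
  rw [Nat.card_eq_fintype_card, hf]
  rw [h2] at h3
  rw [hf, h3, h4] at h1
  obtain ⟨b, hb⟩ := Nat.exists_eq_add_of_le ha
  rcases a.eq_zero_or_pos with rfl | ha0
  · simp [h3]
  rcases b.eq_zero_or_pos with rfl | hb0
  · simp [h3, hb]
  exfalso
  have h5 : 1 < p ^ (f : ℕ) := Nat.one_lt_pow f.pos.ne' hpp.one_lt
  have h6 : (p : ℤ) ^ c = p ^ a * (p ^ a * p ^ b + 1 - p ^ b) := by
    zify [Nat.one_le_pow _ _ hpp.pos, Nat.one_le_pow _ _ (Nat.pow_pos hpp.pos)] at h1 h5
    rw [hb, pow_add] at h1 h5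
    exact mul_left_cancel₀ (a := (p : ℤ) ^ a * p ^ b - 1) (by omega) (by linear_combination -h1)
  have h7 : (2 : ℤ) ≤ p ^ a := by exact_mod_cast Nat.one_lt_pow ha0.ne' hpp.one_lt
  have h8 : (0 : ℤ) < p ^ b := by exact_mod_cast Nat.pow_pos hpp.pos
  have h9 : a < c := by
    by_contra h0
    have : (p : ℤ) ^ c ≤ p ^ a := pow_le_pow_right₀ (by exact_mod_cast hpp.one_lt.le) (by omega)
    nlinarith [mul_pos h8 (show (0 : ℤ) < p ^ a - 1 by omega)]
  obtain ⟨c, rfl⟩ := Nat.exists_eq_add_of_lt h9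
  obtain ⟨b, rfl⟩ := Nat.exists_eq_add_of_lt hb0
  have : (p : ℤ) ∣ 1 := ⟨p ^ c - p ^ a * p ^ b + p ^ b, mul_left_cancel₀ (a := (p : ℤ) ^ a) (by omega)
    (by linear_combination -h6)⟩
  exact hpp.one_lt.ne' (by exact_mod_cast Int.eq_one_of_dvd_one (by omega) this)

theorem pos_of_mul_pos_of_pos {a b : ℚ} (h : 0 < a * b) (hb : 0 < b) : 0 < a := (mul_pos_iff_of_pos_right hb).1 h

/-- The degree of a constituent of a rank three action of polar type. -/
theorem TT.polar {G Ω X : Type*} [Group G] [MulAction G Ω] [Finite Ω] (h : TT G Ω) [MulAction G X] [Finite X]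
    (sm pp : X → X → Prop) (hs : ∀ w, sm w w) (hs' : ∀ w z, sm w z → sm z w) (h0 : ∀ w z, sm w z → pp w z) (h1 : ∀ w z, pp w z → pp z w)
    (h2 : ∀ w z y, sm w z → pp w y → pp z y)
    (t0 : ∀ w z w' z', (sm w z ↔ sm w' z') → (pp w z ↔ pp w' z') → ∃ g : G, sm (g • w) w' ∧ sm (g • z) z')
    (S : Ω → X → Prop) (hS : ∀ (g : G) x w, S x w → S (g • x) (g • w)) (hS' : ∀ x w z, sm w z → (S x w ↔ S x z))
    {x0 : Ω} {a b : X} (ha : S x0 a) (hb : ¬ S x0 b) {w0 w1 : X} (hw : ¬ pp w0 w1) {c Q A B μ : ℚ} (hc : 0 < c)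
    (hQ : 1 < Q) (hA : 1 < A) (hB : 0 < B) (hμ : μ * (Q - 1) = (A - 1) * (B + 1))
    (c0 : ∀ w, Nat.card {z // sm w z} = c) (c1 : ∀ w, Nat.card {z // pp w z} = c * (1 + Q * μ))
    (c2 : Nat.card X = c * (1 + Q * μ + Q * A * B)) (c3 : Nat.card {z // pp w0 z ∧ pp w1 z} = c * μ) :
    Nat.card Ω = 1 + Q * μ + Q * A * B ∨ (Nat.card Ω - 1) * (Q - 1) * (A + B) = Q * B * (B + 1) * (Q * A - 1) ∨
      (Nat.card Ω - 1) * (Q - 1) * (A + B) = Q * A * (A - 1) * (Q * B + 1) := by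
  have := Fintype.ofFinite Ω
  have := Fintype.ofFinite X
  have hS2 : ∀ (g : G) x w, S (g • x) (g • w) ↔ S x w := fun g x w => ⟨fun e => by simpa using hS g⁻¹ _ _ e, hS g x w⟩
  let u : Ω → X → ℚ := fun x w => if S x w then 1 else 0
  have hu : ∀ (g : G) x w, u (g • x) (g • w) = u x w := fun g x w => by simp only [u, hS2]
  have hu1 : ∀ x, ∑ w, u x w = ∑ w, u x0 w := fun x => by
    obtain ⟨g, rfl⟩ := h.trans x0 x
    exact (Fintype.sum_equiv (MulAction.toPerm g) _ _ fun w => (hu g x0 w).symm).symm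
  let U : Ω → X → ℚ := fun x w => Fintype.card X * u x w - ∑ w, u x0 w
  have hU : ∀ (g : G) x w, U (g • x) (g • w) = U x w := fun g x w => by simp only [U, hu]
  have hU' : ∀ x w z, sm w z → U x w = U x z := fun x w z e => by simp only [U, u, hS' x w z e]
  have hU1 : ∀ x, ∑ w, U x w = 0 := fun x => by simp [U, ← mul_sum, hu1 x]
  let M : X → X → ℚ := fun w z => ∑ x, U x w * U x z
  have hM : ∀ w z w' z', (sm w z ↔ sm w' z') → (pp w z ↔ pp w' z') → M w z = M w' z' := fun w z w' z' e1 e2 => by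
    obtain ⟨g, e3, e4⟩ := t0 w z w' z' e1 e2
    exact Fintype.sum_equiv (MulAction.toPerm g) _ _ fun x => by simp [← hU' _ _ _ e3, ← hU' _ _ _ e4, hU]
  have hU2 : ∀ w, ∑ x, U x w = 0 := fun w => by
    have k : ∀ z, ∑ x, U x z = ∑ x, U x w := fun z => by
      obtain ⟨g, e3, -⟩ := t0 z z w w (by simp [hs]) (by simp [h0 _ _ (hs _)])
      exact Fintype.sum_equiv (MulAction.toPerm g) _ _ fun x => by simp [← hU' _ _ _ e3, hU]
    have : Nonempty X := ⟨w⟩
    have : ∑ z, ∑ x, U x z = 0 := by rw [sum_comm]; simp [hU1]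
    rw [sum_congr rfl fun z _ => k z] at this
    simpa using this
  let Γ : Ω → Ω → ℚ := fun x y => ∑ w, U x w * U y w
  have hΓ0 : ∀ (g : G) x y, Γ (g • x) (g • y) = Γ x y := fun g x y =>
    (Fintype.sum_equiv (MulAction.toPerm g) _ _ fun w => by simp [hU]).symm
  have := h.nt
  obtain ⟨y0, hy⟩ := exists_ne x0
  have hΓ : ∀ x y, Γ x y = Γ x0 y0 + if x = y then Γ x0 x0 - Γ x0 y0 else 0 := fun x y => by
    split_ifs with e
    · obtain ⟨k, rfl⟩ := h.trans x0 x
      rw [← e, hΓ0]; ring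
    · obtain ⟨k, rfl, rfl⟩ := h.move x0 y0 x y hy.symm e
      rw [hΓ0]; ring
  obtain ⟨γ, hγ⟩ : ∃ γ, γ = Γ x0 x0 - Γ x0 y0 := ⟨_, rfl⟩
  rw [← hγ] at hΓ
  have e1 : Fintype.card Ω * Γ x0 y0 + γ = 0 := by
    have : ∑ y, Γ x0 y = 0 := by simp only [Γ]; rw [sum_comm]; simp [← mul_sum, hU2]
    rw [sum_congr rfl fun y _ => hΓ x0 y] at this
    generalize Γ x0 y0 = r at this ⊢
    simpa [sum_add_distrib] using this
  have e2 : ∀ w z, ∑ y, M w y * M z y = γ * M w z := fun w z => by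
    calc _ = ∑ x, ∑ y, U x w * U y z * Γ x y := by
          simp only [M, Γ, sum_mul_sum]
          simp only [mul_sum]
          rw [sum_comm]; refine sum_congr rfl fun x _ => sum_comm.trans (sum_congr rfl fun y _ => sum_congr rfl
            fun v _ => by ring)
      _ = _ := by
          rw [sum_congr rfl fun x _ => sum_congr rfl fun y _ => congrArg _ (hΓ x y)]
          generalize Γ x0 y0 = r
          simp only [mul_add, sum_add_distrib, mul_ite, mul_zero, sum_ite_eq, mem_univ, if_true]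
          simp [← sum_mul, ← mul_sum, hU2, M, mul_comm]
  have e3 : Fintype.card X * M w0 w0 = Fintype.card Ω * Γ x0 x0 := by
    calc _ = ∑ w, M w w := by rw [sum_congr rfl fun w _ => hM w w w0 w0 (by simp [hs]) (by simp [h0 _ _ (hs _)])]; simp
      _ = ∑ x, Γ x x := sum_comm
      _ = _ := by rw [sum_congr rfl fun x _ => hΓ x x, hΓ x0 x0]; simp [mul_add]
  have e4 : 0 < Γ x0 x0 := by
    refine (sum_nonneg fun w _ => mul_self_nonneg _).lt_of_ne' fun e => ?_
    have k := (sum_eq_zero_iff_of_nonneg fun w _ => mul_self_nonneg _).1 e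
    have k1 := mul_self_eq_zero.1 (k a (mem_univ _))
    have k2 := mul_self_eq_zero.1 (k b (mem_univ _))
    have : Nonempty X := ⟨a⟩
    simp only [U, u, ha, hb, if_true, if_false] at k1 k2
    exact (Nat.cast_pos.2 (Fintype.card_pos (α := X)) : (0 : ℚ) < _).ne' (by linear_combination k1 - k2)
  have hμ0 : 0 < μ := pos_of_mul_pos_of_pos (hμ ▸ mul_pos (by linarith) (by linarith)) (by linarith : 0 < Q - 1)
  obtain ⟨w2, k1, k2⟩ : ∃ w2, pp w0 w2 ∧ ¬ sm w0 w2 := by
    by_contra! k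
    have : Nat.card {z // pp w0 z} ≤ Nat.card {z // sm w0 z} :=
      Nat.card_le_card_of_injective (fun z => ⟨z.1, k _ z.2⟩) fun _ _ e => Subtype.ext (congrArg (·.1) e)
    have : (Nat.card {z // pp w0 z} : ℚ) ≤ Nat.card {z // sm w0 z} := by exact_mod_cast this
    rw [c0, c1] at this
    nlinarith [mul_pos hc (mul_pos (by linarith : 0 < Q) hμ0)]
  have hM' : ∀ w z, M w z = M w0 w1 + (if pp w z then M w0 w2 - M w0 w1 else 0) +
      if sm w z then M w0 w0 - M w0 w2 else 0 := fun w z => by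
    by_cases e : sm w z
    · rw [hM w z w0 w0 (by simp [e, hs]) (by simp [h0 _ _ e, h0 _ _ (hs _)])]; simp [e, h0 _ _ e]
    by_cases e' : pp w z
    · rw [hM w z w0 w2 (by simp [e, k2]) (by simp [e', k1])]; simp [e, e']
    · rw [hM w z w0 w1 (by simpa [e] using fun e => hw (h0 _ _ e)) (by simp [e', hw])]; simp [e, e']
  have s0 : ∀ (p : X → Prop) [DecidablePred p] (r : ℚ), ∑ z, (if p z then r else 0) = Nat.card {z // p z} * r :=
    fun p _ r => by simp [← sum_filter, Fintype.card_subtype]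
  have f1 : ∑ z, M w0 z = 0 := by simp only [M]; rw [sum_comm]; simp [← mul_sum, hU1]
  have f2 := e2 w0 w0
  have f3 := e2 w0 w1
  generalize M w0 w0 = m0 at *
  generalize M w0 w2 = m1 at *
  generalize M w0 w1 = m2 at *
  rw [sum_congr rfl fun z _ => hM' w0 z] at f1
  rw [sum_congr rfl (g := fun z => m2 ^ 2 + (if pp w0 z then m1 ^ 2 - m2 ^ 2 else 0) +
    if sm w0 z then m0 ^ 2 - m1 ^ 2 else 0) fun z _ => by
      rw [hM']; by_cases e : sm w0 z
      · simp [e, h0 _ _ e, sq]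
      · by_cases e' : pp w0 z <;> simp [e, e', sq]] at f2
  rw [sum_congr rfl (g := fun z => m2 ^ 2 + (if pp w0 z then m2 * (m1 - m2) else 0) +
    (if pp w1 z then m2 * (m1 - m2) else 0) + (if pp w0 z ∧ pp w1 z then (m1 - m2) ^ 2 else 0) +
    (if sm w0 z then m2 * (m0 - m1) else 0) + if sm w1 z then m2 * (m0 - m1) else 0) fun z _ => by
      rw [hM' w0, hM' w1]; by_cases e : sm w0 z
      · have : ¬ pp w1 z := fun k => hw (h1 _ _ (h1 _ _ (h2 _ _ _ (hs' _ _ e) (h1 _ _ k))))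
        simp [e, h0 _ _ e, this, mt (h0 _ _) this]; ring
      by_cases e1 : sm w1 z
      · have : ¬ pp w0 z := fun k => hw (h1 _ _ (h2 _ _ _ (hs' _ _ e1) (h1 _ _ k)))
        simp [e, e1, h0 _ _ e1, this]; ring
      · by_cases e' : pp w0 z <;> by_cases e'' : pp w1 z <;> simp [e, e1, e', e''] <;> ring] at f3
  simp only [sum_add_distrib, s0, c0, c1, c3, sum_const, card_univ, nsmul_eq_mul] at f1 f2 f3
  rw [← Nat.card_eq_fintype_card, c2] at f1 f2 f3 e3
  rw [← Nat.card_eq_fintype_card] at e1 e3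
  have hn : (0 : ℚ) < Nat.card Ω := by exact_mod_cast Nat.card_pos
  generalize (Nat.card Ω : ℚ) = n at *
  generalize Γ x0 x0 = r0 at *
  generalize Γ x0 y0 = r1 at *
  clear * - hn hc hQ hA hB hμ hμ0 f1 f2 f3 e1 e3 e4 hγ
  obtain ⟨d, rfl⟩ : ∃ d, m1 = m2 + d := ⟨m1 - m2, by ring⟩
  obtain ⟨v, hv⟩ : ∃ v, v = 1 + Q * μ + Q * A * B := ⟨_, rfl⟩
  have hv0 : 0 < v := by rw [hv]; positivity
  have hv1 : (Q - 1) * v = (Q * A - 1) * (Q * B + 1) := by rw [hv]; linear_combination Q * hμ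
  have g0 : m0 ≠ 0 := by rintro rfl; nlinarith [mul_pos hn e4]
  have g1 : m0 = -(v - 1) * m2 - Q * μ * d := mul_left_cancel₀ hc.ne' (by rw [hv]; linear_combination f1)
  have g3 : γ * m2 = c * (μ * d ^ 2 - v * m2 ^ 2) := by rw [hv]; linear_combination 2 * m2 * f1 - f3
  have g4 : c * v * m0 = (n - 1) * γ := by rw [hv]; linear_combination e3 + e1 - n * hγ
  have g5 : d * (((Q * B + 1) * m2 + (B + 1) * d) * ((Q * A - 1) * m2 + (A - 1) * d)) = 0 := by
    have : c * μ * (d * (v * Q * m2 ^ 2 + (Q * (Q * μ + 1) + v - 1) * m2 * d + Q * μ * d ^ 2)) = 0 := by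
      rw [g1] at f2
      rw [hv] at f2 g3 ⊢
      linear_combination m2 * f2 + (-(1 + Q * μ + Q * A * B - 1) * m2 - Q * μ * d) * g3
    have := (mul_eq_zero.1 this).resolve_left (by positivity)
    refine mul_left_cancel₀ (a := Q) (by positivity) ?_
    rw [hv] at this
    linear_combination (Q - 1) * this - d * (Q ^ 2 * m2 ^ 2 + (Q ^ 2 + Q) * m2 * d + Q * d ^ 2) * hμ
  have hQA : 0 < Q * A - 1 := by nlinarith
  rcases mul_eq_zero.1 g5 with rfl | g5
  · left
    have : m2 ≠ 0 := by rintro rfl; simp [g1] at g0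
    refine hv ▸ mul_left_cancel₀ (a := c * v * m2 * m2) (by positivity) ?_
    linear_combination m2 * g4 + (n - 1) * g3 - c * v * m2 * g1
  right
  rcases mul_eq_zero.1 g5 with g5 | g5
  · left
    obtain ⟨t, rfl⟩ : ∃ t, d = (Q * B + 1) * t := ⟨d / (Q * B + 1), by field_simp⟩
    obtain rfl : m2 = -(B + 1) * t := mul_left_cancel₀ (a := Q * B + 1) (by positivity) (by linear_combination g5)
    have g6 : m0 = t * (Q * B * (B + 1)) := by rw [g1, hv]; linear_combination -(Q * B * t) * hμ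
    have : t ≠ 0 := by rintro rfl; simp [g6] at g0
    have g7 : γ = c * t * (Q * B + 1) * (A + B) := mul_left_cancel₀ (a := (Q - 1) * (B + 1) * t)
      (mul_ne_zero (mul_ne_zero (by linarith) (by linarith)) this) (by
        linear_combination -(Q - 1) * g3 - c * t ^ 2 * (Q * B + 1) ^ 2 * hμ + c * t ^ 2 * (B + 1) ^ 2 * hv1)
    refine mul_left_cancel₀ (a := c * t * (Q * B + 1)) (by positivity) ?_
    rw [g6, g7] at g4
    linear_combination -(Q - 1) * g4 + c * t * Q * B * (B + 1) * hv1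
  · right
    obtain ⟨t, rfl⟩ : ∃ t, d = (Q * A - 1) * t := ⟨d / (Q * A - 1), by field_simp⟩
    obtain rfl : m2 = -(A - 1) * t := mul_left_cancel₀ (a := Q * A - 1) (by positivity) (by linear_combination g5)
    have g6 : m0 = -t * (Q * A * (A - 1)) := by rw [g1, hv]; linear_combination -(Q * A * t) * hμ
    have : t ≠ 0 := by rintro rfl; simp [g6] at g0
    have g7 : γ = -c * t * (Q * A - 1) * (A + B) := mul_left_cancel₀ (a := (Q - 1) * (A - 1) * t)
      (mul_ne_zero (mul_ne_zero (by linarith) (by linarith)) this) (by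
        linear_combination -(Q - 1) * g3 - c * t ^ 2 * (Q * A - 1) ^ 2 * hμ + c * t ^ 2 * (A - 1) ^ 2 * hv1)
    refine mul_left_cancel₀ (a := c * t * (Q * A - 1)) (by positivity) ?_
    rw [g6, g7] at g4
    linear_combination (Q - 1) * g4 + c * t * Q * A * (A - 1) * hv1

end Cfsg.Agent.H7
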