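import Cfsg.Agent.H7.TT6
import Cfsg.Agent.H1.MIU10
import Cfsg.Agent.H1.MIS4

/-! Two-transitive actions of groups preserving a form: the point stabiliser. -/

set_option autoImplicit false
set_option linter.unusedSectionVars false

namespace Cfsg.Agent.H7

open Finset MulAction Module Cfsg.Agent.H1 Cfsg.Agent.H5

section HD
variable {G E M : Type*} [Group G] [AddCommGroup E] [AddCommGroup M] (D : HD G E M) {Ω : Type*} [MulAction G Ω]

/-- The centre of a Heisenberg family. -/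
def zHom : Multiplicative D.Z →* G where
  toFun μ := D.x 0 μ.toAdd
  map_one' := D.x_zero
  map_mul' a b := D.x_add_Z a.toAdd.2 b.toAdd.2

theorem mem_zHom {g : G} : g ∈ (zHom D).range ↔ ∃ μ, D.adm 0 μ ∧ D.x 0 μ = g :=
  ⟨fun ⟨μ, h⟩ => ⟨_, μ.toAdd.2, h⟩, fun ⟨μ, h, e⟩ => ⟨Multiplicative.ofAdd ⟨μ, h⟩, e⟩⟩

theorem zHom_le : (zHom D).range ≤ D.Q := fun _ h => ⟨0, (mem_zHom D).1 h⟩

theorem ob_range {H : Type*} [Group H] (φ : H →* G) (x : Ω) :
    ob φ.range x * Nat.card ((stabilizer G x).comap φ) = Nat.card H := by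
  let _ := MulAction.compHom Ω φ
  rw [← Nat.card_congr (orbitProdStabilizerEquivGroup H x), Nat.card_prod]
  exact congrArg (· * _) (congrArg (fun s : Set Ω => Nat.card s) (Set.ext fun y =>
    mem_orb.trans ⟨fun ⟨_, ⟨u, rfl⟩, h⟩ => ⟨u, h⟩, fun ⟨u, h⟩ => ⟨_, ⟨u, rfl⟩, h⟩⟩))

theorem ob_zHom (x : Ω) : ob (zHom D).range x * Nat.card (D.J x) = Nat.card D.Z := by
  rw [← Nat.card_congr (Multiplicative.toAdd (α := D.Z)), ← ob_range (zHom D) x]
  exact congrArg _ (Nat.card_congr ⟨fun μ => ⟨Multiplicative.ofAdd ⟨μ.1, μ.2.1⟩, μ.2.2⟩,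
    fun μ => ⟨μ.1.toAdd.1, μ.1.toAdd.2, μ.2⟩, fun _ => rfl, fun _ => rfl⟩)

theorem pgroup_Q {p : ℕ} (h1 : ∀ a : E, p • a = 0) (h2 : ∀ μ : M, p • μ = 0) : IsPGroup p D.Q := by
  rintro ⟨_, a, μ, h, rfl⟩
  have k : ∀ n : ℕ, ∃ ν, D.adm (n • a) ν ∧ D.x a μ ^ n = D.x (n • a) ν := fun n => by
    induction n with
    | zero => exact ⟨0, by simpa using D.adm_zero, by simp [D.x_zero]⟩
    | succ n ih =>
      obtain ⟨ν, h3, h4⟩ := ih
      exact ⟨_, succ_nsmul a n ▸ D.adm_add h3 h, by rw [pow_succ, h4, D.x_mul h3 h, succ_nsmul]⟩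
  obtain ⟨ν, h3, h4⟩ := k p
  rw [h1] at h3 h4
  refine ⟨2, Subtype.ext ?_⟩
  have := map_pow (zHom D) (Multiplicative.ofAdd ⟨ν, h3⟩) p
  rw [← ofAdd_nsmul, show p • (⟨ν, h3⟩ : D.Z) = 0 from Subtype.ext (h2 ν), ofAdd_zero, map_one] at this
  simp only [sq, pow_mul, SubmonoidClass.coe_pow, h4]
  exact this.symm

end HD

theorem ob_pow {G Ω : Type*} [Group G] [Finite G] [MulAction G Ω] {p : ℕ} [hp : Fact p.Prime] {Q : Subgroup G}
    (h : IsPGroup p Q) (x : Ω) : ∃ k, ob Q x = p ^ k := by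
  obtain ⟨n, hn⟩ := h.exists_card_eq
  obtain ⟨k, -, hk⟩ := (Nat.dvd_prime_pow hp.out).1 (hn ▸ ob_dvd_card Q x)
  exact ⟨k, hk⟩

theorem pow_dvd_of_le {p a b : ℕ} (hp : 1 < p) (h : p ^ a ≤ p ^ b) : p ^ a ∣ p ^ b :=
  pow_dvd_pow _ ((Nat.pow_le_pow_iff_right hp).1 h)

theorem num_core {n v l k M v0 : ℕ} (hn : 0 < n) (h : l * (n - 1) = v * k) (h1 : M ∣ n) (h2 : v ≡ v0 [MOD M]) :
    M ∣ l + v0 * k := by
  have : l + v * k = l * n := by
    obtain ⟨n, rfl⟩ := Nat.exists_eq_add_of_lt hn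
    rw [← h]; simp; ring
  exact (Nat.modEq_zero_iff_dvd).1 (((h2.mul_right k).add_left l).symm.trans
    (this ▸ (Nat.modEq_zero_iff_dvd).2 (h1.mul_left l)))

variable {G Ω : Type*} [Group G] [Finite G] [MulAction G Ω] [Finite Ω]

theorem TT.count_rel' (h : TT G Ω) {A : Type*} [Finite A] [MulAction G A] (r : A → Ω → Ω → Prop)
    (hr : ∀ (g : G) a x y, r a x y → r (g • a) (g • x) (g • y)) {x y : Ω} (hy : y ≠ x) {e : ℕ}
    (he : ∀ a, Nat.card {y // y ≠ x ∧ r a x y} = e) :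
    Nat.card {a // r a x y} * (Nat.card Ω - 1) = Nat.card A * e := by
  classical
  have := Fintype.ofFinite Ω
  have := Fintype.ofFinite A
  have k : ∀ y z, y ≠ x → z ≠ x → #{a | r a x y} ≤ #{a | r a x z} := fun y z h1 h2 => by
    obtain ⟨g, h3, rfl⟩ := h.move x y x z h1.symm h2.symm
    exact card_le_card_of_injOn (g • ·) (fun a ha => by simpa [h3] using hr g a x y (by simpa using ha))
      fun _ _ _ _ e => by simpa using e
  simp only [Nat.card_eq_fintype_card, Fintype.card_subtype] at he ⊢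
  calc _ = ∑ z ∈ univ.erase x, #{a | r a x z} := by
        rw [sum_congr rfl fun z hz => le_antisymm (k z y (ne_of_mem_erase hz) hy) (k y z hy (ne_of_mem_erase hz))]
        simp [mul_comm]
    _ = ∑ a, #{z | z ≠ x ∧ r a x z} := by
        simp only [card_filter]; rw [sum_comm]
        exact sum_congr rfl fun a _ => by rw [← filter_ne', sum_filter]; simp [ite_and]
    _ = _ := by simp [he]

/-- Two conjugates of `R` moving `x` to the same point. -/
theorem TT.count_two (h : TT G Ω) {P R : Subgroup G} (hP : ∀ g ∈ P, ∀ u ∈ R, g * u * g⁻¹ ∈ R)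
    (hR : NT R Ω) {x : Ω} {a b u v : G} (hu : u ∈ R) (hv : v ∈ R) (hab : a⁻¹ * b ∉ P) (h1 : (a * u * a⁻¹) • x ≠ x)
    (h2 : (a * u * a⁻¹) • x = (b * v * b⁻¹) • x) : 2 * (Nat.card Ω - 1) ≤ P.index * (ob R x - 1) := by
  refine le_of_le_of_eq (Nat.mul_le_mul_right _ ?_) (h.count_rel' (A := G ⧸ P)
    (fun a x y => ∃ g : G, a = g ∧ g⁻¹ • y ∈ orbit R (g⁻¹ • x))
    (fun g a x y ⟨k, h1, h2⟩ => ⟨g * k, by rw [h1]; rfl, by simpa [mul_smul] using h2⟩) h1 fun a => ?_)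
  · exact Finite.one_lt_card_iff_nontrivial.2 ⟨⟨a, a, rfl, mem_orb.2 ⟨u, hu, by simp [mul_smul]⟩⟩,
      ⟨b, b, rfl, mem_orb.2 ⟨v, hv, by rw [h2]; simp [mul_smul]⟩⟩, fun e => hab (QuotientGroup.eq.1 (congrArg (·.1) e))⟩
  obtain ⟨g, rfl⟩ := QuotientGroup.mk_surjective a
  rw [hR.ob_eq x (g⁻¹ • x), ← card_orb_ne]
  refine Nat.card_congr ((MulAction.toPerm g⁻¹).subtypeEquiv fun y => and_congr (by simp)
    ⟨fun ⟨k, h1, h2⟩ => ?_, fun h1 => ⟨g, rfl, h1⟩⟩)
  obtain ⟨u, hu, e⟩ := mem_orb.1 h2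
  refine mem_orb.2 ⟨_, hP _ (QuotientGroup.eq.1 h1) u hu, ?_⟩
  simp [mul_smul, e]

theorem NT.of {P Q : Subgroup G} (h : ∀ x y : Ω, ∃ g ∈ P, g • x = y) (hP : ∀ g ∈ P, ∀ u ∈ Q, g * u * g⁻¹ ∈ Q) :
    NT Q Ω := fun x y => let ⟨g, h1, h2⟩ := h x y; ⟨g, h2, hP g h1⟩

/-- Either `P` is transitive or the degree is small. -/
theorem TT.trans_or (h : TT G Ω) (P : Subgroup G) :
    (∀ x y : Ω, ∃ g ∈ P, g • x = y) ∨ Nat.card Ω < P.index ∨ Nat.card Ω = P.index ∧ TT G (G ⧸ P) := by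
  refine (h.lt_card (X := G ⧸ P)).imp_left fun k x y => ?_
  obtain ⟨a, rfl⟩ := h.trans x y
  obtain ⟨g, h1, h2⟩ := k (a • x) a (1 : G)
  exact ⟨g * a, by simpa using P.inv_mem (QuotientGroup.eq.1 h2), by rw [mul_smul, h1]⟩

theorem TT.trans_or' (h : TT G Ω) {P : Subgroup G} (hP : TT G (G ⧸ P)) :
    (∀ x y : Ω, ∃ g ∈ P, g • x = y) ∨ Nat.card Ω = P.index := by
  refine (h.compare hP).imp (fun k x y => ?_) And.left
  obtain ⟨a, rfl⟩ := h.trans x y
  obtain ⟨g, h1, h2⟩ := k (a • x) a (1 : G)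
  exact ⟨g * a, by simpa using P.inv_mem (QuotientGroup.eq.1 h2), by rw [mul_smul, h1]⟩

variable {F : Type*} [Field F] [Fintype F] {σ : F →+* F} {E : Type*} [AddCommGroup E] [Module F E]
  [FiniteDimensional F E] {B : Sesq σ E} {act : G →* Module.End F E} (hact : ∀ g x y, B (act g x) (act g y) = B x y)
include hact

theorem not_TT_PS {e a b : E} (ha : a ∉ F ∙ e) (ha' : B a e = 0) (hb : B b e ≠ 0) (he : B e e = 0) {g k : G}
    (hg : act g e = a) (hk : act k e = b) : ¬ TT G (G ⧸ PS act e) := fun h => by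
  obtain ⟨t, h1, h2⟩ := h.move (1 : G) g (1 : G) k (fun h1 => by
    obtain ⟨c, hc⟩ := QuotientGroup.eq.1 h1
    exact ha (by rw [← hg, ← one_mul g, ← inv_one, hc]; exact Submodule.smul_mem _ _ (Submodule.mem_span_singleton_self _)))
    fun h1 => by
      obtain ⟨c, hc⟩ := QuotientGroup.eq.1 h1
      exact hb (by rw [← hk, ← one_mul k, ← inv_one, hc]; simp [he])
  obtain ⟨c, hc⟩ := (PS act e).inv_mem (QuotientGroup.eq.1 h1)
  obtain ⟨d, hd⟩ := QuotientGroup.eq.1 h2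
  simp only [smul_eq_mul, mul_one, inv_inv] at hc hd
  have h3 : b = (d : F) • act t a := by rw [← hk, ← hg, ← act_mul_apply, ← map_smul, ← hd, ← act_mul_apply]; simp
  have := hact t a e
  rw [hc, ha', LinearMap.map_smulₛₗ, smul_eq_zero] at this
  exact hb (by simp [h3, this.resolve_left (by simp)])

theorem TT.polar' (h : TT G Ω) (hr : ∀ x y, B x y = 0 → B y x = 0) {e f : E} (he : B e e = 0) (hf : B f f = 0)
    (hef : B e f ≠ 0) (t1 : ∀ w, B w w = 0 → w ≠ 0 → ∃ g, act g e = w)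
    (t2 : ∀ w z, B w w = 0 → B z z = 0 → w ∉ F ∙ e → z ∉ F ∙ e → (B w e = 0 ↔ B z e = 0) →
      ∃ g ∈ PS act e, z ∈ F ∙ act g w) {A B' μ : ℕ} (hA : 1 < A) (hB : 0 < B')
    (hμ : μ * (Fintype.card F - 1) = (A - 1) * (B' + 1))
    (c2 : Nat.card {w // B w w = 0} = 1 + (Fintype.card F - 1) * (1 + Fintype.card F * μ + Fintype.card F * A * B'))
    (c3 : Nat.card {w // B w w = 0 ∧ B w e = 0 ∧ B w f = 0} = 1 + (Fintype.card F - 1) * μ) :
    (∀ x y : Ω, ∃ g ∈ PS act e, g • x = y) ∨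
      (Nat.card Ω - 1) * (Fintype.card F - 1) * (A + B') = Fintype.card F * B' * (B' + 1) * (Fintype.card F * A - 1) ∨
      (Nat.card Ω - 1) * (Fintype.card F - 1) * (A + B') = Fintype.card F * A * (A - 1) * (Fintype.card F * B' + 1) := by
  classical
  have : Finite E := Module.finite_of_finite F
  have hq := Fintype.one_lt_card (α := F)
  have he0 : e ≠ 0 := by rintro rfl; simp at hef
  have hf0 : f ≠ 0 := by rintro rfl; simp at hef
  have hz : ∀ g w, w ≠ 0 → act g w ≠ 0 := fun g w hw k => hw (by rw [← act_inv_apply act g w, k, map_zero])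
  have cn : ∀ p : E → Prop, p 0 → Nat.card {w // p w} = 1 + Nat.card {w // p w ∧ w ≠ 0} := fun p hp => by
    rw [← card_add_card_not (X := {w // p w}) fun w => w.1 = 0]
    congr 1
    · exact Nat.card_eq_one_iff_exists.2 ⟨⟨⟨0, hp⟩, rfl⟩, fun y => Subtype.ext (Subtype.ext y.2)⟩
    · exact Nat.card_congr (Equiv.subtypeSubtypeEquivSubtypeInter p (· ≠ 0))
  have hI := index_PS act he0 {w | B w w = 0 ∧ w ≠ 0} fun u => ⟨fun hu => by
    obtain ⟨g, rfl⟩ := t1 u hu.1 hu.2; exact ⟨g, 1, one_ne_zero, by simp⟩, by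
      rintro ⟨g, c, hc, rfl⟩; exact ⟨by simp [hact, he], smul_ne_zero hc (hz _ _ he0)⟩⟩
  rw [cn _ (by simp), add_right_inj] at c2 c3
  have hμ0 : 0 < μ := Nat.pos_of_ne_zero (by rintro rfl; simp at hμ; omega)
  obtain ⟨⟨a, ha, ha0⟩⟩ := (Nat.card_pos_iff.1 (c3 ▸ Nat.mul_pos (Nat.sub_pos_of_lt hq) hμ0)).1
  by_cases hT : ∀ x y : Ω, ∃ g ∈ PS act e, g • x = y
  · exact .inl hT
  right
  have hlt : Nat.card Ω < (PS act e).index := by
    refine ((h.trans_or _).resolve_left hT).resolve_right fun k => ?_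
    obtain ⟨g, hg⟩ := t1 a ha.1 ha0
    obtain ⟨g', hg'⟩ := t1 f hf hf0
    refine not_TT_PS hact (fun k => ?_) ha.2.1 (fun k => hef (hr _ _ k)) he hg hg' k.2
    obtain ⟨c, rfl⟩ := Submodule.mem_span_singleton.1 k
    simp [hef] at ha; simp [ha] at ha0
  push Not at hT
  obtain ⟨x, y, hxy⟩ := hT
  obtain ⟨k, rfl⟩ := h.trans x y
  let X := {w // B w w = 0 ∧ w ≠ 0}
  let _ : MulAction G X :=
    { smul g w := ⟨act g w.1, by rw [hact]; exact w.2.1, hz _ _ w.2.2⟩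
      one_smul w := Subtype.ext (by change act 1 w.1 = w.1; simp)
      mul_smul g k w := Subtype.ext (act_mul_apply act g k w.1) }
  have sv : ∀ (g : G) (w : X), (g • w).1 = act g w.1 := fun _ _ => rfl
  have sy : ∀ w z : E, z ≠ 0 → z ∈ F ∙ w → w ∈ F ∙ z := fun w z hz k => by
    obtain ⟨c, rfl⟩ := Submodule.mem_span_singleton.1 k
    exact Submodule.mem_span_singleton.2 ⟨c⁻¹, by rw [smul_smul, inv_mul_cancel₀ (left_ne_zero_of_smul hz), one_smul]⟩
  have tr : ∀ w z y : E, z ∈ F ∙ w → y ∈ F ∙ z → y ∈ F ∙ w := fun w z y k1 k2 =>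
    (Submodule.span_singleton_le_iff_mem _ _).2 k1 k2
  have mp : ∀ g (w z : E), act g z ∈ F ∙ act g w ↔ z ∈ F ∙ w := fun g w z => by
    simp only [Submodule.mem_span_singleton, ← map_smul]
    exact exists_congr fun c => ⟨fun k => by rw [← act_inv_apply act g z, ← k, act_inv_apply], fun k => by rw [k]⟩
  have c1 : Nat.card {z : X // B z.1 e = 0} + 1 = Fintype.card F * (1 + (Fintype.card F - 1) * μ) := by
    rw [← c3, ← cn (fun w => B w w = 0 ∧ B w e = 0 ∧ B w f = 0) (by simp), add_comm,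
      Nat.card_congr (Equiv.subtypeSubtypeEquivSubtypeInter _ fun w => B w e = 0),
      Nat.card_congr (Equiv.subtypeEquivRight (q := fun w => (B w w = 0 ∧ B w e = 0) ∧ w ≠ 0) fun w => by tauto),
      ← cn _ (by simp), ← Nat.card_eq_fintype_card, ← Nat.card_prod]
    exact Nat.card_congr ⟨fun z => (B z.1 f / B e f, ⟨z.1 - (B z.1 f / B e f) • e,
      by simp [z.2.1, z.2.2, he, hr _ _ z.2.2], by simp [z.2.2, he], by simp [hef]⟩),
      fun p => ⟨p.2.1 + p.1 • e, by simp [p.2.2.1, p.2.2.2.1, he, hr _ _ p.2.2.2.1], by simp [p.2.2.2.1, he]⟩,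
      fun z => by simp, fun p => by simp [p.2.2.2.2, hef]⟩
  have := h.polar (X := X) (fun w z => z.1 ∈ F ∙ w.1) (fun w z => B z.1 w.1 = 0)
    (fun w => Submodule.mem_span_singleton_self _) (fun w z => sy _ _ z.2.2)
    (fun w z k => by obtain ⟨c, k⟩ := Submodule.mem_span_singleton.1 k; simp [← k, w.2.1]) (fun w z => hr _ _)
    (fun w z y k k' => by obtain ⟨c, k⟩ := Submodule.mem_span_singleton.1 k; simp [← k, k'])
    (fun w z w' z' k1 k2 => by
      obtain ⟨g, hg⟩ := t1 _ w.2.1 w.2.2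
      obtain ⟨g', hg'⟩ := t1 _ w'.2.1 w'.2.2
      obtain ⟨z, rfl⟩ := (MulAction.toPerm g).surjective z
      obtain ⟨z', rfl⟩ := (MulAction.toPerm g').surjective z'
      simp only [toPerm_apply, sv, ← hg, ← hg', mp, hact] at k1 k2 ⊢
      by_cases k3 : z.1 ∈ F ∙ e
      · exact ⟨g' * g⁻¹, by simp [act_mul_apply, act_inv_apply], by
          simpa [act_mul_apply, act_inv_apply, mp] using tr _ _ _ (sy _ _ z.2.2 k3) (k1.1 k3)⟩
      obtain ⟨t, ⟨c, hc⟩, h3⟩ := t2 _ _ z.2.1 z'.2.1 k3 (mt k1.2 k3) k2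
      exact ⟨g' * t * g⁻¹, by
        simpa [act_mul_apply, act_inv_apply, hc] using sy (act g' e) (c.1 • act g' e) (by simp [hz _ _ he0])
          (Submodule.smul_mem _ _ (Submodule.mem_span_singleton_self _)),
        by simpa [act_mul_apply, act_inv_apply, mp] using h3⟩)
    (fun y w => ∃ g : G, g • x = y ∧ w.1 ∈ F ∙ act g e)
    (fun g y w ⟨t, h1, h2⟩ => ⟨g * t, by rw [mul_smul, h1], by rwa [sv, act_mul_apply, mp]⟩)
    (fun y w z k => exists_congr fun g => and_congr_right fun _ => ⟨fun k' => tr _ _ _ k' k,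
      fun k' => tr _ _ _ k' (sy _ _ z.2.2 k)⟩) (x0 := x) (a := ⟨e, he, he0⟩) (b := k⁻¹ • ⟨e, he, he0⟩)
    ⟨1, one_smul _ _, by simp⟩ (fun ⟨g, h1, h2⟩ => hxy (k * g) (mem_PS _ he0 (sy _ _ he0 (by
      rwa [sv, ← mp k, act_apply_inv, ← act_mul_apply] at h2))) (by rw [mul_smul, h1]))
    (w0 := ⟨e, he, he0⟩) (w1 := ⟨f, hf, hf0⟩) (fun k => hef (hr _ _ k)) (c := Fintype.card F - 1) (Q := Fintype.card F)
    (A := A) (B := B') (μ := μ) (by simpa using hq) (by simpa using hq) (by simpa using hA) (by simpa using hB)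
    (by zify [hq.le, hA.le] at hμ; exact_mod_cast hμ) (fun w => by
      have := cn (· ∈ F ∙ w.1) (zero_mem _)
      rw [show Nat.card {z // z ∈ F ∙ w.1} = Fintype.card F from card_span_one rfl w.2.2] at this
      rw [this, Nat.card_congr (Equiv.subtypeSubtypeEquivSubtypeInter _ fun z => z ∈ F ∙ w.1)]
      simp only [Nat.cast_add, Nat.cast_one, add_sub_cancel_left, Nat.cast_inj]
      refine Nat.card_congr (Equiv.subtypeEquivRight fun z => ⟨fun k => ⟨k.2, k.1.2⟩, fun k => ⟨⟨?_, k.2⟩, k.1⟩⟩)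
      obtain ⟨c, rfl⟩ := Submodule.mem_span_singleton.1 k.1
      simp [w.2.1])
    (fun w => by
      obtain ⟨g, hg⟩ := t1 _ w.2.1 w.2.2
      rw [← Nat.card_congr ((MulAction.toPerm g).subtypeEquiv (p := fun z : X => B z.1 e = 0)
        fun z => by simp [sv, ← hg, hact])]
      zify [hq.le] at c1
      have : (Nat.card {z : X // B z.1 e = 0} : ℚ) + 1 = Fintype.card F * (1 + (Fintype.card F - 1) * μ) := by
        exact_mod_cast c1
      linear_combination this)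
    (by rw [show Nat.card X = _ from c2]; push_cast [hq.le]; rfl) (by
      rw [Nat.card_congr (Equiv.subtypeSubtypeEquivSubtypeInter _ fun w => B w e = 0 ∧ B w f = 0),
        Nat.card_congr (Equiv.subtypeEquivRight (q := fun w => (B w w = 0 ∧ B w e = 0 ∧ B w f = 0) ∧ w ≠ 0)
          fun w => by tauto), c3]
      push_cast [hq.le]; rfl)
  have h1 := h.two_le
  have h2 : 1 ≤ Fintype.card F * A := Nat.mul_pos (by omega) (by omega)
  refine (this.resolve_left fun k => hlt.ne ?_).imp (fun k => ?_) fun k => ?_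
  · rw [show Nat.card {w | B w w = 0 ∧ w ≠ 0} = _ from c2, mul_comm] at hI
    rw [Nat.eq_of_mul_eq_mul_left (by omega) hI]
    exact_mod_cast k
  · zify [hq.le, h2, (by omega : 1 ≤ Nat.card Ω)]; exact_mod_cast k
  · zify [hq.le, hA.le, (by omega : 1 ≤ Nat.card Ω)]; exact_mod_cast k

end Cfsg.Agent.H7
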