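import Cfsg.Agent.H7.TT7

/-! Two-transitive actions of symplectic groups. -/

set_option autoImplicit false
set_option linter.unusedSectionVars false

namespace Cfsg.Agent.H7

open Finset MulAction Module Cfsg.Agent.H1 Cfsg.Agent.H5

variable {F : Type*} [Field F] [Fintype F] {E : Type*} [AddCommGroup E] [Module F E] [FiniteDimensional F E]
  {B : Bil F E} (hB : IsSp B) {Ω : Type*} [MulAction (Isom B) Ω] [Finite Ω] (h : TT (Isom B) Ω) {q m : ℕ}
  (hq : Fintype.card F = q) (hm : finrank F E = 2 * (m + 2)) {e : E} (he0 : e ≠ 0)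

include hq hm in
theorem sp_cardE : Nat.card E = q ^ (2 * (m + 2)) := by
  rw [Module.natCard_eq_pow_finrank (K := F), Nat.card_eq_fintype_card, hq, hm]

include hB hq hm he0 in
theorem sp_index : (PS (isoAct B) e).index * (q - 1) + 1 = q ^ (2 * (m + 2)) := by
  have : Finite E := Module.finite_of_finite F
  have := finite_Isom B
  rw [← hq, index_PS _ he0 {w | w ≠ 0} fun u => ⟨fun hu => by
    obtain ⟨g, rfl⟩ := sp_move hB he0 hu; exact ⟨g, 1, one_ne_zero, by simp⟩, by
      rintro ⟨g, c, hc, rfl⟩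
      exact smul_ne_zero hc fun k => he0 (by rw [← act_inv_apply (isoAct B) g e, k, map_zero])⟩, hq,
    ← sp_cardE hq hm, ← card_add_card_not fun w : E => w ≠ 0]
  congr 1
  exact (Nat.card_eq_one_iff_exists.2 ⟨⟨0, by simp⟩, fun y => Subtype.ext (by simpa using y.2)⟩).symm

include hB h hq hm he0 in
theorem sp_polar : (∀ x y : Ω, ∃ g ∈ PS (isoAct B) e, g • x = y) ∨
    (Nat.card Ω - 1) * (q - 1) * 2 = q * (q ^ (m + 1) + 1) * (q ^ (m + 2) - 1) ∨
    (Nat.card Ω - 1) * (q - 1) * 2 = q * (q ^ (m + 1) - 1) * (q ^ (m + 2) + 1) := by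
  have := finite_Isom B
  subst hq
  have h1 := Fintype.one_lt_card (α := F)
  obtain ⟨f, hf⟩ := hB.exists_pair he0
  obtain ⟨μ, hμ⟩ := Nat.sub_one_dvd_pow_sub_one (Fintype.card F) (2 * (m + 1))
  have h2 : 1 < Fintype.card F ^ (m + 1) := Nat.one_lt_pow (by omega) h1
  have h3 : 1 ≤ Fintype.card F ^ (2 * (m + 1)) := Nat.one_le_pow _ _ (by omega)
  refine (h.polar' (isoAct_pres (B := B)) (fun x y k => by rw [hB.skew, k, neg_zero]) (hB.alt e) (hB.alt f)
    (by rw [hB.skew, hf]; simp) (fun w _ => sp_move hB he0) (fun w z _ _ hw hz k => ?_) h2 (zero_lt_one.trans h2)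
    (μ := μ) (by zify [h1.le, h2.le, h3] at hμ ⊢; linear_combination -hμ) ?_ ?_).imp_right
    (.imp (fun k => ?_) fun k => ?_)
  · by_cases k' : B z e = 0
    · obtain ⟨g, h4, h5⟩ := sp_move2 hB he0 he0 hw hz (k'.trans (k.2 k').symm)
      exact ⟨g, ⟨1, by simpa using h4⟩, h5 ▸ Submodule.mem_span_singleton_self _⟩
    have k2 : B w e / B z e ≠ 0 := div_ne_zero (mt k.1 k') k'
    obtain ⟨g, h4, h5⟩ := sp_move2 hB he0 he0 (w' := (B w e / B z e) • z) hw
      (mt (Submodule.smul_mem_iff _ k2).1 hz) (by simp [k'])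
    exact ⟨g, ⟨1, by simpa using h4⟩, h5 ▸ Submodule.mem_span_singleton.2 ⟨_, inv_smul_smul₀ k2 z⟩⟩
  · rw [Nat.card_congr (Equiv.subtypeUnivEquiv hB.alt), sp_cardE rfl hm]
    zify [h1.le, h3] at hμ ⊢; linear_combination (Fintype.card F : ℤ) * hμ
  · have := hB.finrank_perp_pair hf
    rw [← hμ, add_comm, Nat.sub_add_cancel h3, show 2 * (m + 1) = finrank F (perp B (Submodule.span F
      (Set.range ![e, f]))) by omega, ← Nat.card_eq_fintype_card, ← Module.natCard_eq_pow_finrank]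
    exact Nat.card_congr (Equiv.subtypeEquivRight fun w => by simp [mem_perp_span, hB.alt, and_comm])
  · refine Nat.eq_of_mul_eq_mul_right (zero_lt_one.trans h2) ?_
    rw [← pow_succ'] at k; linear_combination k
  · refine Nat.eq_of_mul_eq_mul_right (zero_lt_one.trans h2) ?_
    rw [← pow_succ'] at k; linear_combination k

include he0 in
theorem sp_nQ : ∀ g ∈ PS (isoAct B) e, ∀ u ∈ (sD hB e).Q, g * u * g⁻¹ ∈ (sD hB e).Q := by
  rintro g ⟨c, hc⟩ _ ⟨a, μ, h1, rfl⟩
  exact ⟨_, _, (by simpa using perp_conj_e hc c.ne_zero h1 : B (c.1 • isoAct B g a) e = 0),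
    eq_mul_inv_of_mul_eq (es_conj_e hB hc c.ne_zero h1 μ).symm⟩

theorem sp_memR {g : Isom B} : g ∈ (zHom (sD hB e)).range ↔ ∃ c, hB.transv e c = g :=
  (mem_zHom _).trans (exists_congr fun c => by simp [sD, es_zero])

theorem sp_nR : ∀ g ∈ PS (isoAct B) e, ∀ u ∈ (zHom (sD hB e)).range, g * u * g⁻¹ ∈ (zHom (sD hB e)).range := by
  rintro g ⟨c, hc⟩ u hu
  obtain ⟨d, rfl⟩ := (sp_memR hB).1 hu
  exact (sp_memR hB).2 ⟨c ^ 2 * d, by rw [tr_conj, hc, tr_smul]; simp⟩

include hq in
theorem sp_obR (x : Ω) : ob (zHom (sD hB e)).range x * Nat.card ((sD hB e).J x) = q := by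
  rw [ob_zHom, sZ_eq, AddSubgroup.card_top, Nat.card_eq_fintype_card, hq]

include hq he0 in
theorem sp_obQ (x : Ω) : Nat.card (sD hB e).V * q ≤
    Nat.card ((sD hB e).A x) * Nat.card ((sD hB e).J x) * ob (sD hB e).Q x := by
  have : Finite E := Module.finite_of_finite F
  have := (sD hB e).card_le_orbit x
  rwa [sZ_eq, AddSubgroup.card_top, Nat.card_eq_fintype_card (α := F), hq] at this

include hq he0 in
theorem sp_full {x : Ω} (k : ob (sD hB e).Q x ≤ ob (zHom (sD hB e)).range x) {a : E} (ha : B a e = 0) :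
    a ∈ (sD hB e).A x := by
  have : Finite E := Module.finite_of_finite F
  have h1 := (sp_obQ hB hq he0 x).trans (Nat.mul_le_mul_left _ k)
  rw [mul_assoc, mul_comm (Nat.card ((sD hB e).J x)), sp_obR hB hq] at h1
  rw [AddSubgroup.eq_of_le_of_card_ge ((sD hB e).A_le x) (Nat.le_of_mul_le_mul_right h1 (hq ▸ Fintype.card_pos))]
  exact ⟨0, ha⟩

theorem sp_pQ {p : ℕ} [CharP F p] : IsPGroup p (sD hB e).Q :=
  pgroup_Q _ (fun a => by rw [← Nat.cast_smul_eq_nsmul F, CharP.cast_eq_zero, zero_smul]) fun a => by simp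

include h he0 in
theorem sp_eps (ht : ∀ x y : Ω, ∃ g ∈ PS (isoAct B) e, g • x = y) (x : Ω) : 2 ≤ ob (zHom (sD hB e)).range x := by
  have := finite_Isom B
  by_contra k
  obtain ⟨e', h1⟩ := exists_notTI hB (h.exists_ne_smul x)
  obtain ⟨g, rfl⟩ := sp_move hB he0 (x' := e') (by rintro rfl; exact h1 (TI_zero hB x))
  refine h1 (smul_inv_smul g x ▸ (TI_conj hB g).2 fun c => ob_eq_one (Q := (zHom (sD hB e)).range) ?_
    ((sp_memR hB).2 ⟨c, rfl⟩))
  have := ob_pos (zHom (sD hB e)).range x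
  have := (NT.of ht (sp_nR hB (e := e))).ob_eq (g⁻¹ • x) x
  omega

include hm in
theorem sp_sq {x : Ω} (hA : ∀ e a, e ≠ 0 → B a e = 0 → a ∈ (sD hB e).A x) {w : E} (hw : w ≠ 0) {c : F} (hc : c ≠ 0)
    (h1 : hB.transv w c • x = x) : TI hB x w := by
  have k : ∀ w y, B w y = 0 → w ∉ F ∙ y → y ≠ 0 → hB.transv w c • x = x → hB.transv (w + y) c • x = x :=
    fun w y h1 h2 h3 h4 => by
      obtain ⟨a, h5, h6⟩ := sp_pair2 hB h3 h2 0 (-1)
      obtain ⟨-, μ, h7⟩ := (mem_sA hB).1 (hA y a h3 h5)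
      have := (tr_fix_conj hB (es hB a y μ)).2 h4
      rwa [h7, es_apply hB h5, h1, hB.skew a w, h6, zero_smul, add_zero, mul_zero, add_zero, neg_neg, one_smul] at this
  obtain ⟨v, h2, h3⟩ := sp_exists_line hB (by omega) (e := w)
  have k2 : ∀ l : F, l ^ 2 * c ∈ (sD hB w).J x := fun l => by
    rcases eq_or_ne l 0 with rfl | hl
    · simp
    have := k _ ((l - 1) • w - v) (by simp [hB.alt, h2, hB.skew v w]) (fun k => by
      obtain ⟨s, hs⟩ := Submodule.mem_span_singleton.1 k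
      obtain ⟨k1, k2⟩ := LinearIndependent.pair_iff.1 (li_pair hw h3) (s * (l - 1) - 1) (-s - 1)
        (by linear_combination (norm := module) hs)
      exact hl (by linear_combination -k1 - (l - 1) * k2)) (fun k => by
        simpa using (LinearIndependent.pair_iff.1 (li_pair hw h3) (l - 1) (-1) (by simpa [sub_eq_add_neg] using k)).2)
      (k w v (by rw [hB.skew, h2, neg_zero]) (fun k => by
        obtain ⟨s, hs⟩ := Submodule.mem_span_singleton.1 k
        simpa using (LinearIndependent.pair_iff.1 (li_pair hw h3) (-1) s (by simp [hs])).1)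
        (by rintro rfl; exact h3 (zero_mem _)) h1)
    rwa [show w + v + ((l - 1) • w - v) = l • w by module, tr_smul, ← mem_sJ] at this
  intro d
  rw [← mem_sJ]
  by_cases h4 : ringChar F = 2
  · obtain ⟨l, hl⟩ := FiniteField.isSquare_of_char_two h4 (d / c)
    convert k2 l using 1
    rw [sq, ← hl, div_mul_cancel₀ _ hc]
  · have := Ring.two_ne_zero h4
    convert sub_mem (k2 ((d / c + 1) / 2)) (k2 ((d / c - 1) / 2)) using 1
    field_simp; ring

include hq he0 in
theorem sp_pair {n : ℕ} (hn : Nat.card Ω = q ^ n) : ∃ (x : Ω) (f : E) (c : F), B f e ≠ 0 ∧ c ≠ 0 ∧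
    hB.transv e 1 • x = hB.transv f c • x := by
  obtain ⟨f, hf⟩ := hB.exists_pair he0
  have hf' : B e f = -1 := by rw [hB.skew, hf]
  obtain ⟨p, hp⟩ := CharP.exists F
  obtain ⟨k, hpp, hk⟩ := FiniteField.card F p
  have key : ∀ r : ℕ, r.Prime → (r : F) ≠ 0 → ¬ r ∣ Nat.card Ω := fun r h1 h2 h3 => by
    rw [hn, ← hq, hk, ← pow_mul] at h3
    exact h2 (by rw [(Nat.prime_dvd_prime_iff_eq h1 hpp).1 (h1.dvd_of_dvd_pow h3)]; simp)
  have hg : ∀ c z, isoAct B (hB.transv f c * hB.transv e 1) z = z + B z e • e + (c * (B z f - B z e)) • f :=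
    fun c z => by simp [act_mul_apply, tr_apply, hf', sub_eq_add_neg]
  by_cases h2 : (2 : F) = 0
  · have h3 : (3 : F) ≠ 0 := by rw [show (3 : F) = 2 + 1 by norm_num, h2]; simp
    obtain ⟨x, hx⟩ := exists_fix (k := 1) (g := hB.transv f 3 * hB.transv e 1) Nat.prime_three (iso_ext fun z => by
      have := hg 3
      generalize hB.transv f 3 * hB.transv e 1 = g at this
      simp only [pow_one, pow_three, act_mul_apply, this, map_add, map_smul, LinearMap.add_apply,
        LinearMap.smul_apply, hB.alt, hf, hf', smul_eq_mul, map_one, Module.End.one_apply]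
      match_scalars <;> ring) (key 3 Nat.prime_three h3)
    exact ⟨x, f, -3, by simp [hf], by simpa using h3, by rwa [mul_smul, ← eq_inv_smul_iff, tr_inv] at hx⟩
  · obtain ⟨x, hx⟩ := exists_fix (k := 2) (g := hB.transv f 2 * hB.transv e 1) Nat.prime_two (iso_ext fun z => by
      have := hg 2
      generalize hB.transv f 2 * hB.transv e 1 = g at this
      simp only [show g ^ 2 ^ 2 = g * g * g * g by simp [pow_succ], act_mul_apply, this, map_add, map_smul,
        LinearMap.add_apply, LinearMap.smul_apply, hB.alt, hf, hf', smul_eq_mul, map_one, Module.End.one_apply]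
      match_scalars <;> ring) (key 2 Nat.prime_two h2)
    exact ⟨x, f, -2, by simp [hf], by simpa using h2, by rwa [mul_smul, ← eq_inv_smul_iff, tr_inv] at hx⟩

include hB h hq hm he0 in
theorem sp_one (ht : ∀ x y : Ω, ∃ g ∈ PS (isoAct B) e, g • x = y) (x : Ω)
    (h1 : Nat.card Ω - 1 = (PS (isoAct B) e).index * (ob (zHom (sD hB e)).range x - 1)) : False := by
  have := finite_Isom B
  have : Finite E := Module.finite_of_finite F
  have hR := NT.of ht (sp_nR hB)
  have hQ := NT.of ht (sp_nQ hB he0)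
  have h2 := sp_eps hB h he0 ht x
  have h3 := sp_obR hB hq (e := e) x
  have h4 := sp_index hB hq hm he0
  have h5 := h.two_le
  by_cases hJ : (sD hB e).J x = ⊥
  · rw [hJ, AddSubgroup.card_bot, mul_one] at h3
    obtain ⟨y, f, c, k1, k2, k3⟩ := sp_pair hB hq he0 (Ω := Ω) (n := 2 * (m + 2)) (by rw [← h4, ← h3]; omega)
    obtain ⟨b, rfl⟩ := sp_move hB he0 (x' := f) (by rintro rfl; simp at k1)
    have := h.count_two (sp_nR hB) hR (x := y) (a := 1) (b := b) ((sp_memR hB).2 ⟨1, rfl⟩) ((sp_memR hB).2 ⟨c, rfl⟩)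
      (fun ⟨d, hd⟩ => k1 (by simp only [inv_one, one_mul] at hd; simp [hd, hB.alt])) (fun k => by
        have h6 := sp_obR hB hq (e := e) y
        rw [hR.ob_eq y x, h3] at h6
        have h7 := AddSubgroup.eq_bot_of_card_eq _ (Nat.eq_of_mul_eq_mul_left (by omega) (h6.trans (mul_one q).symm))
        simpa [h7] using (mem_sJ hB).2 (show hB.transv e 1 • y = y by simpa using k))
      (by rw [tr_conj, tr_conj]; simpa using k3)
    rw [hR.ob_eq y x] at this
    omega
  obtain ⟨p, hp⟩ := CharP.exists F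
  obtain ⟨k, hpp, hk⟩ := FiniteField.card F p
  have := Fact.mk hpp
  obtain ⟨a, ha⟩ := ob_pow (sp_pQ hB (e := e)) x
  obtain ⟨b, -, hb⟩ := (Nat.dvd_prime_pow hpp).1 (hk ▸ hq ▸ Dvd.intro _ h3)
  obtain ⟨d, -, hd⟩ := (Nat.dvd_prime_pow hpp).1 (hk ▸ hq ▸ Dvd.intro_left _ h3)
  have h6 : ob (sD hB e).Q x ≤ ob (zHom (sD hB e)).range x := by
    by_contra! k1
    have k2 : p ^ b * p ∣ Nat.card Ω := (pow_succ p b ▸ pow_dvd_pow p ((Nat.pow_lt_pow_iff_right hpp.one_lt).1
      (ha ▸ hb ▸ k1))).trans (ha ▸ hQ.ob_dvd x)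
    obtain ⟨v, hv⟩ : (q : ℤ) ∣ (PS (isoAct B) e).index - 1 := ⟨(PS (isoAct B) e).index - q ^ (2 * m + 3), by
      zify [(show 1 ≤ q from hq ▸ Fintype.card_pos)] at h4; linear_combination -h4⟩
    obtain ⟨d, rfl⟩ : ∃ d', d = d' + 1 := Nat.exists_eq_succ_of_ne_zero (by
      rintro rfl; exact hJ (AddSubgroup.eq_bot_of_card_eq _ (by simpa using hd)))
    obtain ⟨t, ht⟩ := k2
    rw [hb, hd] at h3
    rw [hb] at h1 h2
    zify [(by omega : 1 ≤ Nat.card Ω), (by omega : 1 ≤ p ^ b)] at h1 h3 ht h2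
    have : (p : ℤ) ∣ 1 := ⟨t - p ^ d * v * (p ^ b - 1), mul_left_cancel₀ (a := (p : ℤ) ^ b) (by omega) (by
      linear_combination ht - h1 - (p ^ b - 1) * hv + (p ^ b - 1) * v * h3)⟩
    exact hpp.one_lt.ne' (by exact_mod_cast Int.eq_one_of_dvd_one (by omega) this)
  obtain ⟨⟨c, hc⟩, h7⟩ := (AddSubgroup.ne_bot_iff_exists_ne_zero).1 hJ
  have := sp_sq hB hm (x := x) (fun e' a h8 h9 => by
    obtain ⟨g, rfl⟩ := sp_move hB he0 h8
    rw [← smul_inv_smul g x, ← act_apply_inv (isoAct B) g a, sA_map]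
    refine sp_full hB hq he0 (by rwa [hR.ob_eq _ x, hQ.ob_eq _ x]) ?_
    rwa [← isoAct_pres g, act_apply_inv]) he0 (by simpa using h7) ((mem_sJ hB).1 hc)
  rw [((TI_iff hB).1 this).trans (sZ_eq hB e), AddSubgroup.card_top, Nat.card_eq_fintype_card, hq] at h3
  have : 0 < q := hq ▸ Fintype.card_pos
  nlinarith

include hB h hq hm he0 in
theorem sp_gen (ht : ∀ x y : Ω, ∃ g ∈ PS (isoAct B) e, g • x = y)
    (H : ∀ ε, ε ≤ q → 2 ≤ ε → (PS (isoAct B) e).index * (ε - 1) < (ε + 1) * (Nat.card Ω - 1)) : False := by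
  have := finite_Isom B
  have := h.nt
  obtain ⟨x⟩ : Nonempty Ω := inferInstance
  have hR := NT.of ht (sp_nR hB)
  obtain ⟨l, -, hl⟩ := h.count_sub (sp_nR hB) hR x
  have h2 := sp_eps hB h he0 ht x
  have h3 := sp_obR hB hq (e := e) x
  have h4 := sp_index hB hq hm he0
  have h0 : 0 < q := hq ▸ Fintype.card_pos
  have h5 := num_core (v0 := 1) Nat.card_pos hl (hR.ob_dvd x) (.of_dvd (Dvd.intro _ h3) (Nat.modEq_iff_dvd.2
    ⟨q ^ (2 * m + 3) - (PS (isoAct B) e).index, by zify [h0] at h4; push_cast; linear_combination h4⟩))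
  have h6 := lt_of_mul_lt_mul_right (hl ▸ H _ (Nat.le_of_dvd h0 (Dvd.intro _ h3)) h2) (Nat.zero_le _)
  refine sp_one hB h hq hm he0 ht x (by
    obtain ⟨t, ht⟩ := h5
    generalize ob (zHom (sD hB e)).range x = ε at *
    obtain rfl : t = 1 := by
      rcases t with _ | _ | t
      · omega
      · rfl
      · rw [mul_add, mul_add] at ht; omega
    rw [← hl, show l = 1 by omega, one_mul])

include hB h hq he0 in
theorem sp_four_trans (h3 : q = 3) (hm : finrank F E = 2 * (0 + 2)) (ht : ∀ x y : Ω, ∃ g ∈ PS (isoAct B) e, g • x = y) :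
    False := by
  have := finite_Isom B
  have : Finite E := Module.finite_of_finite F
  have := h.nt
  obtain ⟨x⟩ : Nonempty Ω := inferInstance
  subst h3
  have hR := NT.of ht (sp_nR hB)
  have hQ := NT.of ht (sp_nQ hB he0)
  obtain ⟨l, -, hl⟩ := h.count_sub (sp_nR hB) hR x
  have h2 := sp_eps hB h he0 ht x
  have h3 := sp_obR hB hq (e := e) x
  have h4 := sp_index hB hq hm he0
  have h5 : ob (zHom (sD hB e)).range x = 3 := ((Nat.dvd_prime Nat.prime_three).1 (Dvd.intro _ h3)).resolve_left (by omega)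
  have hJ : (sD hB e).J x = ⊥ := AddSubgroup.eq_bot_of_card_eq _ (by rw [h5] at h3; omega)
  have : CharP F 3 := charP_of_card_eq_prime hq
  have hA : ∀ a ∈ (sD hB e).A x, ∀ b ∈ (sD hB e).A x, B a b = 0 := fun a ha b hb => by
    have := hJ ▸ (sD hB e).comm_mem_J ha hb
    simp only [sD, hB.skew a b, AddSubgroup.mem_bot] at this
    linear_combination this + (B a b) * (CharP.cast_eq_zero F 3)
  obtain ⟨a, ha⟩ := ob_pow (sp_pQ hB (e := e) (p := 3)) x
  obtain ⟨u, h6, h7⟩ := sp_exists_line hB (by omega) (e := e)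
  have h8 : 9 ∣ ob (sD hB e).Q x := by
    rw [ha]; refine pow_dvd_pow 3 (show 2 ≤ a from by_contra fun k => ?_)
    obtain ⟨b, h9, h10⟩ := sp_pair2 hB he0 h7 0 1
    have k1 : ob (sD hB e).Q x ≤ ob (zHom (sD hB e)).range x := by
      rw [ha, h5]; have : a ≤ 1 := by omega
      interval_cases a <;> simp
    simpa [h10] using hA _ (sp_full hB hq he0 k1 h9) _ (sp_full hB hq he0 k1 h6)
  have h9 := num_core (v0 := 4) Nat.card_pos hl (h8.trans (hQ.ob_dvd x)) (by rw [show (PS (isoAct B) e).index = 40 by omega]; rfl)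
  rw [h5, show (PS (isoAct B) e).index = 40 by omega] at hl
  have h10 : l ≤ 80 := Nat.le_of_dvd (by norm_num) (Dvd.intro _ hl)
  rw [h5] at h9
  by_cases h11 : l = 1
  · exact sp_one hB h hq hm he0 ht x (by rw [h5]; subst h11; omega)
  have h12 : Nat.card Ω = 9 := by
    obtain ⟨t, rfl⟩ : ∃ t, l = 9 * t + 1 := ⟨l / 9, by omega⟩
    have : t ≤ 8 := by omega
    generalize Nat.card Ω = n at hl ⊢
    interval_cases t <;> simp at hl h11 <;> omega
  have h13 : ob (sD hB e).Q x = Nat.card Ω := Nat.dvd_antisymm (hQ.ob_dvd x) (h12 ▸ h8)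
  have h14 := sp_obQ hB hq he0 x
  have h15 : Nat.card (sD hB e).V * 3 = 3 ^ 4 := by
    rw [← sp_cardE hq hm, ← card_sp_perp hB hq he0]
    exact congrArg (· * 3) (Nat.card_congr (Equiv.subtypeEquivRight fun _ => ⟨fun h => h.choose_spec, fun h => ⟨0, h⟩⟩))
  rw [h15, h13, h12, hJ, AddSubgroup.card_bot] at h14
  obtain ⟨a, h16, h17⟩ : ∃ a ∈ (sD hB e).A x, a ∉ F ∙ e := by
    by_contra! k
    have := Nat.card_le_card_of_injective (fun a : (sD hB e).A x => (⟨a.1, k _ a.2⟩ : F ∙ e))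
      fun _ _ e => Subtype.ext (congrArg (·.1) e)
    rw [card_span_one hq he0] at this
    omega
  obtain ⟨b, h18, h19⟩ := sp_pair2 hB he0 h17 0 1
  have h20 := ((mem_sA hB).1 h16).1
  obtain ⟨g, h21, h22⟩ := sp_move2 hB he0 he0 h17 (w' := b) (fun k => by
    obtain ⟨c, rfl⟩ := Submodule.mem_span_singleton.1 k
    simp [hB.skew a e, h20] at h19) (h18.trans h20.symm)
  have := sA_conj hB (a := 1) (by simpa using h21) one_ne_zero h16
  rw [HD.Eqv.A_eq (ω := x) (Set.eq_univ_iff_forall.1 ((Set.eq_univ_iff_ncard _).2 h13) _), one_smul, h22] at this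
  simpa [h19] using hA _ this _ h16

include hB h hq in
theorem sp_sixteen (h3 : q = 3) (hm : finrank F E = 2 * (0 + 2)) : Nat.card Ω ≠ 16 := fun hn => by
  classical
  have := finite_Isom B
  have : Finite E := Module.finite_of_finite F
  have : Nontrivial E := (Module.finrank_pos_iff (R := F)).1 (by omega)
  obtain ⟨e, he0⟩ := exists_ne (0 : E)
  subst h3
  have : CharP F 3 := charP_of_card_eq_prime hq
  obtain ⟨x, hx⟩ := (sp_pQ hB (e := e) (p := 3)).nonempty_fixed_point_of_prime_not_dvd_card Ω (by rw [hn]; norm_num)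
  have h1 : ∀ a μ, B a e = 0 → es hB a e μ • x = x := fun a μ k => hx ⟨_, a, μ, k, rfl⟩
  have h2 : TI hB x e := fun c => es_zero hB e c ▸ h1 0 c (by simp)
  have h3 : ∀ c : F, c = 0 ∨ c = 1 ∨ c = -1 := fun c => by
    have := FiniteField.pow_card c
    rw [hq] at this
    have : c * ((c - 1) * (c + 1)) = 0 := by linear_combination this
    simpa [sub_eq_zero, add_eq_zero_iff_eq_neg] using this
  have h4 : ∀ u, hB.transv u 1 • x = x → TI hB x u := fun u k c => by
    rcases h3 c with rfl | rfl | rfl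
    · simp [tr_zero]
    · exact k
    · rw [← tr_inv, inv_smul_eq_iff, k]
  have h5 : ∀ u, TI hB x u → ∀ s : F, B u e = 0 → u ∉ F ∙ e → TI hB x (u + s • e) := fun u k s k1 k2 => by
    obtain ⟨a, k3, k4⟩ := sp_pair2 hB he0 k2 0 (-s)
    simpa [es_apply hB k3, k1, hB.skew a u, k4] using k.map hB (h1 a 0 k3)
  have h6 : ∀ u w, TI hB x u → TI hB x w → TI hB x (u + w) := by
    by_cases k : ∀ u, TI hB x u → B u e = 0
    · intro u w hu hw
      by_cases k1 : B u w = 0
      swap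
      · simpa using hw.add_of_ne hB hu k1 1
      by_cases k2 : u ∈ F ∙ e
      · obtain ⟨s, rfl⟩ := Submodule.mem_span_singleton.1 k2
        by_cases k3 : w ∈ F ∙ e
        · obtain ⟨t, rfl⟩ := Submodule.mem_span_singleton.1 k3
          exact add_smul s t e ▸ h2.smul hB _
        · exact add_comm w _ ▸ h5 w hw s (k w hw) k3
      obtain ⟨s, t, rfl⟩ := mem_span_pair'.1 (sp_perp_line hB he0 hm (k u hu) k2 (k w hw) (by rw [hB.skew, k1, neg_zero]))
      rw [show u + (s • e + t • u) = (1 + t) • u + s • e by module]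
      rcases eq_or_ne (1 + t) 0 with k3 | k3
      · simpa [k3] using h2.smul hB s
      · exact h5 _ (hu.smul hB _) s (by simp [k u hu]) (mt (Submodule.smul_mem_iff _ k3).1 k2)
    push Not at k
    obtain ⟨w, k1, k2⟩ := k
    have k3 : ∀ z, B z e ≠ 0 → TI hB x z := fun z k3 => by
      have k4 : B ((B z e)⁻¹ • z - (B w e)⁻¹ • w) e = 0 := by simp [k2, k3]
      have := (k1.map hB (h1 _ (-B w ((B z e)⁻¹ • z - (B w e)⁻¹ • w) / B w e) k4)).smul hB (B z e / B w e)
      rw [es_apply hB k4] at this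
      convert this using 1
      match_scalars <;> field_simp <;> ring
    have k4 : ∀ z, TI hB x z := fun z => by
      by_cases k4 : z ∈ F ∙ e
      · obtain ⟨s, rfl⟩ := Submodule.mem_span_singleton.1 k4
        exact h2.smul hB s
      by_cases k5 : B z e = 0
      · obtain ⟨y, k6, k7⟩ := sp_pair2 hB he0 k4 1 1
        simpa using (k3 y (by simp [k6])).add_of_ne hB (k3 (z + y) (by simp [k5, k6]))
          (by simp [hB.alt, hB.skew y z, k7]) (-1)
      · exact k3 z k5
    exact fun _ _ _ _ => k4 _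
  let T : AddSubgroup E := ⟨⟨⟨{u | TI hB x u}, fun hu hw => h6 _ _ hu hw⟩, TI_zero hB x⟩,
    fun {u} hu => neg_one_smul F u ▸ hu.smul hB _⟩
  let _ : MulAction (Isom B) E :=
    { smul g x := isoAct B g x
      one_smul x := by change isoAct B 1 x = x; simp
      mul_smul g h x := act_mul_apply _ g h x }
  have h7 := h.count (A := E) (fun a => hB.transv a 1) (fun g a => eq_mul_inv_of_mul_eq (tr_conj hB g a 1).symm) x
  have h8 := card_add_card_not fun a : E => hB.transv a 1 • x = x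
  rw [show Nat.card {a : E // hB.transv a 1 • x = x} = Nat.card T from
    Nat.card_congr (Equiv.subtypeEquivRight fun a => ⟨h4 a, fun k => k 1⟩), sp_cardE hq hm] at h8
  obtain ⟨k, h9, h10⟩ := (Nat.dvd_prime_pow Nat.prime_three).1 (sp_cardE hq hm ▸ T.card_addSubgroup_dvd_card)
  obtain ⟨u, hu⟩ := exists_notTI hB (h.exists_ne_smul x)
  refine hu (AddSubgroup.eq_top_of_card_eq T ?_ ▸ AddSubgroup.mem_top u : u ∈ T)
  rw [hn] at h7
  rw [sp_cardE hq hm]
  rw [h10] at h8 ⊢
  simp only [ne_eq] at h7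
  interval_cases k <;> omega

include hB h hq hm in
theorem sp_main (h0 : m = 0 → 3 ≤ q) :
    q = 2 ∧ (Nat.card Ω = 2 ^ (m + 1) * (2 ^ (m + 2) + 1) ∨ Nat.card Ω = 2 ^ (m + 1) * (2 ^ (m + 2) - 1)) := by
  have := finite_Isom B
  have : Nontrivial E := (Module.finrank_pos_iff (R := F)).1 (by omega)
  obtain ⟨e, he0⟩ := exists_ne (0 : E)
  have h1 := sp_index hB hq hm he0
  have h2 := h.two_le
  have h3 : 1 < q := hq ▸ Fintype.one_lt_card
  by_cases h4 : q = 2
  · subst h4
    have h5 := h.index_le (sp2_index_ge hB hq hm (by omega))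
    obtain ⟨a, ha⟩ : ∃ a, 2 ^ (m + 1) = a + 4 := Nat.exists_eq_add_of_le' (by
      rw [show 4 = 2 ^ 2 by rfl]; exact Nat.pow_le_pow_right (by norm_num) (by omega))
    have hb : 2 ^ (m + 2) = 2 * a + 8 := by rw [pow_succ, ha]; ring
    rw [mul_comm 2, pow_mul, hb] at h1
    have := sp_polar hB h hq hm he0
    rw [show m + 2 - 1 = m + 1 by rfl] at h5
    rw [ha, hb] at h5 this ⊢
    refine ⟨rfl, (this.resolve_left fun k => sp_gen hB h hq hm he0 k fun ε k1 k2 => ?_).imp (fun k => ?_) fun k => ?_⟩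
    · obtain rfl : ε = 2 := by omega
      zify [(by omega : 1 ≤ Nat.card Ω), (by omega : 1 ≤ 2 * a + 8)] at *; nlinarith
    · zify [(by omega : 1 ≤ Nat.card Ω), (by omega : 1 ≤ 2 * a + 8)] at *; linarith
    · zify [(by omega : 1 ≤ Nat.card Ω), (by omega : 1 ≤ 2 * a + 8), (by omega : 1 ≤ a + 4)] at *; linarith
  exfalso
  by_cases h5 : q = 3 ∧ m = 0
  · obtain ⟨h5, rfl⟩ := h5
    rcases sp_polar hB h hq hm he0 with k | k | k
    · exact sp_four_trans hB h hq he0 h5 hm k
    · have := (Dvd.intro _ rfl).trans h.card_mul_dvd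
      rw [hB.card_Isom hm, hq, show Nat.card Ω = 25 by subst h5; norm_num [mul_assoc] at k; omega, h5] at this
      revert this; decide
    · exact sp_sixteen hB h hq h5 hm (by subst h5; norm_num [mul_assoc] at k; omega)
  have h6 := h.index_le (N := (PS (isoAct B) e).index) fun H hH => by
    have := sp_index_ge hB hq (by omega) (by omega) (by
      by_cases h3 : q = 3
      · refine Or.inr ⟨fun h2 => ?_, by omega⟩
        have := FiniteField.cast_card_eq_zero F
        rw [hq, h3] at this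
        exact one_ne_zero (α := F) (by push_cast at this; linear_combination this - h2)
      classical
      obtain ⟨s, -, hs⟩ := Finset.exists_mem_notMem_of_card_lt_card (s := ({0, 1, -1} : Finset F))
        (t := Finset.univ) (by
          rw [Finset.card_univ]; have := Finset.card_le_three (a := (0 : F)) (b := 1) (c := -1); omega)
      exact Or.inl ⟨s, by simpa [not_or] using hs⟩) H hH
    rw [sp_cardE hq hm, ← h1, Nat.add_sub_cancel] at this
    exact Nat.le_of_mul_le_mul_right this (by omega)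
  rcases h.trans_or (PS (isoAct B) e) with k | k | ⟨-, k⟩
  · refine sp_gen hB h hq hm he0 k fun ε k1 k2 => ?_
    have : q < (PS (isoAct B) e).index := by
      by_contra! k3
      have : q ^ 2 ≤ q ^ (2 * (m + 2)) := Nat.pow_le_pow_right (by omega) (by omega)
      have := Nat.mul_le_mul_right (q - 1) k3
      zify [h3.le] at *; nlinarith
    zify [(by omega : 1 ≤ Nat.card Ω), (by omega : 1 ≤ ε)] at *; nlinarith
  · omega
  · obtain ⟨u, h7, h8⟩ := sp_exists_line hB (by omega) (e := e)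
    obtain ⟨f, hf⟩ := hB.exists_pair he0
    obtain ⟨g, hg⟩ := sp_move hB he0 (x' := u) (by rintro rfl; exact h8 (zero_mem _))
    obtain ⟨g', hg'⟩ := sp_move hB he0 (x' := f) (by rintro rfl; simp at hf)
    exact not_TT_PS (isoAct_pres (B := B)) h8 h7 (by simp [hf]) (hB.alt e) hg hg' k

/-- The symplectic case. -/
theorem tt_sp {F : Type} [Field F] [Fintype F] {m : ℕ} (h2 : 2 ≤ m) (h3 : m = 2 → 3 ≤ Fintype.card F) {Ω : Type*}
    [Finite Ω] [MulAction (PSp m F) Ω] (h : TT (PSp m F) Ω) : TTConcl (PSp m F) (Nat.card Ω) := by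
  obtain ⟨m, rfl⟩ := Nat.exists_eq_add_of_le' h2
  let φ := (QuotientGroup.mk' (Subgroup.center _)).comp (spEquiv (m + 2) F).symm.toMonoidHom
  let _ := MulAction.compHom Ω φ
  obtain ⟨h4, h5⟩ := sp_main (isSp_std (m + 2)) (h.comp φ ((QuotientGroup.mk'_surjective _).comp
    (spEquiv (m + 2) F).symm.surjective)) rfl (finrank_std_sp _) (fun k => h3 (by omega))
  exact .inr <| .inr <| .inr <| .inr <| .inr <| .inr <| .inr <| .inr ⟨F, _, _, m + 2, by omega, h4, ⟨.refl _⟩, h5⟩

end Cfsg.Agent.H7
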