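import Cfsg.Agent.H7.TT7
import Cfsg.Agent.H5.U3H

/-! Two-transitive actions of unitary groups. -/

set_option autoImplicit false
set_option linter.unusedSectionVars false

namespace Cfsg.Agent.H7

open Finset MulAction Module Cfsg.Agent.H1 Cfsg.Agent.H5

variable {F : Type*} [Field F] [Fintype F] {σ : F →+* F} {E : Type*} [AddCommGroup E] [Module F E]
  [FiniteDimensional F E] {B : Sesq σ E} (hB : IsEps B 1) {q : ℕ} (hU : UF σ q) {Ω : Type*} [MulAction (SUb B) Ω]
  [Finite Ω] (h : TT (SUb B) Ω) {e : E} (he : B e e = 0) (he0 : e ≠ 0)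

include hB hU he he0 in
theorem su_t2 {w z : E} (hw : B w w = 0) (hz : B z z = 0) (h1 : w ∉ F ∙ e) (h2 : z ∉ F ∙ e)
    (k : B w e = 0 ↔ B z e = 0) : ∃ g ∈ PS (suAct B) e, z ∈ F ∙ suAct B g w := by
  by_cases k' : B z e = 0
  · obtain ⟨g, h3, h4⟩ := witt (hU.good hB) (hU.good hB) rfl (li_pair he0 h1) (li_pair he0 h2) (fun i j => by
      fin_cases i <;> fin_cases j <;> simp [hw, hz, k', k.2 k', hB.refl k', hB.refl (k.2 k')])
    obtain ⟨f, h5, h6, h7⟩ := exists_partner hB hU he0 he (S := F ∙ z) (fun k1 => by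
      obtain ⟨c, hc⟩ := Submodule.mem_span_singleton.1 k1
      exact h2 (Submodule.mem_span_singleton.2 ⟨c⁻¹, by
        rw [← hc, inv_smul_smul₀ (by rintro rfl; exact he0 (by simpa using hc.symm))]⟩))
      fun s hs => by obtain ⟨c, rfl⟩ := Submodule.mem_span_singleton.1 hs; simp [hB.refl k']
    have h8 := det_isoAct_norm hB hU ⟨g, h3⟩
    obtain ⟨a, ha, h9⟩ := hU.hilbert90 (b := σ (LinearMap.det (isoAct B ⟨g, h3⟩))) (by rw [hB.invol, mul_comm, h8])
    obtain ⟨t, h10, h11⟩ := exists_hy hB he h5 h6 ha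
    have h12 : σ a ≠ 0 := by simpa using ha
    refine ⟨⟨t * ⟨g, h3⟩, ?_⟩, mem_PS _ he0 (Submodule.mem_span_singleton.2 ⟨a, ?_⟩), ?_⟩
    · change LinearMap.det (isoAct B (t * ⟨g, h3⟩)) = 1
      rw [map_mul, map_mul, h10, ← h8, div_mul_eq_mul_div, div_eq_iff h12]
      linear_combination LinearMap.det (isoAct B ⟨g, h3⟩) * h9
    · change _ = isoAct B (t * ⟨g, h3⟩) e
      rw [act_mul_apply, show isoAct B ⟨g, h3⟩ e = e from h4 0, h11, he, hB.herm, h6]
      simp [sub_smul]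
    · change _ ∈ F ∙ isoAct B (t * ⟨g, h3⟩) w
      rw [act_mul_apply, show isoAct B ⟨g, h3⟩ w = z from h4 1, h11, k',
        hB.refl (h7 z (Submodule.mem_span_singleton_self z))]
      simp
  have k2 : B w e / B z e ≠ 0 := div_ne_zero (mt k.1 k') k'
  obtain ⟨μ, h3, h4⟩ := ei_move hB he (f := w) (f' := (B w e / B z e) • z) (by simp [hw, hz]) (by simp [k']) (mt k.1 k')
  exact ⟨_, ⟨1, by simpa using ei_fix hB h3⟩, h4 ▸ Submodule.mem_span_singleton.2 ⟨_, inv_smul_smul₀ k2 z⟩⟩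

include hB hU h he he0 in
theorem su_polar {k A B' : ℕ} (hk : finrank F E = k + 4) (hA : 1 < A) (hB' : 0 < B') (h0 : q ^ 2 - 1 ∣ A - 1)
    (h1 : uq q (k + 2) * uq q (k + 1) = (A - 1) * (B' + 1))
    (h2 : uq q (k + 4) * uq q (k + 3) = (q ^ 2 * A - 1) * (q ^ 2 * B' + 1)) :
    (∀ x y : Ω, ∃ g ∈ PS (suAct B) e, g • x = y) ∨
      (Nat.card Ω - 1) * (q ^ 2 - 1) * (A + B') = q ^ 2 * B' * (B' + 1) * (q ^ 2 * A - 1) ∨
      (Nat.card Ω - 1) * (q ^ 2 - 1) * (A + B') = q ^ 2 * A * (A - 1) * (q ^ 2 * B' + 1) := by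
  have := finite_SUb B
  obtain ⟨f, hf, hfe, -⟩ := exists_partner hB hU he0 he (S := ⊥) (by simpa using he0) (by simp)
  obtain ⟨d1, d2⟩ := disjoint_sup_hyp hB (W := ⊥) (e := e) (f := f) (by simp)
    (fun _ h => by simp [(Submodule.mem_bot F).mp h])
    (fun _ h => by simp [(Submodule.mem_bot F).mp h]) he hf (by simp [hfe])
  rw [bot_sup_eq] at d1 d2
  have d3 := hB.finrank_perp ((F ∙ e) ⊔ F ∙ f)
  rw [finrank_bot] at d2
  obtain ⟨μ, hμ⟩ := h0.mul_right (B' + 1)
  have h3 : 1 ≤ q ^ 2 := Nat.one_le_pow _ _ hU.pos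
  rw [← hU.card] at *
  refine h.polar' (suAct_pres (B := B)) (fun x y => hB.refl) he hf (by rw [hB.herm, hfe]; simp)
    (fun w k1 => su_move_iso hB hU (by omega) he he0 k1) (fun w z => su_t2 hB hU he he0) hA hB' (μ := μ)
    (by rw [hμ, mul_comm]) ?_ ?_
  · rw [hU.card_iso_vec hB hk, h2]
    zify [h3, hA.le, show 1 ≤ Fintype.card F * A from Nat.mul_pos h3 (by omega)] at hμ ⊢
    linear_combination (Fintype.card F : ℤ) * hμ
  · rw [← hμ, ← h1, ← hU.card_iso_vec (hB.restrict_perp d1) (n := k + 1) (by omega)]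
    exact Nat.card_congr ⟨fun w => ⟨⟨w.1, mem_perp_two.2 w.2.2⟩, w.2.1⟩, fun w => ⟨w.1.1, w.2, mem_perp_two.1 w.1.2⟩,
      fun _ => rfl, fun _ => rfl⟩

include hB hU h he he0 in
theorem su_trans {k : ℕ} (hk : finrank F E = k + 3) (h3 : k = 0 → 3 ≤ q)
    (ht : ∀ x y : Ω, ∃ g ∈ PS (suAct B) e, g • x = y) : ∃ ε l, 2 ≤ ε ∧ ε ∣ q ∧ q ^ (k + 1) * ε ∣ Nat.card Ω ∧
      l * (Nat.card Ω - 1) = (PS (suAct B) e).index * (ε - 1) := by
  have := finite_SUb B
  have : Finite E := Module.finite_of_finite F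
  have nQ : ∀ g ∈ PS (suAct B) e, ∀ u ∈ (uD hB he).Q, g * u * g⁻¹ ∈ (uD hB he).Q := by
    rintro g ⟨c, hc⟩ _ ⟨a, μ, h1, rfl⟩
    exact ⟨_, _, (ei_conj_e hB hc c.ne_zero h1).1, eq_mul_inv_of_mul_eq (ei_conj_e hB hc c.ne_zero h1).2.symm⟩
  have nR : ∀ g ∈ PS (suAct B) e, ∀ u ∈ (zHom (uD hB he)).range, g * u * g⁻¹ ∈ (zHom (uD hB he)).range := by
    rintro g ⟨c, hc⟩ u hu
    obtain ⟨μ, h1, rfl⟩ := (mem_zHom _).1 hu
    have := ei_conj_e hB hc c.ne_zero h1
    rw [map_zero, smul_zero] at this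
    exact (mem_zHom _).2 ⟨_, this.1, eq_mul_inv_of_mul_eq this.2.symm⟩
  have hR := NT.of ht nR
  have hQ := NT.of ht nQ
  obtain ⟨x, hx⟩ : ∃ x : Ω, ¬ XX hB x e := by
    by_contra! k1
    have := h.nt
    obtain ⟨x⟩ : Nonempty Ω := inferInstance
    obtain ⟨g, hg⟩ := h.exists_ne_smul x
    have := su_eq_top_of_normal hB hU (by
      rcases k.eq_zero_or_pos with rfl | k2
      · by_contra! k2
        classical
        have := Nat.card_le_card_of_injective (fun a : {x : F // σ x = x} => decide (a.1 = 0)) fun a b e => by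
          by_cases k3 : a.1 = 0
          · exact Subtype.ext (by simpa [k3, eq_comm] using e)
          · exact Subtype.ext ((k2.2 _ a.2 k3).trans (k2.2 _ b.2 (by simpa [k3] using e)).symm)
        rw [hU.card_fixed] at this
        simp at this; omega
      · left; omega) (toPermHom (SUb B) Ω).ker fun e' c h4 h5 => by
        rcases eq_or_ne e' 0 with rfl | h6
        · rw [show ut hB 0 c = 1 from su_ext fun z => by simp [ut_apply hB h4 h5]]; exact one_mem _
        obtain ⟨g, rfl⟩ := su_move_iso hB hU (by omega) he he0 h4 h6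
        exact Equiv.ext fun y => by simpa using (XX_conj hB he g).2 (k1 (g⁻¹ • y)) c h5
    exact hg (congrArg (· x) (this ▸ Subgroup.mem_top g : g ∈ (toPermHom (SUb B) Ω).ker))
  obtain ⟨l, -, hl⟩ := h.count_sub nR hR x
  have h4 := ob_zHom (uD hB he) x
  rw [card_uZ hB hU] at h4
  obtain ⟨p, hp⟩ := CharP.exists F
  obtain ⟨hpp, f, -, hf⟩ := exists_char_pow hU.card p
  have := Fact.mk hpp
  obtain ⟨a, ha⟩ := ob_pow (pgroup_Q (uD hB he) (p := p) (fun a => by
    rw [← Nat.cast_smul_eq_nsmul F, CharP.cast_eq_zero, zero_smul]) fun a => by simp) x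
  obtain ⟨b, -, hb⟩ := (Nat.dvd_prime_pow hpp).1 (hf ▸ Dvd.intro _ h4)
  refine ⟨_, l, by_contra fun k1 => hx ((XX_iff hB he).2 (AddSubgroup.eq_of_le_of_card_ge ((uD hB he).J_le x) ?_)),
    Dvd.intro _ h4, .trans ?_ (hQ.ob_dvd x), hl⟩
  · have := ob_pos (zHom (uD hB he)).range x
    rw [show ob (zHom (uD hB he)).range x = 1 by omega, one_mul] at h4
    rw [card_uZ hB hU, h4]
  have h5 := (uD hB he).card_le_orbit x
  have h6 := card_uV hB hU he he0
  have h7 : Nat.card ((uD hB he).A x) ≤ q ^ (k + 3) :=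
    Nat.mul_self_le_mul_self_iff.1 (by rw [← pow_add, ← two_mul, ← hk]; exact card_uA_sq hB hU he he0 hx)
  rw [hk, show 2 * (k + 3) = (k + 3) + (k + 1) + 2 by ring, pow_add _ (k + 3 + (k + 1)) 2] at h6
  have h6' := Nat.eq_of_mul_eq_mul_right (pow_pos hU.pos 2) h6
  rw [card_uZ hB hU, h6'] at h5
  have h8 : q ^ (k + 1) * ob (zHom (uD hB he)).range x ≤ ob (uD hB he).Q x := by
    refine Nat.le_of_mul_le_mul_left (c := q ^ (k + 3) * Nat.card ((uD hB he).J x)) ?_
      (Nat.mul_pos (pow_pos hU.pos _) Nat.card_pos)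
    calc _ = q ^ (k + 3 + (k + 1)) * (ob (zHom (uD hB he)).range x * Nat.card ((uD hB he).J x)) := by ring
      _ = q ^ (k + 3 + (k + 1)) * q := by rw [h4]
      _ ≤ _ := h5.trans (by unfold ob; gcongr)
  rw [ha, hb, hf, ← pow_mul, ← pow_add] at h8 ⊢
  exact pow_dvd_of_le hpp.one_lt h8

include hB hU h he he0 in
theorem su_trans_false {k : ℕ} (hk : finrank F E = k + 4) (ht : ∀ x y : Ω, ∃ g ∈ PS (suAct B) e, g • x = y)
    (H : (PS (suAct B) e).index ≤ q * (Nat.card Ω - 1)) : False := by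
  obtain ⟨ε, l, h1, h2, h3, h4⟩ := su_trans hB hU h he he0 (k := k + 1) hk (by omega) ht
  have h5 := index_PS_iso hB hU hk (by omega) he0 he
  have h0 := hU.two_le
  have h6 := num_core (v0 := 1) (zero_lt_two.trans_le h.two_le) h4 ((Dvd.intro (q ^ k * ε) (by ring) : q ^ 2 ∣ _).trans h3)
    (Nat.modEq_iff_dvd.2 (by
      zify [Nat.one_le_pow 2 q hU.pos, uq_cast hU.pos] at h5
      have : ((-1 : ℤ) ^ k) * (-1) ^ k = 1 := by rw [← mul_pow]; simp
      exact ⟨q ^ (2 * k + 5) + (-1) ^ k * q ^ (k + 2) - (-1) ^ k * q ^ (k + 1) - (PS (suAct B) e).index, by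
        push_cast; linear_combination h5 - this⟩))
  have h7 : l ≤ q * (ε - 1) := Nat.le_of_mul_le_mul_right (c := Nat.card Ω - 1) (by
    rw [h4, mul_right_comm]; gcongr) (by have := h.two_le; omega)
  have h8 := Nat.le_of_dvd (by omega) h6
  have h9 := Nat.le_of_dvd (by omega) h2
  zify [(by omega : 1 ≤ ε)] at *
  nlinarith

include hB hU h in
theorem su_big {k : ℕ} (hk : finrank F E = k + 5) : False := by
  have := finite_SUb B
  obtain ⟨e, -, he0, he⟩ := exists_iso_vec hB hU ⊤ (by rw [finrank_top]; omega)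
  have h0 := hU.two_le
  have h1 := h.two_le
  have h2 := index_PS_iso hB hU hk (by omega) he0 he
  have h3 : 0 < q ^ 2 - 1 := Nat.sub_pos_of_lt (Nat.one_lt_pow (by omega) h0)
  have hM : min (uq q (k + 5) * uq q (k + 4)) ((q - 1) * (q ^ (k + 4) * uq q (k + 5))) ≤ Nat.card Ω * (q ^ 2 - 1) := by
    have := h.pre
    have := h.nt
    obtain ⟨x⟩ : Nonempty Ω := inferInstance
    obtain ⟨g, hg⟩ := h.exists_ne_smul x
    rw [← index_stabilizer_of_transitive (SUb B) x]
    have hx : stabilizer (SUb B) x ≠ ⊤ := fun e => hg (e ▸ Subgroup.mem_top g : g ∈ stabilizer _ x)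
    obtain ⟨j, rfl | rfl⟩ := Nat.even_or_odd' k
    · convert su_index_of_base hU 3 le_rfl (fun E _ _ _ B hB h => claimC_three hB hU h) j _ _ hB (by omega) _ hx
        using 4 <;> ring
    · convert su_index_of_base hU 4 (by omega) (fun E _ _ _ B hB h => claimC_four hB hU h) j _ _ hB (by omega) _ hx
        using 4 <;> ring
  by_cases h4 : uq q (k + 4) ≤ (q - 1) * q ^ (k + 4)
  · rw [min_eq_left (by rw [← mul_assoc, mul_comm]; gcongr), ← h2] at hM
    have h5 := Nat.le_of_mul_le_mul_right hM h3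
    rcases h.trans_or (PS (suAct B) e) with k1 | k1 | ⟨-, k1⟩
    · exact su_trans_false hB hU h he he0 (k := k + 1) hk k1 (h5.trans (by zify [(by omega : 1 ≤ Nat.card Ω)] at *; nlinarith))
    · omega
    · obtain ⟨u, h6, h7, h8⟩ := exists_iso_line hB hU (by omega) he he0
      obtain ⟨f, hf, hfe, -⟩ := exists_partner hB hU he0 he (S := ⊥) (by simpa using he0) (by simp)
      obtain ⟨g, hg⟩ := su_move_iso hB hU (by omega) he he0 h6 (by rintro rfl; exact h8 (zero_mem _))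
      obtain ⟨g', hg'⟩ := su_move_iso hB hU (by omega) he he0 hf (by rintro rfl; simp at hfe)
      exact not_TT_PS (suAct_pres (B := B)) h8 h7 (by simp [hfe]) he hg hg' k1
  have h5 : ¬ Even (k + 4) := fun k1 => h4 (by
    rw [uq, if_pos k1]; exact (Nat.sub_le _ _).trans (Nat.le_mul_of_pos_left _ (by omega)))
  obtain rfl : q = 2 := by
    by_contra k1
    refine h4 (le_trans ?_ (Nat.mul_le_mul_right _ (show 2 ≤ q - 1 by omega)))
    have := Nat.one_le_pow (k + 4) q (by omega)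
    rw [uq, if_neg h5]; omega
  have e1 : Even (k + 1 + 2) := by simpa [Nat.even_add, Nat.even_add_one, parity_simps] using h5
  have e2 : ¬ Even (k + 1 + 1) := by simpa [Nat.even_add, parity_simps] using h5
  have e3 : Even (k + 5) := by simpa [Nat.even_add, parity_simps] using h5
  obtain ⟨b, hb⟩ : ∃ b, 2 ^ (k + 2) = b + 4 := Nat.exists_eq_add_of_le' (by
    rw [show 4 = 2 ^ 2 by rfl]; exact Nat.pow_le_pow_right (by norm_num) (by omega))
  have p3 : 2 ^ (k + 3) = 2 * (b + 4) := by rw [← hb]; ring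
  have p4 : 2 ^ (k + 4) = 4 * (b + 4) := by rw [← hb]; ring
  have p5 : 2 ^ (k + 5) = 8 * (b + 4) := by rw [← hb]; ring
  have := su_polar hB hU h he he0 (k := k + 1) (A := 2 * (b + 4)) (B' := b + 4) hk (by omega) (by omega) (by
      obtain ⟨j, hj⟩ := e1
      rw [← p3, show k + 3 = 2 * j by omega, pow_mul]; exact Nat.sub_one_dvd_pow_sub_one _ _)
    (by rw [uq, uq, if_pos e1, if_neg e2, p3, hb]) (by rw [uq, uq, if_pos e3, if_neg h5, p4, p5]; congr 2; ring)
  rw [min_eq_right (by rw [← mul_assoc, mul_comm]; gcongr; omega), uq, if_pos e3, p4, p5] at hM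
  rw [uq, uq, if_pos e3, if_neg h5, p4, p5] at h2
  rw [show 2 ^ 2 - 1 = 3 from rfl] at this hM h2
  rw [show 8 * (b + 4) - 1 = 8 * b + 31 by omega] at hM h2
  rw [show 2 ^ 2 * (2 * (b + 4)) - 1 = 8 * b + 31 by omega, show 2 * (b + 4) - 1 = 2 * b + 7 by omega] at this
  obtain ⟨n, hn⟩ : ∃ n, Nat.card Ω = n + 1 := ⟨Nat.card Ω - 1, by omega⟩
  rcases this with k1 | k1 | k1
  · refine su_trans_false hB hU h he he0 (k := k + 1) hk k1 ?_
    rw [hn] at hM ⊢; simp only [Nat.add_sub_cancel]; nlinarith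
  · rw [hn] at hM k1; simp only [Nat.add_sub_cancel] at k1
    have : 9 * n = 4 * (b + 5) * (8 * b + 31) := Nat.eq_of_mul_eq_mul_left (by omega : 0 < b + 4)
      (by linear_combination k1)
    nlinarith
  · rw [hn] at hM k1; simp only [Nat.add_sub_cancel] at k1
    have : 9 * n = 8 * (2 * b + 7) * (4 * (b + 4) + 1) :=
      Nat.eq_of_mul_eq_mul_left (by omega : 0 < b + 4) (by linear_combination k1)
    nlinarith

include hB hU h in
theorem su_four (hk : finrank F E = 0 + 4) (hc : Nat.card (SUb B) = ∏ i ∈ range 3, (q ^ (i + 1) * uq q (i + 2))) :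
    False := by
  have := finite_SUb B
  obtain ⟨e, -, he0, he⟩ := exists_iso_vec hB hU ⊤ (by rw [finrank_top]; omega)
  have h0 := hU.two_le
  have h1 := h.two_le
  have h2 := index_PS_iso hB hU hk (by omega) he0 he
  have h3 : 1 < q ^ 2 := Nat.one_lt_pow (by omega) h0
  have h4 : 1 ≤ q ^ 4 := Nat.one_le_pow _ _ (by omega)
  have hM := h.index_le (su4_index_ge hB hU hk)
  have := su_polar hB hU h he he0 (A := q ^ 2) (B' := q) hk h3 (by omega) dvd_rfl (by simp [uq])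
    (by simp [uq, ← pow_add, ← pow_succ, Nat.even_iff])
  have h5 : (0 : ℤ) < (q ^ 2 - 1) * (q ^ 2 + q) := by zify at h3; exact mul_pos (by omega) (by positivity)
  simp only [uq, Nat.even_iff, zero_add, prod_range_succ, range_zero, prod_empty] at h2 hc
  norm_num at h2 hc
  rcases this with k1 | k1 | k1
  · refine su_trans_false hB hU h he he0 hk k1 ?_
    zify [(by omega : 1 ≤ Nat.card Ω), h3.le, h4] at *
    have : ((PS (suAct B) e).index : ℤ) = (q ^ 2 + 1) * (q ^ 3 + 1) :=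
      mul_right_cancel₀ (b := (q : ℤ) ^ 2 - 1) (by omega) (by linear_combination h2)
    nlinarith [mul_le_mul_of_nonneg_left hM (by omega : (0 : ℤ) ≤ q), pow_pos (by omega : (0 : ℤ) < q) 3]
  · zify [(by omega : 1 ≤ Nat.card Ω), h3.le, (by nlinarith : 1 ≤ q ^ 2 * q ^ 2)] at *
    have : (Nat.card Ω : ℤ) - 1 = q ^ 2 * (q ^ 2 + 1) := mul_right_cancel₀ h5.ne' (by linear_combination k1)
    nlinarith [pow_pos (by omega : (0 : ℤ) < q) 2]
  · have h6 := (Dvd.intro _ rfl).trans h.card_mul_dvd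
    rw [hc] at h6
    zify [(by omega : 1 ≤ Nat.card Ω), h3.le, h4] at *
    have : (Nat.card Ω : ℤ) = (q ^ 2 + 1) * (q ^ 3 - q ^ 2 + 1) := mul_right_cancel₀ h5.ne' (by linear_combination k1)
    have h7 : (q : ℤ) ^ 3 - q ^ 2 + 1 ∣ (q : ℤ) ^ 6 * ((q : ℤ) - 1) ^ 2 * ((q : ℤ) + 1) ^ 3 * ((q : ℤ) ^ 2 - q + 1) :=
      (mul_dvd_mul_iff_left (a := (q : ℤ) ^ 2 + 1) (by positivity)).1 (by
        rw [← mul_assoc, ← this]; exact h6.trans (Dvd.intro 1 (by ring)))
    have := Int.isUnit_iff.1 (IsCoprime.isUnit_of_dvd (.mul_right (.mul_right (.mul_right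
      (.pow_right ⟨1, -(q * (q - 1)), by ring⟩) (.pow_right ⟨1, -q ^ 2, by ring⟩))
      (.pow_right ⟨-1, q ^ 2 - 2 * q + 2, by ring⟩)) ⟨q, 1 - q ^ 2, by ring⟩) h7)
    rcases this with k | k <;> nlinarith [pow_pos (by omega : (0 : ℤ) < q) 2]

include hB hU h in
theorem su_three (hk : finrank F E = 0 + 3) (h3 : 3 ≤ q) (hM : q ^ 3 + 1 ≤ (q - 1) * (Nat.card Ω - 1)) :
    Nat.card Ω = q ^ 3 + 1 := by
  have := finite_SUb B
  obtain ⟨e, -, he0, he⟩ := exists_iso_vec hB hU ⊤ (by rw [finrank_top]; omega)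
  have h1 := h.two_le
  have h2 := index_PS_iso hB hU hk (by omega) he0 he
  have h4 : (PS (suAct B) e).index = q ^ 3 + 1 := Nat.eq_of_mul_eq_mul_right
    (Nat.sub_pos_of_lt (Nat.one_lt_pow two_ne_zero (by omega : 1 < q))) (by simpa [uq, Nat.even_iff] using h2)
  have h5 : ∀ w, B w w = 0 → w ∉ F ∙ e → B w e ≠ 0 := fun w k1 k2 k3 => by
    have := hB.finrank_perp ((F ∙ e) ⊔ F ∙ w)
    have k4 := Submodule.finrank_mono (show (F ∙ e) ⊔ (F ∙ w) ≤ perp B ((F ∙ e) ⊔ F ∙ w) from fun z hz => by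
      obtain ⟨s, t, rfl⟩ := mem_span_pair'.1 hz
      simp [mem_perp_two, he, k1, k3, hB.refl k3])
    have k5 := finrank_span_eq_card (li_pair he0 k2)
    rw [Matrix.range_cons_cons_empty, Submodule.span_insert] at k5
    simp at k5; omega
  have h6 : ∀ a b : SUb B, (a : SUb B ⧸ PS (suAct B) e) ≠ b → suAct B (a⁻¹ * b) e ∉ F ∙ e := fun a b k k' =>
    k (QuotientGroup.eq.2 (mem_PS _ he0 k'))
  refine h4 ▸ (h.trans_or' (P := PS (suAct B) e) ⟨Finite.one_lt_card_iff_nontrivial.1 (by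
    rw [← Subgroup.index, h4]; have := pow_pos hU.pos 3; omega), fun a b c d k1 k2 => ?_⟩).resolve_left fun k => ?_
  · induction a using Quotient.inductionOn' with | h a =>
    induction b using Quotient.inductionOn' with | h b =>
    induction c using Quotient.inductionOn' with | h c =>
    induction d using Quotient.inductionOn' with | h d =>
    obtain ⟨g, k3, k4⟩ := su_t2 hB hU he he0 (by rw [suAct_pres, he]) (by rw [suAct_pres, he]) (h6 _ _ k1) (h6 _ _ k2)
      (iff_of_false (h5 _ (by rw [suAct_pres, he]) (h6 _ _ k1)) (h5 _ (by rw [suAct_pres, he]) (h6 _ _ k2)))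
    refine ⟨c * g * a⁻¹, QuotientGroup.eq.2 (by simpa using k3), QuotientGroup.eq.2 (mem_PS _ he0 ?_)⟩
    obtain ⟨s, hs⟩ := Submodule.mem_span_singleton.1 k4
    refine Submodule.mem_span_singleton.2 ⟨s, ?_⟩
    change _ = suAct B ((c * g * a⁻¹ * b)⁻¹ * d) e
    rw [show (c * g * a⁻¹ * b)⁻¹ * d = (a⁻¹ * b)⁻¹ * g⁻¹ * (c⁻¹ * d) by simp [mul_assoc], act_mul_apply, ← hs,
      act_mul_apply, map_smul, map_smul, act_inv_apply, act_inv_apply]
  obtain ⟨ε, l, k1, k2, k3, k4⟩ := su_trans hB hU h he he0 hk (by omega) k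
  rw [h4] at k4
  have k5 := num_core (v0 := 1) (zero_lt_two.trans_le h.two_le) k4 k3 (by
    rw [add_comm]; exact (Nat.modEq_iff_dvd' (by omega)).2 (by
      simpa [pow_succ, mul_assoc] using Nat.mul_dvd_mul_left q (k2.mul_left q)) |>.symm)
  have k6 : l ≤ (q - 1) * (ε - 1) := Nat.le_of_mul_le_mul_right (c := Nat.card Ω - 1) (by
    rw [k4, mul_right_comm]; gcongr) (by omega)
  have k7 := Nat.le_of_dvd (by omega) k5
  rw [zero_add, pow_one] at k7
  zify [(by omega : 1 ≤ ε), (by omega : 1 ≤ q)] at k6 k7 h3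
  nlinarith

/-- The unitary case. -/
theorem tt_su {F : Type} [Field F] [Fintype F] {n q : ℕ} (hF : Fintype.card F = q ^ 2) (h3 : 3 ≤ n)
    (h2 : ¬ (n = 3 ∧ q = 2)) {Ω : Type*} [Finite Ω] [MulAction (PSU n F q) Ω] (h : TT (PSU n F q) Ω) :
    TTConcl (PSU n F q) (Nat.card Ω) := by
  have hU := uf_frob hF
  obtain ⟨e⟩ := exists_su_equiv hU n
  have hB := hU.isEps_std (Fin n)
  let φ := (QuotientGroup.mk' (Subgroup.center _)).comp e.toMonoidHom
  let _ := MulAction.compHom Ω φ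
  have h' := h.comp φ ((QuotientGroup.mk'_surjective _).comp e.surjective)
  have h0 := hU.two_le
  obtain rfl | rfl | h5 : n = 3 ∨ n = 4 ∨ 5 ≤ n := by omega
  · refine .inr <| .inr <| .inl ⟨F, _, _, q, by omega, hF, ⟨.refl _⟩, su_three hB hU h' (by simp) (by omega) ?_⟩
    have := finite_SUb (stdU (Fin 3) (frob hF))
    have := h'.pre
    have := h.nt
    obtain ⟨x⟩ : Nonempty Ω := inferInstance
    obtain ⟨g, hg⟩ := h'.exists_ne_smul x
    have h4 := index_stabilizer_of_transitive (SUb (stdU (Fin 3) (frob hF))) x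
    rcases hU.su3_index (by omega) (H := stabilizer _ x) (fun z ⟨c, hc⟩ => by
      change φ z • x = x
      rw [show φ z = 1 from (QuotientGroup.eq_one_iff _).2 ((MulEquivClass.apply_mem_center_iff e).2
        (Subgroup.mem_center_iff.2 fun k => su_ext fun v => by simp [hc])), one_smul])
      (fun e => hg (e ▸ Subgroup.mem_top g : g ∈ stabilizer _ x)) with k | ⟨rfl, k⟩
    · have : 3 ^ 3 ≤ q ^ 3 := Nat.pow_le_pow_left (by omega) 3
      exact le_trans (by omega) (Nat.mul_le_mul_right _ (show 2 ≤ q - 1 by omega))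
    · have h5 := (stabilizer (SUb (stdU (Fin 3) (frob hF))) x).index_mul_card
      rw [hU.card_SUb3, h4] at h5
      have := Nat.mul_le_mul_left (Nat.card Ω) (Nat.le_of_dvd (by norm_num) k)
      omega
  · exact (su_four hB hU h' (by simp) ((Nat.card_congr e.toEquiv).trans (hU.card_SU 3))).elim
  · exact (su_big hB hU h' (k := n - 5) (by simp; omega)).elim

end Cfsg.Agent.H7
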