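import Cfsg.Agent.H4.SS
import Cfsg.Agent.H4.RegU
import Cfsg.Agent.H4.LU2

/-! Squares of conjugacy classes: general reductions and the linear groups. -/

set_option autoImplicit false
set_option linter.unusedSectionVars false

namespace Cfsg.Agent.H7

open Matrix Polynomial Module Cfsg.Agent.H4

section group

variable {G H : Type*} [Group G] [Group H] {c g : G}

/-- `g` is a quotient of two conjugates of `c`. -/
def CI (c g : G) : Prop := ∃ x y, g = x * c * x⁻¹ * (y * c * y⁻¹)⁻¹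

/-- `G` is the square of a conjugacy class. -/
def Thm (G : Type*) [Group G] : Prop := ∃ c : G, ∀ g : G, ∃ x y : G, g = (x * c * x⁻¹) * (y * c * y⁻¹)

theorem CI.of_conj {y : G} (h : CI c (y * g * y⁻¹)) : CI c g := by
  obtain ⟨a, b, h⟩ := h
  exact ⟨y⁻¹ * a, y⁻¹ * b, by rw [show g = y⁻¹ * (y * g * y⁻¹) * y by group, h]; group⟩

theorem Thm.of_surj (h : Thm G) (f : G →* H) (hf : Function.Surjective f) : Thm H := by
  obtain ⟨c, h⟩ := h
  refine ⟨f c, fun g => ?_⟩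
  obtain ⟨g, rfl⟩ := hf g
  obtain ⟨x, y, rfl⟩ := h g
  exact ⟨f x, f y, by simp⟩

theorem thm_of_ci (hr : IsConj c c⁻¹) (h : ∀ g, g ≠ 1 → CI c g) : Thm G := by
  obtain ⟨j, hj⟩ := isConj_iff.1 hr
  refine ⟨c, fun g => ?_⟩
  obtain ⟨x, y, rfl⟩ : CI c g := by
    by_cases e : g = 1
    · exact ⟨1, 1, by simp [e]⟩
    · exact h g e
  exact ⟨x, y * j, by rw [conj_inv, ← hj]; group⟩

theorem thm_quot (hr : IsConj c c⁻¹) (h : ∀ g, g ∉ Subgroup.center G → CI c g) : Thm (G ⧸ Subgroup.center G) := by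
  refine thm_of_ci (c := QuotientGroup.mk' _ c) (by simpa using (QuotientGroup.mk' (Subgroup.center G)).map_isConj hr)
    fun g hg => ?_
  obtain ⟨g, rfl⟩ := QuotientGroup.mk'_surjective _ g
  obtain ⟨x, y, rfl⟩ := h g fun e => hg ((QuotientGroup.eq_one_iff _).2 e)
  exact ⟨QuotientGroup.mk' _ x, QuotientGroup.mk' _ y, by simp⟩

theorem thm_sub {N : Subgroup G} (hc : c ∈ N) (hN : ∀ x, ∃ k, Commute k c ∧ x * k ∈ N) (hr : IsConj c c⁻¹)
    (h : ∀ g ∈ N, g ∉ Subgroup.center G → CI c g) : Thm (N ⧸ Subgroup.center N) := by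
  have h1 : ∀ x, ∃ y : N, x * c * x⁻¹ = y * c * y⁻¹ := fun x =>
    let ⟨k, h1, h2⟩ := hN x
    ⟨⟨_, h2⟩, by simp [mul_assoc, h1.eq]⟩
  refine thm_quot (c := ⟨c, hc⟩) ?_ fun g hg => ?_
  · obtain ⟨j, hj⟩ := isConj_iff.1 hr
    obtain ⟨y, hy⟩ := h1 j
    exact isConj_iff.2 ⟨y, Subtype.ext (hy.symm.trans hj)⟩
  obtain ⟨x, y, e⟩ := h g g.2 fun e => hg (Subgroup.mem_center_iff.2 fun z =>
    Subtype.ext (Subgroup.mem_center_iff.1 e z))
  obtain ⟨x', hx⟩ := h1 x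
  obtain ⟨y', hy⟩ := h1 y
  exact ⟨x', y', Subtype.ext (by rw [e, hx, hy]; rfl)⟩

theorem exists_conj_of_fpf {U : Subgroup G} [Finite U] (hn : ∀ u ∈ U, c * u * c⁻¹ ∈ U)
    (hf : ∀ u ∈ U, Commute u c → u = 1) {u : G} (hu : u ∈ U) : ∃ k, k * c * k⁻¹ = u * c := by
  obtain ⟨k, hk⟩ := Finite.surjective_of_injective (f := fun k : U => (⟨k * (c * (k : G)⁻¹ * c⁻¹),
    mul_mem k.2 (hn _ (inv_mem k.2))⟩ : U)) (fun a b e => by
      have h1 : (a : G) * (c * (a : G)⁻¹ * c⁻¹) = b * (c * (b : G)⁻¹ * c⁻¹) := congrArg Subtype.val e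
      refine Subtype.ext (inv_mul_eq_one.1 (hf _ (mul_mem (inv_mem b.2) a.2) ?_)).symm
      change _ = _
      rw [show (b : G)⁻¹ * a * c = (b : G)⁻¹ * (a * (c * (a : G)⁻¹ * c⁻¹)) * c * a by group, h1]
      group) ⟨u, hu⟩
  exact ⟨k, by rw [← show (k : G) * (c * (k : G)⁻¹ * c⁻¹) = u from congrArg Subtype.val hk]; group⟩

theorem ci_of_fpf {U V : Subgroup G} [Finite U] [Finite V] (hU : ∀ u ∈ U, c * u * c⁻¹ ∈ U)
    (hV : ∀ u ∈ V, c * u * c⁻¹ ∈ V) (fU : ∀ u ∈ U, Commute u c → u = 1) (fV : ∀ u ∈ V, Commute u c → u = 1)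
    {a b u v : G} (hu : a⁻¹ * u * a ∈ U) (hv : b⁻¹ * v * b ∈ V) :
    CI c (u * (a * c * a⁻¹ * (b * c * b⁻¹)⁻¹) * v) := by
  obtain ⟨k, hk⟩ := exists_conj_of_fpf hU fU hu
  obtain ⟨l, hl⟩ := exists_conj_of_fpf hV fV (inv_mem hv)
  exact ⟨a * k, b * l, by
    rw [show a * k * c * (a * k)⁻¹ = a * (k * c * k⁻¹) * a⁻¹ by group,
      show b * l * c * (b * l)⁻¹ = b * (l * c * l⁻¹) * b⁻¹ by group, hk, hl]; group⟩

end group

section lin

variable {F : Type*} [Field F] {n : Type*} [Fintype n] [DecidableEq n]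

/-- Prescribed characteristic polynomial and a single Jordan block for the eigenvalue one. -/
def Ty (σ : F[X]) (k : ℕ) (M : Matrix n n F) : Prop := (toLin' M).charpoly = σ * (X - C 1) ^ k ∧ Reg (toLin' M)

theorem Ty.conj {σ : F[X]} (hσ : Squarefree σ) {k : ℕ} {M N : Matrix n n F} (h : Ty σ k M) (h' : Ty σ k N) :
    ∃ P : GL n F, N = P.1 * M * P⁻¹.1 :=
  let ⟨P, hP⟩ := (sim_toLin'_iff M N).1 (sim_of_reg hσ h.1 h'.1 h.2 h'.2)
  ⟨P, by rw [hP, mul_assoc, Units.mul_inv, mul_one]⟩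

theorem exists_ty {χ : F[X]} {g : Matrix n n F} (h : ∃ W : End F (n → F), W.charpoly = χ ∧
    (toLin' g * W).charpoly = χ ∧ Reg W ∧ Reg (toLin' g * W)) {σ : F[X]} {k : ℕ} (e : χ = σ * (X - C 1) ^ k) :
    ∃ W, Ty σ k W ∧ Ty σ k (g * W) := by
  obtain ⟨W, h1, h2, h3, h4⟩ := h
  obtain ⟨W, rfl⟩ := toLin'.surjective W
  exact ⟨W, ⟨h1.trans e, h3⟩, by rw [Ty, toLin'_mul]; exact ⟨h2.trans e, h4⟩⟩

theorem toLin'_ne {g : Matrix n n F} (hg : ∀ c : F, g ≠ c • 1) (c : F) : toLin' g ≠ c • 1 := fun e =>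
  hg c (toLin'.injective (by rw [e, map_smul, toLin'_one]; rfl))

theorem lev_unip (hF : Four F) {k : ℕ} (hn : Fintype.card n = k + 1) {g : Matrix n n F} (hd : g.det = 1)
    (hg : ∀ c : F, g ≠ c • 1) : ∃ W, Ty 1 (k + 1) W ∧ Ty 1 (k + 1) (g * W) :=
  exists_ty (exists_reg_unip hF (by simpa using hn) (by rw [LinearMap.det_toLin', hd]) (toLin'_ne hg)) (one_mul _).symm

theorem lev_one (hF : Four F) {k : ℕ} (hn : Fintype.card n = k + 1) {g : Matrix n n F} (hd : g.det = 1)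
    (hg : ∀ c : F, g ≠ c • 1) {β : F} (hβ : β ≠ 1) : ∃ W, Ty (X - C β) k W ∧ Ty (X - C β) k (g * W) := by
  have hV : finrank F (n → F) = k + 1 := by simpa using hn
  have hd' : LinearMap.det (toLin' g) = 1 := by rw [LinearMap.det_toLin', hd]
  refine exists_ty ?_ rfl
  by_cases h : H4.Inv (toLin' g)
  · exact lu_one hF hV hd' (fun _ => h) hβ
  · exact lu_transvection hF hd' (toLin'_ne hg) h β ((monic_X_sub_C 1).pow k)
      (by rw [natDegree_pow, natDegree_X_sub_C, mul_one, hV])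

theorem lev_two (hF : Four F) {k : ℕ} (hn : Fintype.card n = k + 2) {g : Matrix n n F} (hd : g.det = 1)
    (hg : ∀ c : F, g ≠ c • 1) {β γ : F} (hβ : β ≠ 1) (hγ : γ ≠ 1) :
    ∃ W, Ty ((X - C β) * (X - C γ)) k W ∧ Ty ((X - C β) * (X - C γ)) k (g * W) :=
  exists_ty (exists_reg_two hF (by simpa using hn) (by rw [LinearMap.det_toLin', hd]) (toLin'_ne hg) hβ hγ) rfl

theorem Ty.det {σ : F[X]} {k r : ℕ} {M : Matrix n n F} (h : Ty σ k M) (hn : Fintype.card n = k + r) :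
    M.det = (-1) ^ r * σ.coeff 0 := by
  rw [det_eq_sign_charpoly_coeff, ← charpoly_toLin', h.1, hn, mul_coeff_zero, coeff_zero_eq_eval_zero (_ ^ _)]
  simp only [eval_pow, eval_sub, eval_X, eval_C, zero_sub, pow_add]
  have : (-1 : F) ^ k * (-1) ^ k = 1 := by rw [← mul_pow]; simp
  linear_combination (-1) ^ r * σ.coeff 0 * this

theorem Ty.transpose {σ : F[X]} {k : ℕ} {M : Matrix n n F} (h : Ty σ k M) : Ty σ k Mᵀ := by
  refine ⟨by rw [← h.1, charpoly_toLin', charpoly_toLin', charpoly_transpose], ?_⟩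
  have h1 : ∀ A : Matrix n n F, (A - 1).rank + finrank F (LinearMap.ker (toLin' A - 1 : End F (n → F))) =
      finrank F (n → F) := fun A => by
    rw [End.one_eq_id, ← toLin'_one, ← map_sub]; exact LinearMap.finrank_range_add_finrank_ker _
  have h2 := h1 M
  have h3 := h1 Mᵀ
  rw [← transpose_one, ← transpose_sub, rank_transpose] at h3
  exact le_trans (by omega) h.2

theorem Ty.inv_unip {k : ℕ} (hn : Fintype.card n = k) {M N : Matrix n n F} (h : Ty 1 k M) (e : M * N = 1) :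
    Ty 1 k N := by
  have h1 : toLin' M * toLin' N = 1 := by rw [End.mul_eq_comp, ← toLin'_mul, e, toLin'_one]; rfl
  have h2 : finrank F (n → F) = k := by simpa using hn
  refine ⟨?_, h.2.inv h1⟩
  rw [one_mul, ← h2, charpoly_eq_iff_isNilpotent]
  exact isNilpotent_inv_sub_one h1 (mul_eq_one_comm.1 h1) ((charpoly_eq_iff_isNilpotent _).1 (by rw [h.1, h2, one_mul]))

theorem rev_lin (a : F) : (X - C a).reverse = 1 - C a * X := by
  have : (X : F[X]).reverse = 1 := by simpa using (reverse_X_mul (C 1 : F[X])).trans (reverse_C 1)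
  rw [sub_eq_add_neg, ← C_neg, reverse_add_C, this, natDegree_X, C_neg]; ring

theorem Ty.inv_two {k : ℕ} (hn : Fintype.card n = k + 2) {β : F} (hβ : β ≠ 0) {M : Matrix n n F}
    (h : Ty ((X - C β) * (X - C β⁻¹)) k M) (hd : M.det = 1) : Ty ((X - C β) * (X - C β⁻¹)) k M⁻¹ := by
  have h0 : IsUnit M.det := hd ▸ isUnit_one
  refine ⟨?_, h.2.inv (by rw [End.mul_eq_comp, ← toLin'_mul, mul_nonsing_inv _ h0, toLin'_one]; rfl)⟩
  have h1 : ∀ j, ((X - C 1 : F[X]) ^ j).reverse = (-1) ^ j * (X - C 1) ^ j := fun j => by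
    induction j with
    | zero => simpa using reverse_C (1 : F)
    | succ j ih => rw [pow_succ, reverse_mul_of_domain, ih, rev_lin, C_1]; ring
  have h2 : (C β * C β⁻¹ : F[X]) = 1 := by rw [← C_mul, mul_inv_cancel₀ hβ, C_1]
  have h3 : (-1 : F[X]) ^ k * (-1) ^ k = 1 := by rw [← mul_pow]; simp
  rw [charpoly_toLin', charpoly_inv _ ((isUnit_iff_isUnit_det _).2 h0), ← reverse_charpoly, ← charpoly_toLin', h.1, hd, hn,
    reverse_mul_of_domain, reverse_mul_of_domain, h1, rev_lin, rev_lin, Ring.inverse_one, C_1, pow_add]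
  linear_combination ((1 - C β * X) * (1 - C β⁻¹ * X) * h3 + (X ^ 2 - 1) * h2) * (X - 1) ^ k

theorem exists_gen [Fintype F] (hF : 9 ≤ Fintype.card F) : ∃ w : Fˣ, ∀ k : ℤ, 1 ≤ k → k ≤ 7 → w ^ k ≠ 1 := by
  obtain ⟨w, hw⟩ := IsCyclic.exists_ofOrder_eq_natCard (α := Fˣ)
  refine ⟨w, fun k h1 h2 e => ?_⟩
  have := Int.le_of_dvd h1 (orderOf_dvd_iff_zpow_eq_one.2 e)
  rw [hw, Nat.card_units, Nat.card_eq_fintype_card] at this
  omega

theorem sqfree_two {β γ : F} (h : β ≠ γ) : Squarefree ((X - C β) * (X - C γ)) :=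
  squarefree_mul_iff.2 ⟨(isCoprime_X_sub_C_of_isUnit_sub (sub_ne_zero.2 h).isUnit).isRelPrime,
    (irreducible_X_sub_C β).squarefree, (irreducible_X_sub_C γ).squarefree⟩

theorem thm_psl [Fintype F] (hF : 9 ≤ Fintype.card F) (hn : 2 ≤ Fintype.card n) :
    Thm (ProjectiveSpecialLinearGroup n F) := by
  obtain ⟨k, hk⟩ := Nat.exists_eq_add_of_le' hn
  obtain ⟨w, hw⟩ := exists_gen hF
  have h1 : (w : F) ≠ 1 := fun e => hw 1 le_rfl (by norm_num) (Units.ext (by simpa using e))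
  have h2 : (w : F) ≠ (w : F)⁻¹ := fun e => hw 2 (by norm_num) (by norm_num) (Units.ext (by
    rw [zpow_two, Units.val_mul, Units.val_one]; exact (mul_eq_one_iff_eq_inv₀ w.ne_zero).2 e))
  have h3 : ∀ g : SpecialLinearGroup n F, g ∉ Subgroup.center _ → ∃ W : SpecialLinearGroup n F,
      Ty ((X - C (w : F)) * (X - C (w : F)⁻¹)) k W.1 ∧ Ty ((X - C (w : F)) * (X - C (w : F)⁻¹)) k (g * W).1 := fun g hg => by
    obtain ⟨W, a, b⟩ := lev_two (four_of_card (by omega)) hk g.2 (fun c e => hg ((mem_center_SL_iff g).2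
      ⟨c, by rw [e, map_smul, toLin'_one]; rfl⟩)) h1 (inv_ne_one.2 h1)
    exact ⟨⟨W, by simp [a.det hk, ← C_mul]⟩, a, b⟩
  have h4 : ∀ A B : SpecialLinearGroup n F, Ty ((X - C (w : F)) * (X - C (w : F)⁻¹)) k A.1 →
      Ty ((X - C (w : F)) * (X - C (w : F)⁻¹)) k B.1 → IsConj A B := fun A B a b =>
    (isConj_SL_iff_ssim A B).2 ((sim_of_reg (sqfree_two h2) a.1 b.1 a.2 b.2).ssim fun μ _ =>
      exists_commute_det_of_simple (sqfree_two h2) (by simp [sub_eq_zero, h1.symm, (inv_ne_one.2 h1).symm])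
        (by rw [natDegree_mul (X_sub_C_ne_zero _) (X_sub_C_ne_zero _)]; simp) a.1 μ)
  by_cases h : ∃ g : SpecialLinearGroup n F, g ∉ Subgroup.center _
  · obtain ⟨g, hg⟩ := h
    obtain ⟨c, hc, -⟩ := h3 g hg
    refine thm_quot (c := c) (h4 _ _ hc (by simpa [inv_def, c.2] using hc.inv_two hk w.ne_zero c.2)) fun g hg => ?_
    obtain ⟨W, a, b⟩ := h3 g hg
    obtain ⟨x, hx⟩ := isConj_iff.1 (h4 _ _ hc a)
    obtain ⟨y, hy⟩ := isConj_iff.1 (h4 _ _ hc b)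
    exact ⟨y, x, by rw [hx, hy, mul_inv_cancel_right]⟩
  · exact thm_quot (c := 1) (by simp) fun g hg => (h ⟨g, hg⟩).elim

end lin

end Cfsg.Agent.H7
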