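import Cfsg.Agent.H7.Th1
import Cfsg.Agent.H7.EG
import Cfsg.Agent.H6.St2
import Cfsg.Agent.H8.TwMk

/-! Squares of conjugacy classes in Chevalley groups with a suitable Levi subgroup of type `A`. -/

set_option autoImplicit false
set_option linter.unusedSectionVars false

namespace Cfsg.Agent.H7

open Cfsg.Lie Matrix Polynomial Cfsg.Agent.H8

variable {K : Type*} [Field K] {k : ℕ}

/-- upper unitriangular -/
def UT (A : Matrix (Fin k) (Fin k) K) : Prop := ∀ i j, j ≤ i → A i j = if i = j then 1 else 0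

theorem UT.one : UT (1 : Matrix (Fin k) (Fin k) K) := fun _ _ _ => one_apply

theorem UT.mul {A B : Matrix (Fin k) (Fin k) K} (h : UT A) (h' : UT B) : UT (A * B) := fun i j e => by
  rw [mul_apply, Finset.sum_eq_single i (fun l _ hl => ?_) (by simp), h i i le_rfl, if_pos rfl, one_mul, h' i j e]
  rcases lt_or_gt_of_ne hl with a | a
  · rw [h i l a.le, if_neg hl.symm, zero_mul]
  · rw [h' l j (e.trans a.le), if_neg (e.trans_lt a).ne', mul_zero]

theorem UT.slX {i j : Fin k} (h : i < j) (t : K) : UT (H6.slX K i j t).1 := fun a b e => by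
  rw [H6.slX_val h.ne, transvection, Matrix.add_apply, single_apply_of_ne _ _ _ _ _ (by omega), add_zero, one_apply]

theorem UT.sup {A B : Matrix (Fin (k + 1)) (Fin (k + 1)) K} (h : UT A) (h' : UT B) (i : Fin k) :
    (A * B) i.castSucc i.succ = A i.castSucc i.succ + B i.castSucc i.succ := by
  rw [mul_apply, Finset.sum_eq_add_of_mem i.succ i.castSucc (by simp) (by simp) Fin.castSucc_lt_succ.ne' fun l _ hl => ?_,
    h _ _ le_rfl, h' _ _ le_rfl, if_pos rfl, if_pos rfl, one_mul, mul_one]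
  rcases lt_or_gt_of_ne hl.2 with a | a
  · rw [h _ l a.le, if_neg hl.2.symm, zero_mul]
  · rw [h' l _ (Fin.castSucc_lt_iff_succ_le.1 a), if_neg hl.1, mul_zero]

theorem UT.ty {A : Matrix (Fin (k + 1)) (Fin (k + 1)) K} (h : UT A) (h' : ∀ i : Fin k, A i.castSucc i.succ ≠ 0) :
    Ty 1 (k + 1) A := by
  refine ⟨?_, H4.reg_of_span (Pi.single 0 1) fun v hv => ⟨v 0, ?_⟩⟩
  · rw [charpoly_toLin', charpoly_of_isUpperTriangular _ fun i j e => (h i j (le_of_lt e)).trans (if_neg (ne_of_gt e))]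
    simp [h _ _ le_rfl]
  have h1 : ∀ i : Fin k, v i.succ = 0 := fun i => by
    induction i using WellFoundedGT.induction with
    | ind i ih =>
    have := congrFun hv i.castSucc
    rw [toLin'_apply, mulVec, dotProduct, Finset.sum_eq_add_of_mem i.succ i.castSucc (by simp) (by simp)
      Fin.castSucc_lt_succ.ne' fun l _ hl => ?_, h _ _ le_rfl, if_pos rfl, one_mul, add_eq_right] at this
    · exact (mul_eq_zero.1 this).resolve_left (h' i)
    rcases lt_or_gt_of_ne hl.2 with a | a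
    · rw [h _ l a.le, if_neg hl.2.symm, zero_mul]
    · obtain ⟨l, rfl⟩ := Fin.exists_succ_eq.2 (Fin.pos_iff_ne_zero.1 (lt_of_le_of_lt (Fin.zero_le _) a))
      rw [ih l (lt_of_le_of_ne (Fin.castSucc_lt_succ_iff.1 a) fun e => hl.1 (e ▸ rfl)), mul_zero]
  funext i
  rcases Fin.eq_zero_or_eq_succ i with rfl | ⟨i, rfl⟩ <;> simp [h1]

/-- A product of elementary matrices along the superdiagonal. -/
def spr (π : Fin k → Fin k) (e : Fin k → K) : SpecialLinearGroup (Fin (k + 1)) K :=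
  ((List.finRange k).map fun i => H6.slX K (π i).castSucc (π i).succ (e i)).prod

theorem ty_spr {π : Fin k → Fin k} (hπ : Function.Bijective π) {e : Fin k → K} (he : ∀ i, e i ≠ 0) :
    Ty 1 (k + 1) (spr π e).1 := by
  have : ∀ l : List (Fin k), UT (l.map fun i => H6.slX K (π i).castSucc (π i).succ (e i)).prod.1 ∧ ∀ j : Fin k,
      (l.map fun i => H6.slX K (π i).castSucc (π i).succ (e i)).prod.1 j.castSucc j.succ =
        (l.map fun i => if π i = j then e i else 0).sum := fun l => by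
    induction l with
    | nil => exact ⟨UT.one, fun j => one_apply_ne Fin.castSucc_lt_succ.ne⟩
    | cons a l ih =>
      refine ⟨(UT.slX Fin.castSucc_lt_succ _).mul ih.1, fun j => ?_⟩
      refine ((UT.slX Fin.castSucc_lt_succ _).sup ih.1 j).trans ?_
      rw [ih.2, H6.slX_val Fin.castSucc_lt_succ.ne, transvection, Matrix.add_apply, one_apply_ne Fin.castSucc_lt_succ.ne, single_apply]
      simp
  refine (this _).1.ty fun j => ?_
  obtain ⟨j, rfl⟩ := hπ.2 j
  refine ((this _).2 _).trans_ne ?_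
  rw [← Fin.sum_univ_def]
  simpa [hπ.1.eq_iff] using he j

/-- conjugation by an invertible matrix -/
def cjG (P : GL (Fin k) K) : SpecialLinearGroup (Fin k) K →* SpecialLinearGroup (Fin k) K :=
  MonoidHom.mk' (fun x => ⟨P.1 * x.1 * P⁻¹.1, by rw [det_mul, det_mul, x.2, mul_one, ← det_mul, Units.mul_inv, det_one]⟩)
    fun x y => Subtype.ext (by
      change P.1 * (x.1 * y.1) * P⁻¹.1 = P.1 * x.1 * P⁻¹.1 * (P.1 * y.1 * P⁻¹.1)
      simp only [mul_assoc, Units.inv_mul_cancel_left])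

/-- a diagonal matrix -/
def dG (d : Fin k → Kˣ) : GL (Fin k) K :=
  ⟨diagonal fun i => d i, diagonal fun i => (d i)⁻¹, by simp, by simp⟩

theorem cjG_slX (d : Fin k → Kˣ) {i j : Fin k} (h : i ≠ j) (t : K) :
    cjG (dG d) (H6.slX K i j t) = H6.slX K i j (d i * (d j)⁻¹ * t) := by
  refine Subtype.ext (Matrix.ext fun a b => ?_)
  change (diagonal (fun i => (d i : K)) * (H6.slX K i j t).1 * diagonal fun i => ((d i : K))⁻¹) a b = _
  rw [mul_diagonal, diagonal_mul, H6.slX_val h, H6.slX_val h, transvection, transvection, Matrix.add_apply, Matrix.add_apply, single_apply,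
    single_apply, one_apply]
  split_ifs with h1 h2 h2
  · exact (h (h2.1.trans (h1.trans h2.2.symm))).elim
  · simp [h1]
  · rw [h2.1, h2.2, Units.val_inv_eq_inv_val]; ring
  · simp

variable (D : ChevalleyDatum)

/-- The data of a Levi subsystem of type `A` with a cocharacter of small levels. -/
def LeviA (ro : Fin (k + 2) → Fin (k + 2) → ℕ) (sg : Fin (k + 2) → Fin (k + 2) → ℤ) (la nu : Fin D.rank → ℤ)
    (w : Equiv.Perm ℕ) (π : Fin (k + 1) → Fin (k + 1)) : Prop :=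
  (∀ i j, i ≠ j → ro i j < D.nroots ∧ D.neg (ro i j) = ro j i ∧ sg j i = sg i j ∧ sg i j * sg i j = 1 ∧
    la ⬝ᵥ wt D (ro i j) = 0 ∧ nu ⬝ᵥ wt D (ro i j) = (if i = 0 then 1 else 0) - (if j = 0 then 1 else 0)) ∧
  (∀ i j a b, i ≠ j → a ≠ b → i ≠ b → j ≠ a → ro a b ≠ D.neg (ro i j) ∧ D.commTerms (ro i j) (ro a b) = []) ∧
  (∀ i j l, i ≠ j → j ≠ l → i ≠ l → ro i j ≠ ro j l ∧ ro i j ≠ D.neg (ro j l) ∧
    D.commTerms (ro j l) (ro i j) = [(ro i l, -(sg i l * sg i j * sg j l), 1, 1)]) ∧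
  (∀ r < D.nroots, (la ⬝ᵥ wt D r = 0 → ∃ i j, i ≠ j ∧ r = ro i j ∧ (D.IsPosRoot r ↔ i < j)) ∧
    (D.IsPosRoot r → 0 ≤ la ⬝ᵥ wt D r) ∧ la ⬝ᵥ wt D r ≤ 7) ∧
  sg 0 1 = 1 ∧ la ᵥ* wM D w = -la ∧ Function.Bijective π ∧
  ∀ i : Fin (k + 1), D.IsPosRoot (ro i.castSucc i.succ) ∧ w (ro i.castSucc i.succ) = ro (π i).castSucc (π i).succ

variable {D} {G : Type*} [Group G] [hD : RootFacts D] [hN : NFacts D] {x : ℕ → K → G}
  {ro : Fin (k + 2) → Fin (k + 2) → ℕ} {sg : Fin (k + 2) → Fin (k + 2) → ℤ} {la nu : Fin D.rank → ℤ}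
  {w : Equiv.Perm ℕ} {π : Fin (k + 1) → Fin (k + 1)}

theorem LeviA.exists_hom [Finite K] (h : LeviA D ro sg la nu w π) (hs : IsSt D x) :
    ∃ φ : SpecialLinearGroup (Fin (k + 2)) K →* G, ∀ i j, i ≠ j → ∀ t, φ (H6.slX K i j t) = x (ro i j) (sg i j * t) := by
  have h1 : ∀ i j, i ≠ j → (sg i j : K) * sg i j = 1 := fun i j a => by exact_mod_cast congrArg (Int.cast (R := K)) (h.1 i j a).2.2.2.1
  refine H6.IsSt.exists_hom ⟨⟨fun _ t u => by rw [mul_add, hs.add], fun {i j a b} c d e f t u => ?_,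
    fun {i j l} a b c t u => ?_⟩, fun {i j} a => ⟨fun t u => by rw [mul_add, hs.add], fun t u => by rw [mul_add, hs.add],
    fun t ht u => ?_⟩⟩
  · exact hs.commute (h.2.1 i j a b c d e f).1 (h.2.1 i j a b c d e f).2 _ _
  · obtain ⟨h2, h3, h4⟩ := h.2.2.1 i j l a b c
    have := hs.comm' h2 h3 (-(sg j l * u)) (-(sg i j * t))
    simp only [hs.neg, inv_inv, ChevalleyDatum.commWord, h4, List.map_cons, List.map_nil, ev_cons, ev_nil, mul_one] at this
    rw [this]
    congr 1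
    push_cast
    linear_combination (sg i l * t * u * sg j l * sg j l : K) * h1 i j a + (sg i l * t * u : K) * h1 j l b
  · obtain ⟨h2, h3, h4, -⟩ := h.1 i j a
    have h5 := eq_inv_of_mul_eq_one_left (h1 i j a)
    have := hs.nE_conj_self h2 (mul_ne_zero (left_ne_zero_of_mul_eq_one (h1 i j a)) ht) (sg i j * u)
    simp only [H6.stW, nE, h3, h4, mul_inv, ← h5] at this ⊢
    rw [mul_neg, this]
    congr 1
    linear_combination -(sg i j * t⁻¹ ^ 2 * u : K) * h1 i j a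

variable (D) in
/-- roots of level zero -/
def S0 (la : Fin D.rank → ℤ) : Set ℕ := {r | r < D.nroots ∧ la ⬝ᵥ wt D r = 0}

variable (D) in
/-- roots of positive level -/
def Sp (la : Fin D.rank → ℤ) : Set ℕ := {r | 0 < la ⬝ᵥ wt D r}

omit hN in
theorem Sp_lt {r : ℕ} (h : r ∈ Sp D la) : r < D.nroots :=
  by_contra fun e => by simp [Sp, hD.wt_ge r (not_lt.1 e)] at h

omit hN in
theorem isClosed_Sp : IsClosed D (Sp D la) := fun r hr s h l _ i j _ _ e => by
  simp only [Sp, Set.mem_setOf_eq, e, dotProduct_add, dotProduct_smul, smul_eq_mul] at hr h ⊢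
  positivity

theorem levi_le_normalizer (hs : IsSt D x) {mu : Fin D.rank → ℤ} (h : S0 D la ⊆ S0 D mu) :
    XS x (S0 D la) ⊔ HH D x ≤ Subgroup.normalizer (XS x (Sp D mu) : Set G) :=
  sup_le (hs.XS_le_normalizer (fun r hr s hs l _ i j _ _ e => by
    simp only [Sp, Set.mem_setOf_eq, e, dotProduct_add, dotProduct_smul, smul_eq_mul, (h hr).2, mul_zero, zero_add] at hs ⊢
    positivity) fun r hr s hs e => by simp [Sp, e, wt_neg hr.1, (h hr).2] at hs) (hs.HH_le_normalizer _)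

theorem commute_of_mul [Fintype K] (hx : IsChev D x) {z u g : G} (hz : z ∈ HH D x) (hu : u ∈ UU D x) (h : Commute z u)
    (hg : Commute g (z * u)) : Commute g z := by
  obtain ⟨p, hp⟩ := CharP.exists K
  have := Fact.mk (CharP.char_is_prime K p)
  obtain ⟨f, -, hf⟩ := FiniteField.card K p
  obtain ⟨N, hN⟩ := hx.toIsFaith.isPGroup_UU p ⟨u, hu⟩
  obtain ⟨a, rfl⟩ := hx.toIsSt.exists_hProd hx.R3 hz
  have e1 : hProd D x a ^ Fintype.card K ^ N = hProd D x a := by
    rw [← hProd_pow hx.toIsSt hx.R3]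
    exact congrArg _ (funext fun i => Units.ext (by simp [FiniteField.pow_card_pow]))
  have e2 : u ^ Fintype.card K ^ N = 1 := by
    obtain ⟨c, hc⟩ := dvd_pow_self (p ^ N) f.ne_zero
    rw [hf, ← pow_mul, mul_comm, pow_mul, hc, pow_mul, show u ^ p ^ N = 1 from congrArg Subtype.val hN, one_pow]
  have := hg.pow_right (Fintype.card K ^ N)
  rwa [h.mul_pow, e2, mul_one, e1] at this

section hom

variable (h : LeviA D ro sg la nu w π) (hx : IsChev D x) {φ : SpecialLinearGroup (Fin (k + 2)) K →* G}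
  (hφ : ∀ i j, i ≠ j → ∀ t, φ (H6.slX K i j t) = x (ro i j) (sg i j * t))
include h

theorem LeviA.sg_mul {i j : Fin (k + 2)} (e : i ≠ j) : (sg i j : K) * sg i j = 1 := by
  exact_mod_cast congrArg (Int.cast (R := K)) (h.1 i j e).2.2.2.1

theorem LeviA.pos {r : ℕ} (hr : r ∈ Sp D la) : D.IsPosRoot r := (pos_or_neg (Sp_lt hr)).resolve_right fun e => by
  have := (h.2.2.2.1 _ (neg_lt e.1)).2.1 ((neg_pos_iff e.1).2 e)
  rw [wt_neg e.1, dotProduct_neg] at this
  exact absurd hr (by simpa [Sp] using this)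

include hφ

theorem LeviA.mem (A : SpecialLinearGroup (Fin (k + 2)) K) : φ A ∈ XS x (S0 D la) := by
  have : H6.stGG (H6.slX K) Set.univ Set.univ ≤ (XS x (S0 D la)).comap φ := (Subgroup.closure_le _).2 (by
    rintro _ ⟨i, -, j, -, e, t, rfl⟩
    exact Subgroup.mem_comap.2 ((hφ i j e t).symm ▸ x_mem_XS (And.intro (h.1 i j e).1 (h.1 i j e).2.2.2.2.1) _))
  exact this (H6.stGG_slX_univ.ge (Subgroup.mem_top A))

theorem LeviA.map_spr (π : Fin (k + 1) → Fin (k + 1)) (e : Fin (k + 1) → K) : φ (spr π e) =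
    ((List.finRange _).map fun i => x (ro (π i).castSucc (π i).succ) (sg (π i).castSucc (π i).succ * e i)).prod := by
  simp [spr, map_list_prod, Function.comp_def, hφ, Fin.castSucc_lt_succ.ne]

include hx

theorem LeviA.comm (A : SpecialLinearGroup (Fin (k + 2)) K) (ω : Kˣ) : Commute (φ A) (hProd D x fun i => ω ^ la i) :=
  hx.toIsSt.commute_RT (fun r hr => by simp [RT, torChar_pow, hr.2]) (h.mem hφ A)

theorem LeviA.conj (ω : Kˣ) {A B : SpecialLinearGroup (Fin (k + 2)) K} (a : Ty 1 (k + 2) A.1) (b : Ty 1 (k + 2) B.1) :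
    ∃ a ∈ XS x (S0 D la) ⊔ HH D x, Commute a (hProd D x fun i => ω ^ la i) ∧ φ B = a * φ A * a⁻¹ := by
  obtain ⟨P, hP⟩ := a.conj squarefree_one b
  let d : Fin (k + 2) → Kˣ := fun i => if i = 0 then GeneralLinearGroup.det P else 1
  have e : φ.comp (cjG (dG d)) = (MulAut.conj (hProd D x fun i => GeneralLinearGroup.det P ^ nu i)).toMonoidHom.comp φ :=
    H6.slX_hom_ext fun i j e t => by
      simp only [MonoidHom.comp_apply, cjG_slX d e, hφ i j e, MulEquiv.coe_toMonoidHom, MulAut.conj_apply]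
      rw [hx.toIsSt.acts_hProd]
      simp only [torChar_pow, (h.1 i j e).2.2.2.2.2, mul_left_comm (sg i j : K)]
      congr 2
      by_cases i = 0 <;> by_cases j = 0 <;> simp_all [d]
  let Q : SpecialLinearGroup (Fin (k + 2)) K := ⟨P.1 * (dG d)⁻¹.1, by
    change det (_ * diagonal _) = _
    simp [d, apply_ite, Finset.prod_ite_eq', P.det_ne_zero]⟩
  refine ⟨φ Q * hProd D x fun i => GeneralLinearGroup.det P ^ nu i, Subgroup.mul_mem_sup (h.mem hφ _) (hProd_mem_HH x _),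
    (h.comm hx hφ _ _).mul_left (hx.HH_commute (hProd_mem_HH x _) (hProd_mem_HH x _)), ?_⟩
  have e1 : B * Q = Q * cjG (dG d) A := Subtype.ext (by
    change B.1 * (P.1 * (dG d)⁻¹.1) = P.1 * (dG d)⁻¹.1 * ((dG d).1 * A.1 * (dG d)⁻¹.1)
    simp only [hP, mul_assoc, Units.inv_mul_cancel_left])
  rw [eq_mul_inv_of_mul_eq e1, map_mul, map_mul, map_inv, show φ (cjG (dG d) A) = _ from DFunLike.congr_fun e A]
  simp [mul_assoc]

theorem LeviA.lift (τ : Matrix (Fin (k + 2)) (Fin (k + 2)) K → Matrix (Fin (k + 2)) (Fin (k + 2)) K) {S : Set ℕ}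
    (c1 : ∀ A B, UT (τ A) → UT (τ B) → UT (τ (A * B))) (c2 : UT (τ 1))
    (c3 : ∀ r ∈ S, ∃ i j, i ≠ j ∧ r = ro i j ∧ ∀ t, UT (τ (H6.slX K i j t).1)) {g : G} (hg : g ∈ XS x S) :
    ∃ A, UT (τ A.1) ∧ φ A = g := by
  have c4 : ∀ r ∈ S, ∀ t, ∃ A, UT (τ A.1) ∧ φ A = x r t := fun r hr t => by
    obtain ⟨i, j, e, rfl, c4⟩ := c3 r hr
    exact ⟨_, c4 (sg i j * t), by rw [hφ i j e, ← mul_assoc, h.sg_mul e, one_mul]⟩
  induction hg using Subgroup.closure_induction'' with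
  | one => exact ⟨1, c2, map_one _⟩
  | mem g hg => obtain ⟨r, hr, t, rfl⟩ := hg; exact c4 r hr t
  | inv_mem g hg => obtain ⟨r, hr, t, rfl⟩ := hg; exact hx.toIsSt.neg r t ▸ c4 r hr _
  | mul a b _ _ ha hb =>
    obtain ⟨A, c5, rfl⟩ := ha
    obtain ⟨B, c6, rfl⟩ := hb
    exact ⟨A * B, c1 _ _ c5 c6, map_mul _ _ _⟩

theorem LeviA.nonscalar {ω : K} (h0 : ω ≠ 0) (h1 : ω ≠ ω⁻¹) {u v : G} (hu : u ∈ XS x ({r | D.IsPosRoot r} ∩ S0 D la))
    (hv : v ∈ XS x ({r | D.IsNegRoot r} ∩ S0 D la)) : ∃ A, φ A = u * hE D x (ro 0 1) ω * v ∧ ∀ s : K, A.1 ≠ s • 1 := by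
  obtain ⟨A, c1, c2⟩ := h.lift hx hφ id (fun _ _ => UT.mul) UT.one (fun r hr => by
    obtain ⟨i, j, c1, c2, c3⟩ := (h.2.2.2.1 r hr.1.1).1 hr.2.2
    exact ⟨i, j, c1, c2, UT.slX (c3.1 hr.1)⟩) (inv_mem hu)
  obtain ⟨B, c3, rfl⟩ := h.lift hx hφ transpose (fun A B a b => transpose_mul A B ▸ b.mul a) (by simpa using UT.one)
    (fun r hr => by
      obtain ⟨i, j, c1, c2, c3⟩ := (h.2.2.2.1 r hr.1.1).1 hr.2.2
      refine ⟨i, j, c1, c2, fun t => ?_⟩
      have := UT.slX (lt_of_le_of_ne (not_lt.1 fun e => not_neg_of_pos (c3.2 e) hr.1) c1.symm) t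
      rwa [H6.slX_val c1.symm, transvection, ← transpose_single, ← transpose_one, ← transpose_add, ← transvection,
        ← H6.slX_val c1] at this) hv
  have c0 : (0 : Fin (k + 2)) ≠ 1 := by simp
  refine ⟨A⁻¹ * SpecialLinearGroup.diag2n c0 ω h0 * B, ?_, fun s e => h1 ?_⟩
  · rw [map_mul, map_mul, map_inv, c2, inv_inv, ← H6.stH_slX]
    simp [H6.stH, H6.stW, hφ, hE, nE, h.2.2.2.2.1, (h.1 0 1 c0).2.1, (h.1 0 1 c0).2.2.1]
  have e1 : diagonal (fun l => if l = 0 then ω else if l = 1 then ω⁻¹ else 1) * B.1 = A.1 * (s • 1) := by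
    rw [← e]
    exact congrArg Subtype.val (show SpecialLinearGroup.diag2n c0 ω h0 * B = A * (A⁻¹ * _ * B) by group)
  have e2 := congrFun (congrFun e1 0) 0
  have e3 := congrFun (congrFun e1 1) 1
  rw [diagonal_mul, show B.1 _ _ = _ from c3 _ _ le_rfl, Matrix.mul_smul, mul_one, Matrix.smul_apply,
    show A.1 _ _ = _ from c1 _ _ le_rfl] at e2 e3
  simpa using e2.trans e3.symm

end hom

theorem LeviA.thm [DiagFacts D] [Fintype K] (hK : 9 ≤ Fintype.card K) (h : LeviA D ro sg la nu w π) (hw : w ∈ W D)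
    (hx : IsChev D x) (hG : GG x = ⊤) : Thm G := by
  have hs := hx.toIsSt
  have h3 := hx.R3
  have := hx.finite_G hG
  obtain ⟨φ, hφ⟩ := h.exists_hom hs
  obtain ⟨ω, hω⟩ := exists_gen hK
  have a2 := fun A => h.comm hx hφ A ω
  have a4 := fun A B => h.conj hx hφ ω (A := A) (B := B)
  obtain ⟨n, hn⟩ := NRep.exists_rep x hw
  have a6 : (n * hProd D x fun i => ω ^ la i) * n⁻¹ = (hProd D x fun i => ω ^ la i)⁻¹ := by
    rw [hn.conj_hProd hs h3, mact_pow, h.2.2.2.2.2.1, eq_inv_iff_mul_eq_one, ← hProd_mul hs h3, ← hProd_one hs h3]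
    exact congrArg _ (funext fun i => by simp)
  have a7 : ∀ u ∈ XS x (Sp D la), Commute u (hProd D x fun i => ω ^ la i) → u = 1 := fun u hu e => by
    have := hx.toIsFaith.mem_of_commute isClosed_Sp (fun r => h.pos) hu (by rw [← e.eq, mul_inv_cancel_right])
    rwa [Set.eq_empty_of_forall_notMem (s := Sp D la ∩ _) fun r hr => hω _ hr.1 (h.2.2.2.1 r (Sp_lt hr.1)).2.2
      (by simpa [RT, torChar_pow] using hr.2), XS_empty] at this
  have hz := hProd_mem_HH x fun i => ω ^ la i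
  generalize (hProd D x fun i => ω ^ la i) = z at *
  have t0 := ty_spr (K := K) (k := k + 1) Function.bijective_id (e := 1) fun _ => one_ne_zero
  have a5 := h.map_spr hφ id 1
  generalize spr (K := K) (k := k + 1) id 1 = c at *
  have h6 := h.2.2.2.2.2.2.2
  have a8 : ∀ u, Commute u (z * φ c) → Commute u z := fun u => commute_of_mul hx hz (a5 ▸ list_prod_mem fun y hy => by
    obtain ⟨i, -, rfl⟩ := List.mem_map.1 hy
    exact x_mem_UU x (h6 i).1 _) (a2 c).symm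
  have a9 : z * φ c ∈ XS x (S0 D la) ⊔ HH D x := mul_mem (Subgroup.mem_sup_right hz) (Subgroup.mem_sup_left (h.mem hφ _))
  refine thm_of_ci (c := z * φ c) ?_ fun g hg => ?_
  · obtain ⟨e, he, ha⟩ := hn.acts hs
    have b0 : ∀ i : Fin (k + 1), (sg i.castSucc i.succ : K) * sg i.castSucc i.succ = 1 :=
      fun i => h.sg_mul Fin.castSucc_lt_succ.ne
    obtain ⟨a, -, b1, b2⟩ := a4 _ c⁻¹ (ty_spr h.2.2.2.2.2.2.1 (e := fun i => sg (π i).castSucc (π i).succ *
      (e (ro i.castSucc i.succ) * sg i.castSucc i.succ)) fun i => mul_ne_zero (left_ne_zero_of_mul_eq_one (b0 _))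
        (mul_ne_zero (left_ne_zero_of_mul_eq_one (he _ (h6 i).1.1)) (left_ne_zero_of_mul_eq_one (b0 _))))
      (t0.inv_unip (by simp) (congrArg Subtype.val (mul_inv_cancel c)))
    refine isConj_iff.2 ⟨a * n, ?_⟩
    have e1 : φ (spr π fun i => sg (π i).castSucc (π i).succ * (e (ro i.castSucc i.succ) * sg i.castSucc i.succ)) =
        n * φ c * n⁻¹ := by
      rw [h.map_spr hφ, a5, ← MulAut.conj_apply, map_list_prod, List.map_map]
      refine congrArg _ (List.map_congr_left fun i _ => ?_)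
      simp [ha _, (h6 i).2, ← mul_assoc, b0]
    rw [(a2 c).symm.mul_inv, ← map_inv, b2, e1, ← mul_inv_cancel_right z⁻¹ a, ← b1.inv_right.eq, ← a6]
    group
  obtain ⟨y, u, hu, v, hv, e⟩ := hx.exists_gauss hG hg (hE_mem_HH x (h.1 0 1 (by simp)).1 ω.ne_zero)
  obtain ⟨u1, b1, u0, b2, rfl⟩ := hs.exists_mul (S₁ := Sp D la) (S₂ := S0 D la) isClosed_pos (one_mem _) (fun _ => id)
    (fun r hr => ((h.2.2.2.1 r hr.1).2.1 hr).lt_or_eq.imp_right fun e => ⟨hr.1, e.symm⟩) hu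
  obtain ⟨v0, b3, v1, b4, rfl⟩ := hs.exists_mul (S₂ := Sp D (-la)) (S₁ := S0 D la) isClosed_neg w0_mem
    (fun _ => w0_pos_of_neg) (fun r hr => by
      have := (h.2.2.2.1 _ (neg_lt hr.1)).2.1 ((neg_pos_iff hr.1).2 hr)
      rw [wt_neg hr.1, dotProduct_neg] at this
      simp only [S0, Sp, Set.mem_setOf_eq, neg_dotProduct, show r < D.nroots from hr.1, true_and]; omega) hv
  obtain ⟨A, c1, c2⟩ := h.nonscalar hx hφ ω.ne_zero (fun e => hω 2 (by norm_num) (by norm_num) (Units.ext (by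
    rw [zpow_two, Units.val_mul, Units.val_one]; exact (mul_eq_one_iff_eq_inv₀ ω.ne_zero).2 e))) b2 b3
  obtain ⟨T, c5, c6⟩ := lev_unip (H4.four_of_card (by omega)) (k := k + 1) (by simp) A.2 c2
  let T' : SpecialLinearGroup (Fin (k + 2)) K := ⟨T, by simpa using c5.det (r := 0) (by simp)⟩
  obtain ⟨a, d1, d2, d3⟩ := a4 c (A * T') t0 c6
  obtain ⟨b, d4, d5, d6⟩ := a4 c T' t0 c5
  have a3 := levi_le_normalizer hs (la := la) (mu := la) fun _ => id
  have a3' := levi_le_normalizer hs (la := la) (mu := -la) fun _ h => ⟨h.1, by simp [h.2]⟩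
  refine CI.of_conj (y := y) ?_
  convert ci_of_fpf (c := z * φ c) (fun u => (Subgroup.mem_normalizer_iff.1 (a3 a9) u).1)
    (fun u => (Subgroup.mem_normalizer_iff.1 (a3' a9) u).1) (fun u hu e => a7 u hu (a8 u e))
    (fun u hu e => conj_eq_one_iff.1 (a7 (n⁻¹ * u * n⁻¹⁻¹) (by
      rw [inv_inv]
      refine hn.conj_XS' hs (fun r hr => ?_) hu
      rwa [Sp, Set.mem_setOf_eq, ← wM_mulVec hw, dotProduct_mulVec, h.2.2.2.2.2.1]) (by
        have := ((a8 u e).inv_right.map (MulAut.conj n⁻¹))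
        rwa [← a6, MulAut.conj_apply, MulAut.conj_apply, show n⁻¹ * (n * z * n⁻¹) * n⁻¹⁻¹ = z by group] at this)))
    ((Subgroup.mem_normalizer_iff''.1 (a3 d1) u1).1 (XS_mono x Set.inter_subset_right b1))
    ((Subgroup.mem_normalizer_iff''.1 (a3' d4) v1).1 (XS_mono x Set.inter_subset_right b4)) using 1
  rw [e, ← mul_assoc a, d2.eq, ← mul_assoc b, d5.eq, mul_assoc z a, mul_assoc z b, mul_assoc z _ a⁻¹, mul_assoc z _ b⁻¹,
    ← d3, ← d6, map_mul, ← mul_assoc z, ← (a2 A).eq, mul_assoc (φ A), mul_inv_cancel_right, c1]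
  group

end Cfsg.Agent.H7
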