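import Cfsg.Agent.H7.Th1

/-! Squares of conjugacy classes: linear algebra and the symplectic groups. -/

set_option autoImplicit false
set_option linter.unusedSectionVars false

namespace Cfsg.Agent.H7

open Matrix Polynomial Module Cfsg.Agent.H4

variable {F : Type*} [Field F] {n : Type*} [Fintype n] [DecidableEq n]

theorem det_two (p α r γ : n → F) : det (1 + (vecMulVec p α + vecMulVec r γ)) =
    (1 + α ⬝ᵥ p) * (1 + γ ⬝ᵥ r) - (α ⬝ᵥ r) * (γ ⬝ᵥ p) := by
  have : vecMulVec p α + vecMulVec r γ = (of ![p, r])ᵀ * of ![α, γ] := by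
    ext i j; simp [mul_apply, vecMulVec_apply]
  rw [this, det_one_add_mul_comm, det_fin_two]
  simp [vecMul_transpose, dotProduct_comm]

theorem det_one' (p α : n → F) : det (1 + vecMulVec p α) = 1 + α ⬝ᵥ p := by simpa using det_two p α 0 0

theorem exists_dot {x y : n → F} (h : y ∉ Submodule.span F {x}) : ∃ p, p ⬝ᵥ y = 1 ∧ p ⬝ᵥ x = 0 := by
  obtain ⟨f, h1, h2⟩ := exists_dual_one_zero h
  obtain ⟨p, rfl⟩ := (dotProductEquiv F n).surjective f
  exact ⟨p, h1, h2 x (Submodule.mem_span_singleton_self x)⟩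

theorem exists_dot_one {y : n → F} (h : y ≠ 0) : ∃ p, p ⬝ᵥ y = 1 :=
  (exists_dot (x := 0) (by simpa using h)).imp fun _ h => h.1

theorem scalar_of {M : Matrix n n F} (h : ∀ x y, y ⬝ᵥ x = 0 → y ⬝ᵥ M *ᵥ x = 0) : ∃ c : F, M = c • 1 := by
  by_contra! e
  obtain ⟨v, -, hv⟩ := exists_not_mem_span (toLin'_ne e)
  obtain ⟨p, h1, h2⟩ := exists_dot hv
  exact one_ne_zero (h1.symm.trans (h v p h2))

theorem exists_orth (hn : 2 ≤ Fintype.card n) (y : n → F) : ∃ x, x ≠ 0 ∧ y ⬝ᵥ x = 0 := by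
  obtain ⟨x, h1, h2⟩ := (Submodule.ne_bot_iff _).1 (LinearMap.ker_ne_bot_of_finrank_lt
    (f := dotProductEquiv F n y) (by simpa using Nat.lt_of_succ_le hn))
  exact ⟨x, h2, h1⟩

theorem exists_mulVec_ne {N : Matrix n n F} (h : N ≠ 0) : ∃ x, N *ᵥ x ≠ 0 :=
  not_forall.1 fun e => h (ext_of_mulVec_single fun i => by rw [e, zero_mulVec])

theorem ne_scalar {T : Matrix n n F} {p : n → F} (hp : p ≠ 0) (h : T *ᵥ p = p) (h1 : T ≠ 1) (c : F) : T ≠ c • 1 := by
  rintro rfl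
  rw [smul_mulVec, one_mulVec] at h
  exact h1 (by rw [smul_left_injective F hp (h.trans (one_smul F p).symm), one_smul])

theorem sylv {A B S : Matrix n n F} (h : A * S = S * B) (f : F[X]) : aeval A f * S = S * aeval B f := by
  induction f using Polynomial.induction_on' with
  | add f g hf hg => rw [map_add, map_add, add_mul, mul_add, hf, hg]
  | monomial k c =>
    rw [aeval_monomial, aeval_monomial, mul_assoc, SemiconjBy.eq (SemiconjBy.pow_right h.symm k) |>.symm, ← mul_assoc,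
      Algebra.commutes, mul_assoc]

/-- An annihilating polynomial with two roots. -/
def Ann (a b : F) (k : ℕ) (A : Matrix n n F) : Prop := aeval A ((X - C a) * (X - C b) ^ k) = 0

theorem Ty.ann {β : F} {k : ℕ} {W : Matrix n n F} (h : Ty (X - C β) k W) (z : F) : Ann (z * β) z k (z • W) := by
  have := aeval_self_charpoly W
  rw [← charpoly_toLin', h.1] at this
  simp only [Ann, map_mul, map_pow, map_sub, aeval_X, aeval_C, Algebra.algebraMap_eq_smul_one, one_smul] at this ⊢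
  rw [smul_mul_assoc, one_mul, ← smul_sub, ← smul_sub, _root_.smul_pow, smul_mul_smul_comm, this, smul_zero]

theorem Ann.unit {a b l : F} {k : ℕ} {A B : Matrix n n F} (h : Ann a b k A) (e : A * B = 1) (h1 : l * a ≠ 1)
    (h2 : l * b ≠ 1) : IsUnit (aeval B (X - C l)) := by
  have h3 : ∀ a : F, l * a ≠ 1 → IsCoprime (1 - C l * X) (X - C a) := fun a ha =>
    ⟨C (1 - l * a)⁻¹, C (1 - l * a)⁻¹ * C l, by
      have : C (1 - l * a)⁻¹ * (1 - C l * C a) = 1 := by
        rw [← C_mul, ← C_1, ← C_sub, ← C_mul, inv_mul_cancel₀ (sub_ne_zero.2 ha.symm)]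
      linear_combination this⟩
  obtain ⟨u, v, h4⟩ := (h3 a h1).mul_right (h3 b h2).pow_right
  have h5 := congrArg (aeval A) h4
  rw [map_add, map_mul, map_mul _ v, h, mul_zero, add_zero, map_one] at h5
  refine IsUnit.of_mul_eq_one_right (aeval A u * A) ?_
  rw [← h5, mul_assoc]
  simp [mul_sub, e, Algebra.algebraMap_eq_smul_one]

theorem Ann.sylv {a b : F} {k : ℕ} {A A' B S : Matrix n n F} (h : Ann a b k A) (h' : Ann a b k A') (e : A' * B = 1)
    (hS : A * S = S * B) (h1 : b * a ≠ 1) (h2 : b * b ≠ 1) : S * aeval B (X - C a) = 0 := by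
  have := H7.sylv hS ((X - C a) * (X - C b) ^ k)
  rw [h, zero_mul, map_mul, map_pow, ← mul_assoc] at this
  exact ((h'.unit e h1 h2).pow k).mul_left_eq_zero.1 this.symm

theorem lev_GL {σ : F[X]} (hσ : Squarefree σ) {k : ℕ} {M A : GL n F} {W W' : Matrix n n F} {z : F} (hA : A.1 = z • W)
    (h : Ty σ k W) (h1 : Ty σ k W') (h2 : Ty σ k (M.1 * W')) : ∃ a b : GL n F, M = a * A * a⁻¹ * (b * A * b⁻¹)⁻¹ := by
  obtain ⟨b, hb⟩ := h.conj hσ h1
  obtain ⟨a, ha⟩ := h.conj hσ h2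
  refine ⟨a, b, eq_mul_inv_of_mul_eq (Units.ext ?_)⟩
  simp only [Units.val_mul, hA, Matrix.mul_smul, Matrix.smul_mul, ← ha, ← hb]

theorem exists_nonscalar (hn : 2 ≤ Fintype.card n) : ∃ g : Matrix n n F, g.det = 1 ∧ ∀ c : F, g ≠ c • 1 := by
  obtain ⟨i, j, h⟩ := Fintype.exists_pair_of_one_lt_card hn
  exact ⟨transvection i j 1, det_transvection_of_ne i j h 1, fun c e => by
    simpa [transvection, h] using congrFun (congrFun e i) j⟩

/-- transpose -/
def trG (A : GL n F) : GL n F :=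
  ⟨A.1ᵀ, A⁻¹.1ᵀ, by rw [← transpose_mul, Units.inv_mul, transpose_one], by rw [← transpose_mul, Units.mul_inv, transpose_one]⟩

section sp

theorem sp_inv {M C : Matrix n n F} (h1 : Mᵀ * C = Cᵀ * M) (h2 : ∀ x, M *ᵥ x = 0 → C *ᵥ x = 0 → x = 0) :
    ∃ S, Sᵀ = S ∧ IsUnit (M + S * C) := by
  obtain ⟨_, ⟨S, hS, rfl⟩, h⟩ := (wellFounded_lt (α := Submodule F (n → F))).has_min
    {P | ∃ S, Sᵀ = S ∧ P = LinearMap.ker (M + S * C).mulVecLin} ⟨_, 0, transpose_zero, rfl⟩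
  refine ⟨S, hS, mulVec_injective_iff_isUnit.1 ((LinearMap.ker_eq_bot (f := mulVecLin (M + S * C))).1 (ker_mulVecLin_eq_bot_iff.2 fun x hx =>
    by_contra fun h0 => ?_))⟩
  obtain ⟨p, hp⟩ := exists_dot_one fun e : C *ᵥ x = 0 => h0 (h2 x (by simpa [add_mulVec, ← mulVec_mulVec, e] using hx) e)
  have h3 : ∀ y, C *ᵥ x ⬝ᵥ (M + S * C) *ᵥ y = 0 := fun y => by
    rw [dotProduct_mulVec, ← mulVec_transpose, mulVec_mulVec, transpose_add, transpose_mul, hS, add_mul, h1, mul_assoc,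
      ← mul_add, ← mulVec_mulVec, hx, mulVec_zero, zero_dotProduct]
  have h4 : ∀ y, (M + (S + vecMulVec p p) * C) *ᵥ y = (M + S * C) *ᵥ y + (p ⬝ᵥ C *ᵥ y) • p := fun y => by
    simp [add_mul, add_mulVec, ← mulVec_mulVec, vecMulVec_mulVec, add_assoc]
  refine h _ ⟨S + vecMulVec p p, by simp [hS], rfl⟩ (lt_of_le_of_ne (fun y (hy : _ *ᵥ y = 0) => ?_) fun e => ?_)
  · have := congrArg (C *ᵥ x ⬝ᵥ ·) hy
    simp only [h4, dotProduct_add, h3, dotProduct_smul, dotProduct_comm _ p, hp, dotProduct_zero, smul_eq_mul, mul_one,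
      zero_add] at this
    rwa [h4, this, zero_smul, add_zero] at hy
  · have : _ *ᵥ x = 0 := e.ge hx
    rw [h4, hx, hp, one_smul, zero_add] at this
    simp [this] at hp

theorem sp_det [Finite F] {N : Matrix n n F} (h : Nᵀ = N) (h0 : N ≠ 0) (d : F) : ∃ S, Sᵀ = S ∧ det (1 + S * N) = d := by
  by_cases h1 : ∃ p, p ⬝ᵥ N *ᵥ p ≠ 0
  · obtain ⟨p, hp⟩ := h1
    refine ⟨vecMulVec p (((d - 1) / (p ⬝ᵥ N *ᵥ p)) • p), by ext; simp [vecMulVec_apply]; ring, ?_⟩
    rw [vecMulVec_mul, det_one', ← dotProduct_mulVec, smul_dotProduct, smul_eq_mul, div_mul_cancel₀ _ hp, add_sub_cancel]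
  push Not at h1
  obtain ⟨p, hp⟩ := exists_mulVec_ne h0
  obtain ⟨r, hr⟩ := exists_dot_one hp
  have h2 : p ⬝ᵥ N *ᵥ r = 1 := by rw [dotProduct_mulVec, ← mulVec_transpose, h, dotProduct_comm, hr]
  obtain ⟨s, rfl⟩ : IsSquare d := FiniteField.isSquare_of_char_two (CharP.ringChar_of_prime_eq_zero Nat.prime_two (by
    have := h1 (p + r)
    rw [mulVec_add, add_dotProduct, dotProduct_add, dotProduct_add, h1, h1, hr, h2] at this
    linear_combination this)) d
  refine ⟨vecMulVec p ((s - 1) • r) + vecMulVec ((s - 1) • r) p, by simp [add_comm], ?_⟩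
  rw [add_mul, vecMulVec_mul, vecMulVec_mul, det_two]
  simp [← dotProduct_mulVec, h1, hr, h2, mulVec_smul]

theorem sp_ns (hn : 2 ≤ Fintype.card n) {N : Matrix n n F} (h : Nᵀ = N) (h0 : N ≠ 0) :
    ∃ S, Sᵀ = S ∧ det (1 + S * N) = 1 ∧ ∀ c : F, 1 + S * N ≠ c • 1 := by
  have hs : ∀ p r, p ⬝ᵥ N *ᵥ r = r ⬝ᵥ N *ᵥ p := fun p r => by rw [dotProduct_mulVec, ← mulVec_transpose, h, dotProduct_comm]
  by_cases h1 : ∃ p, p ⬝ᵥ N *ᵥ p ≠ 0
  · obtain ⟨p, hp⟩ := h1
    obtain ⟨r, hr, h2⟩ := exists_orth hn (N *ᵥ p)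
    rw [dotProduct_comm] at h2
    refine ⟨vecMulVec p ((r ⬝ᵥ N *ᵥ r) • p + r) + vecMulVec r p, by
      ext; simp [vecMulVec_apply]; ring, ?_, fun c e => ?_⟩
    · rw [add_mul, vecMulVec_mul, vecMulVec_mul, det_two]
      simp only [← dotProduct_mulVec, add_dotProduct, smul_dotProduct, hs p r, h2, smul_eq_mul]
      ring
    obtain ⟨y, h3, h4⟩ := exists_dot (x := p) (y := r) fun e => by
      obtain ⟨a, rfl⟩ := Submodule.mem_span_singleton.1 e
      simp_all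
    have := congrArg (fun T => y ⬝ᵥ T *ᵥ p) e
    simp [add_mulVec, ← mulVec_mulVec, vecMulVec_mulVec, smul_mulVec, h3, h4, hp] at this
  push Not at h1
  obtain ⟨p, hp⟩ := exists_mulVec_ne h0
  obtain ⟨r, hr⟩ := exists_dot_one hp
  have h2 : p ≠ 0 := fun e => hp (by simp [e])
  refine ⟨vecMulVec p p, by simp, by rw [vecMulVec_mul, det_one', ← dotProduct_mulVec, h1, add_zero],
    ne_scalar h2 (by simp [add_mulVec, ← mulVec_mulVec, vecMulVec_mulVec, h1]) fun e => h2 ?_⟩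
  simpa [add_mulVec, ← mulVec_mulVec, vecMulVec_mulVec, hs p r, hr] using congrArg (· *ᵥ r) e

theorem sp_adj [Finite F] (hn : 2 ≤ Fintype.card n) {M C : Matrix n n F} (h1 : Mᵀ * C = Cᵀ * M)
    (h2 : ∀ x, M *ᵥ x = 0 → C *ᵥ x = 0 → x = 0) (h0 : C ≠ 0) :
    ∃ S, Sᵀ = S ∧ det (M + S * C) = 1 ∧ ∀ c : F, M + S * C ≠ c • 1 := by
  have h3 : ∀ S, Sᵀ = S → IsUnit (M + S * C).det → (C * (M + S * C)⁻¹)ᵀ = C * (M + S * C)⁻¹ ∧ C * (M + S * C)⁻¹ ≠ 0 ∧
      ∀ T, M + (S + T) * C = (1 + T * (C * (M + S * C)⁻¹)) * (M + S * C) := fun S hS h => by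
    refine ⟨?_, fun e => h0 (by rw [← nonsing_inv_mul_cancel_right _ C h, e, zero_mul]), fun T => by
      rw [add_mul 1, one_mul, mul_assoc, nonsing_inv_mul_cancel_right _ _ h, add_mul, add_assoc]⟩
    have h4 : (M + S * C)ᵀ * C = Cᵀ * (M + S * C) := by rw [transpose_add, transpose_mul, hS, add_mul, h1, mul_assoc, mul_add]
    rw [transpose_mul, transpose_nonsing_inv, ← mul_nonsing_inv_cancel_right _ Cᵀ h, ← h4, ← mul_assoc,
      nonsing_inv_mul_cancel_left _ _ (by rwa [det_transpose])]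
  obtain ⟨S, a1, a2⟩ := sp_inv h1 h2
  rw [isUnit_iff_isUnit_det] at a2
  obtain ⟨b1, b2, b3⟩ := h3 S a1 a2
  obtain ⟨T, c1, c2⟩ := sp_det b1 b2 (M + S * C).det⁻¹
  have c3 : (S + T)ᵀ = S + T := by rw [transpose_add, a1, c1]
  have c4 : det (M + (S + T) * C) = 1 := by rw [b3, det_mul, c2, inv_mul_cancel₀ a2.ne_zero]
  by_cases h : ∀ c : F, M + (S + T) * C ≠ c • 1
  · exact ⟨_, c3, c4, h⟩
  obtain ⟨c, hc⟩ := not_forall_not.1 h
  obtain ⟨d1, d2, d3⟩ := h3 _ c3 (c4 ▸ isUnit_one)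
  obtain ⟨R, e1, e2, e3⟩ := sp_ns hn d1 d2
  refine ⟨S + T + R, by rw [transpose_add, c3, e1], by rw [d3, det_mul, e2, c4, mul_one], fun s e => e3 (s / c) ?_⟩
  have : c ≠ 0 := by
    rintro rfl
    have : Nonempty n := Fintype.card_pos_iff.1 (by omega)
    simp [hc] at c4
  rw [d3] at e
  rw [div_eq_inv_mul, mul_smul, ← e]
  nth_rewrite 3 [hc]
  simp [this]

local notation "SP" => symplecticGroup n F

/-- The Levi subgroup of the Siegel parabolic subgroup. -/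
def lS : GL n F →* SP := MonoidHom.mk' (fun A => ⟨fromBlocks A.1 0 0 A⁻¹.1ᵀ, SymplecticGroup.fromBlocks_mem_iff.2
  ⟨by simp, by simp, by rw [transpose_zero, zero_mul, sub_zero, ← transpose_mul, Units.inv_mul, transpose_one]⟩⟩)
  fun A B => Subtype.ext (by simp [fromBlocks_multiply])

theorem lS_val (A : GL n F) : (lS A).1 = fromBlocks A.1 0 0 A⁻¹.1ᵀ := rfl

theorem val_inv_mul (a : SP) : a⁻¹.1 * a.1 = 1 := congrArg Subtype.val (inv_mul_cancel a)

/-- pointwise stabilisers -/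
def Fx (P : Matrix (n ⊕ n) (n ⊕ n) F) : Subgroup SP where
  carrier := {k | k.1 * P = P}
  mul_mem' {a b} (ha : _ = _) (hb : _ = _) := by
    change a.1 * b.1 * P = P
    rw [mul_assoc, hb, ha]
  one_mem' := one_mul P
  inv_mem' {a} (ha : _ = _) := by
    change a⁻¹.1 * P = P
    conv_lhs => rw [← ha, ← mul_assoc, val_inv_mul, one_mul]

theorem lS_conj {P : Matrix (n ⊕ n) (n ⊕ n) F} (h : P = fromBlocks 1 0 0 0 ∨ P = fromBlocks 0 0 0 1) (A : GL n F) :
    ∀ k ∈ Fx P, (lS A)⁻¹ * k * lS A ∈ Fx P := fun k (hk : _ = _) => by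
  have : (lS A).1 * P = P * (lS A).1 := by rcases h with rfl | rfl <;> simp [lS_val, fromBlocks_multiply]
  change (lS A)⁻¹.1 * k.1 * (lS A).1 * P = P
  rw [mul_assoc, this, mul_assoc, ← mul_assoc k.1, hk, ← this, ← mul_assoc, val_inv_mul, one_mul]

theorem exists_blocks (g : SP) : ∃ M B C D, g.1 = fromBlocks M B C D ∧ Mᵀ * C = Cᵀ * M ∧ Bᵀ * D = Dᵀ * B ∧
    Mᵀ * D - Cᵀ * B = 1 :=
  ⟨_, _, _, _, (fromBlocks_toBlocks g.1).symm, SymplecticGroup.fromBlocks_mem_iff.1 ((fromBlocks_toBlocks g.1).symm ▸ g.2)⟩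

theorem conj_val {y y' : SP} (h : y.1 * y'.1 = 1) (g : SP) : (y * g * y⁻¹).1 = y.1 * g.1 * y'.1 := by
  rw [inv_eq_of_mul_eq_one_right (show y * y' = 1 from Subtype.ext h)]; rfl

/-- upper unipotent -/
def uS (S : Matrix n n F) (h : Sᵀ = S) : SP := ⟨fromBlocks 1 S 0 1, SymplecticGroup.fromBlocks_mem_iff.2 (by simp [h])⟩

/-- lower unipotent -/
def vS (S : Matrix n n F) (h : Sᵀ = S) : SP := ⟨fromBlocks 1 0 S 1, SymplecticGroup.fromBlocks_mem_iff.2 (by simp [h])⟩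

theorem J_conj (g : SP) {M B C D : Matrix n n F} (h : g.1 = fromBlocks M B C D) :
    (SymplecticGroup.symJ n F * g * (SymplecticGroup.symJ n F)⁻¹).1 = fromBlocks D (-C) (-B) M := by
  rw [conj_val (y' := ⟨_, SymplecticGroup.neg_mem (SymplecticGroup.J_mem n F)⟩) (by simp [J_squared]), h]
  simp [J, fromBlocks_multiply, fromBlocks_neg]

theorem sp_central {g : SP} (h : ∀ y, (y * g * y⁻¹).1.toBlocks₂₁ = 0) : g ∈ Subgroup.center SP := by
  obtain ⟨M, B, C, D, e, -⟩ := exists_blocks g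
  obtain rfl : C = 0 := by simpa [e] using h 1
  obtain rfl : B = 0 := by simpa [J_conj g e] using h (SymplecticGroup.symJ n F)
  have h1 : ∀ S, Sᵀ = S → S * M = D * S := fun S hS => by
    have := h (vS S hS)
    rw [conj_val (y' := vS (-S) (by simp [hS])) (by simp [vS, fromBlocks_multiply]), e] at this
    simpa [vS, fromBlocks_multiply, add_neg_eq_zero] using this
  obtain rfl : M = D := by simpa using h1 1 transpose_one
  obtain ⟨c, rfl⟩ := scalar_of (M := M) fun x y e => by_contra fun h2 => by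
    obtain ⟨p, hp⟩ := exists_dot_one (show x ≠ 0 by rintro rfl; simp at h2)
    have := congrArg (fun T => y ⬝ᵥ T *ᵥ p) (h1 (vecMulVec x x) (by simp))
    simp [← mulVec_mulVec, vecMulVec_mulVec, e, dotProduct_comm x p, hp] at this
    exact h2 this.symm
  refine Subgroup.mem_center_iff.2 fun y => Subtype.ext ?_
  change y.1 * g.1 = g.1 * y.1
  rw [e, show fromBlocks (c • 1) 0 0 (c • 1) = c • (1 : Matrix (n ⊕ n) (n ⊕ n) F) by
    rw [← fromBlocks_one, fromBlocks_smul, smul_zero]]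
  simp

theorem thm_psp [Fintype F] (hF : 9 ≤ Fintype.card F) (hn : 2 ≤ Fintype.card n) : Thm (SP ⧸ Subgroup.center SP) := by
  obtain ⟨k, hk⟩ := Nat.exists_eq_add_of_le' (one_le_two.trans hn)
  obtain ⟨w, hw⟩ := exists_gen hF
  have h1 : (w : F) * w ≠ 1 := fun e => hw 2 (by norm_num) (by norm_num) (Units.ext (by rw [zpow_two]; exact e))
  have h4 : Four F := four_of_card (by omega)
  obtain ⟨g0, a1, a2⟩ := exists_nonscalar (F := F) hn
  obtain ⟨W, hW, -⟩ := lev_unip h4 hk a1 a2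
  let A : GL n F := GeneralLinearGroup.mkOfDetNeZero ((w : F) • W) (by simp [hW.det (r := 0) hk])
  have hA : A.1 = (w : F) • W := rfl
  have h2 : ∀ W : Matrix n n F, Ty 1 (k + 1) W → Ann (w : F) w k ((w : F) • W) := fun W h => by
    simpa using Ty.ann (β := 1) (k := k) ⟨by rw [h.1, one_mul, pow_succ'], h.2⟩ (w : F)
  have h3 : ∀ A A' B S : Matrix n n F, Ann (w : F) w k A → Ann (w : F) w k A' → A' * B = 1 → A * S = S * B → S = 0 :=
    fun A A' B S a b c d => (b.unit c h1 h1).mul_left_eq_zero.1 (a.sylv b c d h1 h1)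
  have h5 := h2 _ hW
  have h6 := h2 _ hW.transpose
  rw [← transpose_smul] at h6
  rw [← hA] at h5 h6
  refine thm_quot (c := lS A) ?_ fun g hg => ?_
  · obtain ⟨P, hP⟩ := hW.conj squarefree_one hW.transpose
    refine (lS.map_isConj (isConj_iff.2 ⟨P, (Units.ext ?_ : _ = trG A)⟩)).trans (isConj_iff.2
      ⟨SymplecticGroup.symJ n F, Subtype.ext ?_⟩)
    · simp [trG, hA, hP]
    · rw [J_conj _ (lS_val _), ← map_inv, lS_val]
      simp [trG, ← transpose_nonsing_inv]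
  obtain ⟨y, hy⟩ := not_forall.1 (mt sp_central hg)
  obtain ⟨M, B, C, D, e, b1, -, b2⟩ := exists_blocks (y * g * y⁻¹)
  obtain ⟨S, c1, c2, c3⟩ := sp_adj hn b1 (fun x a b => by
    have := congrArg (x ᵥ* ·) b2
    simpa [vecMul_sub, ← vecMul_vecMul, vecMul_transpose, a, b, eq_comm] using this) (by simpa [e] using hy)
  refine CI.of_conj (y := y) (CI.of_conj (y := uS S c1) ?_)
  obtain ⟨M', B', C', D', e', b3, -⟩ := exists_blocks (uS S c1 * (y * g * y⁻¹) * (uS S c1)⁻¹)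
  obtain rfl : M + S * C = M' := by
    rw [conj_val (y' := uS (-S) (by simp [c1])) (by simp [uS, fromBlocks_multiply]), e] at e'
    simp only [uS, fromBlocks_multiply, fromBlocks_inj] at e'
    simpa using e'.1
  generalize uS S c1 * (y * g * y⁻¹) * (uS S c1)⁻¹ = g' at e'
  generalize M + S * C = M' at *
  have c4 : IsUnit M'.det := c2 ▸ isUnit_one
  let T : GL n F := GeneralLinearGroup.mkOfDetNeZero M' c4.ne_zero
  obtain ⟨W', d1, d2⟩ := lev_unip h4 hk c2 c3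
  obtain ⟨a, b, d3⟩ := lev_GL squarefree_one (M := T) hA hW d1 d2
  have d4 : (C' * M'⁻¹)ᵀ = C' * M'⁻¹ := by
    rw [transpose_mul, transpose_nonsing_inv, ← mul_nonsing_inv_cancel_right _ C'ᵀ c4, ← b3, ← mul_assoc,
      nonsing_inv_mul_cancel_left _ _ (by rwa [det_transpose])]
  have d5 : (vS _ d4 * lS T)⁻¹ * g' ∈ Fx (fromBlocks 1 0 0 0) := by
    have : g'.1 * fromBlocks 1 0 0 0 = (vS _ d4 * lS T).1 * (fromBlocks 1 0 0 0 : Matrix (n ⊕ n) (n ⊕ n) F) := by
      simp [e', vS, lS_val, fromBlocks_multiply, T, nonsing_inv_mul_cancel_right _ _ c4]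
    change (vS _ d4 * lS T)⁻¹.1 * g'.1 * fromBlocks 1 0 0 0 = fromBlocks 1 0 0 0
    rw [mul_assoc, this, ← mul_assoc, val_inv_mul, one_mul]
  have := Finite.of_injective (fun g : SP => g.1) Subtype.val_injective
  convert ci_of_fpf (c := lS A) (by simpa using lS_conj (.inr rfl) A⁻¹) (by simpa using lS_conj (.inl rfl) A⁻¹)
    (fun u hu e => ?_) (fun u hu e => ?_) (lS_conj (.inr rfl) a (vS _ d4)
    (show _ = _ by simp [vS, fromBlocks_multiply])) (lS_conj (.inl rfl) b _ d5) using 1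
  · simp only [← map_mul, ← map_inv, ← d3, mul_inv_cancel_left]
  all_goals
    obtain ⟨M, B, C, D, e1, -, -, e2⟩ := exists_blocks u
    change u.1 * _ = _ at hu
    have e3 : u.1 * (lS A).1 = (lS A).1 * u.1 := congrArg Subtype.val e
    simp only [e1, fromBlocks_multiply, mul_one, mul_zero, zero_add, add_zero, fromBlocks_inj, true_and, and_true] at hu
    obtain ⟨rfl, rfl⟩ := hu
    simp only [e1, lS_val, fromBlocks_multiply, fromBlocks_inj, mul_zero, zero_mul, add_zero, zero_add, mul_one, one_mul,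
      transpose_one, transpose_zero, sub_zero, transpose_eq_one] at e2 e3
  · obtain rfl := transpose_eq_zero.1 (h3 _ _ _ Cᵀ h6 h5 A.mul_inv (by simpa using congrArg transpose e3.2.2.1))
    exact Subtype.ext (by rw [e1, e2, fromBlocks_one]; rfl)
  · obtain rfl := h3 _ _ _ B h5 h6 (trG A).mul_inv e3.2.1.symm
    exact Subtype.ext (by rw [e1, e2, fromBlocks_one]; rfl)

end sp

end Cfsg.Agent.H7
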