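import Cfsg.Agent.H7.Th4
import Cfsg.Agent.H4.Ore1
import Cfsg.Agent.H6.Spinor

/-! Squares of conjugacy classes: the split orthogonal groups, part one. -/

set_option autoImplicit false
set_option linter.unusedSectionVars false

namespace Cfsg.Agent.H7

open Matrix Polynomial Module Cfsg.Agent.H4 Cfsg.Agent.H6

variable {F : Type*} [Field F] {n : Type*} [Fintype n] [DecidableEq n] {T : Type*} [AddCommGroup T] [Module F T]

theorem Ty.eig {β : F} (hβ : β ≠ 1) {k : ℕ} {W : Matrix n n F} (h : Ty (X - C β) k W) : ∃ e f, W *ᵥ e = β • e ∧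
    Wᵀ *ᵥ f = β • f ∧ e ⬝ᵥ f = 1 ∧ ∀ v, W *ᵥ v = β • v → ∃ c : F, c • e = v := by
  obtain ⟨e, h1, h2⟩ := ((End.hasEigenvalue_iff_isRoot_charpoly (toLin' W) β).2 (by simp [h.1])).exists_hasEigenvector
  have h3 := LinearMap.finrank_eigenspace_le (toLin' W) β
  rw [h.1, mul_comm, ← pow_one (X - C β), rootMultiplicity_mul_X_sub_C_pow (pow_ne_zero _ (X_sub_C_ne_zero _)),
    rootMultiplicity_eq_zero (by simp [sub_eq_zero, hβ])] at h3
  have h4 : W *ᵥ e = β • e := End.mem_eigenspace_iff.1 h1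
  obtain ⟨y, hy⟩ := exists_dot_one h2
  have h5 : ∀ j, ((W - 1) ^ j) *ᵥ e = (β - 1) ^ j • e := fun j => by
    induction j with
    | zero => simp
    | succ j ih => rw [pow_succ', ← mulVec_mulVec, ih, mulVec_smul, sub_mulVec, h4, one_mulVec, pow_succ, mul_smul, sub_smul,
        one_smul]
  have h6 : (W - 1) ^ k * W = β • (W - 1) ^ k := by
    have := h.ann 1
    simp only [Ann, one_mul, one_smul, mul_comm (X - C β), map_mul, map_pow, map_sub, aeval_X, aeval_C,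
      Algebra.algebraMap_eq_smul_one, mul_sub, Matrix.mul_smul, mul_one] at this
    exact sub_eq_zero.1 this
  refine ⟨e, ((β - 1) ^ k)⁻¹ • ((W - 1) ^ k)ᵀ *ᵥ y, h4, ?_, ?_, fun v hv => ?_⟩
  · rw [mulVec_smul, mulVec_mulVec, ← transpose_mul, h6, transpose_smul, smul_mulVec, smul_comm]
  · rw [dotProduct_smul, dotProduct_mulVec, vecMul_transpose, h5, smul_dotProduct, dotProduct_comm, hy, smul_eq_mul,
      smul_eq_mul, mul_one, inv_mul_cancel₀ (pow_ne_zero _ (sub_ne_zero.2 hβ))]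
  · obtain ⟨c, hc⟩ := (finrank_eq_one_iff_of_nonzero' (⟨e, h1⟩ : End.eigenspace (toLin' W) β) (by simpa using h2)).1
      (le_antisymm h3 (finrank_pos_iff_exists_ne_zero.2 ⟨⟨e, h1⟩, by simpa using h2⟩)) ⟨v, End.mem_eigenspace_iff.2 hv⟩
    exact ⟨c, congrArg Subtype.val hc⟩

variable (n) in
/-- The split quadratic form with an anisotropic part. -/
def Qh (q : QuadraticForm F T) : QuadraticForm F ((n → F) × (n → F) × T) :=
  LinearMap.BilinMap.toQuadraticMap ((dotProductBilin F F).compl₁₂ (LinearMap.fst F _ _)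
    (LinearMap.fst F _ _ ∘ₗ LinearMap.snd F _ _)) + q.comp (LinearMap.snd F _ _ ∘ₗ LinearMap.snd F _ _)

variable {q : QuadraticForm F T}

theorem Qh_apply (v : (n → F) × (n → F) × T) : Qh n q v = v.1 ⬝ᵥ v.2.1 + q v.2.2 := rfl

theorem pb_Qh (u v : (n → F) × (n → F) × T) :
    pb (Qh n q) u v = u.1 ⬝ᵥ v.2.1 + v.1 ⬝ᵥ u.2.1 + pb q u.2.2 v.2.2 := by
  simp only [pb_def, Qh_apply, Prod.fst_add, Prod.snd_add, add_dotProduct, dotProduct_add]; ring

/-- The anisotropic part has dimension at most one. -/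
def Small (q : QuadraticForm F T) : Prop := (∀ t : T, t = 0) ∨ ∃ t0, q t0 = 1 ∧ (2 : F) ≠ 0 ∧ ∀ t, ∃ s : F, t = s • t0

theorem Small.aniso (h : Small q) {t : T} (e : q t = 0) : t = 0 := by
  obtain h | ⟨t0, h1, -, h⟩ := h
  · exact h t
  obtain ⟨s, rfl⟩ := h t
  rw [Q_smul, h1, mul_one, pow_eq_zero_iff two_ne_zero] at e
  rw [e, zero_smul]

theorem Small.pb_ne (h : Small q) {t : T} (e : t ≠ 0) : pb q t t ≠ 0 := by
  rw [pb_self]
  exact mul_ne_zero (h.elim (fun h => (e (h t)).elim) fun h => h.choose_spec.2.1) (mt h.aniso e)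

theorem Small.nondeg (h : Small q) : (pb (Qh n q)).Nondegenerate := by
  have : ∀ u, (∀ v, pb (Qh n q) u v = 0) → u = 0 := fun u hu => Prod.ext
    (dotProduct_eq_zero _ fun y => by simpa [pb_Qh] using hu (0, y, 0)) (Prod.ext
    (dotProduct_eq_zero _ fun y => by simpa [pb_Qh, dotProduct_comm] using hu (y, 0, 0))
    (by_contra fun e => h.pb_ne e (by simpa [pb_Qh] using hu (0, 0, u.2.2))))
  exact ⟨this, fun u hu => this u fun v => (pb_comm _ _ _).trans (hu v)⟩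

variable [FiniteDimensional F T] (h : Small q)

/-- The Levi subgroup. -/
noncomputable def lO : GL n F →* OG (Qh n q) := MonoidHom.mk' (fun A => mkOG h.nondeg
  ((toLin' A.1).prodMap ((toLin' A⁻¹.1ᵀ).prodMap LinearMap.id)) fun v => by
    simp only [Qh_apply, LinearMap.prodMap_apply, Prod.map, toLin'_apply, LinearMap.id_apply]
    rw [dotProduct_mulVec, vecMul_transpose, mulVec_mulVec, Units.inv_mul, one_mulVec])
  fun A B => OG_ext fun v => by simp [mkOG_apply]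

theorem lO_apply (A : GL n F) (v : (n → F) × (n → F) × T) : (lO h A).1 v = (A.1 *ᵥ v.1, A⁻¹.1ᵀ *ᵥ v.2.1, v.2.2) := rfl

/-- The swap. -/
noncomputable def jO : OG (Qh n q) := mkOG h.nondeg ((LinearMap.fst F _ _ ∘ₗ LinearMap.snd F _ _).prod
  ((LinearMap.fst F _ _).prod (LinearMap.snd F _ _ ∘ₗ LinearMap.snd F _ _))) fun v => by simp [Qh_apply, dotProduct_comm]

theorem jO_apply (v : (n → F) × (n → F) × T) : (jO h).1 v = (v.2.1, v.1, v.2.2) := rfl

theorem jO_inv : (jO h : OG (Qh n q))⁻¹ = jO h := inv_eq_of_mul_eq_one_right (OG_ext fun _ => rfl)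

theorem jO_lO (A : GL n F) : jO h * lO h (trG A) * (jO h)⁻¹ = (lO h A)⁻¹ := by
  rw [jO_inv, ← map_inv]; exact OG_ext fun _ => rfl

variable (q) in
/-- pointwise stabilisers -/
def Fo (i : (n → F) → (n → F) × (n → F) × T) : Subgroup (OG (Qh n q)) where
  carrier := {k | ∀ x, k.1 (i x) = i x}
  mul_mem' ha hb x := by rw [OG_mul_apply, hb, ha]
  one_mem' _ := rfl
  inv_mem' {a} ha x := by conv_lhs => rw [← ha x, OG_inv_apply]

theorem lO_conj (A : GL n F) : ∀ k ∈ Fo q (·, 0, 0), (lO h A)⁻¹ * k * lO h A ∈ Fo q (·, 0, 0) := fun k hk x => by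
  have := hk (A.1 *ᵥ x)
  simp only [← map_inv, OG_mul_apply, lO_apply, mulVec_zero, this, mulVec_mulVec, Units.inv_mul, one_mulVec]

theorem jO_conj {k : OG (Qh n q)} (hk : k ∈ Fo q (0, ·, 0)) : jO h * k * (jO h)⁻¹ ∈ Fo q (·, 0, 0) := fun x => by
  have := hk x
  simp only [jO_inv, OG_mul_apply, jO_apply, this]

theorem lO_conj' (A : GL n F) : ∀ k ∈ Fo q (0, ·, 0), (lO h A)⁻¹ * k * lO h A ∈ Fo q (0, ·, 0) := fun k hk x => by
  have := hk (A⁻¹.1ᵀ *ᵥ x)
  simp only [← map_inv, OG_mul_apply, lO_apply, mulVec_zero, this, mulVec_mulVec, inv_inv, ← transpose_mul, Units.inv_mul,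
    transpose_one, one_mulVec]

omit [FiniteDimensional F T] in
theorem fix_snd {k : OG (Qh n q)} (hk : k ∈ Fo q (·, 0, 0)) (v : (n → F) × (n → F) × T) : (k.1 v).2.1 = v.2.1 :=
  dotProduct_eq _ _ fun x => by
    have := OG_pb k (x, 0, 0) v
    rw [hk x] at this
    simpa [pb_Qh, dotProduct_comm] using this

include h in
theorem fix_both {k : OG (Qh n q)} (h1 : k ∈ Fo q (·, 0, 0)) (h2 : k ∈ Fo q (0, ·, 0)) :
    k = 1 ∨ ∃ t, q t ≠ 0 ∧ k = refl _ (0, 0, t) := by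
  have h3 : ∀ t, k.1 (0, 0, t) = (0, 0, (k.1 (0, 0, t)).2.2) := fun t =>
    Prod.ext (fix_snd (jO_conj h h2) (0, 0, t) ▸ by rw [jO_inv]; rfl) (Prod.ext (fix_snd h1 _) rfl)
  have h4 : ∀ l : OG (Qh n q), l ∈ Fo q (·, 0, 0) → l ∈ Fo q (0, ·, 0) → (∀ t, k.1 (0, 0, t) = l.1 (0, 0, t)) → k = l :=
    fun l a b c => OG_ext fun v => by
      rw [show v = (v.1, 0, 0) + (0, v.2.1, 0) + (0, 0, v.2.2) by simp, map_add, map_add, map_add, map_add, h1, h2, a, b, c]
  obtain h | ⟨t0, a, -, b⟩ := h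
  · exact .inl (h4 1 (one_mem _) (one_mem _) fun t => by rw [h t]; exact map_zero k.1)
  obtain ⟨s, hs⟩ := b (k.1 (0, 0, t0)).2.2
  have h5 := OG_Q k (0, 0, t0)
  have h6 : ∀ c : F, k.1 (0, 0, c • t0) = (0, 0, (c * s) • t0) := fun c => by
    rw [show ((0, 0, c • t0) : (n → F) × (n → F) × T) = c • (0, 0, t0) by simp, map_smul, h3, hs]
    simp [mul_smul]
  rw [h3, hs, Qh_apply, Qh_apply, Q_smul, a, add_right_inj, mul_one, sq_eq_one_iff] at h5
  refine h5.imp (fun e => h4 1 (one_mem _) (one_mem _) fun t => ?_) fun e => ⟨t0, a ▸ one_ne_zero,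
    h4 _ (fun x => refl_of_orth (by simp [pb_Qh])) (fun x => refl_of_orth (by simp [pb_Qh])) fun t => ?_⟩
  all_goals obtain ⟨c, rfl⟩ := b t
  · simp [h6, e]
  · simp [h6, e, refl_apply, pb_Qh, Qh_apply, a, pb_self, ← sub_smul, ← neg_smul]
    congr 1; ring

theorem fpfO {β z : F} {k : ℕ} {W : Matrix n n F} (hW : Ty (X - C β) k W) {A : GL n F} (hA : A.1 = z • W) (hβ : β ≠ 1)
    (h1 : z * (z * β) ≠ 1) (h2 : z * z ≠ 1) (h3 : (∀ t : T, t = 0) ∨ z * β ≠ 1 ∧ z ≠ 1) {u : OG (Qh n q)}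
    (hu : u ∈ Fo q (·, 0, 0)) (hc : Commute u (lO h A)) : u = 1 ∨ ∃ t, q t ≠ 0 ∧ u = refl _ (0, 0, t) := by
  refine fix_both h hu fun y => ?_
  have hz : z ≠ 0 := by
    rintro rfl
    obtain ⟨e, f, -, -, h4, -⟩ := hW.eig hβ
    have := congrArg (e ⬝ᵥ · *ᵥ f) A.mul_inv
    simp [hA, h4] at this
  have a1 := hW.ann z
  have a2 := hW.transpose.ann z
  rw [← transpose_smul] at a2
  rw [← hA] at a1 a2
  have c1 : ∀ y, u.1 (0, A⁻¹.1ᵀ *ᵥ y, 0) = (lO h A).1 (u.1 (0, y, 0)) := fun y => by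
    simpa [lO_apply] using congrArg (fun g : OG (Qh n q) => g.1 (0, y, 0)) hc
  have c2 : ∀ y, (u.1 (0, y, 0)).2.2 = 0 := fun y => by
    obtain h3 | h3 := h3
    · exact h3 _
    obtain ⟨x, rfl⟩ := mulVec_surjective_iff_isUnit.2 (a2.unit (l := 1) (trG A).mul_inv (by simpa using h3.1)
      (by simpa using h3.2)) y
    rw [show ((0, aeval (trG A)⁻¹.1 (X - C 1 : F[X]) *ᵥ x, 0) : (n → F) × (n → F) × T) = (0, A⁻¹.1ᵀ *ᵥ x, 0) - (0, x, 0) by
      simp [sub_mulVec, trG], map_sub, c1]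
    simp [lO_apply]
  obtain ⟨S, hS⟩ := toLin'.surjective (LinearMap.fst F _ _ ∘ₗ u.1.toLinearMap ∘ₗ LinearMap.inr F _ _ ∘ₗ LinearMap.inl F _ _)
  replace hS : ∀ y, S *ᵥ y = (u.1 (0, y, 0)).1 := fun y => LinearMap.congr_fun hS y
  have c3 : A.1 * S = S * A⁻¹.1ᵀ := ext_of_mulVec_single fun i => by
    rw [← mulVec_mulVec, ← mulVec_mulVec, hS, hS, c1, lO_apply]
  have c4 := a1.sylv a2 (trG A).mul_inv c3 h1 h2
  obtain ⟨e, f, -, -, c5, c6⟩ := hW.eig hβ
  have c7 : ∀ y, ∃ c : F, c • e = S *ᵥ y := fun y => c6 _ (smul_right_injective _ hz (by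
    have : A.1 * S = (z * β) • S := by
      rw [c3, ← sub_eq_zero]
      simpa [mul_sub, Algebra.algebraMap_eq_smul_one, trG, smul_smul, mul_comm] using c4
    simpa only [← mulVec_mulVec, hA, smul_mulVec, mul_smul] using congrArg (· *ᵥ y) this))
  have c8 : ∀ y y', S *ᵥ y ⬝ᵥ y' + S *ᵥ y' ⬝ᵥ y = 0 := fun y y' => by
    simpa [pb_Qh, hS, fix_snd hu, c2] using OG_pb u (0, y, 0) (0, y', 0)
  have c9 : S *ᵥ f = 0 := by
    obtain ⟨c, hc⟩ := c7 f
    have := OG_Q u (0, f, 0)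
    simp only [Qh_apply, ← hS, fix_snd hu, c2, ← hc, smul_dotProduct, c5, zero_dotProduct, add_left_inj, smul_eq_mul,
      mul_one] at this
    rw [← hc, this, zero_smul]
  obtain ⟨c, hc⟩ := c7 y
  have := c8 y f
  rw [c9, ← hc, smul_dotProduct, c5, zero_dotProduct, add_zero, smul_eq_mul, mul_one] at this
  exact Prod.ext (by rw [← hS, ← hc, this, zero_smul]) (Prod.ext (fix_snd hu _) (c2 y))

end Cfsg.Agent.H7
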