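import Cfsg.Agent.H7.Th5

/-! Squares of conjugacy classes: the split orthogonal groups, part two. -/

set_option autoImplicit false
set_option linter.unusedSectionVars false

namespace Cfsg.Agent.H7

open Matrix Polynomial Module Cfsg.Agent.H4 Cfsg.Agent.H6

theorem comm_of_fpf {G : Type*} [Group G] {c : G} {U : Subgroup G} [Finite U] (hn : ∀ u ∈ U, c * u * c⁻¹ ∈ U)
    (hf : ∀ u ∈ U, Commute u c → u = 1) {u : G} (hu : u ∈ U) : u ∈ commutator G := by
  obtain ⟨k, hk⟩ := exists_conj_of_fpf hn hf hu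
  rw [← mul_inv_eq_of_eq_mul hk]
  exact Subgroup.commutator_mem_commutator (Subgroup.mem_top k) (Subgroup.mem_top c)

variable {F : Type*} [Field F] {n : Type*} [Fintype n] [DecidableEq n] {T : Type*} [AddCommGroup T] [Module F T]
  {q : QuadraticForm F T}

theorem witt_map {V W : Type*} [AddCommGroup V] [Module F V] [AddCommGroup W] [Module F W] [FiniteDimensional F V]
    {Q : QuadraticForm F V} (hB : (pb Q).Nondegenerate) {i f : W →ₗ[F] V} (hi : Function.Injective i)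
    (hf : Function.Injective f) (hQ : ∀ w, Q (f w) = Q (i w)) : ∃ g : OG Q, ∀ w, g.1 (i w) = f w := by
  obtain ⟨g, hg⟩ := witt hB (LinearMap.range i) (f ∘ₗ (LinearEquiv.ofInjective i hi).symm.toLinearMap)
    (hf.comp (LinearEquiv.injective _)) fun u => by
      obtain ⟨w, rfl⟩ := (LinearEquiv.ofInjective i hi).surjective u
      simpa using hQ w
  exact ⟨g, fun w => by simpa using hg (LinearEquiv.ofInjective i hi w)⟩

/-- The upper left block. -/
noncomputable def mM (g : OG (Qh n q)) : Matrix n n F :=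
  LinearMap.toMatrix' (LinearMap.fst F _ _ ∘ₗ g.1.toLinearMap ∘ₗ LinearMap.inl F _ _)

theorem mM_mulVec (g : OG (Qh n q)) (x : n → F) : mM g *ᵥ x = (g.1 (x, 0, 0)).1 := by
  rw [mM, ← toLin'_apply, toLin'_toMatrix']; rfl

section up

variable (q) in
/-- The effect of an Eichler transformation on the upper left block. -/
def Up (G : (n → F) →ₗ[F] (n → F) × (n → F) × T) (M : Matrix n n F) : Prop := ∃ p r t, ∀ x, M *ᵥ x = (G x).1 +
  (r ⬝ᵥ (G x).2.1 + pb q (G x).2.2 t - q t * p ⬝ᵥ (G x).2.1) • p - (p ⬝ᵥ (G x).2.1) • r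

variable {G : (n → F) →ₗ[F] (n → F) × (n → F) × T} (h1 : ∀ x, (G x).1 = x) (h2 : ∀ x, Qh n q (G x) = 0)
include h1

theorem exists_up (p r : n → F) (t : T) : ∃ M : Matrix n n F, (∀ x, M *ᵥ x = (G x).1 +
    (r ⬝ᵥ (G x).2.1 + pb q (G x).2.2 t - q t * p ⬝ᵥ (G x).2.1) • p - (p ⬝ᵥ (G x).2.1) • r) ∧ M.det =
    (1 + (r ⬝ᵥ (G p).2.1 + pb q (G p).2.2 t - q t * p ⬝ᵥ (G p).2.1)) * (1 - p ⬝ᵥ (G r).2.1) +
      (r ⬝ᵥ (G r).2.1 + pb q (G r).2.2 t - q t * p ⬝ᵥ (G r).2.1) * p ⬝ᵥ (G p).2.1 := by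
  obtain ⟨a, ha⟩ := (dotProductEquiv F n).surjective ((dotProductEquiv F n (r - q t • p) ∘ₗ LinearMap.fst F _ _ +
    (pb q).flip t ∘ₗ LinearMap.snd F _ _) ∘ₗ LinearMap.snd F _ _ ∘ₗ G)
  obtain ⟨c, hc⟩ := (dotProductEquiv F n).surjective (-dotProductEquiv F n p ∘ₗ LinearMap.fst F _ _ ∘ₗ LinearMap.snd F _ _ ∘ₗ G)
  replace ha : ∀ x, a ⬝ᵥ x = r ⬝ᵥ (G x).2.1 + pb q (G x).2.2 t - q t * p ⬝ᵥ (G x).2.1 := fun x =>
    (LinearMap.congr_fun ha x).trans (by simp; ring)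
  replace hc : ∀ x, c ⬝ᵥ x = -p ⬝ᵥ (G x).2.1 := fun x => (LinearMap.congr_fun hc x).trans (by simp)
  exact ⟨1 + (vecMulVec p a + vecMulVec r c), fun x => by
    rw [add_mulVec, add_mulVec, vecMulVec_mulVec, vecMulVec_mulVec, op_smul_eq_smul, op_smul_eq_smul, ha, hc, h1,
      one_mulVec, neg_dotProduct, neg_smul]; abel, by rw [det_two, ha, ha, hc, hc, neg_dotProduct, neg_dotProduct]; ring⟩

include h2

theorem G_self (x : n → F) : x ⬝ᵥ (G x).2.1 = -q (G x).2.2 := by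
  have := h2 x
  rw [Qh_apply, h1] at this
  linear_combination this

theorem G_pol (x y : n → F) : x ⬝ᵥ (G y).2.1 = -y ⬝ᵥ (G x).2.1 - pb q (G x).2.2 (G y).2.2 := by
  have := pb_def (Qh n q) (G x) (G y)
  rw [← map_add, h2, h2, h2, pb_Qh, h1, h1] at this
  rw [neg_dotProduct]
  linear_combination this

theorem o_det (h : Small q) (h0 : ∃ x, (G x).2 ≠ 0) (l : F) : ∃ M, Up q G M ∧ M.det = l * l := by
  by_cases e : ∃ p, (G p).2.2 ≠ 0
  · obtain ⟨p, hp⟩ := e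
    obtain ⟨M, a, b⟩ := exists_up (q := q) h1 p 0 (((l - 1) / q (G p).2.2) • (G p).2.2)
    refine ⟨M, ⟨_, _, _, a⟩, ?_⟩
    have := mt h.aniso hp
    simp only [b, G_self h1 h2, Q_smul, map_smul, pb_self, map_zero, Prod.snd_zero, Prod.fst_zero, smul_eq_mul]
    simp; field_simp; ring
  push Not at e
  obtain ⟨p, hp⟩ := h0
  obtain ⟨r, hr⟩ := exists_dot_one fun a : (G p).2.1 = 0 => hp (Prod.ext a (e p))
  obtain ⟨M, a, b⟩ := exists_up (q := q) h1 p ((l - 1) • r) 0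
  refine ⟨M, ⟨_, _, _, a⟩, ?_⟩
  simp [b, G_self h1 h2, G_pol h1 h2 p r, e, hr]

theorem o_ns (h : Small q) (hn : 3 ≤ Fintype.card n) (h0 : ∃ x, (G x).2 ≠ 0) :
    ∃ M, Up q G M ∧ M.det = 1 ∧ ∀ c : F, M ≠ c • 1 := by
  by_cases e : ∃ p, (G p).2.2 ≠ 0
  · obtain ⟨x, hx⟩ := e
    obtain h' | ⟨t0, -, a2, a3⟩ := id h
    · exact (hx (h' _)).elim
    obtain ⟨p, a4, a5⟩ := (Submodule.ne_bot_iff _).1 (LinearMap.ker_ne_bot_of_finrank_lt
      (f := (pb q).flip t0 ∘ₗ LinearMap.snd F _ _ ∘ₗ LinearMap.snd F _ _ ∘ₗ G) (by simp; omega))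
    have a6 : (G p).2.2 = 0 := by_contra fun e => h.pb_ne e (by
      obtain ⟨s, hs⟩ := a3 (G p).2.2
      nth_rewrite 2 [hs]
      rw [map_smul, show pb q (G p).2.2 t0 = 0 from a4, smul_zero])
    obtain ⟨t, ht⟩ : ∃ t, pb q (G x).2.2 t - q t * p ⬝ᵥ (G x).2.1 ≠ 0 := by_contra fun e => by
      push Not at e
      have a7 := e (-(G x).2.2)
      rw [map_neg, Q_neg] at a7
      exact mul_ne_zero a2 (h.pb_ne hx) (by linear_combination e (G x).2.2 - a7)
    obtain ⟨M, a, b⟩ := exists_up (q := q) h1 p 0 t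
    exact ⟨M, ⟨_, _, _, a⟩, by simp [b, G_self h1 h2, a6], ne_scalar a5 (by simp [a, h1, G_self h1 h2, a6]) fun e => by
      simpa [e, h1, ht, a5] using a x⟩
  push Not at e
  obtain ⟨p, hp⟩ := h0
  obtain ⟨x, hx⟩ := exists_dot_one fun a : (G p).2.1 = 0 => hp (Prod.ext a (e p))
  obtain ⟨r, a1, a2⟩ : ∃ r, (G p).2.1 ⬝ᵥ r = 0 ∧ r ∉ Submodule.span F {p} := by_contra fun a => by
    push Not at a
    have b1 := Submodule.finrank_mono (show LinearMap.ker (dotProductEquiv F n (G p).2.1) ≤ _ from a)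
    have b2 := LinearMap.finrank_range_add_finrank_ker (dotProductEquiv F n (G p).2.1)
    have b3 := Submodule.finrank_le (LinearMap.range (dotProductEquiv F n (G p).2.1))
    have b4 := finrank_span_le_card (R := F) {p}
    simp at b2 b3 b4
    omega
  rw [dotProduct_comm] at a1
  obtain ⟨M, a, b⟩ := exists_up (q := q) h1 p r 0
  refine ⟨M, ⟨_, _, _, a⟩, by simp [b, G_self h1 h2, G_pol h1 h2 p r, e, a1], ne_scalar (p := p) (by rintro rfl; simp at hp)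
    (by simp [a, h1, G_self h1 h2, e, a1]) fun e' => a2 (Submodule.mem_span_singleton.2 ⟨-(r ⬝ᵥ (G x).2.1), ?_⟩)⟩
  have := a x
  simp only [e', one_mulVec, h1, e, G_pol h1 h2 p x, neg_dotProduct, hx, map_zero, LinearMap.zero_apply] at this
  linear_combination (norm := module) this

end up

variable [FiniteDimensional F T] (h : Small q)
include h

theorem o_step0 (g : OG (Qh n q)) (p r : n → F) (t : T) : ∃ y ∈ Fo q (·, 0, 0), ∀ x, mM (y * g * y⁻¹) *ᵥ x = mM g *ᵥ x +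
    (r ⬝ᵥ (g.1 (x, 0, 0)).2.1 + pb q (g.1 (x, 0, 0)).2.2 t - q t * p ⬝ᵥ (g.1 (x, 0, 0)).2.1) • p -
      (p ⬝ᵥ (g.1 (x, 0, 0)).2.1) • r := by
  have h1 : eich h.nondeg (p, 0, 0) (r, 0, t) (by simp [Qh_apply]) (by simp [pb_Qh]) ∈ Fo q (·, 0, 0) :=
    fun x => by simp [eich_apply, pb_Qh]
  refine ⟨_, h1, fun x => ?_⟩
  rw [mM_mulVec, OG_mul_apply, OG_mul_apply, inv_mem h1 _, eich_apply]
  simp [pb_Qh, Qh_apply, sub_smul, add_smul, mul_smul, smul_comm (q t), mM_mulVec]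
  abel

theorem o_step (g : OG (Qh n q)) {N M : Matrix n n F} (hM : Up q (g.1.toLinearMap ∘ₗ LinearMap.inl F _ _ ∘ₗ toLin' N) M) :
    ∃ y ∈ Fo q (·, 0, 0), mM (y * g * y⁻¹) * N = M := by
  obtain ⟨p, r, t, hM⟩ := hM
  obtain ⟨y, h1, h2⟩ := o_step0 h g p r t
  exact ⟨y, h1, ext_of_mulVec_single fun i => by rw [hM, ← mulVec_mulVec, h2, mM_mulVec]; rfl⟩

theorem o_central (hn : 2 ≤ Fintype.card n) {g : OG (Qh n q)} (H : ∀ y x, ((y * g * y⁻¹).1 (x, 0, 0)).2 = 0) :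
    g ∈ Subgroup.center (OG (Qh n q)) := by
  have h1 : ∀ y, ∃ c : F, ∀ x, (y * g * y⁻¹).1 (x, 0, 0) = c • (x, 0, 0) := fun y => by
    obtain ⟨c, hc⟩ := scalar_of (M := mM (y * g * y⁻¹)) fun x z e => by_contra fun h2 => by
      obtain ⟨p, hp⟩ := exists_dot_one (show z ≠ 0 by rintro rfl; simp at h2)
      have h3 := congrArg Prod.fst (H (refl _ (p, z, 0) * y) x)
      rw [show refl _ (p, z, 0) * y * g * (refl _ (p, z, 0) * y)⁻¹ = refl _ (p, z, 0) * (y * g * y⁻¹) * (refl _ (p, z, 0))⁻¹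
        by group, refl_inv, OG_mul_apply, OG_mul_apply (refl _ _), refl_of_orth (x := (x, 0, 0))
        (by simp [pb_Qh, dotProduct_comm x, e]), refl_apply] at h3
      simp only [pb_Qh, Qh_apply, H y x, ← mM_mulVec, hp, dotProduct_comm _ z, Prod.snd_sub, Prod.fst_sub] at h3
      simp [h2] at h3
      simp [h3] at hp
    exact ⟨c, fun x => Prod.ext (by rw [← mM_mulVec, hc]; simp [smul_mulVec]) (by rw [H y x]; simp [Prod.mk_zero_zero])⟩
  obtain ⟨c, hc⟩ := h1 1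
  simp only [one_mul, inv_one, mul_one] at hc
  have h2 : ∀ s : (n → F) × (n → F) × T, Qh n q s = 0 → s.2.1 ≠ 0 → g.1 s = c • s := fun s a b => by
    obtain ⟨p, hp⟩ := exists_dot_one b
    obtain ⟨x, a1, a2⟩ := exists_orth hn s.2.1
    obtain ⟨d, hd⟩ := h1 (refl _ ((p, 0, 0) - s))
    have a3 : Qh n q ((p, 0, 0) - s) = -1 := by simp [Q_sub, a, pb_Qh, hp, Qh_apply]
    have a4 : (refl (Qh n q) ((p, 0, 0) - s)).1 (x, 0, 0) = (x, 0, 0) := refl_of_orth (by simp [pb_Qh, dotProduct_comm x, a2])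
    have a5 : (refl (Qh n q) ((p, 0, 0) - s)).1 (p, 0, 0) = s := by simp [refl_apply, a3, pb_Qh, hp]
    have a6 := hd x
    have a7 := hd p
    rw [refl_inv, OG_mul_apply, OG_mul_apply] at a6 a7
    rw [a4, hc, map_smul, a4] at a6
    rw [a5, ← (refl (Qh n q) ((p, 0, 0) - s))⁻¹.1.injective.eq_iff, OG_inv_apply, refl_inv, map_smul, a5] at a7
    rw [a7, smul_left_injective F a1 (congrArg Prod.fst a6)]
  have h3 : ∀ y, g.1 (0, y, 0) = c • (0, y, 0) := fun y => by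
    by_cases e : y = 0
    · simp [e, Prod.mk_zero_zero]
    · exact h2 _ (by simp [Qh_apply]) e
  have h4 : ∀ v, g.1 v = c • v := fun v => by
    obtain ⟨i⟩ : Nonempty n := Fintype.card_pos_iff.1 (by omega)
    rw [show v = (v.1 + Pi.single i (q v.2.2), 0, 0) + (0, v.2.1 - Pi.single i 1, 0) +
      (-Pi.single i (q v.2.2), Pi.single i 1, v.2.2) by simp, map_add, map_add, hc, h3, h2 _ (by simp [Qh_apply]) (by simp),
      smul_add, smul_add]
  exact Subgroup.mem_center_iff.2 fun y => OG_ext fun v => by simp [h4]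

variable [Fintype F] [DecidableEq F] (hn : 3 ≤ Fintype.card n)
include hn

omit h hn in
theorem finite_OG : Finite (OG (Qh n q)) :=
  have := Module.finite_of_finite F (M := T)
  Finite.of_injective (fun g : OG (Qh n q) => (g.1 : _ → _)) fun _ _ e => OG_ext (congrFun e)

omit h in
theorem big : BigEnough F ((n → F) × (n → F) × T) := .inl (by simp; omega)

theorem mem_Om (g : OG (Qh n q)) : g ∈ commutator _ ↔ dick h.nondeg (big hn) g = 1 ∧ theta g = 1 := by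
  rw [mem_commutator_OG h.nondeg (big hn), dick_eq_one_iff]

theorem lO_inv (hF : Four F) (A : GL n F) : dick h.nondeg (big hn) (lO h A) = 1 ∧ theta (lO h A) = quadraticChar F A.1.det := by
  obtain ⟨i⟩ : Nonempty n := Fintype.card_pos_iff.1 (by omega)
  have h0 := A.det_ne_zero
  let D : GL n F := ⟨diagonal (Function.update 1 i A.1.det), diagonal (Function.update 1 i A.1.det⁻¹),
    by rw [diagonal_mul_diagonal, ← diagonal_one]; congr 1; ext j; by_cases e : j = i <;> simp [e, h0],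
    by rw [diagonal_mul_diagonal, ← diagonal_one]; congr 1; ext j; by_cases e : j = i <;> simp [e, h0]⟩
  have h1 : lO h D = refl _ (Pi.single i 1, Pi.single i 1, 0) * refl _ (Pi.single i 1, Pi.single i A.1.det, 0) :=
    OG_ext fun v => by
      simp only [lO_apply, OG_mul_apply, refl_apply, pb_Qh, Qh_apply, D]
      ext j
      · by_cases e : j = i <;> simp [e, mulVec_diagonal]
        field_simp; ring
      · by_cases e : j = i <;> simp [e, mulVec_diagonal]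
        field_simp; ring
      · simp
  have h5 : (A * D⁻¹).1.det = 1 := by
    change det (_ * diagonal _) = _
    simp [Finset.prod_update_of_mem, h0]
  obtain ⟨a, b, e⟩ := Comm.exists_SL (g := ⟨_, h5⟩) (comm_of_four hF (by simp; omega) ((LinearMap.det_toLin' _).trans h5))
  have h2 := (mem_Om h hn (lO h (A * D⁻¹))).1 (by
    rw [show A * D⁻¹ = SpecialLinearGroup.toGL (a * b * a⁻¹ * b⁻¹) from Units.ext (congrArg Subtype.val e)]
    simp only [map_mul, map_inv]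
    exact Subgroup.commutator_mem_commutator (Subgroup.mem_top _) (Subgroup.mem_top _))
  have h3 : Qh n q (Pi.single i 1, Pi.single i 1, 0) = 1 := by simp [Qh_apply]
  have h4 : Qh n q (Pi.single i 1, Pi.single i A.1.det, 0) = A.1.det := by simp [Qh_apply]
  rw [show lO h A = lO h (A * D⁻¹) * lO h D by simp, h1, map_mul (dick _ _), map_mul (dick _ _), ← mul_assoc (lO h _),
    theta_mul_refl h.nondeg _ (h4.trans_ne h0), theta_mul_refl h.nondeg _ (h3.trans_ne one_ne_zero), h2.1, h2.2,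
    dick_refl _ _ (h4.trans_ne h0), dick_refl _ _ (h3.trans_ne one_ne_zero), h3, h4]
  simp

variable {β z : F} {k : ℕ} {W : Matrix n n F} (hW : Ty (X - C β) k W) {A : GL n F} (hA : A.1 = z • W) (hβ : β ≠ 1)
  (h1 : z * (z * β) ≠ 1) (h2 : z * z ≠ 1) (h3 : (∀ t : T, t = 0) ∨ z * β ≠ 1 ∧ z ≠ 1)
include hW hA hβ h1 h2 h3

theorem fU : ∀ u ∈ Fo q (·, 0, 0) ⊓ (dick h.nondeg (big hn)).ker, Commute u (lO h A) → u = 1 := fun u hu e =>
  (fpfO h hW hA hβ h1 h2 h3 hu.1 e).resolve_right fun ⟨t, a, b⟩ => by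
    have := (dick_refl h.nondeg (big hn) (v := (0, 0, t)) (by simpa [Qh_apply] using a)).symm.trans (b ▸ hu.2)
    simp at this

theorem fV : ∀ u ∈ Fo q (0, ·, 0) ⊓ (dick h.nondeg (big hn)).ker, Commute u (lO h A) → u = 1 := fun u hu e =>
  conj_eq_one_iff.1 (fU h hn hW.transpose (A := trG A) (by simp [trG, hA]) hβ h1 h2 h3 _
    ⟨jO_conj h hu.1, (MonoidHom.normal_ker _).conj_mem _ hu.2 _⟩
    (Commute.inv_right_iff.1 (jO_lO h (trG A) ▸ e.map (MulAut.conj (jO h)))))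

theorem dick_fix {u : OG (Qh n q)} (hu : u ∈ Fo q (·, 0, 0)) : dick h.nondeg (big hn) u = 1 ∨ ∃ t, q t ≠ 0 := by
  have := finite_OG (n := n) (q := q)
  refine or_iff_not_imp_right.2 fun e => ((mem_Om h hn u).1 (comm_of_fpf (c := lO h A) (by simpa using lO_conj h A⁻¹)
    (fun u hu e' => (fpfO h hW hA hβ h1 h2 h3 hu e').resolve_right fun ⟨t, a, _⟩ => e ⟨t, a⟩) hu)).1

theorem o_gauss (g : OG (Qh n q)) (M : GL n F) (hM : M.1 = mM g) :
    ∃ v ∈ Fo q (0, ·, 0) ⊓ (dick h.nondeg (big hn)).ker, ∃ u ∈ Fo q (·, 0, 0), g = v * lO h M * u := by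
  have a1 : ∀ x, (g.1 (M⁻¹.1 *ᵥ x, 0, 0)).1 = x := fun x => by rw [← mM_mulVec, ← hM, mulVec_mulVec, Units.mul_inv, one_mulVec]
  obtain ⟨f, hf⟩ : ∃ f : (n → F) × (n → F) →ₗ[F] _, ∀ w, f w = g.1 (M⁻¹.1 *ᵥ w.1, 0, 0) + (0, w.2, 0) :=
    ⟨(g.1.toLinearMap ∘ₗ LinearMap.inl F _ _ ∘ₗ toLin' M⁻¹.1).coprod (LinearMap.inr F _ _ ∘ₗ LinearMap.inl F _ _), fun _ => rfl⟩
  obtain ⟨v, hv⟩ := witt_map h.nondeg (i := LinearMap.id.prodMap (LinearMap.inl F (n → F) T)) (f := f)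
    (Function.injective_id.prodMap LinearMap.inl_injective) ((injective_iff_map_eq_zero _).2 fun w e => by
      have a2 := congrArg Prod.fst e
      rw [hf, Prod.fst_add, a1, add_zero] at a2
      exact Prod.ext a2 (by simpa [hf, show w.1 = 0 from a2, Prod.mk_zero_zero] using e)) fun w => by
        rw [hf, Q_add, OG_Q, pb_Qh, a1]
        simp [Qh_apply]
  simp only [hf] at hv
  obtain ⟨v, a2, hv⟩ : ∃ v : OG (Qh n q), dick h.nondeg (big hn) v = 1 ∧
      ∀ x y, v.1 (x, y, 0) = g.1 (M⁻¹.1 *ᵥ x, 0, 0) + (0, y, 0) := by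
    by_cases e : dick h.nondeg (big hn) v = 1
    · exact ⟨v, e, fun x y => hv (x, y)⟩
    obtain ⟨t, ht⟩ := (dick_fix h hn hW hA hβ h1 h2 h3 (jO_conj h (k := v) fun y => by
      simpa [Prod.mk_zero_zero] using hv (0, y))).resolve_left (by rwa [map_mul, map_mul, map_inv, mul_inv_cancel_comm])
    refine ⟨v * refl _ (0, 0, t), ?_, fun x y => by rw [OG_mul_apply, refl_of_orth (by simp [pb_Qh])]; exact hv (x, y)⟩
    rw [map_mul, dick_refl _ _ (by simpa [Qh_apply] using ht), (Int.units_eq_one_or _).resolve_left e, neg_mul_neg, one_mul]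
  refine ⟨v, ⟨fun y => by simpa [Prod.mk_zero_zero] using hv 0 y, a2⟩, (v * lO h M)⁻¹ * g, fun x => ?_, by group⟩
  rw [OG_mul_apply, ← (v * lO h M).1.injective.eq_iff, OG_apply_inv, OG_mul_apply, lO_apply, mulVec_zero, hv, mulVec_mulVec,
    Units.inv_mul, one_mulVec, Prod.mk_zero_zero, Prod.mk_zero_zero, add_zero]

theorem o_inv (hF : Four F) {g : OG (Qh n q)} (hg : dick h.nondeg (big hn) g = 1) :
    ∃ y ∈ Fo q (·, 0, 0), IsUnit (mM (y * g * y⁻¹)) := by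
  obtain ⟨_, ⟨y, hy, rfl⟩, H⟩ := (wellFounded_lt (α := Submodule F (n → F))).has_min
    {P | ∃ y ∈ Fo q (·, 0, 0), P = LinearMap.ker (mM (y * g * y⁻¹)).mulVecLin} ⟨_, 1, one_mem _, rfl⟩
  have a0 : dick h.nondeg (big hn) (y * g * y⁻¹) = 1 := (MonoidHom.normal_ker _).conj_mem _ hg _
  refine ⟨y, hy, mulVec_injective_iff_isUnit.1 ((LinearMap.ker_eq_bot (f := mulVecLin (mM (y * g * y⁻¹)))).1
    (ker_mulVecLin_eq_bot_iff.2 fun x hx => by_contra fun h0 => ?_))⟩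
  replace H : ∀ y' ∈ Fo q (·, 0, 0), (∀ v, mM (y' * (y * g * y⁻¹) * y'⁻¹) *ᵥ v = 0 → mM (y * g * y⁻¹) *ᵥ v = 0) →
      mM (y' * (y * g * y⁻¹) * y'⁻¹) *ᵥ x = 0 := fun y' c b =>
    (eq_of_le_of_not_lt (a := LinearMap.ker (mM (y' * (y * g * y⁻¹) * y'⁻¹)).mulVecLin)
      (b := LinearMap.ker (mM (y * g * y⁻¹)).mulVecLin) b
      (H _ ⟨y' * y, mul_mem c hy, by simp only [mul_assoc, _root_.mul_inv_rev]⟩)).ge hx
  generalize y * g * y⁻¹ = g at *
  have a1 : ∀ x, mM g *ᵥ x = 0 → (g.1 (x, 0, 0)).2.2 = 0 := fun x e => h.aniso (by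
    simpa [Qh_apply, ← mM_mulVec, e] using OG_Q g (x, 0, 0))
  have a2 : ∀ x, mM g *ᵥ x = 0 → (g.1 (x, 0, 0)).2.1 = 0 → x = 0 := fun x e e' => congrArg Prod.fst
    (g.1.map_eq_zero_iff.1 (Prod.ext (mM_mulVec g x ▸ e) (Prod.ext e' (a1 x e))) : ((x, 0, 0) : _ × (n → F) × T) = 0)
  have a3 : ∀ x, mM g *ᵥ x = 0 → ∀ v, (g.1 (x, 0, 0)).2.1 ⬝ᵥ mM g *ᵥ v = 0 := fun x e v => by
    simpa [pb_Qh, ← mM_mulVec, e, a1 x e, dotProduct_comm] using OG_pb g (x, 0, 0) (v, 0, 0)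
  obtain ⟨p, hp⟩ := exists_dot_one (mt (a2 x hx) h0)
  have a5 : p ≠ 0 := by rintro rfl; simp at hp
  by_cases e : ∃ t, q t ≠ 0
  · obtain ⟨t, ht⟩ := e
    obtain ⟨y, b1, b2⟩ := o_step0 h g p 0 t
    have := H y b1 fun v hv => by
      rw [b2] at hv
      have := congrArg ((g.1 (x, 0, 0)).2.1 ⬝ᵥ ·) hv
      simp only [smul_zero, sub_zero, dotProduct_add, a3 x hx, dotProduct_smul, dotProduct_comm _ p, hp, zero_add,
        smul_eq_mul, mul_one, dotProduct_zero] at this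
      rwa [this, zero_smul, smul_zero, sub_zero, add_zero] at hv
    simp [b2, hx, a1 x hx, hp, ht, a5] at this
  by_cases e' : ∃ x', mM g *ᵥ x' = 0 ∧ x' ∉ Submodule.span F {x}
  · obtain ⟨x', b1, b2⟩ := e'
    have b3 : ∀ x x', mM g *ᵥ x = 0 → mM g *ᵥ x' = 0 → (g.1 (x', 0, 0)).2.1 ∈ Submodule.span F {(g.1 (x, 0, 0)).2.1} →
        x' ∈ Submodule.span F {x} := fun x x' a b c => by
      obtain ⟨s, hs⟩ := Submodule.mem_span_singleton.1 c
      refine Submodule.mem_span_singleton.2 ⟨s, sub_eq_zero.1 (a2 _ (by simp [mulVec_sub, mulVec_smul, a, b]) ?_)⟩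
      rw [show ((s • x - x', 0, 0) : _ × (n → F) × T) = s • (x, 0, 0) - (x', 0, 0) by simp, map_sub, map_smul]
      simpa [sub_eq_zero] using hs
    obtain ⟨r, b4, b5⟩ := exists_dot (mt (b3 x x' hx b1) b2)
    obtain ⟨y, b6, b7⟩ := o_step0 h g p r 0
    have := H y b6 fun v hv => by
      rw [b7] at hv
      have c1 := congrArg ((g.1 (x, 0, 0)).2.1 ⬝ᵥ ·) hv
      have c2 := congrArg ((g.1 (x', 0, 0)).2.1 ⬝ᵥ ·) hv
      simp only [dotProduct_sub, dotProduct_add, a3 x hx, a3 x' b1, dotProduct_smul, dotProduct_comm _ p, dotProduct_comm _ r,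
        hp, b4, b5, zero_add, smul_eq_mul, mul_one, dotProduct_zero, mul_zero, sub_zero] at c1 c2
      rw [c1, zero_mul, zero_sub, neg_eq_zero] at c2
      rwa [c1, c2, zero_smul, zero_smul, sub_zero, add_zero] at hv
    simp [b7, hx, hp, b5] at this
    simp [this] at b4
  push Not at e'
  have b1 : Qh n q (p, -(g.1 (x, 0, 0)).2.1, 0) = -1 := by simp [Qh_apply, hp]
  have b2 : ∀ v, mM (refl _ (p, -(g.1 (x, 0, 0)).2.1, 0) * g) *ᵥ v = mM g *ᵥ v + (p ⬝ᵥ (g.1 (v, 0, 0)).2.1) • p := fun v => by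
    rw [mM_mulVec, OG_mul_apply, refl_apply, b1]
    simp [pb_Qh, ← mM_mulVec, dotProduct_comm (mM g *ᵥ v), a3 x hx, div_neg]
  obtain ⟨M, hM⟩ : IsUnit (mM (refl _ (p, -(g.1 (x, 0, 0)).2.1, 0) * g)) :=
    mulVec_injective_iff_isUnit.1 ((LinearMap.ker_eq_bot (f := mulVecLin (mM (refl _ (p, -(g.1 (x, 0, 0)).2.1, 0) * g)))).1
      (ker_mulVecLin_eq_bot_iff.2 fun v hv => by
      have c1 := congrArg ((g.1 (x, 0, 0)).2.1 ⬝ᵥ ·) ((b2 v).symm.trans hv)
      simp only [dotProduct_add, a3 x hx, dotProduct_smul, dotProduct_comm _ p, hp, zero_add, smul_eq_mul, mul_one,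
        dotProduct_zero] at c1
      rw [b2, c1, zero_smul, add_zero] at hv
      obtain ⟨s, rfl⟩ := Submodule.mem_span_singleton.1 (e' v hv)
      rw [show ((s • x, 0, 0) : _ × (n → F) × T) = s • (x, 0, 0) by simp, map_smul] at c1
      simp [hp] at c1
      simp [c1]))
  obtain ⟨v, c1, u, c2, c3⟩ := o_gauss h hn hW hA hβ h1 h2 h3 _ M hM
  have := congrArg (dick h.nondeg (big hn)) c3
  rw [map_mul, map_mul, map_mul, dick_refl _ _ (by simp [b1]), a0, c1.2, (lO_inv h hn hF M).1,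
    (dick_fix h hn hW hA hβ h1 h2 h3 c2).resolve_right e] at this
  simp at this

end Cfsg.Agent.H7
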