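import Cfsg.Agent.H7.Th6
import Cfsg.Agent.H6.OrthBridge

/-! Squares of conjugacy classes: the split orthogonal groups, part three. -/

set_option autoImplicit false
set_option linter.unusedSectionVars false

namespace Cfsg.Agent.H7

open Matrix Polynomial Module Cfsg.Agent.H4 Cfsg.Agent.H6

variable {F : Type*} [Field F] {n : Type*} [Fintype n] [DecidableEq n] {T : Type*} [AddCommGroup T] [Module F T]
  {q : QuadraticForm F T} [FiniteDimensional F T] [Fintype F] [DecidableEq F]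

theorem conj_ne {g y : OG (Qh n q)} (hy : y ∈ Fo q (·, 0, 0)) (h : ∃ x, (g.1 (x, 0, 0)).2 ≠ 0) :
    ∃ x, ((y * g * y⁻¹).1 (x, 0, 0)).2 ≠ 0 := h.imp fun x hx e => hx (by
  rw [OG_mul_apply, OG_mul_apply, inv_mem hy x] at e
  have : y.1 (g.1 (x, 0, 0)) = y.1 ((y.1 (g.1 (x, 0, 0))).1, 0, 0) := by rw [hy]; exact Prod.ext rfl e
  exact congrArg Prod.snd (y.1.injective this))

theorem o_adj (h : Small q) {g : OG (Qh n q)} (h0 : ∃ x, (g.1 (x, 0, 0)).2 ≠ 0) (hM : IsUnit (mM g).det) :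
    ∃ G : (n → F) →ₗ[F] (n → F) × (n → F) × T, (∀ x, (G x).1 = x) ∧ (∀ x, Qh n q (G x) = 0) ∧ (∃ x, (G x).2 ≠ 0) ∧
      ∀ M, Up q G M → ∃ y ∈ Fo q (·, 0, 0), mM (y * g * y⁻¹) = M * mM g :=
  ⟨g.1.toLinearMap ∘ₗ LinearMap.inl F _ _ ∘ₗ toLin' (mM g)⁻¹, fun x => (mM_mulVec g ((mM g)⁻¹ *ᵥ x)).symm.trans (by
    rw [mulVec_mulVec, mul_nonsing_inv _ hM, one_mulVec]), fun x => (OG_Q g _).trans (by simp [Qh_apply]),
    let ⟨x, hx⟩ := h0; ⟨mM g *ᵥ x, by simpa [nonsing_inv_mul _ hM, Prod.mk_zero_zero] using hx⟩,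
    fun M a => let ⟨y, b, c⟩ := o_step h g a; ⟨y, b, by rw [← c, nonsing_inv_mul_cancel_right _ _ hM]⟩⟩

theorem thm_orth (hF : 9 ≤ Fintype.card F) (h : Small q) (hn : 3 ≤ Fintype.card n) :
    Thm (commutator (OG (Qh n q)) ⧸ Subgroup.center (commutator (OG (Qh n q)))) := by
  obtain ⟨k, hk⟩ := Nat.exists_eq_add_of_le' (show 1 ≤ Fintype.card n by omega)
  obtain ⟨w, hw⟩ := exists_gen hF
  have hw' : ∀ j : ℕ, 1 ≤ j → j ≤ 7 → (w : F) ^ j ≠ 1 := fun j a b e =>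
    hw j (by omega) (by omega) (Units.ext (by simpa using e))
  have h4 : Four F := four_of_card (by omega)
  have h2 : (w : F) ^ 2 * w ^ 2 ≠ 1 := by simpa [← pow_add] using hw' 4 (by omega) (by omega)
  have h0 := hw' 2 (by omega) (by omega)
  obtain ⟨b, b0, hβ, h1, h3, h5⟩ : ∃ b : F, b ≠ 0 ∧ b ^ 2 ≠ 1 ∧ (w : F) ^ 2 * (w ^ 2 * b ^ 2) ≠ 1 ∧
      ((∀ t : T, t = 0) ∨ (w : F) ^ 2 * b ^ 2 ≠ 1 ∧ (w : F) ^ 2 ≠ 1) ∧ ((w : F) ^ 2 * b ^ 2 = 1 ∨ ∃ t, q t = 1) := by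
    obtain h | ⟨t, h, -⟩ := h
    · exact ⟨(w : F)⁻¹, by simp, by simpa using h0, by simpa using h0, .inl h, .inl (by simp)⟩
    · exact ⟨w, w.ne_zero, h0, by simpa [← pow_add] using hw' 6 (by omega) (by omega), .inr ⟨h2, h0⟩, .inr ⟨t, h⟩⟩
  obtain ⟨g0, a1, a2⟩ := exists_nonscalar (F := F) (n := n) (by omega)
  obtain ⟨W, hW, -⟩ := lev_one h4 hk a1 a2 hβ
  have a3 : ((w : F) ^ 2 • W).det = ((w : F) ^ (k + 1) * b) ^ 2 := by
    rw [det_smul, hW.det hk, hk, coeff_zero_eq_eval_zero]; simp; ring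
  let A : GL n F := GeneralLinearGroup.mkOfDetNeZero ((w : F) ^ 2 • W) (by simp [a3, b0])
  have hA : A.1 = (w : F) ^ 2 • W := rfl
  have hB := h.nondeg (n := n)
  have hσ := (irreducible_X_sub_C (b ^ 2)).squarefree
  have := finite_OG (n := n) (q := q)
  have fu := fU h hn hW hA hβ h1 h2 h3
  have fv := fV h hn hW hA hβ h1 h2 h3
  have nu : ∀ B : GL n F, ∀ u ∈ Fo q (·, 0, 0) ⊓ (dick h.nondeg (big hn)).ker, (lO h B)⁻¹ * u * lO h B ∈
      Fo q (·, 0, 0) ⊓ (dick h.nondeg (big hn)).ker := fun B u hu =>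
    ⟨lO_conj h B u hu.1, (MonoidHom.normal_ker _).conj_mem' _ hu.2 _⟩
  have nv : ∀ B : GL n F, ∀ u ∈ Fo q (0, ·, 0) ⊓ (dick h.nondeg (big hn)).ker, (lO h B)⁻¹ * u * lO h B ∈
      Fo q (0, ·, 0) ⊓ (dick h.nondeg (big hn)).ker := fun B u hu =>
    ⟨lO_conj' h B u hu.1, (MonoidHom.normal_ker _).conj_mem' _ hu.2 _⟩
  have nu' := nu A⁻¹
  have nv' := nv A⁻¹
  simp only [map_inv, inv_inv] at nu' nv'
  have ga : ∀ g ∈ commutator (OG (Qh n q)), ∀ M : GL n F, M.1 = mM g → ∃ v ∈ Fo q (0, ·, 0) ⊓ (dick h.nondeg (big hn)).ker,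
      ∃ u ∈ Fo q (·, 0, 0) ⊓ (dick h.nondeg (big hn)).ker, g = v * lO h M * u := fun g hg M hM => by
    obtain ⟨v, c1, u, c2, rfl⟩ := o_gauss h hn hW hA hβ h1 h2 h3 g M hM
    have := ((mem_Om h hn _).1 hg).1
    rw [map_mul, map_mul, c1.2, (lO_inv h hn h4 M).1, one_mul, one_mul] at this
    exact ⟨v, c1, u, ⟨c2, this⟩, rfl⟩
  refine thm_sub (c := lO h A) ((mem_Om h hn _).2 ⟨(lO_inv h hn h4 A).1, by
    rw [(lO_inv h hn h4 A).2, hA, a3, quadraticChar_sq_one' (by simp [b0])]⟩) (fun x => ?_) ?_ fun g hg hc => ?_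
  · induction x using refl_induction hB (big hn) with
    | h1 => exact ⟨1, Commute.one_left _, by simp⟩
    | hs g v hv ih =>
    obtain ⟨l, c1, c2⟩ := ih
    obtain ⟨l', c3, c4, c5⟩ : ∃ l', Commute l' (lO h A) ∧ dick hB (big hn) l' = -1 ∧ theta l' = quadraticChar F (Qh n q v) := by
      have c3 : ∀ u, (lO h A).1 u = u → Commute (refl (Qh n q) u) (lO h A) := fun u e =>
        (mul_inv_eq_iff_eq_mul.1 ((conj_refl _ _).trans (by rw [e]))).symm
      obtain h5 | ⟨t, h5⟩ := h5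
      · obtain ⟨e, f, c4, c5, c6, -⟩ := hW.eig hβ
        have c7 : Qh n q (e, Qh n q v • f, 0) = Qh n q v := by simp [Qh_apply (e, _), c6]
        have c8 : (trG A).1 *ᵥ f = f := by simp only [trG, hA, transpose_smul, smul_mulVec, c5, smul_smul, h5, one_smul]
        refine ⟨_, c3 (e, Qh n q v • f, 0) (Prod.ext ?_ (Prod.ext ?_ rfl)), dick_refl _ _ (c7.trans_ne hv),
          by rw [theta_refl hB (c7.trans_ne hv), c7]⟩
        · simp only [lO_apply, hA, smul_mulVec, c4, smul_smul, h5, one_smul]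
        · rw [lO_apply, mulVec_smul, ← c8, mulVec_mulVec, show A⁻¹.1ᵀ * (trG A).1 = 1 from (trG A).inv_mul, one_mulVec, c8]
      obtain ⟨N, c4, c5⟩ := exists_commute_det_of_simple hσ (by simp [sub_eq_zero, hβ.symm]) (by rw [natDegree_X_sub_C]; simp) hW.1 (Qh n q v)
      obtain ⟨N, rfl⟩ := toLin'.surjective N
      rw [LinearMap.det_toLin'] at c5
      have c6 : Qh n q (0, 0, t) = 1 := by simp [Qh_apply, h5]
      refine ⟨lO h (GeneralLinearGroup.mkOfDetNeZero N (c5.trans_ne hv)) * refl _ (0, 0, t),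
        (Commute.map (Units.ext ?_) _).mul_left (c3 _ (by simp [lO_apply])), ?_, ?_⟩
      · have : N * W = W * N := toLin'.injective (by rw [toLin'_mul, toLin'_mul]; exact c4)
        simp [hA, this]
      · rw [map_mul, (lO_inv h hn h4 _).1, dick_refl _ _ (c6.trans_ne one_ne_zero), one_mul]
      · rw [theta_mul_refl hB _ (c6.trans_ne one_ne_zero), (lO_inv h hn h4 _).2, c6]
        simp [c5]
    refine ⟨l' * l, c3.mul_left c1, ?_⟩
    simp only [mem_Om h hn, map_mul, theta_mul hB (big hn)] at c2 ⊢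
    rw [dick_refl _ _ hv, theta_refl hB hv, c4, c5]
    exact ⟨by simpa using c2.1, by linear_combination c2.2 + theta g * theta l * qc_sq hv⟩
  · obtain ⟨P, hP⟩ := hW.conj hσ hW.transpose
    exact ((lO h).map_isConj (isConj_iff.2 ⟨P, (Units.ext (by simp [trG, hA, hP]) : _ = trG A)⟩)).trans
      (isConj_iff.2 ⟨_, jO_lO h A⟩)
  obtain ⟨y, hy⟩ := not_forall.1 (mt (o_central h (by omega)) hc)
  have N := (inferInstance : (commutator (OG (Qh n q))).Normal).conj_mem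
  refine CI.of_conj (y := y) ?_
  have d1 := N g hg y
  replace hy := not_forall.1 hy
  generalize y * g * y⁻¹ = g at d1 hy
  obtain ⟨y, d2, M, hM⟩ := o_inv h hn hW hA hβ h1 h2 h3 h4 ((mem_Om h hn _).1 d1).1
  refine CI.of_conj (y := y) ?_
  replace d1 := N g d1 y
  replace hy := conj_ne d2 hy
  generalize y * g * y⁻¹ = g at d1 hy hM
  obtain ⟨s, hs⟩ : IsSquare (mM g).det := by
    obtain ⟨v, c1, u, c2, e⟩ := ga g d1 M hM
    have := (mem_Om h hn (lO h M)).1 ((mul_mem_cancel_left (comm_of_fpf nv' fv c1)).1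
      ((mul_mem_cancel_right (comm_of_fpf nu' fu c2)).1 (e ▸ d1)))
    rw [← hM, ← quadraticChar_one_iff_isSquare (GeneralLinearGroup.det_ne_zero M), ← (lO_inv h hn h4 M).2, this.2]
  have d3 : (mM g).det ≠ 0 := hM ▸ GeneralLinearGroup.det_ne_zero M
  obtain ⟨G, e1, e2, e3, e4⟩ := o_adj h hy d3.isUnit
  obtain ⟨M, e5, e6⟩ := o_det e1 e2 h e3 s⁻¹
  obtain ⟨y, d2, e7⟩ := e4 M e5
  refine CI.of_conj (y := y) ?_
  replace d1 := N g d1 y
  replace hy := conj_ne d2 hy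
  replace d3 : (mM (y * g * y⁻¹)).det = 1 := by rw [e7, det_mul, e6, ← mul_inv, ← hs, inv_mul_cancel₀ d3]
  generalize y * g * y⁻¹ = g at d1 hy d3
  obtain ⟨y, d4, d5⟩ : ∃ y, (mM (y * g * y⁻¹)).det = 1 ∧ ∀ c : F, mM (y * g * y⁻¹) ≠ c • 1 := by
    by_cases e : ∀ c : F, mM g ≠ c • 1
    · exact ⟨1, by simpa using ⟨d3, e⟩⟩
    obtain ⟨c, hc⟩ := not_forall_not.1 e
    obtain ⟨G, e1, e2, e3, e4⟩ := o_adj h hy (d3 ▸ isUnit_one)
    obtain ⟨M, e5, e6, e8⟩ := o_ns e1 e2 h hn e3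
    obtain ⟨y, -, e7⟩ := e4 M e5
    refine ⟨y, by rw [e7, det_mul, e6, d3, mul_one], fun s e => e8 (s / c) ?_⟩
    have : c ≠ 0 := by
      rintro rfl
      rw [hc, det_smul, hk] at d3
      simp at d3
    rw [div_eq_inv_mul, mul_smul, ← e, e7, hc]
    simp [this]
  refine CI.of_conj (y := y) ?_
  obtain ⟨v, c1, u, c2, e⟩ := ga _ (N g d1 y) (GeneralLinearGroup.mkOfDetNeZero _ (d4.trans_ne one_ne_zero)) rfl
  obtain ⟨W', f1, f2⟩ := lev_one h4 hk d4 d5 hβ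
  obtain ⟨a, b, f3⟩ := lev_GL hσ (M := GeneralLinearGroup.mkOfDetNeZero _ (d4.trans_ne one_ne_zero)) hA hW f1 f2
  rw [e, f3]
  simpa using ci_of_fpf nv' nu' fv fu (nv a v c1) (nu b u c2)

theorem Thm.comm_equiv {G H : Type*} [Group G] [Group H] (e : G ≃* H)
    (h : Thm (commutator G ⧸ Subgroup.center (commutator G))) : Thm (commutator H ⧸ Subgroup.center (commutator H)) := by
  let f : commutator G ≃* commutator H := (e.subgroupMap _).trans (MulEquiv.subgroupCongr (by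
    rw [commutator_def, Subgroup.map_commutator, Subgroup.map_top_of_surjective _ e.surjective, commutator_def]))
  exact h.of_surj (QuotientGroup.map _ _ f.toMonoidHom fun x hx => (Subgroup.centerCongr f ⟨x, hx⟩).2)
    (QuotientGroup.map_surjective_of_surjective _ _ _ (QuotientGroup.mk_surjective.comp f.surjective) _)

/-- transport of orthogonal groups -/
def ogCongr {V V' : Type*} [AddCommGroup V] [Module F V] [AddCommGroup V'] [Module F V'] {Q : QuadraticForm F V}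
    {Q' : QuadraticForm F V'} (e : V ≃ₗ[F] V') (he : ∀ v, Q' (e v) = Q v) : OG Q ≃* OG Q' where
  toFun g := ⟨e.symm ≪≫ₗ g.1 ≪≫ₗ e, fun v => by rw [← e.apply_symm_apply v]; simp only [LinearEquiv.trans_apply, e.symm_apply_apply, he, OG_Q]⟩
  invFun g := ⟨e ≪≫ₗ g.1 ≪≫ₗ e.symm, fun v => by simp [← he, OG_Q]⟩
  left_inv g := OG_ext fun v => by simp
  right_inv g := OG_ext fun v => by simp
  map_mul' g g' := OG_ext fun v => by simp

theorem thm_plus (hF : 9 ≤ Fintype.card F) {m : ℕ} (hm : 3 ≤ m) : Thm (POmega F (quadFormPlus m F)) :=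
  (thm_orth (n := Fin m) (q := (0 : QuadraticForm F PUnit.{1})) hF (.inl fun _ => rfl) (by simpa using hm)).comm_equiv
    ((ogEquiv (qPlus m F)).trans (ogCongr ((LinearEquiv.sumArrowLequivProdArrow _ _ F F).trans
      ((LinearEquiv.refl F _).prodCongr LinearEquiv.prodUnique.symm)) fun v => by
        simp [Qh_apply, qPlus_apply, dotProduct])).symm

theorem thm_odd (hF : 9 ≤ Fintype.card F) (h2 : (2 : F) ≠ 0) {m : ℕ} (hm : 3 ≤ m) : Thm (POmega F (quadFormOdd m F)) :=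
  (thm_orth (n := Fin m) (q := (QuadraticMap.sq : QuadraticForm F F)) hF (.inr ⟨1, by simp, h2, fun t => ⟨t, by simp⟩⟩)
    (by simpa using hm)).comm_equiv ((ogEquiv (qOdd m F)).trans (ogCongr ((LinearEquiv.sumArrowLequivProdArrow _ _ F F).trans
      (((LinearEquiv.funUnique _ F F).prodCongr (LinearEquiv.sumArrowLequivProdArrow _ _ F F)).trans
      ((LinearEquiv.prodComm F _ _).trans (LinearEquiv.prodAssoc F _ _ _)))) fun v => by
        simp [Qh_apply, qOdd_apply, dotProduct, add_comm, sq])).symm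

end Cfsg.Agent.H7
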